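import Mathlib
import Cfsg.Agent.Lib.Helper3.AutAlt

set_option autoImplicit false

namespace Cfsg.Agent.Lib.Helper11

open Equiv Equiv.Perm

/-- `r`-subgroups of `Perm (Fin n)` with `n < r ^ 2` are abelian. -/
theorem perm_pgroup_comm (r n : ℕ) [hr : Fact r.Prime] (hn : n < r ^ 2)
    (R : Subgroup (Perm (Fin n))) (hR : IsPGroup r R) :
    ∀ a ∈ R, ∀ b ∈ R, a * b = b * a := by
  intro a ha b hb
  apply Perm.ext
  intro x
  obtain ⟨j, hj⟩ := hR.card_orbit x
  have hOle : Nat.card (MulAction.orbit R x) ≤ n := by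
    have h1 := Nat.card_le_card_of_injective
      (Subtype.val : MulAction.orbit R x → Fin n) Subtype.val_injective
    simpa using h1
  have hj1 : j ≤ 1 := by
    by_contra hcon
    have h2 : 2 ≤ j := by omega
    have h3 : r ^ 2 ≤ r ^ j := Nat.pow_le_pow_right hr.out.pos h2
    omega
  have hS : IsPGroup r (MulAction.toPermHom R (MulAction.orbit R x)).range :=
    hR.of_surjective (MulAction.toPermHom R (MulAction.orbit R x)).rangeRestrict
      (MonoidHom.rangeRestrict_surjective _)
  obtain ⟨i, hi⟩ := IsPGroup.iff_card.mp hS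
  have hdvd : r ^ i ∣ (r ^ j).factorial := by
    rw [← hi, ← hj, ← Nat.card_perm]
    exact Subgroup.card_subgroup_dvd_card _
  have hi1 : i ≤ 1 := by
    by_contra hcon
    have h2 : 2 ≤ i := by omega
    have h3 : r ^ 2 ∣ (r ^ j).factorial := (pow_dvd_pow r h2).trans hdvd
    interval_cases j
    · simp only [pow_zero, Nat.factorial_one, Nat.dvd_one] at h3
      have := hr.out.two_le
      nlinarith
    · rw [pow_one] at h3
      have hr1 : r = (r - 1) + 1 := by have := hr.out.two_le; omega
      rw [hr1, Nat.factorial_succ, ← hr1, pow_two] at h3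
      have h4 : r ∣ (r - 1).factorial := Nat.dvd_of_mul_dvd_mul_left hr.out.pos h3
      have h5 := (hr.out.dvd_factorial).mp h4
      have := hr.out.two_le
      omega
  have hcomm : ∀ u v : (MulAction.toPermHom R (MulAction.orbit R x)).range, u * v = v * u := by
    interval_cases i
    · rw [pow_zero] at hi
      have hsub : Subsingleton (MulAction.toPermHom R (MulAction.orbit R x)).range :=
        (Nat.card_eq_one_iff_unique.mp hi).1
      intro u v
      exact Subsingleton.elim _ _
    · rw [pow_one] at hi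
      have hcyc : IsCyclic (MulAction.toPermHom R (MulAction.orbit R x)).range :=
        isCyclic_of_prime_card hi
      intro u v
      letI := hcyc.commGroup
      exact mul_comm u v
  have key := hcomm ⟨_, ⟨⟨a, ha⟩, rfl⟩⟩ ⟨_, ⟨⟨b, hb⟩, rfl⟩⟩
  have key2 := congrArg (fun f : (MulAction.toPermHom R (MulAction.orbit R x)).range =>
    (((f : Perm (MulAction.orbit R x)) ⟨x, MulAction.mem_orbit_self x⟩ :
      MulAction.orbit R x) : Fin n)) key
  exact key2

/-- Conjugation `S_n → Aut(A_n)` is injective for `n ≥ 4`. -/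
theorem conjNormal_inj (n : ℕ) (hn : 4 ≤ n) :
    Function.Injective
      (MulAut.conjNormal : Perm (Fin n) →* MulAut ↥(alternatingGroup (Fin n))) := by
  rw [injective_iff_map_eq_one]
  intro σ hσ
  by_contra hne
  obtain ⟨x, hx⟩ : ∃ x, σ x ≠ x := by
    by_contra hcon
    simp only [not_exists, not_not] at hcon
    exact hne (Perm.ext hcon)
  obtain ⟨z, w, hzx, hzy, hwx, hwy, hzw⟩ :=
    Cfsg.Agent.Lib.Helper3.aa_exists_two (α := Fin n) (by simpa using hn) x (σ x)
  have hc3 : IsThreeCycle (swap x z * swap x w) :=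
    isThreeCycle_swap_mul_swap_same hzx.symm hwx.symm hzw
  have h1 := congrArg (fun ψ : MulAut (alternatingGroup (Fin n)) =>
    ((ψ ⟨_, hc3.mem_alternatingGroup⟩ : alternatingGroup (Fin n)) : Perm (Fin n))) hσ
  simp only [MulAut.conjNormal_apply, MulAut.one_apply] at h1
  have h2 := congrArg (fun f : Perm (Fin n) => f (σ x)) h1
  simp only [Perm.mul_apply] at h2
  have h3 : σ⁻¹ (σ x) = x := σ.symm_apply_apply x
  rw [h3, swap_apply_left, swap_apply_of_ne_of_ne hwx hzw.symm,
    swap_apply_of_ne_of_ne hx hwy.symm, swap_apply_of_ne_of_ne hx hzy.symm] at h2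
  exact hwx (σ.injective h2)

/-- Elements of order 3 in `A_6` are 3-cycles or products of two 3-cycles. -/
theorem six_order_three (y : alternatingGroup (Fin 6)) (hy : orderOf y = 3) :
    (y : Perm (Fin 6)).cycleType = {3} ∨ (y : Perm (Fin 6)).cycleType = {3, 3} := by
  have h1 : (y : Perm (Fin 6)).cycleType.lcm = 3 := by
    rw [lcm_cycleType, Subgroup.orderOf_coe]
    exact hy
  have h2 : ∀ a ∈ (y : Perm (Fin 6)).cycleType, a = 3 := by
    intro a ha
    have hdvd : a ∣ 3 := h1 ▸ Multiset.dvd_lcm ha
    have h2le : 2 ≤ a := two_le_of_mem_cycleType ha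
    have hle := Nat.le_of_dvd (by norm_num) hdvd
    interval_cases a
    · norm_num at hdvd
    · rfl
  have h3 := Multiset.eq_replicate_card.mpr h2
  have h4 : (y : Perm (Fin 6)).cycleType.sum ≤ 6 := by
    have := (y : Perm (Fin 6)).sum_cycleType_le
    simpa using this
  obtain ⟨c, hc⟩ : ∃ c, c = Multiset.card (y : Perm (Fin 6)).cycleType := ⟨_, rfl⟩
  rw [← hc] at h3
  rw [h3, Multiset.sum_replicate, smul_eq_mul] at h4
  have h5 : c ≤ 2 := by omega
  interval_cases c
  · rw [h3] at h1
    simp at h1
  · left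
    rw [h3]
    rfl
  · right
    rw [h3]
    rfl

/-- An automorphism of `A_6` of odd order preserves the class of 3-cycles. -/
theorem six_odd (φ : MulAut (alternatingGroup (Fin 6))) (hodd : Odd (orderOf φ))
    (x : alternatingGroup (Fin 6)) (hx : IsThreeCycle (x : Perm (Fin 6))) :
    IsThreeCycle ((φ x : alternatingGroup (Fin 6)) : Perm (Fin 6)) := by
  by_contra hnot
  have hTcard : (Finset.univ.filter (fun g : alternatingGroup (Fin 6) =>
      (g : Perm (Fin 6)).cycleType = {3})).card = 40 := by
    rw [AlternatingGroup.card_of_cycleType]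
    decide
  have hDcard : (Finset.univ.filter (fun g : alternatingGroup (Fin 6) =>
      (g : Perm (Fin 6)).cycleType = {3, 3})).card = 40 := by
    rw [AlternatingGroup.card_of_cycleType]
    decide
  have step1 : ∀ t : alternatingGroup (Fin 6), IsThreeCycle (t : Perm (Fin 6)) →
      ¬ IsThreeCycle ((φ t : alternatingGroup (Fin 6)) : Perm (Fin 6)) := by
    intro t ht htφ
    have hconj : IsConj t x := alternatingGroup.isThreeCycle_isConj (by simp) ht hx
    obtain ⟨c, hc⟩ := isConj_iff.mp hconj
    apply hnot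
    rw [← hc, map_mul, map_mul, map_inv]
    show (((φ c : alternatingGroup (Fin 6)) : Perm (Fin 6)) *
      ((φ t : alternatingGroup (Fin 6)) : Perm (Fin 6)) *
      ((φ c : alternatingGroup (Fin 6)) : Perm (Fin 6))⁻¹).cycleType = {3}
    rw [cycleType_conj]
    exact htφ
  have hord3 : ∀ t : alternatingGroup (Fin 6), (t : Perm (Fin 6)).cycleType = {3} →
      orderOf t = 3 := by
    intro t ht
    rw [← Subgroup.orderOf_coe, ← lcm_cycleType, ht]
    rfl
  have hord33 : ∀ t : alternatingGroup (Fin 6), (t : Perm (Fin 6)).cycleType = {3, 3} →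
      orderOf t = 3 := by
    intro t ht
    rw [← Subgroup.orderOf_coe, ← lcm_cycleType, ht]
    rfl
  have step4 : ∀ t : alternatingGroup (Fin 6), (t : Perm (Fin 6)).cycleType = {3} →
      ((φ t : alternatingGroup (Fin 6)) : Perm (Fin 6)).cycleType = {3, 3} := by
    intro t ht
    have h1 : orderOf (φ t) = 3 := by rw [MulEquiv.orderOf_eq]; exact hord3 t ht
    rcases six_order_three (φ t) h1 with h2 | h2
    · exact absurd h2 (step1 t ht)
    · exact h2
  have step5 : (Finset.univ.filter (fun g : alternatingGroup (Fin 6) =>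
      (g : Perm (Fin 6)).cycleType = {3})).image φ =
      Finset.univ.filter (fun g : alternatingGroup (Fin 6) =>
        (g : Perm (Fin 6)).cycleType = {3, 3}) := by
    apply Finset.eq_of_subset_of_card_le
    · intro d hd
      obtain ⟨t, ht, rfl⟩ := Finset.mem_image.mp hd
      rw [Finset.mem_filter] at ht ⊢
      exact ⟨Finset.mem_univ _, step4 t ht.2⟩
    · rw [Finset.card_image_of_injective _ φ.injective, hTcard, hDcard]
  have step6 : ∀ d : alternatingGroup (Fin 6), (d : Perm (Fin 6)).cycleType = {3, 3} →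
      ((φ d : alternatingGroup (Fin 6)) : Perm (Fin 6)).cycleType = {3} := by
    intro d hd
    have h1 : orderOf (φ d) = 3 := by rw [MulEquiv.orderOf_eq]; exact hord33 d hd
    rcases six_order_three (φ d) h1 with h2 | h2
    · exact h2
    · exfalso
      have h3 : φ d ∈ (Finset.univ.filter (fun g : alternatingGroup (Fin 6) =>
          (g : Perm (Fin 6)).cycleType = {3})).image φ := by
        rw [step5, Finset.mem_filter]
        exact ⟨Finset.mem_univ _, h2⟩
      obtain ⟨t, ht, hte⟩ := Finset.mem_image.mp h3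
      have h4 : t = d := φ.injective hte
      rw [Finset.mem_filter, h4, hd] at ht
      exact absurd ht.2 (by decide)
  have step7 : ∀ k : ℕ, ∀ t : alternatingGroup (Fin 6), (t : Perm (Fin 6)).cycleType = {3} →
      (((φ ^ (2 * k + 1)) t : alternatingGroup (Fin 6)) : Perm (Fin 6)).cycleType = {3, 3} := by
    intro k
    induction k with
    | zero =>
      intro t ht
      simpa using step4 t ht
    | succ k ih =>
      intro t ht
      have h0 : 2 * (k + 1) + 1 = (2 * k + 1) + 1 + 1 := by ring
      have h1 : φ ^ (2 * (k + 1) + 1) = φ * (φ * φ ^ (2 * k + 1)) := by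
        rw [h0, pow_succ', pow_succ']
      rw [h1, MulAut.mul_apply, MulAut.mul_apply]
      exact step4 _ (step6 _ (ih t ht))
  obtain ⟨k, hk⟩ := hodd
  have h1 := step7 k x hx
  rw [← hk, pow_orderOf_eq_one, MulAut.one_apply] at h1
  have h2 : (x : Perm (Fin 6)).cycleType = {3} := hx
  rw [h2] at h1
  exact absurd h1 (by decide)

/-- Odd-`r`-subgroups of `Aut(A_n)` are abelian when `n < r ^ 2`. -/
theorem aut_alt_pgroup_comm (n r : ℕ) [hr : Fact r.Prime] (hr2 : r ≠ 2) (hn5 : 5 ≤ n)
    (hn : n < r ^ 2) (R : Subgroup (MulAut (alternatingGroup (Fin n)))) (hR : IsPGroup r R) :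
    ∀ a ∈ R, ∀ b ∈ R, a * b = b * a := by
  have hinj := conjNormal_inj n (by omega)
  have hsurj : ∀ a ∈ R, ∃ σ : Perm (Fin n),
      (MulAut.conjNormal σ : MulAut (alternatingGroup (Fin n))) = a := by
    intro a ha
    by_cases h6 : n = 6
    · subst h6
      have hodd : Odd (orderOf a) := by
        obtain ⟨k, hk⟩ := hR ⟨a, ha⟩
        have h1 : orderOf a ∣ r ^ k := by
          apply orderOf_dvd_of_pow_eq_one
          have := congrArg Subtype.val hk
          simpa using this
        obtain ⟨j, -, hj⟩ := (Nat.dvd_prime_pow hr.out).mp h1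
        rw [hj]
        exact (hr.out.odd_of_ne_two hr2).pow
      exact Cfsg.Agent.Lib.Helper3.aa_surj_core a (fun x hx => six_odd a hodd x hx)
        (o := 0) (e := 1) (p := 2) (q := 3) (by decide) (by decide) (by decide) (by decide)
        (by decide) (by decide)
    · exact (Cfsg.Agent.Lib.Helper3.aa_main n (by omega) h6).2 a
  have hR' : IsPGroup r (R.comap
      (MulAut.conjNormal : Perm (Fin n) →* MulAut (alternatingGroup (Fin n)))) :=
    hR.comap_of_injective _ hinj
  have hc := perm_pgroup_comm r n hn _ hR'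
  intro a ha b hb
  obtain ⟨σ, rfl⟩ := hsurj a ha
  obtain ⟨τ, rfl⟩ := hsurj b hb
  rw [← map_mul, ← map_mul, hc σ (Subgroup.mem_comap.mpr ha) τ (Subgroup.mem_comap.mpr hb)]

/-- An even permutation of order `p * q` (both odd). -/
theorem exists_order_odd_odd (n p q : ℕ) (hp : p.Prime) (hq : q.Prime) (hpq : p ≠ q)
    (hp2 : p ≠ 2) (hq2 : q ≠ 2) (hn : p + q ≤ n) :
    ∃ x : alternatingGroup (Fin n), orderOf x = p * q := by
  obtain ⟨g, hg⟩ := (Equiv.Perm.exists_with_cycleType_iff (α := Fin n)
    (m := ({p, q} : Multiset ℕ))).mpr ⟨by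
      have : ({p, q} : Multiset ℕ).sum = p + q := by simp
      rw [this, Fintype.card_fin]; exact hn, by
      intro a ha
      have : a = p ∨ a = q := by simpa using ha
      rcases this with rfl | rfl
      · exact hp.two_le
      · exact hq.two_le⟩
  have hpo : Odd p := hp.odd_of_ne_two hp2
  have hqo : Odd q := hq.odd_of_ne_two hq2
  have hsign : sign g = 1 := by
    rw [sign_of_cycleType, hg]
    have : ({p, q} : Multiset ℕ).sum + Multiset.card ({p, q} : Multiset ℕ) = p + q + 2 := by
      simp
    rw [this]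
    exact Even.neg_one_pow ((hpo.add_odd hqo).add (by norm_num))
  refine ⟨⟨g, mem_alternatingGroup.mpr hsign⟩, ?_⟩
  rw [Subgroup.orderOf_mk, ← lcm_cycleType, hg]
  have hcop : Nat.Coprime p q := (Nat.coprime_primes hp hq).mpr hpq
  have : ({p, q} : Multiset ℕ).lcm = Nat.lcm p q := by
    simp [lcm_eq_nat_lcm]
  rw [this, hcop.lcm_eq_mul]

/-- An even permutation of order `2 * q` (`q` odd). -/
theorem exists_order_two_odd (n q : ℕ) (hq : q.Prime) (hq2 : q ≠ 2) (hn : q + 4 ≤ n) :
    ∃ x : alternatingGroup (Fin n), orderOf x = 2 * q := by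
  obtain ⟨g, hg⟩ := (Equiv.Perm.exists_with_cycleType_iff (α := Fin n)
    (m := ({2, 2, q} : Multiset ℕ))).mpr ⟨by
      have : ({2, 2, q} : Multiset ℕ).sum = q + 4 := by simp; omega
      rw [this, Fintype.card_fin]; exact hn, by
      intro a ha
      have : a = 2 ∨ a = 2 ∨ a = q := by simpa using ha
      rcases this with rfl | rfl | rfl
      · exact le_refl 2
      · exact le_refl 2
      · exact hq.two_le⟩
  have hqo : Odd q := hq.odd_of_ne_two hq2
  have hsign : sign g = 1 := by
    rw [sign_of_cycleType, hg]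
    have : ({2, 2, q} : Multiset ℕ).sum + Multiset.card ({2, 2, q} : Multiset ℕ) = q + 7 := by
      simp; omega
    rw [this]
    exact Even.neg_one_pow (hqo.add_odd (by decide))
  refine ⟨⟨g, mem_alternatingGroup.mpr hsign⟩, ?_⟩
  rw [Subgroup.orderOf_mk, ← lcm_cycleType, hg]
  have hcop : Nat.Coprime 2 q := (Nat.coprime_primes Nat.prime_two hq).mpr (Ne.symm hq2)
  have : ({2, 2, q} : Multiset ℕ).lcm = Nat.lcm 2 (Nat.lcm 2 q) := by
    simp [lcm_eq_nat_lcm]
  rw [this, hcop.lcm_eq_mul]
  have h2 : Nat.lcm 2 (2 * q) = 2 * q := Nat.lcm_eq_right (Dvd.intro q rfl)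
  exact h2

/-- Main statement: between `A_n` and `Aut(A_n)`, no element of order `p * q` forces an
abelian Sylow `p`- or Sylow `q`-subgroup. -/
theorem alt_pq_main (n : ℕ) (hn : 5 ≤ n) (G : Subgroup (MulAut (alternatingGroup (Fin n))))
    (hG : (MulAut.conj : alternatingGroup (Fin n) →* MulAut (alternatingGroup (Fin n))).range ≤ G)
    (p q : ℕ) [hp : Fact p.Prime] [hq : Fact q.Prime] (hpq : p ≠ q)
    (h : ∀ g : G, orderOf g ≠ p * q) :
    (∀ P : Sylow p G, IsMulCommutative (P : Subgroup G)) ∨
      (∀ Q : Sylow q G, IsMulCommutative (Q : Subgroup G)) := by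
  have sylow_comm : ∀ (r : ℕ) [Fact r.Prime], r ≠ 2 → n < r ^ 2 →
      ∀ R : Sylow r G, IsMulCommutative (R : Subgroup G) := by
    intro r _ hr2 hnr R
    have hR' : IsPGroup r ((R : Subgroup G).map G.subtype) := R.isPGroup'.map G.subtype
    have hc := aut_alt_pgroup_comm n r hr2 hn hnr _ hR'
    refine ⟨⟨fun a b => ?_⟩⟩
    apply Subtype.ext
    apply Subtype.ext
    exact hc _ ⟨a.1, a.2, rfl⟩ _ ⟨b.1, b.2, rfl⟩
  have hinj : Function.Injective
      (MulAut.conj : alternatingGroup (Fin n) →* MulAut (alternatingGroup (Fin n))) := by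
    rw [injective_iff_map_eq_one]
    intro x hx
    have hxc : x ∈ Subgroup.center (alternatingGroup (Fin n)) := by
      rw [Subgroup.mem_center_iff]
      intro z
      have h1 := congrArg (fun f : MulAut (alternatingGroup (Fin n)) => f z) hx
      simp only [MulAut.conj_apply, MulAut.one_apply] at h1
      calc z * x = (x * z * x⁻¹) * x := by rw [h1]
        _ = x * z := by group
    rw [alternatingGroup.center_eq_bot (by rw [Nat.card_eq_fintype_card, Fintype.card_fin]; omega)]
      at hxc
    exact Subgroup.mem_bot.mp hxc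
  have elem : ∀ x : alternatingGroup (Fin n), orderOf x ≠ p * q := by
    intro x hx
    apply h ⟨MulAut.conj x, hG ⟨x, rfl⟩⟩
    rw [Subgroup.orderOf_mk, orderOf_injective _ hinj, hx]
  have hp2le := hp.out.two_le
  have hq2le := hq.out.two_le
  rcases eq_or_ne p 2 with hp2 | hp2
  · have hq2 : q ≠ 2 := fun h' => hpq (hp2.trans h'.symm)
    by_cases hnq : n < q ^ 2
    · right
      exact sylow_comm q hq2 hnq
    · exfalso
      obtain ⟨x, hx⟩ := exists_order_two_odd n q hq.out hq2 (by
        have : 3 ≤ q := by omega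
        nlinarith)
      exact elem x (by rw [hx, hp2])
  · rcases eq_or_ne q 2 with hq2 | hq2
    · by_cases hnp : n < p ^ 2
      · left
        exact sylow_comm p hp2 hnp
      · exfalso
        obtain ⟨x, hx⟩ := exists_order_two_odd n p hp.out hp2 (by
          have : 3 ≤ p := by omega
          nlinarith)
        exact elem x (by rw [hx, hq2, mul_comm])
    · by_cases hnp : n < p ^ 2
      · left
        exact sylow_comm p hp2 hnp
      · by_cases hnq : n < q ^ 2
        · right
          exact sylow_comm q hq2 hnq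
        · exfalso
          obtain ⟨x, hx⟩ := exists_order_odd_odd n p q hp.out hq.out hpq hp2 hq2 (by
            have : 3 ≤ p := by omega
            have : 3 ≤ q := by omega
            nlinarith)
          exact elem x hx

end Cfsg.Agent.Lib.Helper11
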