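import Mathlib

/-!
The Baer sum on a finite group of odd order and class at most two, and a fixed point lemma:
if `A` (a `p`-group) normalizes `Q` (a `p'`-group) and both act on a `p`-group `D` of class at
most two (`p` odd), with `Q` acting nontrivially, then `A` fixes an element of order `p` of `D`
that `Q` does not centralize.
-/

set_option autoImplicit false

namespace Cfsg.Agent.Lib.Helper11

open scoped commutatorElement

section ClassTwo

variable {D : Type*} [Group D]

/-- all commutators are central -/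
def ClassTwo (D : Type*) [Group D] : Prop := ∀ x y z : D, ⁅x, y⁆ * z = z * ⁅x, y⁆

theorem ClassTwo.comm_mul_left (h : ClassTwo D) (a b c : D) : ⁅a * b, c⁆ = ⁅a, c⁆ * ⁅b, c⁆ := by
  have h1 : ⁅a * b, c⁆ = a * ⁅b, c⁆ * a⁻¹ * ⁅a, c⁆ := by
    simp only [commutatorElement_def]; group
  rw [h1, ← h b c a, mul_inv_cancel_right]
  exact h b c ⁅a, c⁆

theorem ClassTwo.comm_mul_right (h : ClassTwo D) (a b c : D) : ⁅a, b * c⁆ = ⁅a, b⁆ * ⁅a, c⁆ := by
  have h1 : ⁅a, b * c⁆ = ⁅a, b⁆ * (b * ⁅a, c⁆) * b⁻¹ := by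
    simp only [commutatorElement_def]; group
  rw [h1, ← h a c b, mul_assoc ⁅a, b⁆, mul_inv_cancel_right]

theorem ClassTwo.comm_pow_central (h : ClassTwo D) (k : ℕ) (x y z : D) :
    ⁅x, y⁆ ^ k * z = z * ⁅x, y⁆ ^ k :=
  ((show Commute ⁅x, y⁆ z from h x y z).pow_left k).eq

theorem ClassTwo.comm_central_right (h : ClassTwo D) (k : ℕ) (a x y : D) :
    ⁅a, ⁅x, y⁆ ^ k⁆ = 1 := by
  rw [commutatorElement_eq_one_iff_commute]
  exact ((show Commute ⁅x, y⁆ a from h x y a).pow_left k).symm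

theorem ClassTwo.comm_central_left (h : ClassTwo D) (k : ℕ) (a x y : D) :
    ⁅⁅x, y⁆ ^ k, a⁆ = 1 := by
  rw [commutatorElement_eq_one_iff_commute]
  exact (show Commute ⁅x, y⁆ a from h x y a).pow_left k

/-- the Baer product `x y [y, x]^k` (with `k` a "one half" exponent) -/
def baerMul (k : ℕ) (x y : D) : D := x * y * ⁅y, x⁆ ^ k

theorem baerMul_comm (h : ClassTwo D) (k : ℕ) (hk : ∀ x : D, x ^ (2 * k) = x) (x y : D) :
    baerMul k x y = baerMul k y x := by
  unfold baerMul
  have h1 : y * x = ⁅y, x⁆ * (x * y) := by simp only [commutatorElement_def]; group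
  have h2 : ⁅x, y⁆ = ⁅y, x⁆⁻¹ := (commutatorElement_inv y x).symm
  rw [h1, h2, inv_pow, h y x (x * y), mul_assoc (x * y)]
  congr 1
  rw [eq_mul_inv_iff_mul_eq, ← pow_add, ← two_mul]
  exact hk _

theorem baerMul_assoc (h : ClassTwo D) (k : ℕ) (x y z : D) :
    baerMul k (baerMul k x y) z = baerMul k x (baerMul k y z) := by
  unfold baerMul
  have e1 : ⁅z, x * y * ⁅y, x⁆ ^ k⁆ = ⁅z, x⁆ * ⁅z, y⁆ := by
    rw [h.comm_mul_right, h.comm_central_right, mul_one, h.comm_mul_right]
  have e2 : ⁅y * z * ⁅z, y⁆ ^ k, x⁆ = ⁅y, x⁆ * ⁅z, x⁆ := by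
    rw [h.comm_mul_left, h.comm_central_left, mul_one, h.comm_mul_left]
  rw [e1, e2]
  have p1 : (⁅z, x⁆ * ⁅z, y⁆) ^ k = ⁅z, x⁆ ^ k * ⁅z, y⁆ ^ k :=
    (show Commute ⁅z, x⁆ ⁅z, y⁆ from h z x _).mul_pow k
  have p2 : (⁅y, x⁆ * ⁅z, x⁆) ^ k = ⁅y, x⁆ ^ k * ⁅z, x⁆ ^ k :=
    (show Commute ⁅y, x⁆ ⁅z, x⁆ from h y x _).mul_pow k
  rw [p1, p2]
  obtain ⟨u, hu⟩ : ∃ u, u = ⁅y, x⁆ ^ k := ⟨_, rfl⟩
  obtain ⟨v, hv⟩ : ∃ v, v = ⁅z, x⁆ ^ k := ⟨_, rfl⟩
  obtain ⟨w, hw⟩ : ∃ w, w = ⁅z, y⁆ ^ k := ⟨_, rfl⟩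
  have cu : ∀ t, u * t = t * u := fun t => by rw [hu]; exact h.comm_pow_central k y x t
  have cw : ∀ t, w * t = t * w := fun t => by rw [hw]; exact h.comm_pow_central k z y t
  rw [← hu, ← hv, ← hw]
  calc x * y * u * z * (v * w) = x * y * (u * z) * (v * w) := by rw [mul_assoc (x * y) u z]
    _ = x * y * (z * u) * (v * w) := by rw [cu z]
    _ = x * y * z * (u * v * w) := by simp only [mul_assoc]
    _ = x * y * z * (w * (u * v)) := by rw [← cw (u * v)]
    _ = x * (y * z * w) * (u * v) := by simp only [mul_assoc]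

theorem baerMul_one (k : ℕ) (x : D) : baerMul k x 1 = x := by
  unfold baerMul; rw [commutatorElement_one_left, one_pow, mul_one, mul_one]

theorem one_baerMul (k : ℕ) (x : D) : baerMul k 1 x = x := by
  unfold baerMul; rw [commutatorElement_one_right, one_pow, mul_one, one_mul]

theorem baerMul_inv_left (k : ℕ) (x : D) : baerMul k x⁻¹ x = 1 := by
  unfold baerMul
  have : ⁅x, x⁻¹⁆ = 1 := by
    rw [commutatorElement_eq_one_iff_commute]; exact (Commute.refl x).inv_right
  rw [this, one_pow, mul_one, inv_mul_cancel]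

theorem baerMul_pow (k n : ℕ) (x : D) : baerMul k (x ^ n) x = x ^ (n + 1) := by
  unfold baerMul
  have : ⁅x, x ^ n⁆ = 1 := by
    rw [commutatorElement_eq_one_iff_commute]; exact (Commute.refl x).pow_right n
  rw [this, one_pow, mul_one, pow_succ]

theorem map_baerMul {D' F : Type*} [Group D'] [FunLike F D D'] [MonoidHomClass F D D'] (f : F)
    (k : ℕ) (x y : D) : f (baerMul k x y) = baerMul k (f x) (f y) := by
  unfold baerMul; rw [map_mul, map_mul, map_pow, map_commutatorElement]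

/-- A copy of `D`, to carry the Baer product. -/
def Baer (D : Type*) : Type _ := D

/-- into the copy -/
def Baer.of (x : D) : Baer D := x

/-- out of the copy -/
def Baer.val (x : Baer D) : D := x

/-- the "one half" exponent of a group of odd order -/
noncomputable def halfExp (D : Type*) : ℕ := (Nat.card D + 1) / 2

theorem pow_two_mul_halfExp [Finite D] (hodd : Odd (Nat.card D)) (x : D) :
    x ^ (2 * halfExp D) = x := by
  obtain ⟨m, hm⟩ := hodd
  have : 2 * halfExp D = Nat.card D + 1 := by unfold halfExp; omega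
  rw [this, pow_succ, pow_card_eq_one', one_mul]

noncomputable instance Baer.instCommGroup [Finite D] [hodd : Fact (Odd (Nat.card D))]
    [hcl : Fact (ClassTwo D)] : CommGroup (Baer D) where
  mul x y := Baer.of (baerMul (halfExp D) x.val y.val)
  one := Baer.of 1
  inv x := Baer.of (x.val⁻¹)
  mul_assoc x y z := baerMul_assoc hcl.out (halfExp D) x.val y.val z.val
  one_mul x := one_baerMul (halfExp D) x.val
  mul_one x := baerMul_one (halfExp D) x.val
  inv_mul_cancel x := baerMul_inv_left (halfExp D) x.val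
  mul_comm x y := baerMul_comm hcl.out (halfExp D) (pow_two_mul_halfExp hodd.out) x.val y.val
  npow n x := Baer.of (x.val ^ n)
  npow_zero x := pow_zero x.val
  npow_succ n x := (baerMul_pow (halfExp D) n x.val).symm

instance Baer.instFinite [Finite D] : Finite (Baer D) := inferInstanceAs (Finite D)

section BaerLemmas

variable [Finite D] [Fact (Odd (Nat.card D))] [Fact (ClassTwo D)]

theorem Baer.val_pow (x : Baer D) (n : ℕ) : (x ^ n).val = x.val ^ n := rfl

theorem Baer.val_one : (1 : Baer D).val = 1 := rfl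

/-- an automorphism of `D` is an endomorphism for the Baer product -/
noncomputable def Baer.map (f : MulAut D) : Baer D →* Baer D where
  toFun x := Baer.of (f x.val)
  map_one' := by
    show Baer.of (f 1) = Baer.of 1
    rw [map_one]
  map_mul' x y := by
    show Baer.of (f (baerMul (halfExp D) x.val y.val)) =
      Baer.of (baerMul (halfExp D) (f x.val) (f y.val))
    rw [map_baerMul]

theorem Baer.map_val (f : MulAut D) (x : Baer D) : (Baer.map f x).val = f x.val := rfl

end BaerLemmas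

end ClassTwo

/-- Fixed point lemma: `A` (a `p`-group) normalizes `Q` (a `p'`-group), both act on the `p`-group
`D` of class at most two, `p` odd, and `Q` acts nontrivially. Then `A` fixes an element of order
`p` of `D` which `Q` does not centralize. -/
theorem exists_fixed_not_fixed {D K : Type*} [Group D] [Finite D] [Group K] (p : ℕ)
    [hp : Fact p.Prime] (hp2 : p ≠ 2) (hD : IsPGroup p D) (hcl : ClassTwo D) (φ : K →* MulAut D)
    (A Q : Subgroup K) [Finite Q] (hA : IsPGroup p A) (hQ : ¬ p ∣ Nat.card Q)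
    (hAQ : A ≤ Subgroup.normalizer (Q : Set K)) (hne : ∃ q ∈ Q, ∃ x : D, φ q x ≠ x) :
    ∃ x : D, orderOf x = p ∧ (∀ a ∈ A, φ a x = x) ∧ ¬ (∀ q ∈ Q, φ q x = x) := by
  classical
  haveI : Fact (ClassTwo D) := ⟨hcl⟩
  haveI : Fact (Odd (Nat.card D)) := ⟨by
    obtain ⟨n, hn⟩ := IsPGroup.iff_card.mp hD
    rw [hn]; exact (hp.out.odd_of_ne_two hp2).pow⟩
  haveI : Fintype Q := Fintype.ofFinite Q
  let ψ : K → (Baer D →* Baer D) := fun g => Baer.map (φ g)
  have hψmul : ∀ g h : K, ∀ x : Baer D, ψ (g * h) x = ψ g (ψ h x) := by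
    intro g h x
    show Baer.of (φ (g * h) x.val) = Baer.of (φ g (φ h x.val))
    rw [map_mul, MulAut.mul_apply]
  have hψone : ∀ x : Baer D, ψ 1 x = x := by
    intro x
    show Baer.of (φ 1 x.val) = x
    rw [map_one, MulAut.one_apply]; rfl
  let N : Baer D →* Baer D := ∏ q : Q, ψ q
  have hN : ∀ x, N x = ∏ q : Q, ψ q x := fun x => MonoidHom.finsetProd_apply _ _ _
  have hNA : ∀ a ∈ A, ∀ x, N (ψ a x) = ψ a (N x) := by
    intro a ha x
    rw [hN, hN, map_prod]
    have haN := hAQ ha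
    let e : Q ≃ Q :=
      { toFun := fun q => ⟨a * q * a⁻¹, (Subgroup.mem_normalizer_iff.mp haN q).mp q.2⟩
        invFun := fun q => ⟨a⁻¹ * q * a, (Subgroup.mem_normalizer_iff''.mp haN q).mp q.2⟩
        left_inv := fun q => Subtype.ext (by simp [mul_assoc])
        right_inv := fun q => Subtype.ext (by simp [mul_assoc]) }
    symm
    refine Fintype.prod_equiv e _ _ (fun q => ?_)
    rw [← hψmul, ← hψmul]
    have : a * (q : K) = ((e q : Q) : K) * a := by
      show a * (q : K) = a * q * a⁻¹ * a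
      group
    rw [this]
  have hNQ : ∀ q₀ ∈ Q, ∀ x, N (ψ q₀ x) = N x := by
    intro q₀ hq₀ x
    rw [hN, hN]
    refine Fintype.prod_equiv (Equiv.mulRight (⟨q₀, hq₀⟩ : Q)) _ _ (fun q => ?_)
    rw [← hψmul]; rfl
  obtain ⟨q₀, hq₀, x₀, hx₀⟩ := hne
  have hTne : N.ker ≠ ⊥ := by
    intro hbot
    have h1 : ψ q₀ (Baer.of x₀) * (Baer.of x₀)⁻¹ ∈ N.ker := by
      rw [MonoidHom.mem_ker, map_mul, map_inv, hNQ q₀ hq₀, mul_inv_cancel]
    rw [hbot, Subgroup.mem_bot, mul_inv_eq_one] at h1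
    exact hx₀ h1
  have hB : IsPGroup p (Baer D) := fun g => (hD g.val).imp (fun k hk => hk)
  have hTp : p ∣ Nat.card N.ker := by
    have hnt : Nontrivial N.ker := (Subgroup.nontrivial_iff_ne_bot _).mpr hTne
    obtain ⟨n, hn0, hn⟩ := (IsPGroup.nontrivial_iff_card (hB.to_subgroup N.ker)).mp hnt
    rw [hn]; exact dvd_pow_self p (ne_of_gt hn0)
  letI : MulAction A N.ker :=
    { smul := fun a t => ⟨ψ a t, by
        rw [MonoidHom.mem_ker, hNA a a.2, MonoidHom.mem_ker.mp t.2, map_one]⟩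
      one_smul := fun t => Subtype.ext (hψone t)
      mul_smul := fun a b t => Subtype.ext (hψmul a b t) }
  have hfix1 : (1 : N.ker) ∈ MulAction.fixedPoints A N.ker := by
    intro a
    exact Subtype.ext (map_one (ψ a))
  obtain ⟨b, hbfix, hb1⟩ := hA.exists_fixed_point_of_prime_dvd_card_of_fixed_point N.ker hTp hfix1
  obtain ⟨y, hy⟩ : ∃ y : D, y = (b : Baer D).val := ⟨_, rfl⟩
  have hy1 : y ≠ 1 := by
    intro h
    apply hb1
    apply Subtype.ext
    show (1 : Baer D) = (b : Baer D)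
    have : (b : Baer D).val = (1 : Baer D).val := by rw [← hy, h]; rfl
    exact this.symm
  have hyfix : ∀ a ∈ A, φ a y = y := by
    intro a ha
    have h1 : (⟨a, ha⟩ : A) • b = b := hbfix ⟨a, ha⟩
    have h2 : ψ a (b : Baer D) = (b : Baer D) := congrArg Subtype.val h1
    rw [hy]
    exact h2
  obtain ⟨j, hj⟩ := (IsPGroup.iff_orderOf.mp hD) y
  have hj0 : j ≠ 0 := by
    rintro rfl
    rw [pow_zero, orderOf_eq_one_iff] at hj
    exact hy1 hj
  obtain ⟨i, rfl⟩ := Nat.exists_eq_succ_of_ne_zero hj0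
  refine ⟨y ^ (p ^ i), ?_, ?_, ?_⟩
  · apply orderOf_eq_prime
    · rw [← pow_mul, ← pow_succ, ← hj]; exact pow_orderOf_eq_one y
    · apply pow_ne_one_of_lt_orderOf (pow_pos hp.out.pos i).ne'
      rw [hj]; exact Nat.pow_lt_pow_right hp.out.one_lt (Nat.lt_succ_self i)
  · intro a ha
    rw [map_pow, hyfix a ha]
  · intro hall
    have h1 : N ((b : Baer D) ^ (p ^ i)) = 1 := by
      rw [map_pow, MonoidHom.mem_ker.mp b.2, one_pow]
    have h2 : ∀ q : Q, ψ q ((b : Baer D) ^ (p ^ i)) = (b : Baer D) ^ (p ^ i) := by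
      intro q
      have := hall q q.2
      show Baer.of (φ q ((b : Baer D) ^ (p ^ i)).val) = (b : Baer D) ^ (p ^ i)
      rw [Baer.val_pow, ← hy, this, hy, ← Baer.val_pow]; rfl
    rw [hN, Finset.prod_congr rfl (fun q _ => h2 q), Finset.prod_const, Finset.card_univ,
      ← pow_mul] at h1
    have h3 : y ^ (p ^ i * Fintype.card Q) = 1 := by
      have := congrArg Baer.val h1
      rw [Baer.val_pow, ← hy] at this
      exact this
    have h4 : orderOf (y ^ (p ^ i)) = p := by
      apply orderOf_eq_prime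
      · rw [← pow_mul, ← pow_succ, ← hj]; exact pow_orderOf_eq_one y
      · apply pow_ne_one_of_lt_orderOf (pow_pos hp.out.pos i).ne'
        rw [hj]; exact Nat.pow_lt_pow_right hp.out.one_lt (Nat.lt_succ_self i)
    apply hQ
    rw [Nat.card_eq_fintype_card, ← h4]
    apply orderOf_dvd_of_pow_eq_one
    rw [← pow_mul]; exact h3

end Cfsg.Agent.Lib.Helper11
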