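import Mathlib
import Cfsg.Agent.Lib.Helper1.Coprime
import Cfsg.Agent.Lib.Helper11.Basic
import Cfsg.Agent.Lib.Helper11.ThompsonAB
import Cfsg.Agent.Lib.Helper11.Baer

/-!
`p` odd, `P` a normal `p`-subgroup, `A` a `p`-subgroup containing every element of order `p` of
`C_P(A)`. Then every `p'`-subgroup normalized by `A` centralizes `P`.
-/

set_option autoImplicit false

namespace Cfsg.Agent.Lib.Helper11

open scoped commutatorElement

theorem pprime_invariant_centralizes {Y : Type*} [Group Y] [Finite Y] (p : ℕ) [hp : Fact p.Prime]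
    (hp2 : p ≠ 2) (P : Subgroup Y) (hPn : P.Normal) (hPp : IsPGroup p P)
    (A : Subgroup Y) (hAp : IsPGroup p A)
    (hΩ : ∀ x ∈ P, x ∈ Subgroup.centralizer (A : Set Y) → orderOf x = p → x ∈ A)
    (Q : Subgroup Y) (hQ : ¬ p ∣ Nat.card Q) (hAQ : A ≤ Subgroup.normalizer (Q : Set Y)) :
    Q ≤ Subgroup.centralizer (P : Set Y) := by
  have hcopQ : (Nat.card Q).Coprime p :=
    ((Nat.Prime.coprime_iff_not_dvd hp.out).mpr hQ).symm
  have hPQ : P ⊓ Q = ⊥ := by
    apply Disjoint.eq_bot
    apply Subgroup.disjoint_of_coprime_natCard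
    obtain ⟨n, hn⟩ := IsPGroup.iff_card.mp hPp
    rw [hn]
    exact (Nat.Coprime.pow_right n hcopQ).symm
  have hBQ : ∀ b ∈ A, b ∈ P → ∀ q ∈ Q, q * b = b * q := by
    intro b hbA hbP q hq
    have h1 : b * q * b⁻¹ * q⁻¹ ∈ P ⊓ Q := by
      rw [Subgroup.mem_inf]
      constructor
      · have : b * q * b⁻¹ * q⁻¹ = b * (q * b⁻¹ * q⁻¹) := by group
        rw [this]; exact P.mul_mem hbP (hPn.conj_mem _ (P.inv_mem hbP) q)
      · exact Q.mul_mem ((Subgroup.mem_normalizer_iff.mp (hAQ hbA) q).mp hq) (Q.inv_mem hq)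
    rw [hPQ, Subgroup.mem_bot] at h1
    have h2 : b * q * b⁻¹ * q⁻¹ * (q * b) = q * b := by rw [h1, one_mul]
    rw [← h2]; group
  have key : ∀ n : ℕ, ∀ D : Subgroup Y, Nat.card D = n → D ≤ P →
      A ≤ Subgroup.normalizer (D : Set Y) → Q ≤ Subgroup.normalizer (D : Set Y) →
      Q ≤ Subgroup.centralizer (D : Set Y) := by
    intro n
    induction n using Nat.strong_induction_on with
    | _ n ih =>
    intro D hDn hDP hAD hQD
    by_contra hcon
    have hDp : IsPGroup p D := hPp.to_le hDP
    have hcop : (Nat.card Q).Coprime (Nat.card D) := by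
      obtain ⟨m, hm⟩ := IsPGroup.iff_card.mp hDp
      rw [hm]; exact Nat.Coprime.pow_right m hcopQ
    have hDsolv : Group.IsSolvable D := by
      haveI := hDp.isNilpotent
      infer_instance
    -- [D, Q] = D
    have h1 : ⁅D, Q⁆ = D := by
      have hle : ⁅D, Q⁆ ≤ D := Cfsg.Agent.Lib.Helper1.commutator_le_of_le_normalizer hQD
      by_contra hne
      have hlt : Nat.card (⁅D, Q⁆ : Subgroup Y) < n := by
        rw [← hDn]
        by_contra h
        push Not at h
        exact hne (Subgroup.eq_of_le_of_card_ge hle h)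
      have h2 := ih _ hlt ⁅D, Q⁆ rfl (hle.trans hDP) (le_normalizer_commutator_of_le hAD hAQ)
        (le_normalizer_commutator_of_le hQD Subgroup.le_normalizer)
      have h3 : ⁅⁅D, Q⁆, Q⁆ = ⊥ :=
        Subgroup.commutator_eq_bot_iff_le_centralizer.mpr (Subgroup.le_centralizer_iff.mp h2)
      rw [Cfsg.Agent.Lib.Helper1.coprime_commutator_commutator Q D hQD hcop (Or.inr hDsolv)] at h3
      apply hcon
      exact Subgroup.le_centralizer_iff.mp (Subgroup.commutator_eq_bot_iff_le_centralizer.mp h3)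
    -- D' is centralized by Q
    have hDD : ⁅D, D⁆ ≤ D :=
      Cfsg.Agent.Lib.Helper1.commutator_le_of_le_normalizer Subgroup.le_normalizer
    have hD1 : D ≠ ⊥ := by
      rintro rfl
      apply hcon
      intro q _
      rw [Subgroup.mem_centralizer_iff]
      intro h hh
      rw [SetLike.mem_coe, Subgroup.mem_bot] at hh
      rw [hh, one_mul, mul_one]
    have hlt' : Nat.card (⁅D, D⁆ : Subgroup Y) < n := by
      rw [← hDn]
      by_contra h
      push Not at h
      exact hD1 (pgroup_commutator_eq_self hDp hDp Subgroup.le_normalizer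
        (Subgroup.eq_of_le_of_card_ge hDD h))
    have h4 := ih _ hlt' ⁅D, D⁆ rfl (hDD.trans hDP) (le_normalizer_commutator_of_le hAD hAD)
      (le_normalizer_commutator_of_le hQD hQD)
    -- three subgroups lemma
    have h5 : ⁅⁅D, Q⁆, ⁅D, D⁆⁆ = ⊥ := by
      apply Subgroup.commutator_commutator_eq_bot_of_rotate
      · rw [Subgroup.commutator_eq_bot_iff_le_centralizer.mpr h4, Subgroup.commutator_bot_left]
      · rw [eq_bot_iff]
        calc ⁅⁅⁅D, D⁆, D⁆, Q⁆ ≤ ⁅⁅D, D⁆, Q⁆ :=
              Subgroup.commutator_mono (Cfsg.Agent.Lib.Helper1.commutator_le_of_le_normalizer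
                (le_normalizer_commutator_of_le Subgroup.le_normalizer Subgroup.le_normalizer))
                le_rfl
          _ = ⊥ := Subgroup.commutator_eq_bot_iff_le_centralizer.mpr
              (Subgroup.le_centralizer_iff.mp h4)
    rw [h1] at h5
    have h6 : D ≤ Subgroup.centralizer ((⁅D, D⁆ : Subgroup Y) : Set Y) :=
      Subgroup.commutator_eq_bot_iff_le_centralizer.mp h5
    have hcl : ClassTwo ↥D := by
      intro x y z
      apply Subtype.ext
      have hc : ((⁅x, y⁆ : ↥D) : Y) ∈ ⁅D, D⁆ := by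
        have : ((⁅x, y⁆ : ↥D) : Y) = ⁅(x : Y), (y : Y)⁆ := rfl
        rw [this]; exact Subgroup.commutator_mem_commutator x.2 y.2
      exact Subgroup.mem_centralizer_iff.mp (h6 z.2) _ hc
    -- the fixed point lemma
    have hA'p : IsPGroup p (A.subgroupOf (Subgroup.normalizer (D : Set Y))) := hAp.comap_subtype
    have hQ'card : Nat.card (Q.subgroupOf (Subgroup.normalizer (D : Set Y))) = Nat.card Q :=
      Nat.card_congr (Subgroup.subgroupOfEquivOfLe hQD).toEquiv
    have hA'Q' : A.subgroupOf (Subgroup.normalizer (D : Set Y)) ≤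
        Subgroup.normalizer ((Q.subgroupOf (Subgroup.normalizer (D : Set Y)) : Subgroup _) : Set _) := by
      intro a ha
      rw [Subgroup.mem_normalizer_iff]
      intro q
      rw [Subgroup.mem_subgroupOf, Subgroup.mem_subgroupOf]
      exact Subgroup.mem_normalizer_iff.mp (hAQ (Subgroup.mem_subgroupOf.mp ha)) q
    have hne : ∃ q ∈ Q.subgroupOf (Subgroup.normalizer (D : Set Y)), ∃ x : ↥D,
        D.normalizerMonoidHom q x ≠ x := by
      have : ∃ q ∈ Q, ∃ x ∈ D, x * q ≠ q * x := by
        by_contra h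
        push Not at h
        apply hcon
        intro q hq
        rw [Subgroup.mem_centralizer_iff]
        intro x hx
        exact h q hq x hx
      obtain ⟨q, hq, x, hx, hxq⟩ := this
      refine ⟨⟨q, hQD hq⟩, Subgroup.mem_subgroupOf.mpr hq, ⟨x, hx⟩, ?_⟩
      intro h
      apply hxq
      have h' : q * x * q⁻¹ = x := congrArg Subtype.val h
      calc x * q = (q * x * q⁻¹) * q := by rw [h']
        _ = q * x := by group
    obtain ⟨x, hxo, hxA, hxQ⟩ := exists_fixed_not_fixed p hp2 hDp hcl D.normalizerMonoidHom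
      (A.subgroupOf (Subgroup.normalizer (D : Set Y)))
      (Q.subgroupOf (Subgroup.normalizer (D : Set Y))) hA'p (by rw [hQ'card]; exact hQ) hA'Q' hne
    apply hxQ
    intro q hq
    have hxP : (x : Y) ∈ P := hDP x.2
    have hxC : (x : Y) ∈ Subgroup.centralizer (A : Set Y) := by
      rw [Subgroup.mem_centralizer_iff]
      intro a ha
      have h := hxA ⟨a, hAD ha⟩ (Subgroup.mem_subgroupOf.mpr ha)
      have h' : a * (x : Y) * a⁻¹ = x := congrArg Subtype.val h
      calc a * (x : Y) = (a * x * a⁻¹) * a := by group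
        _ = x * a := by rw [h']
    have hxo' : orderOf (x : Y) = p := by rw [Subgroup.orderOf_coe]; exact hxo
    have hxA' : (x : Y) ∈ A := hΩ _ hxP hxC hxo'
    have h7 := hBQ _ hxA' hxP (q : Y) (Subgroup.mem_subgroupOf.mp hq)
    apply Subtype.ext
    show (q : Y) * x * (q : Y)⁻¹ = x
    rw [h7, mul_inv_cancel_right]
  have hnP : Subgroup.normalizer (P : Set Y) = ⊤ := Subgroup.normalizer_eq_top_iff.mpr hPn
  exact key _ P rfl le_rfl (by rw [hnP]; exact le_top) (by rw [hnP]; exact le_top)

end Cfsg.Agent.Lib.Helper11
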