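import Mathlib
import Cfsg.Agent.Lib.Helper11.BG7b
import Cfsg.Agent.Lib.Helper11.PConstrained
import Cfsg.Agent.Lib.Helper11.FStarLocal
import Cfsg.Agent.S1302
import Cfsg.Agent.S0044

set_option autoImplicit false
set_option linter.style.haveILetI false
open Pointwise

namespace Cfsg.Agent.Lib.Helper11

universe u

section BG7c

/-- A finite solvable group is `p`-constrained. -/
theorem isPConstrained_of_solvable {X : Type u} [Group X] [Finite X] [Group.IsSolvable X]
    (p : ℕ) [Fact p.Prime] : Cfsg.IsPConstrained p X := by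
  rw [isPConstrained_iff, ← fitting_eq_pCore_of_pPrimeCore_eq_bot p (pPrimeCore_quotient_eq_bot p)]
  exact Cfsg.Agent.S0044.result

variable {G : Type u} [Group G]

theorem mso_odd_prime (hG : Cfsg.IsMinSimpleOddOrder G) {p : ℕ} (hp : p ∣ Nat.card G) : p ≠ 2 := by
  rintro rfl
  exact (Nat.not_even_iff_odd.mpr hG.1) (even_iff_two_dvd.mpr hp)

/-- O_{p'}(X) inside G -/
def ppc (p : ℕ) (X : Subgroup G) : Subgroup G := (Cfsg.pPrimeCore p ↥X).map X.subtype

theorem ppc_le (p : ℕ) (X : Subgroup G) : ppc p X ≤ X := Subgroup.map_subtype_le _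

theorem ppc_normalizer (p : ℕ) (X : Subgroup G) :
    X ≤ Subgroup.normalizer ((ppc p X : Subgroup G) : Set G) :=
  le_normalizer_map_subtype' _ (pPrimeCore_normal' p)

theorem ppc_coprime [Finite G] (p : ℕ) (X : Subgroup G) : (Nat.card (ppc p X)).Coprime p := by
  unfold ppc
  rw [Subgroup.card_map_of_injective X.subtype_injective]
  exact pPrimeCore_card_coprime p

/-- In a solvable subgroup `X` of odd order, an abelian `p`-subgroup `A` containing all elements
of order `p` of its centralizer forces every `A`-invariant `p'`-subgroup into `O_{p'}(X)`. -/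
theorem inv_le_ppc [Finite G] (p : ℕ) [Fact p.Prime] (hp2 : p ≠ 2) {X A Y : Subgroup G}
    (hX : Group.IsSolvable X) (hAX : A ≤ X) (hAc : IsMulCommutative A) (hAp : IsPGroup p A)
    (hΩ : ∀ x ∈ Subgroup.centralizer (A : Set G), x ∈ X → orderOf x = p → x ∈ A)
    (hYX : Y ≤ X) (hY : ¬ p ∣ Nat.card Y) (hAY : A ≤ Subgroup.normalizer (Y : Set G)) :
    Y ≤ ppc p X := by
  have hc := isPConstrained_of_solvable (X := ↥X) p
  have hA' : IsMulCommutative ↥(A.subgroupOf X) := by
    apply imc_of_sub_comm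
    intro a ha b hb
    exact Subtype.ext (sub_comm_of_imc hAc a ha b hb)
  have hAp' : IsPGroup p ↥(A.subgroupOf X) :=
    hAp.comap_of_injective X.subtype X.subtype_injective
  have hΩ' : ∀ x ∈ Subgroup.centralizer ((A.subgroupOf X : Subgroup ↥X) : Set ↥X),
      orderOf x = p → x ∈ A.subgroupOf X := by
    intro x hx hxo
    rw [Subgroup.mem_subgroupOf]
    apply hΩ (x : G) _ x.2 (by rw [Subgroup.orderOf_coe]; exact hxo)
    rw [Subgroup.mem_centralizer_iff]
    intro a ha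
    have := Subgroup.mem_centralizer_iff.mp hx ⟨a, hAX ha⟩ (Subgroup.mem_subgroupOf.mpr ha)
    exact congrArg Subtype.val this
  have hQ' : ¬ p ∣ Nat.card ↥(Y.subgroupOf X) := by
    rw [Nat.card_congr (Subgroup.subgroupOfEquivOfLe hYX).toEquiv]
    exact hY
  have hAQ' : A.subgroupOf X ≤ Subgroup.normalizer ((Y.subgroupOf X : Subgroup ↥X) : Set ↥X) := by
    intro a ha
    rw [Subgroup.mem_normalizer_iff]
    intro y
    rw [Subgroup.mem_subgroupOf, Subgroup.mem_subgroupOf]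
    exact Subgroup.mem_normalizer_iff.mp (hAY (Subgroup.mem_subgroupOf.mp ha)) (y : G)
  have h := Cfsg.Agent.S1302.result p hp2 hc (A.subgroupOf X) hA' hAp' hΩ' (Y.subgroupOf X) hQ' hAQ'
  intro y hy
  exact ⟨⟨y, hYX hy⟩, h (Subgroup.mem_subgroupOf.mpr hy), rfl⟩

/-- B-G 7.6: an abelian `p`-subgroup containing every element of order `p` of its centralizer
satisfies the transitivity hypothesis. -/
theorem th_of_omega [Finite G] (hG : Cfsg.IsMinSimpleOddOrder G) (p : ℕ) [Fact p.Prime]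
    (hp : p ∣ Nat.card G) {A : Subgroup G} (hAp : IsPGroup p A) (hAc : IsMulCommutative A)
    (hΩ : ∀ x ∈ Subgroup.centralizer (A : Set G), orderOf x = p → x ∈ A) :
    Cfsg.TransitivityHypothesis A := by
  have hpp : p.Prime := Fact.out
  have hp2 : p ≠ 2 := mso_odd_prime hG hp
  have hA1 : A ≠ ⊥ := by
    rintro rfl
    obtain ⟨x, hx⟩ := exists_prime_orderOf_dvd_card' p hp
    have := hΩ x (by rw [Subgroup.mem_centralizer_iff]; intro a ha; rw [Subgroup.mem_bot.mp ha]; simp) hx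
    rw [Subgroup.mem_bot] at this
    rw [this, orderOf_one] at hx
    exact hpp.one_lt.ne hx
  have hA2 : A ≠ ⊤ := by
    rintro rfl
    apply hG.2.2.1
    refine ⟨⟨fun a b => ?_⟩⟩
    exact sub_comm_of_imc hAc a (Subgroup.mem_top a) b (Subgroup.mem_top b)
  obtain ⟨k, hk⟩ := IsPGroup.iff_card.mp hAp
  have hk0 : k ≠ 0 := by
    rintro rfl
    rw [pow_zero] at hk
    exact hA1 (Subgroup.card_eq_one.mp hk)
  have hpA : p ∣ Nat.card A := by rw [hk]; exact dvd_pow_self p hk0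
  refine ⟨hA1, hA2, ?_⟩
  intro X hX hAX
  apply le_antisymm
  · apply sSup_le
    intro Y hY
    obtain ⟨hYX, hYpi, hAY⟩ := hY
    have hYp : ¬ p ∣ Nat.card Y := fun h => (hYpi p hpp h).2 hpA
    have h1 := inv_le_ppc p hp2 (mso_solvable hG hX) hAX hAc hAp (fun x hx _ hxo => hΩ x hx hxo)
      hYX hYp hAY
    refine h1.trans (le_piCoreOf _ (ppc_le p X) (ppc_normalizer p X) ?_)
    intro q hq hqd
    refine ⟨hq, fun hqA => ?_⟩
    rw [hk] at hqA
    have hqp : q = p := (Nat.prime_dvd_prime_iff_eq hq hpp).mp (hq.dvd_of_dvd_pow hqA)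
    subst hqp
    have := Nat.Coprime.eq_one_of_dvd (ppc_coprime q X).symm hqd
    exact hq.one_lt.ne' this
  · apply le_sSup
    exact ⟨piCoreOf_le _ _, piCoreOf_pi _ _, hAX.trans (le_normalizer_piCoreOf _ _)⟩

/-- elements of order `p` centralizing `A ∈ SCN(P)`, `P` Sylow, lie in `A` -/
theorem scn_omega [Finite G] (p : ℕ) [Fact p.Prime] (P : Sylow p G) {A : Subgroup G}
    (hA : Cfsg.IsSCN (P : Subgroup G) A) :
    ∀ x ∈ Subgroup.centralizer (A : Set G), orderOf x = p → x ∈ A := by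
  intro x hx hxo
  obtain ⟨hAP, hPN, hPC⟩ := hA
  obtain ⟨N, hNdef⟩ : ∃ N : Subgroup G, N = Subgroup.normalizer (A : Set G) := ⟨_, rfl⟩
  rw [← hNdef] at hPN
  have hxN : x ∈ N := hNdef ▸ Subgroup.centralizer_le_normalizer _ hx
  have hxp : IsPGroup p (Subgroup.zpowers (⟨x, hxN⟩ : N)) := by
    apply IsPGroup.of_card (n := 1)
    rw [Nat.card_zpowers, pow_one, ← hxo, ← Subgroup.orderOf_coe]
  obtain ⟨S, hS⟩ := hxp.exists_le_sylow
  obtain ⟨n, hn⟩ := MulAction.exists_smul_eq N S (P.subtype hPN)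
  have h1 : n * ⟨x, hxN⟩ * n⁻¹ ∈ ((n • S : Sylow p N) : Subgroup N) := by
    rw [Sylow.coe_subgroup_smul]
    have h2 : (⟨x, hxN⟩ : N) ∈ (S : Subgroup N) := hS (Subgroup.mem_zpowers _)
    have h3 := Subgroup.smul_mem_pointwise_smul _ (MulAut.conj n) _ h2
    exact h3
  rw [hn, Sylow.coe_subtype, Subgroup.mem_subgroupOf] at h1
  have h4 : (n : G) * x * (n : G)⁻¹ ∈ A := by
    rw [← hPC]
    refine Subgroup.mem_inf.mpr ⟨h1, ?_⟩
    exact conj_mem_centralizer_of_mem_normalizer (hNdef ▸ n.2) hx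
  have hnN : (n : G)⁻¹ ∈ Subgroup.normalizer (A : Set G) := Subgroup.inv_mem _ (hNdef ▸ n.2)
  have h5 := (Subgroup.mem_normalizer_iff.mp hnN ((n : G) * x * (n : G)⁻¹)).mp h4
  have h6 : (n : G)⁻¹ * ((n : G) * x * (n : G)⁻¹) * (n : G)⁻¹⁻¹ = x := by group
  rwa [h6] at h5

end BG7c

end Cfsg.Agent.Lib.Helper11
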