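import Mathlib
import Cfsg.Agent.Lib.Helper11.BG7b
import Cfsg.Agent.Lib.Helper11.Misc

set_option autoImplicit false
set_option linter.style.haveILetI false
open Pointwise
open scoped commutatorElement

namespace Cfsg.Agent.Lib.Helper11

universe u

section BG7d

variable {G : Type u} [Group G]

theorem mem_normalizer_map_conj {Y : Subgroup G} {a c : G} :
    a ∈ Subgroup.normalizer ((Y.map (MulAut.conj c).toMonoidHom : Subgroup G) : Set G) ↔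
      c⁻¹ * a * c ∈ Subgroup.normalizer (Y : Set G) := by
  rw [Subgroup.mem_normalizer_iff, Subgroup.mem_normalizer_iff]
  constructor
  · intro h y
    have := h (c * y * c⁻¹)
    rw [mem_map_conj, mem_map_conj] at this
    have e1 : c⁻¹ * (c * y * c⁻¹) * c = y := by group
    have e2 : c⁻¹ * (a * (c * y * c⁻¹) * a⁻¹) * c = c⁻¹ * a * c * y * (c⁻¹ * a * c)⁻¹ := by group
    rw [e1, e2] at this
    exact this
  · intro h x
    rw [mem_map_conj, mem_map_conj]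
    have := h (c⁻¹ * x * c)
    have e : c⁻¹ * a * c * (c⁻¹ * x * c) * (c⁻¹ * a * c)⁻¹ = c⁻¹ * (a * x * a⁻¹) * c := by group
    rw [e] at this
    exact this

theorem mem_normalizer_of_map_conj_eq_map_conj {Q : Subgroup G} {a b : G}
    (h : Q.map (MulAut.conj a).toMonoidHom = Q.map (MulAut.conj b).toMonoidHom) :
    b⁻¹ * a ∈ Subgroup.normalizer (Q : Set G) := by
  rw [Subgroup.mem_normalizer_iff]
  intro y
  have h1 : y ∈ Q ↔ a * y * a⁻¹ ∈ Q.map (MulAut.conj a).toMonoidHom := by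
    rw [mem_map_conj]
    have : a⁻¹ * (a * y * a⁻¹) * a = y := by group
    rw [this]
  rw [h1, h, mem_map_conj]
  have : b⁻¹ * (a * y * a⁻¹) * b = b⁻¹ * a * y * (b⁻¹ * a)⁻¹ := by group
  rw [this]

theorem map_conj_eq_self_of_mem_normalizer {Q : Subgroup G} {c : G}
    (hc : c ∈ Subgroup.normalizer (Q : Set G)) : Q.map (MulAut.conj c).toMonoidHom = Q :=
  Helper1.conj_smul_eq_of_mem_normalizer hc

theorem normalizer_le_normalizer_centralizer (A : Subgroup G) :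
    Subgroup.normalizer (A : Set G) ≤
      Subgroup.normalizer ((Subgroup.centralizer (A : Set G) : Subgroup G) : Set G) := by
  intro g hg
  rw [Subgroup.mem_normalizer_iff]
  intro x
  constructor
  · exact fun hx => conj_mem_centralizer_of_mem_normalizer hg hx
  · intro hx
    have := conj_mem_centralizer_of_mem_normalizer (Subgroup.inv_mem _ hg) hx
    have e : g⁻¹ * (g * x * g⁻¹) * g⁻¹⁻¹ = x := by group
    rwa [e] at this

/-- Glauberman's lemma, existence of a fixed point. -/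
theorem glauberman_exists [Finite G] (B K : Subgroup G)
    (hBK : B ≤ Subgroup.normalizer (K : Set G))
    (hcop : (Nat.card B).Coprime (Nat.card K)) (hsolv : Group.IsSolvable B ∨ Group.IsSolvable K)
    (Ω : Set (Subgroup G))
    (hΩ : ∀ Q ∈ Ω, ∀ g ∈ K ⊔ B, Q.map (MulAut.conj g).toMonoidHom ∈ Ω)
    (htr : ∀ Q₁ ∈ Ω, ∀ Q₂ ∈ Ω, ∃ k ∈ K, Q₂ = Q₁.map (MulAut.conj k).toMonoidHom)
    (Q₁ : Subgroup G) (hQ₁ : Q₁ ∈ Ω) : ∃ Q ∈ Ω, B ≤ Subgroup.normalizer (Q : Set G) := by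
  obtain ⟨Γ, hΓdef⟩ : ∃ Γ : Subgroup G, Γ = K ⊔ B := ⟨_, rfl⟩
  have hKΓ : K ≤ Γ := hΓdef ▸ le_sup_left
  have hΓK : Γ ≤ Subgroup.normalizer (K : Set G) := hΓdef ▸ sup_le Subgroup.le_normalizer hBK
  obtain ⟨Γ₁, hΓ₁def⟩ : ∃ Γ₁ : Subgroup G, Γ₁ = Γ ⊓ Subgroup.normalizer (Q₁ : Set G) := ⟨_, rfl⟩
  have hΓ₁Γ : Γ₁ ≤ Γ := hΓ₁def ▸ inf_le_left
  have hΓ₁N : Γ₁ ≤ Subgroup.normalizer (Q₁ : Set G) := hΓ₁def ▸ inf_le_right
  have h1 : K ⊔ Γ₁ = Γ := by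
    apply le_antisymm (sup_le hKΓ hΓ₁Γ)
    intro g hg
    obtain ⟨k, hk, e⟩ := htr Q₁ hQ₁ _ (hΩ Q₁ hQ₁ g (hΓdef ▸ hg))
    have h2 := mem_normalizer_of_map_conj_eq_map_conj e
    have h3 : k⁻¹ * g ∈ Γ₁ := by
      rw [hΓ₁def]
      exact Subgroup.mem_inf.mpr ⟨Γ.mul_mem (Γ.inv_mem (hKΓ hk)) hg, h2⟩
    have h4 : g = k * (k⁻¹ * g) := by group
    rw [h4]
    exact Subgroup.mul_mem_sup hk h3
  have h2 : K.relIndex Γ₁ = K.relIndex Γ := Helper1.relIndex_eq_of_sup_eq hΓK hKΓ hΓ₁Γ h1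
  have h3 : K.relIndex Γ = Nat.card B := by
    rw [hΓdef]
    exact Helper1.relIndex_sup_eq_card hBK (Helper1.inf_eq_bot_of_coprime_card hcop)
  haveI : (K.subgroupOf Γ₁).Normal :=
    Subgroup.normal_subgroupOf_of_le_normalizer (hΓ₁Γ.trans hΓK)
  have hidx : (K.subgroupOf Γ₁).index = Nat.card B := by
    have : (K.subgroupOf Γ₁).index = K.relIndex Γ₁ := rfl
    rw [this, h2, h3]
  have hcop' : (Nat.card (K.subgroupOf Γ₁)).Coprime (K.subgroupOf Γ₁).index := by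
    rw [hidx]
    exact Nat.Coprime.coprime_dvd_left (Helper1.card_subgroupOf_dvd K Γ₁) hcop.symm
  obtain ⟨H, hH⟩ := Subgroup.exists_left_complement'_of_coprime hcop'
  have hHcard : Nat.card H = Nat.card B := by rw [← hH.index_eq_card, hidx]
  obtain ⟨B₁, hB₁def⟩ : ∃ B₁ : Subgroup G, B₁ = H.map Γ₁.subtype := ⟨_, rfl⟩
  have hB₁Γ₁ : B₁ ≤ Γ₁ := hB₁def ▸ Subgroup.map_subtype_le _
  have hB₁card : Nat.card B₁ = Nat.card B := by
    rw [hB₁def, Subgroup.card_map_of_injective Γ₁.subtype_injective, hHcard]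
  obtain ⟨k, hk, hkB⟩ := Helper1.sz_conj_rel B K hBK hcop hsolv B₁
    (hΓdef ▸ hB₁Γ₁.trans hΓ₁Γ) hB₁card
  refine ⟨Q₁.map (MulAut.conj k⁻¹).toMonoidHom, hΩ Q₁ hQ₁ k⁻¹ (hΓdef ▸ hKΓ (K.inv_mem hk)), ?_⟩
  intro b hb
  rw [mem_normalizer_map_conj, inv_inv]
  apply hΓ₁N
  apply hB₁Γ₁
  rw [← hkB, Helper1.mem_conj_smul_iff]
  have : k⁻¹ * (k * b * k⁻¹) * k = b := by group
  rw [this]
  exact hb

/-- Glauberman's lemma, transitivity of the fixed points of `K` on the fixed points of `B`. -/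
theorem glauberman_trans [Finite G] (B K : Subgroup G)
    (hBK : B ≤ Subgroup.normalizer (K : Set G))
    (hcop : (Nat.card B).Coprime (Nat.card K)) (hsolv : Group.IsSolvable B ∨ Group.IsSolvable K)
    (Q₁ Q₂ : Subgroup G) (h₁ : B ≤ Subgroup.normalizer (Q₁ : Set G))
    (h₂ : B ≤ Subgroup.normalizer (Q₂ : Set G)) (k : G) (hk : k ∈ K)
    (e : Q₂ = Q₁.map (MulAut.conj k).toMonoidHom) :
    ∃ c ∈ K ⊓ Subgroup.centralizer (B : Set G), Q₂ = Q₁.map (MulAut.conj c).toMonoidHom := by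
  obtain ⟨K₁, hK₁def⟩ : ∃ K₁ : Subgroup G, K₁ = K ⊓ Subgroup.normalizer (Q₁ : Set G) := ⟨_, rfl⟩
  have hK₁K : K₁ ≤ K := hK₁def ▸ inf_le_left
  have hK₁N : K₁ ≤ Subgroup.normalizer (Q₁ : Set G) := hK₁def ▸ inf_le_right
  have hBK₁ : B ≤ Subgroup.normalizer (K₁ : Set G) :=
    hK₁def ▸ Helper21.le_normalizer_inf_of_le hBK (h₁.trans Subgroup.le_normalizer)
  have hcop₁ : (Nat.card B).Coprime (Nat.card K₁) :=
    Nat.Coprime.coprime_dvd_right (Subgroup.card_dvd_of_le hK₁K) hcop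
  have hsolv₁ : Group.IsSolvable B ∨ Group.IsSolvable K₁ := by
    rcases hsolv with h | h
    · exact Or.inl h
    · exact Or.inr (Helper1.isSolvable_of_le hK₁K)
  obtain ⟨B', hB'def⟩ : ∃ B' : Subgroup G, B' = MulAut.conj k⁻¹ • B := ⟨_, rfl⟩
  have hB'card : Nat.card B' = Nat.card B := by
    rw [hB'def, conj_smul_eq_map, card_map_conj]
  have hB'le : B' ≤ K₁ ⊔ B := by
    intro x hx
    rw [hB'def, Helper1.mem_conj_smul_iff, inv_inv] at hx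
    -- b := k x k⁻¹ ∈ B
    have hbN : k * x * k⁻¹ ∈ Subgroup.normalizer (Q₂ : Set G) := h₂ hx
    rw [e, mem_normalizer_map_conj] at hbN
    have e1 : k⁻¹ * (k * x * k⁻¹) * k = x := by group
    rw [e1] at hbN
    have hb1 : k * x * k⁻¹ ∈ Subgroup.normalizer (Q₁ : Set G) := h₁ hx
    have hkb : (k * x * k⁻¹) * k⁻¹ * (k * x * k⁻¹)⁻¹ ∈ K :=
      (Subgroup.mem_normalizer_iff.mp (hBK hx) k⁻¹).mp (K.inv_mem hk)
    have hmem : x * (k * x * k⁻¹)⁻¹ ∈ K₁ := by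
      rw [hK₁def]
      refine Subgroup.mem_inf.mpr ⟨?_, Subgroup.mul_mem _ hbN (Subgroup.inv_mem _ hb1)⟩
      have e2 : x * (k * x * k⁻¹)⁻¹ = k⁻¹ * ((k * x * k⁻¹) * k⁻¹ * (k * x * k⁻¹)⁻¹)⁻¹ := by group
      rw [e2]
      exact K.mul_mem (K.inv_mem hk) (K.inv_mem hkb)
    have e3 : x = x * (k * x * k⁻¹)⁻¹ * (k * x * k⁻¹) := by group
    rw [e3]
    exact Subgroup.mul_mem_sup hmem hx
  obtain ⟨c, hc, hcB⟩ := Helper1.sz_conj_rel B K₁ hBK₁ hcop₁ hsolv₁ B' hB'le hB'card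
  have hkcN : k * c ∈ Subgroup.normalizer (B : Set G) := by
    apply Helper1.mem_normalizer_of_conj_smul_eq
    rw [Helper1.conj_mul_smul, hcB, hB'def, ← Helper1.conj_mul_smul, mul_inv_cancel, map_one,
      one_smul]
  have hkcK : k * c ∈ K := K.mul_mem hk (hK₁K hc)
  refine ⟨k * c, Subgroup.mem_inf.mpr ⟨hkcK, ?_⟩, ?_⟩
  · have hcomm := comm_of_normalizing_coprime
      (inf_le_right : K ⊓ Subgroup.normalizer (B : Set G) ≤ _)
      (Helper21.le_normalizer_inf_of_le hBK (Subgroup.le_normalizer.trans Subgroup.le_normalizer))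
      (Nat.Coprime.coprime_dvd_left (Subgroup.card_dvd_of_le inf_le_left) hcop.symm)
    rw [Subgroup.mem_centralizer_iff]
    intro b hb
    exact (hcomm (k * c) (Subgroup.mem_inf.mpr ⟨hkcK, hkcN⟩) b hb).symm
  · rw [← map_conj_map_conj, map_conj_eq_self_of_mem_normalizer (hK₁N hc)]
    exact e

theorem commutator_sup_le_sup {L N₁ : Subgroup G} (hN : N₁ ≤ Subgroup.normalizer (L : Set G)) :
    ⁅L ⊔ N₁, L ⊔ N₁⁆ ≤ L ⊔ ⁅N₁, N₁⁆ := by
  rw [Subgroup.commutator_le]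
  intro g₁ hg₁ g₂ hg₂
  obtain ⟨l₁, hl₁, n₁, hn₁, rfl⟩ := mem_sup_of_le_normalizer hN hg₁
  obtain ⟨l₂, hl₂, n₂, hn₂, rfl⟩ := mem_sup_of_le_normalizer hN hg₂
  have hLn : L ⊔ N₁ ≤ Subgroup.normalizer (L : Set G) := sup_le Subgroup.le_normalizer hN
  have conjL : ∀ g ∈ L ⊔ N₁, ∀ l ∈ L, g * l * g⁻¹ ∈ L :=
    fun g hg l hl => (Subgroup.mem_normalizer_iff.mp (hLn hg) l).mp hl
  have e : ⁅l₁ * n₁, l₂ * n₂⁆ = l₁ * (n₁ * l₂ * n₁⁻¹) *
      ((n₁ * n₂ * n₁⁻¹) * l₁⁻¹ * (n₁ * n₂ * n₁⁻¹)⁻¹) * (⁅n₁, n₂⁆ * l₂⁻¹ * ⁅n₁, n₂⁆⁻¹) * ⁅n₁, n₂⁆ := by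
    simp only [commutatorElement_def]; group
  rw [e]
  have hc : ⁅n₁, n₂⁆ ∈ N₁ := by
    rw [commutatorElement_def]
    exact N₁.mul_mem (N₁.mul_mem (N₁.mul_mem hn₁ hn₂) (N₁.inv_mem hn₁)) (N₁.inv_mem hn₂)
  apply Subgroup.mul_mem _ _ (Subgroup.mem_sup_right (Subgroup.commutator_mem_commutator hn₁ hn₂))
  apply Subgroup.mem_sup_left
  refine L.mul_mem (L.mul_mem (L.mul_mem hl₁ (conjL n₁ (Subgroup.mem_sup_right hn₁) l₂ hl₂))
    (conjL _ ?_ _ (L.inv_mem hl₁))) (conjL _ ?_ _ (L.inv_mem hl₂))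
  · exact Subgroup.mem_sup_right (N₁.mul_mem (N₁.mul_mem hn₁ hn₂) (N₁.inv_mem hn₁))
  · exact Subgroup.mem_sup_right hc

end BG7d

end Cfsg.Agent.Lib.Helper11
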