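import Mathlib
import Cfsg.Prelude.Def_Local
import Cfsg.Prelude.Def_LocalEven
import Cfsg.Prelude.Def_CaseTheorems
import Cfsg.Agent.Lib.Helper1.Coprime
import Cfsg.Agent.Lib.Helper1.Cores
import Cfsg.Agent.Lib.Helper6.PSolv4
import Cfsg.Agent.Lib.Helper17.S4Rec
import Cfsg.Agent.Lib.Helper18.PGroupFrat
import Cfsg.Agent.Lib.Helper11.NormalFour

/-!
Cyclic normal subgroups of a Sylow `p`-subgroup of a `p`-soluble group lie in `O_{p',p}`
(for odd `p`, or when the symmetric group of degree four is not involved).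
-/

set_option autoImplicit false
open Cfsg
open Pointwise

namespace Cfsg.Agent.Lib.Helper11

open scoped commutatorElement

universe u

section Aux

variable {X : Type u} [Group X]

/-- In a finite `p`-group, `p`-th powers lie in the Frattini subgroup. -/
theorem pow_mem_frat [Finite X] {p : ℕ} [hp : Fact p.Prime]
    (hW : IsPGroup p X) (x : X) : x ^ p ∈ frattini X := by
  have hnil := hW.isNilpotent
  have key : ∀ M : Subgroup X, IsCoatom M → x ^ p ∈ M := by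
    intro M hM
    by_contra hx
    have hMn : M.Normal :=
      Subgroup.NormalizerCondition.normal_of_coatom M Group.normalizerCondition_of_isNilpotent hM
    have htop : M ⊔ Subgroup.zpowers (x ^ p) = ⊤ := by
      apply hM.2
      refine lt_of_le_of_ne le_sup_left ?_
      intro h
      apply hx
      rw [h]
      exact le_sup_right (a := M) (Subgroup.mem_zpowers _)
    have hx' : x ∈ M ⊔ Subgroup.zpowers (x ^ p) := htop ▸ Subgroup.mem_top x
    obtain ⟨m, hm, y, hy, hmy⟩ := Subgroup.mem_sup_of_normal_left.mp hx'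
    obtain ⟨k, hk⟩ := Subgroup.mem_zpowers_iff.mp hy
    have h1 : x ^ (1 - (p : ℤ) * k) ∈ M := by
      have e : x ^ (1 - (p : ℤ) * k) = m := by
        rw [zpow_sub, zpow_one, zpow_mul, zpow_natCast, hk, ← hmy]
        group
      rw [e]; exact hm
    obtain ⟨n, hn⟩ := hW x
    have hcop : IsCoprime (1 - (p : ℤ) * k) ((p : ℤ) ^ n) := by
      apply IsCoprime.pow_right
      exact ⟨1, k, by ring⟩
    obtain ⟨u, v, huv⟩ := hcop
    have hxn : x ^ ((p : ℤ) ^ n) = 1 := by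
      have e : ((p : ℤ) ^ n) = ((p ^ n : ℕ) : ℤ) := by push_cast; rfl
      rw [e, zpow_natCast, hn]
    have e2 : x = (x ^ (1 - (p : ℤ) * k)) ^ u * (x ^ ((p : ℤ) ^ n)) ^ v := by
      rw [← zpow_mul, ← zpow_mul, ← zpow_add]
      have e3 : (1 - (p : ℤ) * k) * u + (p : ℤ) ^ n * v = 1 := by linarith
      rw [e3, zpow_one]
    have hxM : x ∈ M := by
      rw [e2, hxn, one_zpow, mul_one]
      exact M.zpow_mem h1 u
    exact hx (M.pow_mem hxM p)
  unfold frattini Order.radical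
  simp only [Subgroup.mem_iInf]
  exact key

/-- `(x y)^n = c^(n(n-1)/2) x^n y^n` when `y x = c x y` and `c` commutes with `x` and `y`. -/
theorem mul_pow_central {x y c : X} (h : y * x = c * x * y) (hcx : Commute c x)
    (hcy : Commute c y) (n : ℕ) :
    (x * y) ^ n = c ^ (n * (n - 1) / 2) * (x ^ n * y ^ n) := by
  have hyx : ∀ k : ℕ, y ^ k * x = c ^ k * x * y ^ k := by
    intro k
    induction k with
    | zero => simp
    | succ k ih =>
      calc y ^ (k + 1) * x = y * (y ^ k * x) := by rw [pow_succ', mul_assoc]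
        _ = y * (c ^ k * x * y ^ k) := by rw [ih]
        _ = (y * c ^ k) * x * y ^ k := by simp only [mul_assoc]
        _ = (c ^ k * y) * x * y ^ k := by rw [(hcy.pow_left k).eq]
        _ = c ^ k * (y * x) * y ^ k := by simp only [mul_assoc]
        _ = c ^ k * (c * x * y) * y ^ k := by rw [h]
        _ = c ^ (k + 1) * x * y ^ (k + 1) := by rw [pow_succ, pow_succ']; simp only [mul_assoc]
  induction n with
  | zero => simp
  | succ n ih =>
    have e : (n + 1) * (n + 1 - 1) / 2 = n * (n - 1) / 2 + n := Nat.triangle_succ n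
    rw [e, pow_succ, ih]
    calc c ^ (n * (n - 1) / 2) * (x ^ n * y ^ n) * (x * y)
        = c ^ (n * (n - 1) / 2) * (x ^ n * (y ^ n * x) * y) := by simp only [mul_assoc]
      _ = c ^ (n * (n - 1) / 2) * (x ^ n * (c ^ n * x * y ^ n) * y) := by rw [hyx]
      _ = c ^ (n * (n - 1) / 2) * ((x ^ n * c ^ n) * x * y ^ n * y) := by simp only [mul_assoc]
      _ = c ^ (n * (n - 1) / 2) * ((c ^ n * x ^ n) * x * y ^ n * y) := by
          rw [((hcx.pow_left n).pow_right n).eq]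
      _ = (c ^ (n * (n - 1) / 2) * c ^ n) * ((x ^ n * x) * (y ^ n * y)) := by
          simp only [mul_assoc]
      _ = c ^ (n * (n - 1) / 2 + n) * (x ^ (n + 1) * y ^ (n + 1)) := by
          rw [← pow_add, ← pow_succ, ← pow_succ]

/-- Burnside: a `p'`-element normalising a `p`-group `A` and acting trivially on `A / Φ(A)`
centralises `A`. -/
theorem burnside_frat [Finite X] {p : ℕ} [Fact p.Prime] {A : Subgroup X}
    (hA : IsPGroup p A) {x : X} (hxA : x ∈ Subgroup.normalizer (A : Set X))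
    (hx : (orderOf x).Coprime p)
    (h : ⁅A, Subgroup.zpowers x⁆ ≤ (frattini ↥A).map A.subtype) :
    x ∈ Subgroup.centralizer (A : Set X) := by
  have hAK : Subgroup.zpowers x ≤ Subgroup.normalizer (A : Set X) :=
    (Subgroup.zpowers_le).mpr hxA
  have hcop : (Nat.card (Subgroup.zpowers x)).Coprime (Nat.card A) := by
    obtain ⟨k, hk⟩ := IsPGroup.iff_card.mp hA
    rw [Nat.card_zpowers, hk]
    exact Nat.Coprime.pow_right k hx
  have hnil : Group.IsNilpotent A := hA.isNilpotent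
  have hsup := Cfsg.Agent.Lib.Helper1.coprime_commutator_sup (Subgroup.zpowers x) A hAK hcop
    (Or.inr inferInstance)
  have h1 : (frattini ↥A).map A.subtype ⊔
      (A ⊓ Subgroup.centralizer ((Subgroup.zpowers x : Subgroup X) : Set X)) = A := by
    apply le_antisymm (sup_le (Subgroup.map_subtype_le _) inf_le_left)
    conv_lhs => rw [← hsup]
    exact sup_le_sup_right h _
  have h2 : (A ⊓ Subgroup.centralizer ((Subgroup.zpowers x : Subgroup X) : Set X)).subgroupOf A ⊔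
      frattini ↥A = ⊤ := by
    apply Subgroup.map_injective A.subtype_injective
    rw [Subgroup.map_sup, Subgroup.map_subgroupOf_eq_of_le inf_le_left, sup_comm, h1,
      ← MonoidHom.range_eq_map, Subgroup.range_subtype]
  have h3 := frattini_nongenerating h2
  rw [Subgroup.mem_centralizer_iff]
  intro a ha
  have h4 : (⟨a, ha⟩ : A) ∈
      (A ⊓ Subgroup.centralizer ((Subgroup.zpowers x : Subgroup X) : Set X)).subgroupOf A := by
    rw [h3]; exact Subgroup.mem_top _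
  rw [Subgroup.mem_subgroupOf] at h4
  exact ((Subgroup.mem_centralizer_iff.mp (Subgroup.mem_inf.mp h4).2) x
    (Subgroup.mem_zpowers x)).symm

theorem tri_dvd {p j : ℕ} (hp : p.Prime) (hj : j ≠ 0) (h : ¬ (p = 2 ∧ j = 1)) :
    p ∣ p ^ j * (p ^ j - 1) / 2 := by
  by_cases hp2 : p = 2
  · subst hp2
    obtain ⟨i, rfl⟩ : ∃ i, j = i + 2 := by
      refine ⟨j - 2, ?_⟩
      have : j ≠ 1 := fun h1 => h ⟨rfl, h1⟩
      omega
    have e : 2 ^ (i + 2) * (2 ^ (i + 2) - 1) / 2 = 2 * (2 ^ i * (2 ^ (i + 2) - 1)) := by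
      have : 2 ^ (i + 2) * (2 ^ (i + 2) - 1) = 2 * (2 * (2 ^ i * (2 ^ (i + 2) - 1))) := by
        rw [pow_add 2 i 2]; ring
      rw [this, Nat.mul_div_cancel_left _ (by norm_num : 0 < 2)]
    rw [e]
    exact dvd_mul_right 2 _
  · have hodd : Odd p := hp.odd_of_ne_two hp2
    have hodd' : Odd (p ^ j) := hodd.pow
    obtain ⟨q, hq⟩ := hodd'
    have e : p ^ j * (p ^ j - 1) / 2 = p ^ j * q := by
      have : p ^ j - 1 = 2 * q := by omega
      rw [this, ← mul_assoc, mul_comm (p ^ j) 2, mul_assoc,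
        Nat.mul_div_cancel_left _ (by norm_num : 0 < 2)]
    rw [e]
    exact dvd_mul_of_dvd_left (dvd_pow_self p hj) q

theorem zpow_of_sq_eq_one {ζ : X} (h : ζ * ζ = 1) (l : ℤ) : ζ ^ l = 1 ∨ ζ ^ l = ζ := by
  have h2 : ζ ^ (2 : ℤ) = 1 := by
    have : ζ ^ (2 : ℤ) = ζ * ζ := by
      rw [show (2 : ℤ) = ((2 : ℕ) : ℤ) from rfl, zpow_natCast, pow_two]
    rw [this, h]
  rcases Int.even_or_odd' l with ⟨k, hk | hk⟩
  · left
    rw [hk, zpow_mul, h2, one_zpow]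
  · right
    rw [hk, zpow_add, zpow_mul, h2, one_zpow, one_mul, zpow_one]

theorem comm_of_comm_eq_one {a b : X} (h : a * b * a⁻¹ * b⁻¹ = 1) : a * b = b * a := by
  calc a * b = (a * b * a⁻¹ * b⁻¹) * (b * a) := by group
    _ = b * a := by rw [h, one_mul]

end Aux


section Config

variable {X : Type u} [Group X]

/-- Generic stability argument: `α` and its conjugate by `ξ` both stabilise the series
`W ≥ ⟨ζ⟩ ≥ 1`, so does the commutator, which then centralises `W` if it is a `p'`-element. -/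
theorem stab_generic {p : ℕ} (W : Subgroup X) [hWn : W.Normal] (hW : IsPGroup p W)
    (α ξ ζ : X) (hζα : Commute ζ α) (hζξ : Commute ζ ξ)
    (hα : ∀ σ ∈ W, σ * α * σ⁻¹ * α⁻¹ ∈ Subgroup.zpowers ζ)
    (hord : (orderOf (α * ξ * α⁻¹ * ξ⁻¹)).Coprime p) :
    ∀ σ ∈ W, σ * (α * ξ * α⁻¹ * ξ⁻¹) = (α * ξ * α⁻¹ * ξ⁻¹) * σ := by
  obtain ⟨D, hDdef⟩ : ∃ D : Subgroup X, D = Subgroup.zpowers ζ := ⟨_, rfl⟩
  rw [← hDdef] at hα
  have hcent : ∀ g : X, Commute ζ g → g ∈ Subgroup.centralizer (D : Set X) := by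
    intro g hg
    rw [Subgroup.mem_centralizer_iff]
    intro d hd
    rw [hDdef] at hd
    obtain ⟨i, rfl⟩ := Subgroup.mem_zpowers_iff.mp hd
    exact (hg.zpow_left i).eq
  have hαS : α ∈ Cfsg.Agent.Lib.Helper18.stabSeries W D :=
    Cfsg.Agent.Lib.Helper18.mem_stabSeries.mpr ⟨hcent α hζα, hα⟩
  have hWtop : ∀ g : X, g ∈ Subgroup.normalizer (W : Set X) := by
    intro g
    rw [Subgroup.normalizer_eq_top_iff.mpr hWn]
    exact Subgroup.mem_top g
  have hξN : ξ ∈ Subgroup.normalizer ((Cfsg.Agent.Lib.Helper18.stabSeries W D : Subgroup X) : Set X) := by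
    apply Cfsg.Agent.Lib.Helper18.normalizer_inf_le_normalizer_stabSeries W D
    exact Subgroup.mem_inf.mpr ⟨hWtop ξ, Subgroup.centralizer_le_normalizer _ (hcent ξ hζξ)⟩
  have hβS : ξ * α * ξ⁻¹ ∈ Cfsg.Agent.Lib.Helper18.stabSeries W D :=
    (Subgroup.mem_normalizer_iff.mp hξN α).mp hαS
  have hυS : α * ξ * α⁻¹ * ξ⁻¹ ∈ Cfsg.Agent.Lib.Helper18.stabSeries W D := by
    have e : α * ξ * α⁻¹ * ξ⁻¹ = α * (ξ * α * ξ⁻¹)⁻¹ := by group
    rw [e]
    exact Subgroup.mul_mem _ hαS (Subgroup.inv_mem _ hβS)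
  have hc := Cfsg.Agent.Lib.Helper18.commute_of_mem_stabSeries hW hord (hWtop _) hυS
  intro σ hσ
  exact Subgroup.mem_centralizer_iff.mp hc σ hσ

/-- The configuration producing a section isomorphic to the symmetric group of degree four:
an involution `τ` acting on an elementary abelian `2`-group `W` as a transvection with centre
`ζ`, and a commutator `[τ, ξ]` of odd order acting faithfully. -/
theorem s4_config [Finite X] (W : Subgroup X) [hWn : W.Normal]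
    (hWc : ∀ a ∈ W, ∀ b ∈ W, a * b = b * a) (hW2 : ∀ a ∈ W, a * a = 1)
    (τ ξ ζ : X) (hτ : τ * τ = 1) (hζW : ζ ∈ W) (hζ1 : ζ ≠ 1)
    (hT : ∀ σ ∈ W, τ * σ * τ⁻¹ = σ ∨ τ * σ * τ⁻¹ = σ * ζ)
    (hodd : Odd (orderOf (τ * ξ * τ⁻¹ * ξ⁻¹)))
    (hfaith : ∀ k : ℕ, (∀ σ ∈ W, σ * (τ * ξ * τ⁻¹ * ξ⁻¹) ^ k = (τ * ξ * τ⁻¹ * ξ⁻¹) ^ k * σ) →
       (τ * ξ * τ⁻¹ * ξ⁻¹) ^ k = 1)
    (hne : τ * ξ * τ⁻¹ * ξ⁻¹ ≠ 1) :
    Cfsg.Involves (Equiv.Perm (Fin 4)) X := by
  classical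
  have hτinv : τ⁻¹ = τ := inv_eq_of_mul_eq_one_left hτ
  obtain ⟨τ', hτ'def⟩ : ∃ τ' : X, τ' = ξ * τ * ξ⁻¹ := ⟨_, rfl⟩
  obtain ⟨υ, hυdef⟩ : ∃ υ : X, υ = τ * ξ * τ⁻¹ * ξ⁻¹ := ⟨_, rfl⟩
  rw [← hυdef] at hodd hfaith hne
  have hτ'τ' : τ' * τ' = 1 := by
    rw [hτ'def]
    calc ξ * τ * ξ⁻¹ * (ξ * τ * ξ⁻¹) = ξ * (τ * τ) * ξ⁻¹ := by group
      _ = 1 := by rw [hτ]; group
  have hτ'inv : τ'⁻¹ = τ' := inv_eq_of_mul_eq_one_left hτ'τ'
  have hυ : υ = τ * τ' := by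
    rw [hυdef, hτ'def]
    calc τ * ξ * τ⁻¹ * ξ⁻¹ = τ * (ξ * τ⁻¹ * ξ⁻¹) := by group
      _ = τ * (ξ * τ * ξ⁻¹) := by rw [hτinv]
  obtain ⟨ω, hωdef⟩ : ∃ ω : X, ω = ξ * ζ * ξ⁻¹ := ⟨_, rfl⟩
  have hωW : ω ∈ W := hωdef ▸ hWn.conj_mem ζ hζW ξ
  have hω1 : ω ≠ 1 := by
    rw [hωdef]; intro e; exact hζ1 (conj_eq_one_iff.mp e)
  have hωω : ω * ω = 1 := hW2 ω hωW
  have hζζ : ζ * ζ = 1 := hW2 ζ hζW
  have hωζ : ω * ζ = ζ * ω := hWc ω hωW ζ hζW
  have hτζ : τ * ζ * τ⁻¹ = ζ := by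
    rcases hT ζ hζW with h | h
    · exact h
    · exfalso
      rw [hζζ] at h
      exact hζ1 (conj_eq_one_iff.mp h)
  have hT' : ∀ σ ∈ W, τ' * σ * τ'⁻¹ = σ ∨ τ' * σ * τ'⁻¹ = σ * ω := by
    intro σ hσ
    have hσ₀ : ξ⁻¹ * σ * ξ ∈ W := by
      have := hWn.conj_mem σ hσ ξ⁻¹
      simpa using this
    have e : τ' * σ * τ'⁻¹ = ξ * (τ * (ξ⁻¹ * σ * ξ) * τ⁻¹) * ξ⁻¹ := by
      rw [hτ'def]; group
    rcases hT _ hσ₀ with h | h
    · left
      rw [e, h]; group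
    · right
      rw [e, h, hωdef]; group
  have hτ'ω : τ' * ω * τ'⁻¹ = ω := by
    rw [hτ'def, hωdef]
    calc ξ * τ * ξ⁻¹ * (ξ * ζ * ξ⁻¹) * (ξ * τ * ξ⁻¹)⁻¹ = ξ * (τ * ζ * τ⁻¹) * ξ⁻¹ := by group
      _ = ξ * ζ * ξ⁻¹ := by rw [hτζ]
  obtain ⟨U, hUmem, -⟩ := four_subgroup ζ ω hζζ hωω hωζ
  have h1U : (1 : X) ∈ U := U.one_mem
  have hζU : ζ ∈ U := (hUmem ζ).mpr (Or.inr (Or.inl rfl))
  have hωU : ω ∈ U := (hUmem ω).mpr (Or.inr (Or.inr (Or.inl rfl)))
  have hωζU : ω * ζ ∈ U := (hUmem _).mpr (Or.inr (Or.inr (Or.inr rfl)))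
  have hUW : U ≤ W := by
    intro u hu
    rcases (hUmem u).mp hu with rfl | rfl | rfl | rfl
    · exact W.one_mem
    · exact hζW
    · exact hωW
    · exact W.mul_mem hωW hζW
  have hυconj : ∀ σ : X, υ * σ * υ⁻¹ = τ * (τ' * σ * τ'⁻¹) * τ⁻¹ := by
    intro σ; rw [hυ]; group
  have hA : τ * ω * τ⁻¹ = ω ∨ τ * ω * τ⁻¹ = ω * ζ := hT ω hωW
  have hB : τ' * ζ * τ'⁻¹ = ζ ∨ τ' * ζ * τ'⁻¹ = ζ * ω := hT' ζ hζW
  have hυω : υ * ω * υ⁻¹ = τ * ω * τ⁻¹ := by rw [hυconj, hτ'ω]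
  have hυmul : ∀ s₁ s₂ : X, υ * (s₁ * s₂) * υ⁻¹ = (υ * s₁ * υ⁻¹) * (υ * s₂ * υ⁻¹) := by
    intro s₁ s₂; group
  have hτmul : ∀ s₁ s₂ : X, τ * (s₁ * s₂) * τ⁻¹ = (τ * s₁ * τ⁻¹) * (τ * s₂ * τ⁻¹) := by
    intro s₁ s₂; group
  have hζωζ : ζ * (ω * ζ) = ω := by
    rw [hωζ, ← mul_assoc, hζζ, one_mul]
  have hQ1 : ∀ σ ∈ W, ∃ u ∈ U, υ * σ * υ⁻¹ = σ * u := by
    intro σ hσ
    rw [hυconj]
    rcases hT' σ hσ with h1 | h1
    · rw [h1]
      rcases hT σ hσ with h2 | h2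
      · exact ⟨1, h1U, by rw [h2, mul_one]⟩
      · exact ⟨ζ, hζU, h2⟩
    · rw [h1, hτmul]
      rcases hT σ hσ with h2 | h2
      · rcases hA with h3 | h3
        · exact ⟨ω, hωU, by rw [h2, h3]⟩
        · exact ⟨ω * ζ, hωζU, by rw [h2, h3]⟩
      · rcases hA with h3 | h3
        · exact ⟨ω * ζ, hωζU, by rw [h2, h3, mul_assoc, hωζ]⟩
        · exact ⟨ω, hωU, by rw [h2, h3, mul_assoc, hζωζ]⟩
  have hQ2 : ∀ u ∈ U, υ * u * υ⁻¹ ∈ U := by
    intro u hu
    obtain ⟨u', hu', e⟩ := hQ1 u (hUW hu)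
    rw [e]; exact U.mul_mem hu hu'
  have hWpg : IsPGroup 2 W := by
    intro w
    refine ⟨1, ?_⟩
    apply Subtype.ext
    rw [pow_one, pow_two]
    exact hW2 w.1 w.2
  have hWtop : ∀ g : X, g ∈ Subgroup.normalizer (W : Set X) := by
    intro g
    rw [Subgroup.normalizer_eq_top_iff.mpr hWn]
    exact Subgroup.mem_top g
  have key : ∀ g : X, (orderOf g).Coprime 2 → (∀ σ ∈ W, ∃ u ∈ U, g * σ * g⁻¹ = σ * u) →
      (∀ u ∈ U, u * g = g * u) → ∀ σ ∈ W, σ * g = g * σ := by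
    intro g hg h1 h2
    apply Cfsg.Agent.Lib.Helper18.commute_of_coprime_of_series (W := W) (N := U) hWpg hg (hWtop g)
      ?_ h2
    intro w hw
    obtain ⟨u, hu, e⟩ := h1 w hw
    have e2 : w * g * w⁻¹ * g⁻¹ = w * (g * w * g⁻¹)⁻¹ := by group
    have e3 : w * (w * u)⁻¹ = w * u⁻¹ * w⁻¹ := by group
    rw [e2, e, e3, hWc w hw u⁻¹ (W.inv_mem (hUW hu)), mul_assoc, mul_inv_cancel, mul_one]
    exact U.inv_mem hu
  have hυ2 : (orderOf υ).Coprime 2 := (Nat.coprime_two_left.mpr hodd).symm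
  have hfixU : ∀ g : X, g * ζ * g⁻¹ = ζ → g * ω * g⁻¹ = ω → ∀ u ∈ U, u * g = g * u := by
    intro g h1 h2 u hu
    have h3 : g * u * g⁻¹ = u := by
      rcases (hUmem u).mp hu with rfl | rfl | rfl | rfl
      · group
      · exact h1
      · exact h2
      · calc g * (ω * ζ) * g⁻¹ = (g * ω * g⁻¹) * (g * ζ * g⁻¹) := by group
          _ = ω * ζ := by rw [h1, h2]
    calc u * g = (g * u * g⁻¹) * g := by rw [h3]
      _ = g * u := by group
  have hP1 : ¬ (υ * ζ * υ⁻¹ = ζ ∧ υ * ω * υ⁻¹ = ω) := by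
    rintro ⟨h1, h2⟩
    have h3 := key υ hυ2 hQ1 (hfixU υ h1 h2)
    have h4 := hfaith 1 (by simpa using h3)
    exact hne (by simpa using h4)
  have hconj2 : ∀ σ : X, υ ^ 2 * σ * (υ ^ 2)⁻¹ = υ * (υ * σ * υ⁻¹) * υ⁻¹ := by
    intro σ; rw [pow_two]; group
  have hP2 : ¬ (υ * (υ * ζ * υ⁻¹) * υ⁻¹ = ζ ∧ υ * (υ * ω * υ⁻¹) * υ⁻¹ = ω) := by
    rintro ⟨h1, h2⟩
    have hQ1' : ∀ σ ∈ W, ∃ u ∈ U, υ ^ 2 * σ * (υ ^ 2)⁻¹ = σ * u := by
      intro σ hσ
      obtain ⟨u₁, hu₁, e₁⟩ := hQ1 σ hσ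
      obtain ⟨u₂, hu₂, e₂⟩ := hQ1 u₁ (hUW hu₁)
      refine ⟨u₁ * (u₁ * u₂), U.mul_mem hu₁ (U.mul_mem hu₁ hu₂), ?_⟩
      rw [hconj2, e₁, hυmul, e₁, e₂, mul_assoc]
    have hυ22 : (orderOf (υ ^ 2)).Coprime 2 :=
      Nat.Coprime.coprime_dvd_left (orderOf_pow_dvd 2) hυ2
    have h3 := key (υ ^ 2) hυ22 hQ1'
      (hfixU (υ ^ 2) (by rw [hconj2]; exact h1) (by rw [hconj2]; exact h2))
    have h4 := hfaith 2 h3
    have h5 : orderOf υ ∣ 2 := orderOf_dvd_of_pow_eq_one h4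
    have h6 : orderOf υ = 1 := by
      rcases (Nat.dvd_prime Nat.prime_two).mp h5 with h | h
      · exact h
      · exfalso
        rw [h] at hodd
        exact absurd hodd (by decide)
    exact hne (orderOf_eq_one_iff.mp h6)
  rcases hA with hA | hA
  · rcases hB with hB | hB
    · exfalso
      apply hP1
      refine ⟨?_, ?_⟩
      · rw [hυconj, hB, hτζ]
      · rw [hυω, hA]
    · exfalso
      have e1 : υ * ζ * υ⁻¹ = ζ * ω := by rw [hυconj, hB, hτmul, hτζ, hA]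
      have e2 : υ * ω * υ⁻¹ = ω := by rw [hυω, hA]
      apply hP2
      refine ⟨?_, ?_⟩
      · rw [e1, hυmul, e1, e2, mul_assoc, hωω, mul_one]
      · rw [e2, e2]
  · rcases hB with hB | hB
    · exfalso
      have e1 : υ * ζ * υ⁻¹ = ζ := by rw [hυconj, hB, hτζ]
      have e2 : υ * ω * υ⁻¹ = ω * ζ := by rw [hυω, hA]
      apply hP2
      refine ⟨?_, ?_⟩
      · rw [e1, e1]
      · rw [e2, hυmul, e2, e1, mul_assoc, hζζ, mul_one]
    · have e1 : υ * ζ * υ⁻¹ = ω := by rw [hυconj, hB, hτmul, hτζ, hA, hζωζ]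
      have e2 : υ * ω * υ⁻¹ = ω * ζ := by rw [hυω, hA]
      have hωζne : ω ≠ ζ := by
        intro e
        rw [e, hτζ, hζζ] at hA
        exact hζ1 hA
      have hU4 : Nat.card U = 4 := card_four_subgroup U ζ ω hUmem hζζ hζ1 hω1 hωζne
      have hUc : ∀ a ∈ U, ∀ b ∈ U, a * b = b * a := fun a ha b hb => hWc a (hUW ha) b (hUW hb)
      have hyU : υ ∈ Subgroup.normalizer (U : Set X) := by
        apply Cfsg.Agent.Lib.Helper1.mem_normalizer_of_conj_smul_eq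
        apply Cfsg.Agent.Lib.Helper1.conj_smul_eq_of_le
        intro x hx
        rw [Cfsg.Agent.Lib.Helper1.mem_conj_smul_iff] at hx
        have h1 := hQ2 _ hx
        have e : υ * (υ⁻¹ * x * υ) * υ⁻¹ = x := by group
        rwa [e] at h1
      have hxU : τ ∈ Subgroup.normalizer (U : Set X) := by
        apply Cfsg.Agent.Lib.Helper1.mem_normalizer_of_conj_smul_eq
        apply Cfsg.Agent.Lib.Helper1.conj_smul_eq_of_le
        intro x hx
        rw [Cfsg.Agent.Lib.Helper1.mem_conj_smul_iff] at hx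
        have e : τ * (τ⁻¹ * x * τ) * τ⁻¹ = x := by group
        rcases hT _ (hUW hx) with h | h
        · rw [e] at h
          rw [h]; exact hx
        · rw [e] at h
          rw [h]; exact U.mul_mem hx hζU
      have hyfpf : ∀ u ∈ U, υ * u * υ⁻¹ = u → u = 1 := by
        intro u hu hfix
        rcases (hUmem u).mp hu with rfl | rfl | rfl | rfl
        · rfl
        · exfalso
          rw [e1] at hfix
          exact hωζne hfix
        · exfalso
          rw [e2] at hfix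
          exact hζ1 (mul_eq_left.mp hfix)
        · exfalso
          rw [hυmul, e1, e2, mul_assoc] at hfix
          have h7 : ζ * ω = ζ := mul_left_cancel hfix
          exact hω1 (mul_eq_left.mp h7)
      have hτυ : τ * υ * τ⁻¹ = υ⁻¹ := by
        rw [hυ, mul_inv_rev, hτinv, hτ'inv]
        calc τ * (τ * τ') * τ = (τ * τ) * τ' * τ := by group
          _ = τ' * τ := by rw [hτ, one_mul]
      have hxy : τ ∈ Subgroup.normalizer ((Subgroup.zpowers υ : Subgroup X) : Set X) := by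
        apply Cfsg.Agent.Lib.Helper1.mem_normalizer_of_conj_smul_eq
        apply Cfsg.Agent.Lib.Helper1.conj_smul_eq_of_le
        intro x hx
        rw [Cfsg.Agent.Lib.Helper1.mem_conj_smul_iff] at hx
        obtain ⟨i, hi⟩ := Subgroup.mem_zpowers_iff.mp hx
        have e : x = τ * υ ^ i * τ⁻¹ := by rw [hi]; group
        rw [e, ← conj_zpow, hτυ]
        exact Subgroup.zpow_mem _ (Subgroup.inv_mem _ (Subgroup.mem_zpowers υ)) i
      have hx2 : ∃ k : ℕ, τ ^ (2 ^ k) = 1 := ⟨1, by rw [pow_one, pow_two]; exact hτ⟩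
      have hxn : ∃ u ∈ U, τ * u * τ⁻¹ ≠ u := by
        refine ⟨ω, hωU, ?_⟩
        rw [hA]
        intro e
        exact hζ1 (mul_eq_left.mp e)
      exact Cfsg.Agent.Lib.Helper17.involves_s4 U hU4 hUc υ τ hyU hxU hodd hyfpf hxy hx2 hxn

end Config


section Main

variable {G : Type u} [Group G] [Finite G] {p : ℕ} [hp : Fact p.Prime]

set_option maxHeartbeats 1600000 in
/-- Core statement in abstract form: `R` a normal self-centralising `p`-subgroup, `K` a normal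
`p'`-subgroup of `G / R` containing its centraliser, `a` a `p`-element with `[R, a] ≤ ⟨a⟩`. -/
theorem cyc_core_aux (R : Subgroup G) [hRn : R.Normal] (hRp : IsPGroup p R)
    (hCR : Subgroup.centralizer (R : Set G) ≤ R)
    (K : Subgroup (G ⧸ R)) [hKn : K.Normal] (hKcop : (Nat.card K).Coprime p)
    (hCK : Subgroup.centralizer (K : Set (G ⧸ R)) ≤ K)
    (a : G) (hap : ∃ k : ℕ, a ^ p ^ k = 1)
    (hnorm : ∀ s ∈ R, s * a * s⁻¹ ∈ Subgroup.zpowers a)
    (h : p ≠ 2 ∨ ¬ Cfsg.Involves (Equiv.Perm (Fin 4)) G) : a ∈ R := by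
  classical
  by_contra haR
  obtain ⟨π, hπdef⟩ : ∃ π : G →* G ⧸ R, π = QuotientGroup.mk' R := ⟨_, rfl⟩
  have hπs : Function.Surjective π := hπdef ▸ QuotientGroup.mk'_surjective R
  have hπ1 : ∀ g : G, π g = 1 ↔ g ∈ R := by
    intro g; rw [hπdef]; exact QuotientGroup.eq_one_iff g
  obtain ⟨t, htdef⟩ : ∃ t : G ⧸ R, t = π a := ⟨_, rfl⟩
  have ht1 : t ≠ 1 := by
    intro h1; rw [htdef] at h1; exact haR ((hπ1 a).mp h1)
  obtain ⟨m, hmdef⟩ : ∃ m : ℕ, m = orderOf t := ⟨_, rfl⟩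
  obtain ⟨k₀, hk₀⟩ := hap
  have htk : t ^ p ^ k₀ = 1 := by rw [htdef, ← map_pow, hk₀, map_one]
  have hmdvd : m ∣ p ^ k₀ := hmdef ▸ orderOf_dvd_of_pow_eq_one htk
  obtain ⟨j, -, hmj⟩ := (Nat.dvd_prime_pow hp.out).mp hmdvd
  have hj0 : j ≠ 0 := by
    rintro rfl
    rw [pow_zero] at hmj
    apply ht1
    rw [← orderOf_eq_one_iff, ← hmdef, hmj]
  have hpm : p ∣ m := by rw [hmj]; exact dvd_pow_self p hj0
  have htm : t ^ m = 1 := by rw [hmdef]; exact pow_orderOf_eq_one t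
  have hzR : a ^ m ∈ R := by
    rw [← hπ1, map_pow, ← htdef, htm]
  have hcomm : ∀ s ∈ R, ∃ l : ℤ, s * a * s⁻¹ * a⁻¹ = (a ^ m) ^ l := by
    intro s hs
    obtain ⟨i, hi⟩ := Subgroup.mem_zpowers_iff.mp (hnorm s hs)
    have h1 : s * a * s⁻¹ * a⁻¹ ∈ R := by
      have h2 : a * s⁻¹ * a⁻¹ ∈ R := hRn.conj_mem s⁻¹ (R.inv_mem hs) a
      have e : s * a * s⁻¹ * a⁻¹ = s * (a * s⁻¹ * a⁻¹) := by group
      rw [e]; exact R.mul_mem hs h2
    have h3 : s * a * s⁻¹ * a⁻¹ = a ^ (i - 1) := by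
      rw [← hi, zpow_sub, zpow_one]
    rw [h3] at h1 ⊢
    have h4 : t ^ (i - 1) = 1 := by
      rw [htdef, ← map_zpow]; exact (hπ1 _).mpr h1
    have h5 : ((orderOf t : ℕ) : ℤ) ∣ i - 1 := orderOf_dvd_iff_zpow_eq_one.mpr h4
    rw [← hmdef] at h5
    obtain ⟨l, hl⟩ := h5
    refine ⟨l, ?_⟩
    rw [hl, zpow_mul, zpow_natCast]
  -- the preimage of `K` and a complement to `R` in it
  obtain ⟨M, hMdef⟩ : ∃ M : Subgroup G, M = K.comap π := ⟨_, rfl⟩
  have hMmem : ∀ g : G, g ∈ M ↔ π g ∈ K := by intro g; rw [hMdef, Subgroup.mem_comap]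
  have hRM : R ≤ M := by
    intro x hx
    rw [hMmem, (hπ1 x).mpr hx]
    exact K.one_mem
  haveI hMn : M.Normal := by rw [hMdef]; exact hKn.comap π
  have hrel : R.relIndex M = Nat.card K := by
    have e1 : R = (⊥ : Subgroup (G ⧸ R)).comap π := by
      rw [MonoidHom.comap_bot, hπdef, QuotientGroup.ker_mk']
    conv_lhs => rw [e1]
    rw [Subgroup.relIndex_comap, Subgroup.relIndex_bot_left, hMdef,
      Subgroup.map_comap_eq_self_of_surjective hπs]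
  haveI hRMn : (R.subgroupOf M).Normal := inferInstance
  have hcopM : (Nat.card (R.subgroupOf M)).Coprime (R.subgroupOf M).index := by
    have e2 : (R.subgroupOf M).index = Nat.card K := hrel
    rw [e2]
    have h1 : IsPGroup p (R.subgroupOf M) := hRp.comap_subtype
    obtain ⟨e, he⟩ := IsPGroup.iff_card.mp h1
    rw [he]
    exact Nat.Coprime.pow_left e hKcop.symm
  obtain ⟨H', hH'⟩ := Subgroup.exists_right_complement'_of_coprime hcopM
  obtain ⟨Kh, hKhdef⟩ : ∃ Kh : Subgroup G, Kh = H'.map M.subtype := ⟨_, rfl⟩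
  have hKhM : Kh ≤ M := hKhdef ▸ Subgroup.map_subtype_le _
  have hKhR : ∀ x ∈ R, x ∈ Kh → x = 1 := by
    intro x hxR hxK
    rw [hKhdef] at hxK
    obtain ⟨x', hx', rfl⟩ := hxK
    have h1 : x' ∈ R.subgroupOf M ⊓ H' :=
      Subgroup.mem_inf.mpr ⟨Subgroup.mem_subgroupOf.mpr hxR, hx'⟩
    rw [hH'.disjoint.eq_bot, Subgroup.mem_bot] at h1
    rw [h1]; rfl
  have hKhcard : Nat.card Kh = Nat.card K := by
    have e1 : Nat.card Kh = Nat.card H' := by
      rw [hKhdef]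
      exact Nat.card_congr
        (Subgroup.equivMapOfInjective H' M.subtype M.subtype_injective).toEquiv.symm
    have e2 := hH'.card_mul_card
    have e3 := Subgroup.card_mul_index (R.subgroupOf M)
    have e4 : (R.subgroupOf M).index = Nat.card K := hrel
    have hpos : 0 < Nat.card (R.subgroupOf M) := Nat.card_pos
    rw [e1]
    have e5 : Nat.card (R.subgroupOf M) * Nat.card H' =
        Nat.card (R.subgroupOf M) * Nat.card K := by
      rw [e2, ← e4, e3]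
    exact Nat.eq_of_mul_eq_mul_left hpos e5
  have hKhcop : (Nat.card Kh).Coprime p := hKhcard ▸ hKcop
  have hMdecomp : ∀ g ∈ M, ∃ n ∈ R, ∃ x ∈ Kh, g = n * x := by
    intro g hg
    obtain ⟨n, hn, x, hx, e⟩ :=
      Cfsg.Agent.Lib.Helper1.IsComplement'.exists_mul hH' (⟨g, hg⟩ : M)
    refine ⟨n, Subgroup.mem_subgroupOf.mp hn, x, ?_, ?_⟩
    · rw [hKhdef]; exact ⟨x, hx, rfl⟩
    · have e' := congrArg Subtype.val e
      exact e'
  have hKsurj : ∀ k ∈ K, ∃ x ∈ Kh, π x = k := by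
    intro k hk
    obtain ⟨g, rfl⟩ := hπs k
    obtain ⟨n, hn, x, hx, e⟩ := hMdecomp g ((hMmem g).mpr hk)
    refine ⟨x, hx, ?_⟩
    rw [e, map_mul, (hπ1 n).mpr hn, one_mul]
  have hMsup : M ≤ R ⊔ Kh := by
    intro g hg
    obtain ⟨n, hn, x, hx, e⟩ := hMdecomp g hg
    rw [e]; exact Subgroup.mul_mem_sup hn hx
  -- Schur–Zassenhaus: a conjugate of `a` under `R` normalises the complement
  have hB : MulAut.conj a • Kh ≤ R ⊔ Kh := by
    intro x hx
    rw [Cfsg.Agent.Lib.Helper1.mem_conj_smul_iff] at hx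
    have h1 : a⁻¹ * x * a ∈ M := hKhM hx
    have h2 := hMn.conj_mem _ h1 a
    have e : a * (a⁻¹ * x * a) * a⁻¹ = x := by group
    rw [e] at h2
    exact hMsup h2
  have hcopKR : (Nat.card Kh).Coprime (Nat.card R) := by
    obtain ⟨e, he⟩ := IsPGroup.iff_card.mp hRp
    rw [he]; exact Nat.Coprime.pow_right e hKhcop
  haveI hRnil : Group.IsNilpotent R := hRp.isNilpotent
  have hKhN : Kh ≤ Subgroup.normalizer (R : Set G) := by
    rw [Subgroup.normalizer_eq_top_iff.mpr hRn]; exact le_top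
  obtain ⟨r, hr, hrconj⟩ := Cfsg.Agent.Lib.Helper1.sz_conj_rel Kh R hKhN hcopKR
    (Or.inr inferInstance) (MulAut.conj a • Kh) hB (Cfsg.Agent.Lib.Helper1.card_conj_smul a Kh)
  obtain ⟨a', ha'def⟩ : ∃ a' : G, a' = r⁻¹ * a := ⟨_, rfl⟩
  have ha'K : MulAut.conj a' • Kh = Kh := by
    rw [ha'def, Cfsg.Agent.Lib.Helper1.conj_mul_smul, ← hrconj,
      ← Cfsg.Agent.Lib.Helper1.conj_mul_smul, inv_mul_cancel, map_one, one_smul]
  have ha'norm : ∀ n : ℕ, ∀ x ∈ Kh, a' ^ n * x * (a' ^ n)⁻¹ ∈ Kh := by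
    intro n
    induction n with
    | zero => intro x hx; simpa using hx
    | succ n ih =>
      intro x hx
      have h1 := Cfsg.Agent.Lib.Helper1.conj_mem_conj_smul a' _ Kh (ih x hx)
      rw [ha'K] at h1
      have e : a' ^ (n + 1) * x * (a' ^ (n + 1))⁻¹ = a' * (a' ^ n * x * (a' ^ n)⁻¹) * a'⁻¹ := by
        rw [pow_succ', mul_inv_rev]; simp only [mul_assoc]
      rw [e]; exact h1
  have hπa' : π a' = t := by
    rw [ha'def, map_mul, map_inv, (hπ1 r).mpr hr, inv_one, one_mul, htdef]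
  have hz'R : a' ^ m ∈ R := by
    rw [← hπ1, map_pow, hπa', htm]
  have hz'comm : ∀ x ∈ Kh, a' ^ m * x = x * a' ^ m := by
    intro x hx
    have h1 : a' ^ m * x * (a' ^ m)⁻¹ * x⁻¹ ∈ Kh := Kh.mul_mem (ha'norm m x hx) (Kh.inv_mem hx)
    have h2 : a' ^ m * x * (a' ^ m)⁻¹ * x⁻¹ ∈ R := by
      have h3 : x * (a' ^ m)⁻¹ * x⁻¹ ∈ R := hRn.conj_mem _ (R.inv_mem hz'R) x
      have e : a' ^ m * x * (a' ^ m)⁻¹ * x⁻¹ = a' ^ m * (x * (a' ^ m)⁻¹ * x⁻¹) := by
        simp only [mul_assoc]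
      rw [e]; exact R.mul_mem hz'R h3
    exact comm_of_comm_eq_one (hKhR _ h2 h1)
  have hex : ∃ x ∈ Kh, a' * x * a'⁻¹ ≠ x := by
    by_contra hcon
    push Not at hcon
    have htK : t ∈ Subgroup.centralizer (K : Set (G ⧸ R)) := by
      rw [Subgroup.mem_centralizer_iff]
      intro k hk
      obtain ⟨x, hx, rfl⟩ := hKsurj k hk
      have h1 := hcon x hx
      have h2 : t * π x * t⁻¹ = π x := by
        rw [← hπa', ← map_mul, ← map_inv, ← map_mul, h1]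
      calc π x * t = (t * π x * t⁻¹) * t := by rw [h2]
        _ = t * π x := by group
    have htK' : t ∈ K := hCK htK
    have h3 : orderOf t ∣ Nat.card K := by
      have h4 := orderOf_dvd_natCard (⟨t, htK'⟩ : K)
      rwa [Subgroup.orderOf_mk] at h4
    rw [← hmdef] at h3
    have h5 : p = 1 := Nat.Coprime.eq_one_of_dvd hKcop.symm (hpm.trans h3)
    exact hp.out.ne_one h5
  obtain ⟨x, hxK, hxne⟩ := hex
  obtain ⟨y, hydef⟩ : ∃ y : G, y = a' * x * a'⁻¹ * x⁻¹ := ⟨_, rfl⟩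
  have hyK : y ∈ Kh := by
    rw [hydef]
    have h1 := ha'norm 1 x hxK
    rw [pow_one] at h1
    exact Kh.mul_mem h1 (Kh.inv_mem hxK)
  have hy1 : y ≠ 1 := by
    intro e; apply hxne
    rw [hydef] at e
    exact mul_inv_eq_one.mp e
  have hordK : ∀ g ∈ Kh, (orderOf g).Coprime p := by
    intro g hg
    have h1 : orderOf g ∣ Nat.card Kh := by
      have h2 := orderOf_dvd_natCard (⟨g, hg⟩ : Kh)
      rwa [Subgroup.orderOf_mk] at h2
    exact Nat.Coprime.coprime_dvd_left h1 hKhcop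
  -- the Frattini quotient
  obtain ⟨F, hFdef⟩ : ∃ F : Subgroup G, F = (frattini ↥R).map R.subtype := ⟨_, rfl⟩
  have hFR : F ≤ R := hFdef ▸ Subgroup.map_subtype_le _
  haveI hFn : F.Normal := by
    have h1 := Cfsg.Agent.Lib.Helper18.normalizer_le_normalizer_map_frattini R
    rw [Subgroup.normalizer_eq_top_iff.mpr hRn, ← hFdef] at h1
    exact Subgroup.normalizer_eq_top_iff.mp (top_le_iff.mp h1)
  have hFcomm : ∀ u ∈ R, ∀ v ∈ R, u * v * u⁻¹ * v⁻¹ ∈ F := by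
    intro u hu v hv
    have h1 := Cfsg.Agent.Lib.Helper18.commutator_le_map_frattini hRp
      (Subgroup.commutator_mem_commutator hu hv)
    rw [← hFdef] at h1
    rwa [commutatorElement_def] at h1
  have hFpow : ∀ u ∈ R, u ^ p ∈ F := by
    intro u hu
    have h1 := pow_mem_frat hRp (⟨u, hu⟩ : R)
    rw [hFdef]
    exact ⟨_, h1, rfl⟩
  obtain ⟨ρ, hρdef⟩ : ∃ ρ : G →* G ⧸ F, ρ = QuotientGroup.mk' F := ⟨_, rfl⟩
  have hρs : Function.Surjective ρ := hρdef ▸ QuotientGroup.mk'_surjective F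
  have hρ1 : ∀ g : G, ρ g = 1 ↔ g ∈ F := by
    intro g; rw [hρdef]; exact QuotientGroup.eq_one_iff g
  obtain ⟨W, hWdef⟩ : ∃ W : Subgroup (G ⧸ F), W = R.map ρ := ⟨_, rfl⟩
  haveI hWn : W.Normal := by rw [hWdef]; exact hRn.map ρ hρs
  have hWmem : ∀ s ∈ R, ρ s ∈ W := by
    intro s hs; rw [hWdef]; exact Subgroup.mem_map_of_mem ρ hs
  have hWex : ∀ σ ∈ W, ∃ s ∈ R, ρ s = σ := by
    intro σ hσ; rw [hWdef] at hσ; exact Subgroup.mem_map.mp hσ
  have hWc : ∀ u ∈ W, ∀ v ∈ W, u * v = v * u := by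
    intro u hu v hv
    obtain ⟨u₀, hu₀, rfl⟩ := hWex u hu
    obtain ⟨v₀, hv₀, rfl⟩ := hWex v hv
    apply comm_of_comm_eq_one
    rw [← map_inv, ← map_inv, ← map_mul, ← map_mul, ← map_mul]
    exact (hρ1 _).mpr (hFcomm u₀ hu₀ v₀ hv₀)
  have hWp : ∀ u ∈ W, u ^ p = 1 := by
    intro u hu
    obtain ⟨u₀, hu₀, rfl⟩ := hWex u hu
    rw [← map_pow]; exact (hρ1 _).mpr (hFpow u₀ hu₀)
  have hWpg : IsPGroup p W := by rw [hWdef]; exact hRp.map ρ
  obtain ⟨α, hαdef⟩ : ∃ α : G ⧸ F, α = ρ a := ⟨_, rfl⟩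
  obtain ⟨β, hβdef⟩ : ∃ β : G ⧸ F, β = ρ r⁻¹ := ⟨_, rfl⟩
  obtain ⟨ζ, hζdef⟩ : ∃ ζ : G ⧸ F, ζ = ρ (a ^ m) := ⟨_, rfl⟩
  have hβW : β ∈ W := hβdef ▸ hWmem _ (R.inv_mem hr)
  have hζW : ζ ∈ W := hζdef ▸ hWmem _ hzR
  have hζα' : ζ = α ^ m := by rw [hζdef, hαdef, map_pow]
  have hζα : Commute ζ α := by rw [hζα']; exact (Commute.refl α).pow_left m
  have hρa' : ρ a' = β * α := by rw [ha'def, map_mul, hβdef, hαdef]
  have hcommX : ∀ σ ∈ W, ∃ l : ℤ, σ * α * σ⁻¹ * α⁻¹ = ζ ^ l := by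
    intro σ hσ
    obtain ⟨s, hs, rfl⟩ := hWex σ hσ
    obtain ⟨l, hl⟩ := hcomm s hs
    refine ⟨l, ?_⟩
    rw [hαdef, hζdef, ← map_inv, ← map_inv, ← map_mul, ← map_mul, ← map_mul, hl, map_zpow]
  have hcommX' : ∀ σ ∈ W, ∃ l : ℤ, σ * (β * α) * σ⁻¹ * (β * α)⁻¹ = ζ ^ l := by
    intro σ hσ
    obtain ⟨l, hl⟩ := hcommX σ hσ
    refine ⟨l, ?_⟩
    have hζl : ζ ^ l ∈ W := W.zpow_mem hζW l
    calc σ * (β * α) * σ⁻¹ * (β * α)⁻¹ = (σ * β) * α * σ⁻¹ * α⁻¹ * β⁻¹ := by group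
      _ = (β * σ) * α * σ⁻¹ * α⁻¹ * β⁻¹ := by rw [hWc σ hσ β hβW]
      _ = β * (σ * α * σ⁻¹ * α⁻¹) * β⁻¹ := by group
      _ = β * ζ ^ l * β⁻¹ := by rw [hl]
      _ = ζ ^ l * β * β⁻¹ := by rw [hWc β hβW (ζ ^ l) hζl]
      _ = ζ ^ l := by rw [mul_assoc, mul_inv_cancel, mul_one]
  obtain ⟨lc, hlc⟩ := hcommX β hβW
  obtain ⟨c, hcdef⟩ : ∃ c : G ⧸ F, c = α * β * α⁻¹ * β⁻¹ := ⟨_, rfl⟩
  have hc : c = ζ ^ (-lc) := by
    rw [hcdef, zpow_neg, ← hlc]; group
  have hcW : c ∈ W := hc ▸ W.zpow_mem hζW _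
  have hKL : (β * α) ^ m = c ^ (m * (m - 1) / 2) * ζ := by
    have h1 : α * β = c * β * α := by rw [hcdef]; group
    have h2 : Commute c β := hWc c hcW β hβW
    have h3 : Commute c α := by rw [hc]; exact hζα.zpow_left _
    rw [mul_pow_central h1 h2 h3 m]
    have h4 : β ^ m = 1 := by
      obtain ⟨m', hm'⟩ := hpm
      rw [hm', pow_mul, hWp β hβW, one_pow]
    rw [h4, one_mul, ← hζα']
  have hfaithG : ∀ g ∈ Kh, (∀ σ ∈ W, σ * ρ g = ρ g * σ) → g = 1 := by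
    intro g hg hcen
    have hgN : g ∈ Subgroup.normalizer (R : Set G) := by
      rw [Subgroup.normalizer_eq_top_iff.mpr hRn]; exact Subgroup.mem_top g
    have hcomm' : ⁅R, Subgroup.zpowers g⁆ ≤ (frattini ↥R).map R.subtype := by
      rw [← hFdef, Subgroup.commutator_le]
      intro s hs g' hg'
      obtain ⟨i, rfl⟩ := Subgroup.mem_zpowers_iff.mp hg'
      rw [← hρ1, commutatorElement_def, map_mul, map_mul, map_mul, map_inv, map_inv, map_zpow]
      have h1 : Commute (ρ s) (ρ g) := hcen _ (hWmem s hs)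
      have h2 : Commute (ρ s) (ρ g ^ i) := h1.zpow_right i
      rw [h2.eq, mul_assoc (ρ g ^ i), mul_inv_cancel, mul_one, mul_inv_cancel]
    have h3 := burnside_frat hRp hgN (hordK g hg) hcomm'
    exact hKhR g (hCR h3) hg
  have hρy : ρ y = (β * α) * ρ x * (β * α)⁻¹ * (ρ x)⁻¹ := by
    rw [hydef, map_mul, map_mul, map_mul, map_inv, map_inv, hρa']
  have hζ'def : ρ (a' ^ m) = (β * α) ^ m := by rw [map_pow, hρa']
  have hζ'ξ : Commute ((β * α) ^ m) (ρ x) := by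
    have h1 := hz'comm x hxK
    have h2 := congrArg ρ h1
    rw [map_mul, map_mul, hζ'def] at h2
    exact h2
  by_cases hgen : (β * α) ^ m = ζ
  · have hαstab : ∀ σ ∈ W,
        σ * (β * α) * σ⁻¹ * (β * α)⁻¹ ∈ Subgroup.zpowers ((β * α) ^ m) := by
      intro σ hσ
      obtain ⟨l, hl⟩ := hcommX' σ hσ
      rw [hl, hgen]
      exact Subgroup.zpow_mem _ (Subgroup.mem_zpowers ζ) l
    have hord : (orderOf ((β * α) * ρ x * (β * α)⁻¹ * (ρ x)⁻¹)).Coprime p := by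
      rw [← hρy]
      exact Nat.Coprime.coprime_dvd_left (orderOf_map_dvd ρ y) (hordK y hyK)
    have h1 := stab_generic W hWpg (β * α) (ρ x) ((β * α) ^ m)
      ((Commute.refl (β * α)).pow_left m) hζ'ξ hαstab hord
    rw [← hρy] at h1
    exact hy1 (hfaithG y hyK h1)
  · have hpj : p = 2 ∧ j = 1 := by
      by_contra hcon
      have h1 := tri_dvd hp.out hj0 hcon
      rw [← hmj] at h1
      apply hgen
      obtain ⟨q, hq⟩ := h1
      rw [hKL, hq, pow_mul, hWp c hcW, one_pow, one_mul]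
    obtain ⟨hp2, hj1⟩ := hpj
    have hm2 : m = 2 := by rw [hmj, hp2, hj1, pow_one]
    have hInv : ¬ Cfsg.Involves (Equiv.Perm (Fin 4)) G := by
      rcases h with h | h
      · exact absurd hp2 h
      · exact h
    apply hInv
    apply Cfsg.Agent.Lib.Helper17.involves_of_quotient F
    have hW2 : ∀ u ∈ W, u * u = 1 := by
      intro u hu
      have h1 := hWp u hu
      rw [hp2, pow_two] at h1
      exact h1
    have hζζ : ζ * ζ = 1 := hW2 ζ hζW
    have hKL2 : (β * α) ^ m = c * ζ := by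
      rw [hKL, hm2]; norm_num
    have hc1 : c = ζ := by
      rcases zpow_of_sq_eq_one hζζ (-lc) with h1 | h1
      · exfalso
        apply hgen
        rw [hKL2, hc, h1, one_mul]
      · rw [hc, h1]
    have hτ : (β * α) * (β * α) = 1 := by
      have h1 := hKL2
      rw [hm2, pow_two, hc1, hζζ] at h1
      exact h1
    have hζ1 : ζ ≠ 1 := by
      intro e
      apply hgen
      rw [hKL2, hc1, e, one_mul]
    have hT : ∀ σ ∈ W, (β * α) * σ * (β * α)⁻¹ = σ ∨ (β * α) * σ * (β * α)⁻¹ = σ * ζ := by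
      intro σ hσ
      obtain ⟨l, hl⟩ := hcommX' σ hσ
      have e : (β * α) * σ * (β * α)⁻¹ = (σ * (β * α) * σ⁻¹ * (β * α)⁻¹)⁻¹ * σ := by group
      rw [e, hl]
      rcases zpow_of_sq_eq_one hζζ l with h1 | h1
      · left; rw [h1, inv_one, one_mul]
      · right
        rw [h1, inv_eq_of_mul_eq_one_left hζζ, hWc ζ hζW σ hσ]
    have hodd : Odd (orderOf ((β * α) * ρ x * (β * α)⁻¹ * (ρ x)⁻¹)) := by
      rw [← hρy]
      have h1 : (orderOf (ρ y)).Coprime p :=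
        Nat.Coprime.coprime_dvd_left (orderOf_map_dvd ρ y) (hordK y hyK)
      rw [hp2] at h1
      exact Nat.coprime_two_left.mp h1.symm
    have hfaith : ∀ k : ℕ, (∀ σ ∈ W, σ * ((β * α) * ρ x * (β * α)⁻¹ * (ρ x)⁻¹) ^ k =
        ((β * α) * ρ x * (β * α)⁻¹ * (ρ x)⁻¹) ^ k * σ) →
        ((β * α) * ρ x * (β * α)⁻¹ * (ρ x)⁻¹) ^ k = 1 := by
      intro k hk
      rw [← hρy, ← map_pow] at hk ⊢
      rw [hfaithG (y ^ k) (Kh.pow_mem hyK k) hk, map_one]
    have hne : (β * α) * ρ x * (β * α)⁻¹ * (ρ x)⁻¹ ≠ 1 := by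
      rw [← hρy]
      intro e
      have h1 : y ∈ F := (hρ1 y).mp e
      exact hy1 (hKhR y (hFR h1) hyK)
    exact s4_config W hWc hW2 (β * α) (ρ x) ζ hτ hζW hζ1 hT hodd hfaith hne

/-- In a `p`-soluble group with `O_{p'}(G) = 1`, a `p`-element `a` with `[O_p(G), a] ≤ ⟨a⟩` lies in
`O_p(G)`, if `p` is odd or the symmetric group of degree four is not involved. -/
theorem cyc_core (hsol : IsPSolvable p G) (hO : pPrimeCore p G = ⊥)
    (a : G) (hap : ∃ k : ℕ, a ^ p ^ k = 1)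
    (hnorm : ∀ s ∈ pCore p G, s * a * s⁻¹ ∈ Subgroup.zpowers a)
    (h : p ≠ 2 ∨ ¬ Cfsg.Involves (Equiv.Perm (Fin 4)) G) : a ∈ pCore p G := by
  have hsolH : IsPSolvable p (G ⧸ pCore p G) :=
    Cfsg.Agent.Lib.Helper6.isPSolvable_quotient hp.out (pCore p G) hsol
  exact cyc_core_aux (pCore p G) (Cfsg.Agent.Lib.Helper14.pCore_isPGroup p)
    (Cfsg.Agent.Lib.Helper6.centralizer_pCore_le_of_isPSolvable hsol hO)
    (pPrimeCore p (G ⧸ pCore p G)) (Cfsg.Agent.Lib.Helper14.pPrimeCore_coprime p)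
    (Cfsg.Agent.Lib.Helper6.centralizer_pPrimeCore_le_of_isPSolvable hsolH
      Cfsg.Agent.Lib.Helper6.pCore_quotient_pCore_eq_bot) a hap hnorm h

/-- A cyclic normal subgroup of a Sylow `p`-subgroup of a `p`-soluble group lies in `O_{p',p}(G)`,
if `p` is odd or the symmetric group of degree four is not involved. -/
theorem cyc_normal_le (hG : IsPSolvable p G) (P : Sylow p G) (A : Subgroup G)
    (hAP : A ≤ (P : Subgroup G)) (hAn : (P : Subgroup G) ≤ Subgroup.normalizer (A : Set G))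
    (hA : IsCyclic A) (h : p ≠ 2 ∨ ¬ Cfsg.Involves (Equiv.Perm (Fin 4)) G) :
    A ≤ pPrimePCore p G := by
  obtain ⟨g, hg⟩ := hA.exists_generator
  have hsol' : IsPSolvable p (G ⧸ pPrimeCore p G) :=
    Cfsg.Agent.Lib.Helper6.isPSolvable_quotient hp.out (pPrimeCore p G) hG
  have hO' : pPrimeCore p (G ⧸ pPrimeCore p G) = ⊥ :=
    Cfsg.Agent.Lib.Helper6.pPrimeCore_quotient_pPrimeCore_eq_bot
  obtain ⟨π, hπdef⟩ : ∃ π : G →* G ⧸ pPrimeCore p G, π = QuotientGroup.mk' (pPrimeCore p G) :=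
    ⟨_, rfl⟩
  have hπs : Function.Surjective π := hπdef ▸ QuotientGroup.mk'_surjective _
  have hgP : (g : G) ∈ (P : Subgroup G) := hAP g.2
  have hPmap : pCore p (G ⧸ pPrimeCore p G) ≤ (P : Subgroup G).map π := by
    have h1 : IsPGroup p ((P : Subgroup G).map π) := P.isPGroup'.map π
    have h2 : ¬ p ∣ ((P : Subgroup G).map π).index := by
      intro hdvd
      have h3 := Subgroup.index_map_dvd (P : Subgroup G) hπs
      exact P.not_dvd_index (hdvd.trans h3)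
    have h4 := Cfsg.Agent.Lib.Helper1.pCore_le_sylow (h1.toSylow h2)
    rwa [IsPGroup.toSylow_coe] at h4
  have key : π g ∈ pCore p (G ⧸ pPrimeCore p G) := by
    apply cyc_core hsol' hO' (π g)
    · obtain ⟨k, hk⟩ := P.isPGroup' ⟨g, hgP⟩
      refine ⟨k, ?_⟩
      have hk' := congrArg Subtype.val hk
      have hk'' : (g : G) ^ p ^ k = 1 := hk'
      rw [← map_pow, hk'', map_one]
    · intro s hs
      obtain ⟨u, hu, rfl⟩ := hPmap hs
      have h1 : u * g * u⁻¹ ∈ A := (Subgroup.mem_normalizer_iff.mp (hAn hu) g).mp g.2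
      obtain ⟨i, hi⟩ := Subgroup.mem_zpowers_iff.mp (hg ⟨_, h1⟩)
      have hi' := congrArg Subtype.val hi
      have hi'' : (g : G) ^ i = u * g * u⁻¹ := hi'
      rw [Subgroup.mem_zpowers_iff]
      refine ⟨i, ?_⟩
      rw [← map_zpow, hi'', map_mul, map_mul, map_inv]
    · rcases h with h | h
      · exact Or.inl h
      · exact Or.inr (fun hinv =>
          h (Cfsg.Agent.Lib.Helper17.involves_of_quotient (pPrimeCore p G) hinv))
  intro x hx
  obtain ⟨i, hi⟩ := Subgroup.mem_zpowers_iff.mp (hg ⟨x, hx⟩)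
  have hi' := congrArg Subtype.val hi
  have hxi : (g : G) ^ i = x := hi'
  show x ∈ (pCore p (G ⧸ pPrimeCore p G)).comap (QuotientGroup.mk' (pPrimeCore p G))
  rw [Subgroup.mem_comap, ← hπdef, ← hxi, map_zpow]
  exact Subgroup.zpow_mem _ key i

end Main

end Cfsg.Agent.Lib.Helper11
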