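import Mathlib

set_option autoImplicit false

namespace Cfsg.Agent.Lib.Helper11

theorem d8mod_zmod2_cases : ∀ c : ZMod 2, c = 0 ∨ c = 1 := by decide

theorem d8mod_tuple_eq : ∀ x y : ZMod 2 × ZMod 2 × ZMod 2 × ZMod 2, x + y = 0 → x = y := by
  decide

theorem d8mod_char2 {M : Type*} [AddCommGroup M] [Module (ZMod 2) M] (m : M) : m + m = 0 := by
  have h : (2 : ZMod 2) • m = 0 := by
    have h2 : (2 : ZMod 2) = 0 := by decide
    rw [h2, zero_smul]
  rwa [two_smul] at h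

theorem d8mod_core {M : Type*} [AddCommGroup M] [Module (ZMod 2) M] [Nontrivial M]
    (α β R σ : Module.End (ZMod 2) M)
    (ha3 : α * α * α = 1) (hb3 : β * β * β = 1) (hab : α * β = β * α)
    (hra : R * α = β * R) (hrb : R * β = α * α * R)
    (hsa : σ * α = α * σ) (hsb : σ * β = β * β * σ) (hs2 : σ * σ = 1)
    (hr4 : R * R * R * R = 1) (hsr : σ * R = R * R * R * σ)
    (hE : α + α * α + β + β * β = 1)
    (hirr : ∀ N : Submodule (ZMod 2) M, (∀ m ∈ N, α m ∈ N) → (∀ m ∈ N, β m ∈ N) →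
      (∀ m ∈ N, R m ∈ N) → (∀ m ∈ N, σ m ∈ N) → N = ⊥ ∨ N = ⊤) :
    Nat.card M = 16 ∧ Nat.card {m : M // (R * R) m = m ∧ σ m = m} = 4 ∧
      Nat.card {m : M // (R * R) m = m ∧ (σ * R) m = m} = 2 := by
  have c2 : ∀ m : M, m + m = 0 := d8mod_char2
  have c2' : ∀ x y : M, x + y = 0 → x = y := by
    intro x y h
    have h1 : x = x + (y + y) := by rw [c2 y, add_zero]
    rw [h1, ← add_assoc, h, zero_add]
  have a3 : ∀ m, α (α (α m)) = m := fun m => by
    have := LinearMap.congr_fun ha3 m; simpa using this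
  have b3 : ∀ m, β (β (β m)) = m := fun m => by
    have := LinearMap.congr_fun hb3 m; simpa using this
  have ab : ∀ m, α (β m) = β (α m) := fun m => by
    have := LinearMap.congr_fun hab m; simpa using this
  have ra : ∀ m, R (α m) = β (R m) := fun m => by
    have := LinearMap.congr_fun hra m; simpa using this
  have rb : ∀ m, R (β m) = α (α (R m)) := fun m => by
    have := LinearMap.congr_fun hrb m; simpa using this
  have sa : ∀ m, σ (α m) = α (σ m) := fun m => by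
    have := LinearMap.congr_fun hsa m; simpa using this
  have sb : ∀ m, σ (β m) = β (β (σ m)) := fun m => by
    have := LinearMap.congr_fun hsb m; simpa using this
  have s2 : ∀ m, σ (σ m) = m := fun m => by
    have := LinearMap.congr_fun hs2 m; simpa using this
  have r4 : ∀ m, R (R (R (R m))) = m := fun m => by
    have := LinearMap.congr_fun hr4 m; simpa using this
  have sr : ∀ m, σ (R m) = R (R (R (σ m))) := fun m => by
    have := LinearMap.congr_fun hsr m; simpa using this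
  have E : ∀ m, α m + α (α m) + β m + β (β m) = m := fun m => by
    have := LinearMap.congr_fun hE m; simpa using this
  have ar : ∀ m, α (R m) = R (β (β m)) := fun m => by
    rw [rb, rb, a3]
  have sz : ∀ m, σ (R (R m)) = R (R (σ m)) := fun m => by
    rw [sr, sr, r4]
  have Rinj : ∀ x, R x = 0 → x = 0 := fun x h => by
    rw [← r4 x, h]; simp
  have binj : ∀ x, β x = 0 → x = 0 := fun x h => by
    rw [← b3 x, h]; simp
  have both0 : ∀ x, α x = x → β x = x → x = 0 := fun x h1 h2 => by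
    have h := E x
    rw [h1, h1, h2, h2] at h
    rw [c2 x, zero_add, c2 x] at h
    exact h.symm
  have fixR : ∀ y, β y = y → α (R y) = R y := fun y h => by rw [ar, h, h]
  have fixR' : ∀ w, α w = w → β (R w) = R w := fun w h => by rw [← ra, h]
  have fixRR : ∀ w, α w = w → α (R (R w)) = R (R w) := fun w h => fixR _ (fixR' _ h)
  have hdec : ∀ m, α (m + α m + α (α m)) = m + α m + α (α m) ∧
      β (m + β m + β (β m)) = m + β m + β (β m) ∧
      (m + α m + α (α m)) + (m + β m + β (β m)) = m := by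
    intro m
    refine ⟨?_, ?_, ?_⟩
    · rw [map_add, map_add, a3]; abel
    · rw [map_add, map_add, b3]; abel
    · have h1 : (m + α m + α (α m)) + (m + β m + β (β m))
          = (m + m) + (α m + α (α m) + β m + β (β m)) := by abel
      rw [h1, c2 m, zero_add, E m]
  obtain ⟨w₀, hw₀, hw₀a⟩ : ∃ w : M, w ≠ 0 ∧ α w = w := by
    obtain ⟨m, hm⟩ := exists_ne (0 : M)
    obtain ⟨h1, h2, h3⟩ := hdec m
    by_cases h0 : m + α m + α (α m) = 0
    · refine ⟨R (m + β m + β (β m)), ?_, fixR _ h2⟩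
      intro h
      have h4 := Rinj _ h
      rw [h0, h4, add_zero] at h3
      exact hm h3.symm
    · exact ⟨_, h0, h1⟩
  have key : ∀ W : Submodule (ZMod 2) M, (∀ w ∈ W, α w = w) → (∀ w ∈ W, β w ∈ W) →
      (∀ w ∈ W, σ w ∈ W) → (∀ w ∈ W, R (R w) ∈ W) → W = ⊥ ∨ ∀ m, α m = m → m ∈ W := by
    intro W hWa hWb hWs hWz
    have inv : ∀ φ : Module.End (ZMod 2) M, (∀ w ∈ W, φ w ∈ W ⊔ W.map R) →
        (∀ w ∈ W, φ (R w) ∈ W ⊔ W.map R) → ∀ m ∈ W ⊔ W.map R, φ m ∈ W ⊔ W.map R := by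
      intro φ h1 h2 m hm
      have hle : W ⊔ W.map R ≤ (W ⊔ W.map R).comap φ := by
        apply sup_le
        · intro w hw; exact h1 w hw
        · intro y hy
          obtain ⟨w, hw, rfl⟩ := Submodule.mem_map.mp hy
          exact h2 w hw
      exact hle hm
    have hl : W ≤ W ⊔ W.map R := le_sup_left
    have hr : ∀ w ∈ W, R w ∈ W ⊔ W.map R := fun w hw =>
      (le_sup_right : W.map R ≤ W ⊔ W.map R) (Submodule.mem_map_of_mem hw)
    rcases hirr (W ⊔ W.map R)
      (inv α (fun w hw => hl (by rw [hWa w hw]; exact hw))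
        (fun w hw => by rw [ar]; exact hr _ (hWb _ (hWb _ hw))))
      (inv β (fun w hw => hl (hWb w hw))
        (fun w hw => by rw [← ra, hWa w hw]; exact hr w hw))
      (inv R (fun w hw => hr w hw) (fun w hw => hl (hWz w hw)))
      (inv σ (fun w hw => hl (hWs w hw))
        (fun w hw => by rw [sr]; exact hr _ (hWz _ (hWs _ hw)))) with h | h
    · left
      have hl' := hl
      rw [h] at hl'
      exact le_bot_iff.mp hl'
    · right
      intro m hm
      have hm' : m ∈ W ⊔ W.map R := by rw [h]; trivial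
      obtain ⟨w, hw, y, hy, rfl⟩ := Submodule.mem_sup.mp hm'
      obtain ⟨w', hw', rfl⟩ := Submodule.mem_map.mp hy
      have h1 : α (R w') = R w' := by
        have h3 := hm
        rw [map_add, hWa w hw] at h3
        exact add_left_cancel h3
      have h2 : β (R w') = R w' := fixR' _ (hWa w' hw')
      rw [both0 _ h1 h2, add_zero]
      exact hw
  have ht : ∀ w, α w = w → σ (R (R w)) = w := by
    let W : Submodule (ZMod 2) M := LinearMap.ker (α - 1) ⊓ LinearMap.ker (σ * R * R - 1)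
    have hW : ∀ w, w ∈ W ↔ α w = w ∧ σ (R (R w)) = w := by
      intro w
      simp [W, Submodule.mem_inf, LinearMap.mem_ker, sub_eq_zero]
    have hWb : ∀ w ∈ W, β w ∈ W := by
      intro w hw
      obtain ⟨h1, h2⟩ := (hW w).mp hw
      refine (hW _).mpr ⟨by rw [ab, h1], ?_⟩
      rw [rb, ra, ra, sb, sb, h2, b3]
    have hWs : ∀ w ∈ W, σ w ∈ W := by
      intro w hw
      obtain ⟨h1, h2⟩ := (hW w).mp hw
      refine (hW _).mpr ⟨by rw [← sa, h1], ?_⟩
      rw [← sz, h2]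
    have hWz : ∀ w ∈ W, R (R w) ∈ W := by
      intro w hw
      obtain ⟨h1, h2⟩ := (hW w).mp hw
      refine (hW _).mpr ⟨fixRR w h1, ?_⟩
      rw [r4]
      have h3 : σ (σ (R (R w))) = σ w := by rw [h2]
      rw [s2] at h3
      exact h3.symm
    rcases key W (fun w hw => ((hW w).mp hw).1) hWb hWs hWz with h | h
    · exfalso
      have hu : w₀ + σ (R (R w₀)) ∈ W := by
        refine (hW _).mpr ⟨?_, ?_⟩
        · rw [map_add, hw₀a, ← sa, fixRR w₀ hw₀a]
        · simp only [map_add]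
          rw [sz (σ (R (R w₀))), s2, r4]
          exact add_comm _ _
      by_cases h0 : w₀ + σ (R (R w₀)) = 0
      · have h1 : σ (R (R w₀)) = w₀ := (c2' _ _ h0).symm
        have h2 : w₀ ∈ W := (hW _).mpr ⟨hw₀a, h1⟩
        rw [h] at h2
        exact hw₀ ((Submodule.mem_bot _).mp h2)
      · rw [h] at hu
        exact h0 ((Submodule.mem_bot _).mp hu)
    · exact fun w hw => ((hW w).mp (h w hw)).2
  have hzs : ∀ w, α w = w → R (R w) = σ w := fun w hw => by
    have h3 := congrArg σ (ht w hw)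
    rw [s2] at h3
    exact h3
  obtain ⟨v, hv0, hva, hvs⟩ : ∃ v : M, v ≠ 0 ∧ α v = v ∧ σ v = v := by
    by_cases h0 : w₀ + σ w₀ = 0
    · exact ⟨w₀, hw₀, hw₀a, (c2' _ _ h0).symm⟩
    · refine ⟨_, h0, ?_, ?_⟩
      · rw [map_add, hw₀a, ← sa, hw₀a]
      · rw [map_add, s2]
        exact add_comm _ _
  have hbb : β (β v) = v + β v := by
    have h := E v
    rw [hva, hva, c2 v, zero_add] at h
    have h1 : β (β v) = (β v + β v) + β (β v) := by rw [c2, zero_add]
    rw [h1, add_assoc, h]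
    exact add_comm _ _
  have hbva : α (β v) = β v := by rw [ab, hva]
  have s2' : σ (β v) = v + β v := by rw [sb, hvs, hbb]
  have hspan : ∀ m, α m = m → ∃ c d : ZMod 2, c • v + d • β v = m := by
    have hmem : ∀ w, w ∈ Submodule.span (ZMod 2) {v, β v} ↔
        ∃ c d : ZMod 2, c • v + d • β v = w := fun w => Submodule.mem_span_pair
    have hWa : ∀ w ∈ Submodule.span (ZMod 2) {v, β v}, α w = w := by
      intro w hw
      obtain ⟨c, d, rfl⟩ := (hmem w).mp hw
      rw [map_add, map_smul, map_smul, hbva, hva]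
    have hWs : ∀ w ∈ Submodule.span (ZMod 2) {v, β v},
        σ w ∈ Submodule.span (ZMod 2) {v, β v} := by
      intro w hw
      obtain ⟨c, d, rfl⟩ := (hmem w).mp hw
      refine (hmem _).mpr ⟨c + d, d, ?_⟩
      rw [map_add, map_smul, map_smul, s2', hvs]
      module
    have hWb : ∀ w ∈ Submodule.span (ZMod 2) {v, β v},
        β w ∈ Submodule.span (ZMod 2) {v, β v} := by
      intro w hw
      obtain ⟨c, d, rfl⟩ := (hmem w).mp hw
      refine (hmem _).mpr ⟨d, c + d, ?_⟩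
      rw [map_add, map_smul, map_smul, hbb]
      module
    have hWz : ∀ w ∈ Submodule.span (ZMod 2) {v, β v},
        R (R w) ∈ Submodule.span (ZMod 2) {v, β v} := by
      intro w hw
      rw [hzs w (hWa w hw)]
      exact hWs w hw
    rcases key _ hWa hWb hWs hWz with h | h
    · exfalso
      have h1 : v ∈ Submodule.span (ZMod 2) {v, β v} := Submodule.subset_span (by simp)
      rw [h] at h1
      exact hv0 ((Submodule.mem_bot _).mp h1)
    · exact fun m hm => (hmem m).mp (h m hm)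
  have z1 : R (R v) = v := by rw [hzs v hva, hvs]
  have z2 : R (R (β v)) = v + β v := by rw [hzs _ hbva, s2']
  have s3 : σ (R v) = R v := by rw [sr, hvs, z1]
  have s4 : σ (R (β v)) = R (β v) := by rw [sr, ← hzs _ hbva, r4]
  have s5 : σ (R (R (β v))) = β v := ht _ hbva
  have s6 : σ (R (R v)) = v := ht _ hva
  have indep : ∀ c d : ZMod 2, c • v + d • β v = 0 → c = 0 ∧ d = 0 := by
    intro c d h
    rcases d8mod_zmod2_cases c with rfl | rfl <;> rcases d8mod_zmod2_cases d with rfl | rfl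
    · exact ⟨rfl, rfl⟩
    · exfalso
      rw [zero_smul, zero_add, one_smul] at h
      exact hv0 (binj v h)
    · exfalso
      rw [zero_smul, add_zero, one_smul] at h
      exact hv0 h
    · exfalso
      rw [one_smul, one_smul] at h
      have h1 : β v = v := (c2' _ _ h).symm
      exact hv0 (both0 v hva h1)
  let f : ZMod 2 × ZMod 2 × ZMod 2 × ZMod 2 → M := fun x =>
    x.1 • v + x.2.1 • β v + x.2.2.1 • R v + x.2.2.2 • R (β v)
  have hf0 : ∀ x, f x = 0 → x = 0 := by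
    rintro ⟨x1, x2, x3, x4⟩ h
    have h' : x1 • v + x2 • β v + x3 • R v + x4 • R (β v) = 0 := h
    have hp : α (x1 • v + x2 • β v) = x1 • v + x2 • β v := by
      rw [map_add, map_smul, map_smul, hbva, hva]
    have hq : β (x3 • R v + x4 • R (β v)) = x3 • R v + x4 • R (β v) := by
      rw [map_add, map_smul, map_smul, fixR' _ hva, fixR' _ hbva]
    have hpq : x1 • v + x2 • β v = x3 • R v + x4 • R (β v) := by
      apply c2'
      rw [← add_assoc]
      exact h'
    have hp0 : x1 • v + x2 • β v = 0 := both0 _ hp (by rw [hpq]; exact hq)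
    have hq0 : x3 • v + x4 • β v = 0 := by
      apply Rinj
      rw [map_add, map_smul, map_smul, ← hpq, hp0]
    obtain ⟨h1, h2⟩ := indep _ _ hp0
    obtain ⟨h3, h4⟩ := indep _ _ hq0
    subst h1 h2 h3 h4
    rfl
  have hfadd : ∀ x y, f (x + y) = f x + f y := by
    rintro ⟨x1, x2, x3, x4⟩ ⟨y1, y2, y3, y4⟩
    show (x1 + y1) • v + (x2 + y2) • β v + (x3 + y3) • R v + (x4 + y4) • R (β v)
      = (x1 • v + x2 • β v + x3 • R v + x4 • R (β v))
        + (y1 • v + y2 • β v + y3 • R v + y4 • R (β v))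
    module
  have hfinj : Function.Injective f := by
    intro x y h
    have h1 : f (x + y) = 0 := by rw [hfadd, h]; exact c2 _
    exact d8mod_tuple_eq x y (hf0 _ h1)
  have hfsurj : Function.Surjective f := by
    intro m
    obtain ⟨he1, he2, hsum⟩ := hdec m
    obtain ⟨c, d, hcd⟩ := hspan _ he1
    have he3 : α (R (R (R (m + β m + β (β m))))) = R (R (R (m + β m + β (β m)))) :=
      fixR _ (fixR' _ (fixR _ he2))
    obtain ⟨c', d', hcd'⟩ := hspan _ he3
    refine ⟨(c, d, c', d'), ?_⟩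
    show c • v + d • β v + c' • R v + d' • R (β v) = m
    have h4 : R (c' • v + d' • β v) = c' • R v + d' • R (β v) := by
      rw [map_add, map_smul, map_smul]
    rw [hcd', r4] at h4
    rw [add_assoc, hcd, ← h4]
    exact hsum
  let e : ZMod 2 × ZMod 2 × ZMod 2 × ZMod 2 ≃ M := Equiv.ofBijective f ⟨hfinj, hfsurj⟩
  have hfz : ∀ x : ZMod 2 × ZMod 2 × ZMod 2 × ZMod 2,
      R (R (f x)) = f (x.1 + x.2.1, x.2.1, x.2.2.1 + x.2.2.2, x.2.2.2) := by
    rintro ⟨x1, x2, x3, x4⟩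
    show R (R (x1 • v + x2 • β v + x3 • R v + x4 • R (β v)))
      = (x1 + x2) • v + x2 • β v + (x3 + x4) • R v + x4 • R (β v)
    simp only [map_add, map_smul, z1, z2]
    module
  have hfs : ∀ x : ZMod 2 × ZMod 2 × ZMod 2 × ZMod 2,
      σ (f x) = f (x.1 + x.2.1, x.2.1, x.2.2.1, x.2.2.2) := by
    rintro ⟨x1, x2, x3, x4⟩
    show σ (x1 • v + x2 • β v + x3 • R v + x4 • R (β v))
      = (x1 + x2) • v + x2 • β v + x3 • R v + x4 • R (β v)
    simp only [map_add, map_smul, hvs, s2', s3, s4]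
    module
  have hfsr : ∀ x : ZMod 2 × ZMod 2 × ZMod 2 × ZMod 2,
      σ (R (f x)) = f (x.2.2.1, x.2.2.2, x.1, x.2.1) := by
    rintro ⟨x1, x2, x3, x4⟩
    show σ (R (x1 • v + x2 • β v + x3 • R v + x4 • R (β v)))
      = x3 • v + x4 • β v + x1 • R v + x2 • R (β v)
    simp only [map_add, map_smul, s3, s4, s5, s6]
    module
  refine ⟨?_, ?_, ?_⟩
  · rw [← Nat.card_congr e, Nat.card_eq_fintype_card]
    rfl
  · have h1 : Nat.card {m : M // (R * R) m = m ∧ σ m = m}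
        = Nat.card {x : ZMod 2 × ZMod 2 × ZMod 2 × ZMod 2 //
            (x.1 + x.2.1, x.2.1, x.2.2.1 + x.2.2.2, x.2.2.2) = x ∧
            (x.1 + x.2.1, x.2.1, x.2.2.1, x.2.2.2) = x} := by
      apply Nat.card_congr
      symm
      refine Equiv.subtypeEquiv e ?_
      intro x
      show _ ↔ R (R (f x)) = f x ∧ σ (f x) = f x
      rw [hfz, hfs]
      exact ⟨fun h => ⟨congrArg f h.1, congrArg f h.2⟩, fun h => ⟨hfinj h.1, hfinj h.2⟩⟩
    rw [h1, Nat.card_eq_fintype_card]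
    rfl
  · have h1 : Nat.card {m : M // (R * R) m = m ∧ (σ * R) m = m}
        = Nat.card {x : ZMod 2 × ZMod 2 × ZMod 2 × ZMod 2 //
            (x.1 + x.2.1, x.2.1, x.2.2.1 + x.2.2.2, x.2.2.2) = x ∧
            (x.2.2.1, x.2.2.2, x.1, x.2.1) = x} := by
      apply Nat.card_congr
      symm
      refine Equiv.subtypeEquiv e ?_
      intro x
      show _ ↔ R (R (f x)) = f x ∧ σ (R (f x)) = f x
      rw [hfz, hfsr]
      exact ⟨fun h => ⟨congrArg f h.1, congrArg f h.2⟩, fun h => ⟨hfinj h.1, hfinj h.2⟩⟩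
    rw [h1, Nat.card_eq_fintype_card]
    rfl


theorem d8mod_rho_mul {S : Type*} [Group S] {M : Type*} [AddCommGroup M] [Module (ZMod 2) M]
    (ρ : Representation (ZMod 2) S M) (g h : S) (m : M) : ρ (g * h) m = ρ g (ρ h m) := by
  rw [map_mul]; rfl

theorem d8mod_rho_one {S : Type*} [Group S] {M : Type*} [AddCommGroup M] [Module (ZMod 2) M]
    (ρ : Representation (ZMod 2) S M) (m : M) : ρ 1 m = m := by
  rw [map_one]; rfl

/-- the stabilizer of a submodule, as a subgroup -/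
def d8modStab {S : Type*} [Group S] {M : Type*} [AddCommGroup M] [Module (ZMod 2) M]
    (ρ : Representation (ZMod 2) S M) (N : Submodule (ZMod 2) M) : Subgroup S where
  carrier := {g | (∀ m ∈ N, ρ g m ∈ N) ∧ (∀ m ∈ N, ρ g⁻¹ m ∈ N)}
  mul_mem' := by
    rintro g h ⟨hg1, hg2⟩ ⟨hh1, hh2⟩
    refine ⟨fun m hm => ?_, fun m hm => ?_⟩
    · rw [d8mod_rho_mul]; exact hg1 _ (hh1 m hm)
    · rw [mul_inv_rev, d8mod_rho_mul]; exact hh2 _ (hg2 m hm)
  one_mem' := by
    refine ⟨fun m hm => ?_, fun m hm => ?_⟩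
    · rw [d8mod_rho_one]; exact hm
    · rw [inv_one, d8mod_rho_one]; exact hm
  inv_mem' := by
    rintro g ⟨hg1, hg2⟩
    exact ⟨hg2, by rw [inv_inv]; exact hg1⟩

theorem d8mod_mem_stab {S : Type*} [Group S] [Finite S] {M : Type*} [AddCommGroup M]
    [Module (ZMod 2) M]
    (ρ : Representation (ZMod 2) S M) (N : Submodule (ZMod 2) M) (g : S)
    (h : ∀ m ∈ N, ρ g m ∈ N) : g ∈ d8modStab ρ N := by
  have hpow : ∀ k : ℕ, ∀ m ∈ N, ρ (g ^ k) m ∈ N := by
    intro k
    induction k with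
    | zero => intro m hm; rw [pow_zero, d8mod_rho_one]; exact hm
    | succ k ih => intro m hm; rw [pow_succ, d8mod_rho_mul]; exact ih _ (h m hm)
  refine ⟨h, ?_⟩
  have hinv : g⁻¹ = g ^ (orderOf g - 1) := by
    apply inv_eq_of_mul_eq_one_right
    rw [← pow_succ', Nat.sub_add_cancel (orderOf_pos g), pow_orderOf_eq_one]
  rw [hinv]; exact hpow _

theorem d8mod_core_grp {S : Type*} [Group S] [Finite S] {M : Type*} [AddCommGroup M]
    [Module (ZMod 2) M] [Nontrivial M]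
    (ρ : Representation (ZMod 2) S M) (a b r s : S)
    (ha3 : a * a * a = 1) (hb3 : b * b * b = 1) (hab : a * b = b * a)
    (hra : r * a = b * r) (hrb : r * b = a * a * r)
    (hsa : s * a = a * s) (hsb : s * b = b * b * s) (hs2 : s * s = 1)
    (hr4 : r * r * r * r = 1) (hsr : s * r = r * r * r * s)
    (hE : ∀ m, ρ a m + ρ a (ρ a m) + ρ b m + ρ b (ρ b m) = m)
    (hgen : ∀ T : Subgroup S, a ∈ T → b ∈ T → r ∈ T → s ∈ T → T = ⊤)
    (hirr : ∀ N : Submodule (ZMod 2) M, (∀ g : S, ∀ m ∈ N, ρ g m ∈ N) → N = ⊥ ∨ N = ⊤) :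
    Nat.card M = 16 ∧ Nat.card {m : M // ρ (r * r) m = m ∧ ρ s m = m} = 4 ∧
      Nat.card {m : M // ρ (r * r) m = m ∧ ρ (s * r) m = m} = 2 := by
  have h := d8mod_core (ρ a) (ρ b) (ρ r) (ρ s)
    (by rw [← map_mul ρ, ← map_mul ρ, ha3, map_one])
    (by rw [← map_mul ρ, ← map_mul ρ, hb3, map_one])
    (by rw [← map_mul ρ, ← map_mul ρ, hab]) (by rw [← map_mul ρ, ← map_mul ρ, hra])
    (by rw [← map_mul ρ, ← map_mul ρ, ← map_mul ρ, hrb])
    (by rw [← map_mul ρ, ← map_mul ρ, hsa]) (by rw [← map_mul ρ, ← map_mul ρ, ← map_mul ρ, hsb])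
    (by rw [← map_mul ρ, hs2, map_one])
    (by rw [← map_mul ρ, ← map_mul ρ, ← map_mul ρ, hr4, map_one])
    (by rw [← map_mul ρ, ← map_mul ρ, ← map_mul ρ, ← map_mul ρ, hsr])
    (by ext m; simpa using hE m)
    (by
      intro N h1 h2 h3 h4
      apply hirr
      have hT := hgen (d8modStab ρ N) (d8mod_mem_stab ρ N a h1) (d8mod_mem_stab ρ N b h2)
        (d8mod_mem_stab ρ N r h3) (d8mod_mem_stab ρ N s h4)
      intro g m hm
      have hg : g ∈ d8modStab ρ N := by rw [hT]; trivial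
      exact hg.1 m hm)
  simp only [map_mul]
  exact h

/-- the two Klein four-subgroups of the dihedral group of order 8 -/
def d8K1 : Subgroup (DihedralGroup 4) where
  carrier := {x | x = DihedralGroup.r 0 ∨ x = DihedralGroup.r 2 ∨ x = DihedralGroup.sr 0 ∨
    x = DihedralGroup.sr 2}
  mul_mem' := by decide
  one_mem' := by decide
  inv_mem' := by decide

def d8K2 : Subgroup (DihedralGroup 4) where
  carrier := {x | x = DihedralGroup.r 0 ∨ x = DihedralGroup.r 2 ∨ x = DihedralGroup.sr 1 ∨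
    x = DihedralGroup.sr 3}
  mul_mem' := by decide
  one_mem' := by decide
  inv_mem' := by decide

instance d8K1_decidable : DecidablePred (· ∈ d8K1) := fun x =>
  inferInstanceAs (Decidable (x = DihedralGroup.r 0 ∨ x = DihedralGroup.r 2 ∨
    x = DihedralGroup.sr 0 ∨ x = DihedralGroup.sr 2))

instance d8K2_decidable : DecidablePred (· ∈ d8K2) := fun x =>
  inferInstanceAs (Decidable (x = DihedralGroup.r 0 ∨ x = DihedralGroup.r 2 ∨
    x = DihedralGroup.sr 1 ∨ x = DihedralGroup.sr 3))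

theorem d8K1_card : Nat.card d8K1 = 4 := by
  rw [Nat.card_eq_fintype_card]; decide

theorem d8K2_card : Nat.card d8K2 = 4 := by
  rw [Nat.card_eq_fintype_card]; decide

theorem d8K1_exp : ∀ k ∈ d8K1, k ^ 2 = 1 := by decide

theorem d8K2_exp : ∀ k ∈ d8K2, k ^ 2 = 1 := by decide

theorem d8K1_mem (k : DihedralGroup 4) : k ∈ d8K1 ↔ k = DihedralGroup.r 0 ∨
    k = DihedralGroup.r 2 ∨ k = DihedralGroup.sr 0 ∨ k = DihedralGroup.sr 2 := Iff.rfl

theorem d8K2_mem (k : DihedralGroup 4) : k ∈ d8K2 ↔ k = DihedralGroup.r 0 ∨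
    k = DihedralGroup.r 2 ∨ k = DihedralGroup.sr 1 ∨ k = DihedralGroup.sr 3 := Iff.rfl

theorem d8_gen : ∀ d : DihedralGroup 4, ∃ i : Fin 4, ∃ j : Fin 2,
    d = DihedralGroup.sr 0 ^ (j : ℕ) * DihedralGroup.r 1 ^ (i : ℕ) := by decide

theorem d8_klein_class (K : Subgroup (DihedralGroup 4)) (hK : Nat.card K = 4)
    (hexp : ∀ k ∈ K, k ^ 2 = 1) : K = d8K1 ∨ K = d8K2 := by
  have pair : ∀ x y : DihedralGroup 4, x ^ 2 = 1 → y ^ 2 = 1 → (x * y) ^ 2 = 1 →
      (x ∈ d8K1 ∧ y ∈ d8K1) ∨ (x ∈ d8K2 ∧ y ∈ d8K2) := by decide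
  by_cases h : K ≤ d8K1
  · left; exact Subgroup.eq_of_le_of_card_ge h (by rw [hK, d8K1_card])
  · right
    obtain ⟨x, hx, hx1⟩ := SetLike.not_le_iff_exists.mp h
    have h2 : K ≤ d8K2 := by
      intro y hy
      rcases pair x y (hexp x hx) (hexp y hy) (hexp _ (K.mul_mem hx hy)) with h' | h'
      · exact absurd h'.1 hx1
      · exact h'.2
    exact Subgroup.eq_of_le_of_card_ge h2 (by rw [hK, d8K2_card])


theorem d8mod_char2' {M : Type*} [AddCommGroup M] [Module (ZMod 2) M] (x y : M)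
    (h : x + y = 0) : x = y := by
  have h1 : x = x + (y + y) := by rw [d8mod_char2 y, add_zero]
  rw [h1, ← add_assoc, h, zero_add]

theorem d8mod_main {S : Type*} [Group S] [Finite S]
    (A : Subgroup S) [hAn : A.Normal] (hAc : ∀ x ∈ A, ∀ y ∈ A, x * y = y * x)
    (hA3 : ∀ x ∈ A, x ^ 3 = 1) (hA9 : Nat.card ↥A = 9) (X : Subgroup S) (hAX : A ⊔ X = ⊤)
    (φ : DihedralGroup 4 →* S) (hφi : Function.Injective φ) (hφX : ∀ x, x ∈ X ↔ ∃ k, φ k = x)
    {M : Type*} [AddCommGroup M] [Module (ZMod 2) M] [Finite M] (ρ : Representation (ZMod 2) S M)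
    (hfaith : Function.Injective ρ)
    (hirr : ∀ N : Submodule (ZMod 2) M, (∀ s : S, ∀ m ∈ N, ρ s m ∈ N) → N = ⊥ ∨ N = ⊤)
    (hM : Nontrivial M)
    (a : S) (ha : a ∈ A) (ha1 : a ≠ 1)
    (hsa' : φ (DihedralGroup.sr 0) * a = a * φ (DihedralGroup.sr 0))
    (hza' : φ (DihedralGroup.r 2) * a = a⁻¹ * φ (DihedralGroup.r 2)) :
    Nat.card M = 16 ∧
      ∃! B : Subgroup S, B ≤ X ∧ Nat.card ↥B = 4 ∧ (∀ b ∈ B, b ^ 2 = 1) ∧
        Nat.card {m : M // ∀ b ∈ B, ρ b m = m} = 2 := by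
  have c2 : ∀ m : M, m + m = 0 := d8mod_char2
  have c2' : ∀ x y : M, x + y = 0 → x = y := d8mod_char2'
  obtain ⟨r₀, hr₀⟩ : ∃ r₀, r₀ = φ (DihedralGroup.r 1) := ⟨_, rfl⟩
  obtain ⟨s, hs⟩ : ∃ s, s = φ (DihedralGroup.sr 0) := ⟨_, rfl⟩
  have hr4 : r₀ * r₀ * r₀ * r₀ = 1 := by
    rw [hr₀, ← map_mul φ, ← map_mul φ, ← map_mul φ, ← map_one φ]
    exact congrArg φ (by decide)
  have hs2 : s * s = 1 := by
    rw [hs, ← map_mul φ, ← map_one φ]
    exact congrArg φ (by decide)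
  have hsr : s * r₀ = r₀ * r₀ * r₀ * s := by
    rw [hs, hr₀, ← map_mul φ, ← map_mul φ, ← map_mul φ, ← map_mul φ]
    exact congrArg φ (by decide)
  have hz : φ (DihedralGroup.r 2) = r₀ * r₀ := by
    rw [hr₀, ← map_mul φ]
    exact congrArg φ (by decide)
  have hsa : s * a = a * s := by rw [hs]; exact hsa'
  have hza : r₀ * r₀ * a = a⁻¹ * (r₀ * r₀) := by rw [← hz]; exact hza'
  have ha3 : a * a * a = 1 := by have h := hA3 a ha; rwa [pow_three'] at h
  have hainv : a⁻¹ = a * a := inv_eq_of_mul_eq_one_right (by rw [← mul_assoc]; exact ha3)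
  obtain ⟨b, hb⟩ : ∃ b, b = r₀ * a * r₀⁻¹ := ⟨_, rfl⟩
  have hbA : b ∈ A := by rw [hb]; exact hAn.conj_mem a ha r₀
  have hb3 : b * b * b = 1 := by have h := hA3 b hbA; rwa [pow_three'] at h
  have hbinv : b⁻¹ = b * b := inv_eq_of_mul_eq_one_right (by rw [← mul_assoc]; exact hb3)
  have hab : a * b = b * a := hAc a ha b hbA
  have cra : r₀ * a * r₀⁻¹ = b := hb.symm
  have hra : r₀ * a = b * r₀ := mul_inv_eq_iff_eq_mul.mp cra
  have cza : (r₀ * r₀) * a * (r₀ * r₀)⁻¹ = a⁻¹ := mul_inv_eq_iff_eq_mul.mpr hza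
  have crb : r₀ * b * r₀⁻¹ = a⁻¹ := by
    calc r₀ * b * r₀⁻¹ = (r₀ * r₀) * a * (r₀ * r₀)⁻¹ := by rw [hb]; group
      _ = a⁻¹ := cza
  have hrb : r₀ * b = a * a * r₀ := by rw [← hainv]; exact mul_inv_eq_iff_eq_mul.mp crb
  have csa : s * a * s⁻¹ = a := mul_inv_eq_iff_eq_mul.mpr hsa
  have csb : s * b * s⁻¹ = b⁻¹ := by
    calc s * b * s⁻¹ = (s * r₀) * a * (s * r₀)⁻¹ := by rw [hb]; group
      _ = (r₀ * r₀ * r₀ * s) * a * (r₀ * r₀ * r₀ * s)⁻¹ := by rw [hsr]
      _ = r₀ * r₀ * r₀ * (s * a * s⁻¹) * (r₀ * r₀ * r₀)⁻¹ := by group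
      _ = r₀ * ((r₀ * r₀) * a * (r₀ * r₀)⁻¹) * r₀⁻¹ := by rw [csa]; group
      _ = r₀ * a⁻¹ * r₀⁻¹ := by rw [cza]
      _ = b⁻¹ := by rw [hb]; group
  have hsb : s * b = b * b * s := by rw [← hbinv]; exact mul_inv_eq_iff_eq_mul.mp csb
  have horda : orderOf a = 3 := by
    have h := orderOf_dvd_of_pow_eq_one (hA3 a ha)
    rcases (Nat.dvd_prime Nat.prime_three).mp h with h1 | h1
    · exact absurd (orderOf_eq_one_iff.mp h1) ha1
    · exact h1
  have hbz : b ∉ Subgroup.zpowers a := by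
    intro hmem
    obtain ⟨k, hk⟩ := Subgroup.mem_zpowers_iff.mp hmem
    have h2 : r₀ * b * r₀⁻¹ = a ^ (k * k) := by
      rw [← hk, ← conj_zpow, ← hb, ← hk, ← zpow_mul]
    have h3 : a ^ (k * k + 1) = 1 := by
      rw [zpow_add, zpow_one, ← h2, crb, inv_mul_cancel]
    have h4 : ((3 : ℕ) : ℤ) ∣ k * k + 1 := by
      have h := orderOf_dvd_iff_zpow_eq_one.mpr h3
      rwa [horda] at h
    have h5 : ((k * k + 1 : ℤ) : ZMod 3) = 0 := (ZMod.intCast_zmod_eq_zero_iff_dvd _ 3).mpr h4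
    push_cast at h5
    have h6 : ∀ x : ZMod 3, x * x + 1 ≠ 0 := by decide
    exact h6 _ h5
  have hAgen : ∀ T : Subgroup S, a ∈ T → b ∈ T → A ≤ T := by
    intro T haT hbT
    have hK : T ⊓ A ≤ A := inf_le_right
    have hcard : Nat.card (Subgroup.zpowers a) = 3 := by rw [Nat.card_zpowers, horda]
    have hzK : Subgroup.zpowers a ≤ T ⊓ A := by
      rw [Subgroup.zpowers_le]; exact ⟨haT, ha⟩
    have hd1 := Subgroup.card_dvd_of_le hzK
    rw [hcard] at hd1
    have hd2 := Subgroup.card_dvd_of_le hK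
    rw [hA9] at hd2
    have hne : Nat.card ↥(T ⊓ A) ≠ 3 := by
      intro h3
      have h4 : Subgroup.zpowers a = T ⊓ A :=
        Subgroup.eq_of_le_of_card_ge hzK (by rw [h3, hcard])
      apply hbz
      rw [h4]
      exact ⟨hbT, hbA⟩
    have h9 : Nat.card ↥(T ⊓ A) = 9 := by
      obtain ⟨n, hn⟩ : ∃ n, n = Nat.card ↥(T ⊓ A) := ⟨_, rfl⟩
      rw [← hn] at hd1 hd2 hne ⊢
      have hle : n ≤ 9 := Nat.le_of_dvd (by norm_num) hd2
      interval_cases n <;> first | rfl | (exfalso; omega) | (exfalso; exact hne rfl)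
    have h10 : T ⊓ A = A := Subgroup.eq_of_le_of_card_ge hK (by rw [h9, hA9])
    rw [← h10]; exact inf_le_left
  have hXgen : ∀ T : Subgroup S, r₀ ∈ T → s ∈ T → X ≤ T := by
    intro T hrT hsT x hx
    obtain ⟨k, rfl⟩ := (hφX x).mp hx
    obtain ⟨i, j, rfl⟩ := d8_gen k
    rw [map_mul, map_pow, map_pow, ← hs, ← hr₀]
    exact T.mul_mem (T.pow_mem hsT _) (T.pow_mem hrT _)
  have hgen : ∀ T : Subgroup S, a ∈ T → b ∈ T → r₀ ∈ T → s ∈ T → T = ⊤ := by
    intro T h1 h2 h3 h4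
    rw [eq_top_iff, ← hAX]
    exact sup_le (hAgen T h1 h2) (hXgen T h3 h4)
  have a3' : ∀ m, ρ a (ρ a (ρ a m)) = m := fun m => by
    rw [← d8mod_rho_mul, ← d8mod_rho_mul, ha3, d8mod_rho_one]
  have b3' : ∀ m, ρ b (ρ b (ρ b m)) = m := fun m => by
    rw [← d8mod_rho_mul, ← d8mod_rho_mul, hb3, d8mod_rho_one]
  have ab' : ∀ m, ρ a (ρ b m) = ρ b (ρ a m) := fun m => by
    rw [← d8mod_rho_mul, ← d8mod_rho_mul, hab]
  have ra' : ∀ m, ρ r₀ (ρ a m) = ρ b (ρ r₀ m) := fun m => by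
    rw [← d8mod_rho_mul, ← d8mod_rho_mul, hra]
  have rb' : ∀ m, ρ r₀ (ρ b m) = ρ a (ρ a (ρ r₀ m)) := fun m => by
    rw [← d8mod_rho_mul, ← d8mod_rho_mul, ← d8mod_rho_mul, hrb]
  have sa' : ∀ m, ρ s (ρ a m) = ρ a (ρ s m) := fun m => by
    rw [← d8mod_rho_mul, ← d8mod_rho_mul, hsa]
  have sb' : ∀ m, ρ s (ρ b m) = ρ b (ρ b (ρ s m)) := fun m => by
    rw [← d8mod_rho_mul, ← d8mod_rho_mul, ← d8mod_rho_mul, hsb]
  have hfix0 : ∀ m : M, ρ a m = m → ρ b m = m → m = 0 := by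
    intro m h1 h2
    let N₀ : Submodule (ZMod 2) M :=
      { carrier := {w | ∀ g ∈ A, ρ g w = w}
        add_mem' := by intro x y hx hy g hg; rw [map_add, hx g hg, hy g hg]
        zero_mem' := by intro g hg; rw [map_zero]
        smul_mem' := by intro c x hx g hg; rw [map_smul, hx g hg] }
    have hN₀ : ∀ x : S, ∀ w ∈ N₀, ρ x w ∈ N₀ := by
      intro x w hw g hg
      have e1 : g * x = x * (x⁻¹ * g * x) := by group
      have h' : x⁻¹ * g * x ∈ A := by
        have h3 := hAn.conj_mem g hg x⁻¹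
        rwa [inv_inv] at h3
      rw [← d8mod_rho_mul, e1, d8mod_rho_mul, hw _ h']
    rcases hirr N₀ hN₀ with h | h
    · have hm : m ∈ N₀ := by
        let T : Subgroup S :=
          { carrier := {g | ρ g m = m}
            mul_mem' := by
              intro x y hx hy
              have hx' : ρ x m = m := hx
              have hy' : ρ y m = m := hy
              show ρ (x * y) m = m
              rw [d8mod_rho_mul, hy', hx']
            one_mem' := by show ρ 1 m = m; rw [d8mod_rho_one]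
            inv_mem' := by
              intro x hx
              have hx' : ρ x m = m := hx
              show ρ x⁻¹ m = m
              have h3 : ρ x⁻¹ (ρ x m) = m := by
                rw [← d8mod_rho_mul, inv_mul_cancel, d8mod_rho_one]
              rw [hx'] at h3; exact h3 }
        exact fun g hg => hAgen T h1 h2 hg
      rw [h] at hm
      exact (Submodule.mem_bot _).mp hm
    · exfalso
      apply ha1
      apply hfaith
      rw [map_one]
      ext m'
      have h3 : m' ∈ N₀ := by rw [h]; trivial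
      rw [Module.End.one_apply]
      exact h3 a ha
  have hEa0 : ∀ v, ρ b v = v → v + ρ a v + ρ a (ρ a v) = 0 := by
    intro v hv
    apply hfix0
    · rw [map_add, map_add, a3']; abel
    · simp only [map_add, ← ab', hv]
  have hEb0 : ∀ u, ρ a u = u → u + ρ b u + ρ b (ρ b u) = 0 := by
    intro u hu
    apply hfix0
    · simp only [map_add, ab', hu]
    · rw [map_add, map_add, b3']; abel
  obtain ⟨N, hN⟩ : ∃ N : Submodule (ZMod 2) M,
      N = LinearMap.ker (ρ a - 1) ⊔ LinearMap.ker (ρ b - 1) := ⟨_, rfl⟩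
  have hNmem : ∀ m, m ∈ N ↔ ∃ u v, ρ a u = u ∧ ρ b v = v ∧ u + v = m := by
    intro m
    rw [hN, Submodule.mem_sup]
    constructor
    · rintro ⟨u, hu, v, hv, rfl⟩
      refine ⟨u, v, ?_, ?_, rfl⟩
      · simpa [LinearMap.mem_ker, sub_eq_zero] using hu
      · simpa [LinearMap.mem_ker, sub_eq_zero] using hv
    · rintro ⟨u, v, hu, hv, rfl⟩
      refine ⟨u, ?_, v, ?_, rfl⟩
      · simpa [LinearMap.mem_ker, sub_eq_zero] using hu
      · simpa [LinearMap.mem_ker, sub_eq_zero] using hv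
  have hNA : ∀ u, ρ a u = u → u ∈ N := fun u hu =>
    (hNmem u).mpr ⟨u, 0, hu, map_zero _, add_zero u⟩
  have hNB : ∀ v, ρ b v = v → v ∈ N := fun v hv =>
    (hNmem v).mpr ⟨0, v, map_zero _, hv, zero_add v⟩
  have inv : ∀ g : S, (∀ u, ρ a u = u → ρ g u ∈ N) → (∀ v, ρ b v = v → ρ g v ∈ N) →
      ∀ m ∈ N, ρ g m ∈ N := by
    intro g h1 h2 m hm
    obtain ⟨u, v, hu, hv, rfl⟩ := (hNmem m).mp hm
    rw [map_add]
    exact N.add_mem (h1 u hu) (h2 v hv)
  have hNa : ∀ m ∈ N, ρ a m ∈ N := inv a (fun u hu => hNA _ (congrArg (ρ a) hu))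
    (fun v hv => hNB _ (by rw [← ab', hv]))
  have hNb : ∀ m ∈ N, ρ b m ∈ N := inv b (fun u hu => hNA _ (by rw [ab', hu]))
    (fun v hv => hNB _ (congrArg (ρ b) hv))
  have hNr : ∀ m ∈ N, ρ r₀ m ∈ N := inv r₀ (fun u hu => hNB _ (by rw [← ra', hu]))
    (fun v hv => hNA _ (by
      have h1 : ρ a (ρ a (ρ r₀ v)) = ρ r₀ v := by rw [← rb', hv]
      have h2 := congrArg (ρ a) h1
      rw [a3'] at h2
      exact h2.symm))
  have hNs : ∀ m ∈ N, ρ s m ∈ N := inv s (fun u hu => hNA _ (by rw [← sa', hu]))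
    (fun v hv => hNB _ (by
      have h1 : ρ b (ρ b (ρ s v)) = ρ s v := by rw [← sb', hv]
      have h2 := congrArg (ρ b) h1
      rw [b3'] at h2
      exact h2.symm))
  have hNall : ∀ g : S, ∀ m ∈ N, ρ g m ∈ N := by
    have hT := hgen (d8modStab ρ N) (d8mod_mem_stab ρ N a hNa) (d8mod_mem_stab ρ N b hNb)
      (d8mod_mem_stab ρ N r₀ hNr) (d8mod_mem_stab ρ N s hNs)
    intro g m hm
    have hg : g ∈ d8modStab ρ N := by rw [hT]; trivial
    exact hg.1 m hm
  have hc : Nat.card M = 16 ∧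
      ((Nat.card {m : M // ρ (r₀ * r₀) m = m ∧ ρ s m = m} = 4 ∧
        Nat.card {m : M // ρ (r₀ * r₀) m = m ∧ ρ (s * r₀) m = m} = 2) ∨
       (Nat.card {m : M // ρ (r₀ * r₀) m = m ∧ ρ s m = m} = 2 ∧
        Nat.card {m : M // ρ (r₀ * r₀) m = m ∧ ρ (s * r₀) m = m} = 4)) := by
    rcases hirr N hNall with h | h
    · have hα : ∀ x, ρ a x + ρ a (ρ a x) = x := by
        intro x
        have h1 : x + ρ a x + ρ a (ρ a x) ∈ N :=
          hNA _ (by rw [map_add, map_add, a3']; abel)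
        rw [h] at h1
        have h2 := (Submodule.mem_bot _).mp h1
        rw [add_assoc] at h2
        exact (c2' _ _ h2).symm
      have hβ : ∀ x, ρ b x + ρ b (ρ b x) = x := by
        intro x
        have h1 : x + ρ b x + ρ b (ρ b x) ∈ N :=
          hNB _ (by rw [map_add, map_add, b3']; abel)
        rw [h] at h1
        have h2 := (Submodule.mem_bot _).mp h1
        rw [add_assoc] at h2
        exact (c2' _ _ h2).symm
      obtain ⟨a', ha'⟩ : ∃ a', a' = a * b⁻¹ := ⟨_, rfl⟩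
      obtain ⟨b', hb'⟩ : ∃ b', b' = a * b := ⟨_, rfl⟩
      have ha'A : a' ∈ A := by rw [ha']; exact A.mul_mem ha (A.inv_mem hbA)
      have hb'A : b' ∈ A := by rw [hb']; exact A.mul_mem ha hbA
      have ha'3 : a' * a' * a' = 1 := by have h := hA3 a' ha'A; rwa [pow_three'] at h
      have hb'3 : b' * b' * b' = 1 := by have h := hA3 b' hb'A; rwa [pow_three'] at h
      have ha'inv : a'⁻¹ = a' * a' :=
        inv_eq_of_mul_eq_one_right (by rw [← mul_assoc]; exact ha'3)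
      have hb'inv : b'⁻¹ = b' * b' :=
        inv_eq_of_mul_eq_one_right (by rw [← mul_assoc]; exact hb'3)
      have cra' : r₀ * a' * r₀⁻¹ = b' := by
        calc r₀ * a' * r₀⁻¹ = (r₀ * a * r₀⁻¹) * (r₀ * b * r₀⁻¹)⁻¹ := by rw [ha']; group
          _ = b * a := by rw [cra, crb, inv_inv]
          _ = b' := by rw [hb', hab]
      have crb' : r₀ * b' * r₀⁻¹ = a'⁻¹ := by
        calc r₀ * b' * r₀⁻¹ = (r₀ * a * r₀⁻¹) * (r₀ * b * r₀⁻¹) := by rw [hb']; group
          _ = b * a⁻¹ := by rw [cra, crb]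
          _ = a'⁻¹ := by rw [ha', mul_inv_rev, inv_inv]
      have csa2 : (s * r₀) * a' * (s * r₀)⁻¹ = a' := by
        calc (s * r₀) * a' * (s * r₀)⁻¹ = s * (r₀ * a' * r₀⁻¹) * s⁻¹ := by group
          _ = (s * a * s⁻¹) * (s * b * s⁻¹) := by rw [cra', hb']; group
          _ = a' := by rw [csa, csb, ha']
      have csb2 : (s * r₀) * b' * (s * r₀)⁻¹ = b'⁻¹ := by
        calc (s * r₀) * b' * (s * r₀)⁻¹ = s * (r₀ * b' * r₀⁻¹) * s⁻¹ := by group
          _ = ((s * a * s⁻¹) * (s * b * s⁻¹)⁻¹)⁻¹ := by rw [crb', ha']; group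
          _ = b'⁻¹ := by rw [csa, csb, inv_inv, hb']
      have hra2 : r₀ * a' = b' * r₀ := mul_inv_eq_iff_eq_mul.mp cra'
      have hrb2 : r₀ * b' = a' * a' * r₀ := by
        rw [← ha'inv]; exact mul_inv_eq_iff_eq_mul.mp crb'
      have hsa2 : (s * r₀) * a' = a' * (s * r₀) := mul_inv_eq_iff_eq_mul.mp csa2
      have hsb2 : (s * r₀) * b' = b' * b' * (s * r₀) := by
        rw [← hb'inv]; exact mul_inv_eq_iff_eq_mul.mp csb2
      have hab2 : a' * b' = b' * a' := hAc a' ha'A b' hb'A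
      have hs2' : (s * r₀) * (s * r₀) = 1 := by
        rw [hs, hr₀, ← map_mul φ, ← map_mul φ, ← map_one φ]
        exact congrArg φ (by decide)
      have hsr2 : (s * r₀) * r₀ = r₀ * r₀ * r₀ * (s * r₀) := by
        rw [hs, hr₀]
        simp only [← map_mul]
        exact congrArg φ (by decide)
      have ha'' : a' = a * (b * b) := by rw [ha', hbinv]
      have t1 : ∀ x, ρ a' x = ρ a (ρ b (ρ b x)) := fun x => by
        rw [ha'', d8mod_rho_mul, d8mod_rho_mul]
      have t2 : ∀ x, ρ b' x = ρ a (ρ b x) := fun x => by rw [hb', d8mod_rho_mul]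
      have hE2 : ∀ m, ρ a' m + ρ a' (ρ a' m) + ρ b' m + ρ b' (ρ b' m) = m := by
        intro m
        simp only [t1, t2, ab', b3']
        have e1 := congrArg (ρ b) (hα m)
        rw [map_add] at e1
        have e2 := congrArg (fun x => ρ b (ρ b x)) (hα m)
        simp only [map_add] at e2
        calc _ = (ρ b (ρ a m) + ρ b (ρ a (ρ a m)))
              + (ρ b (ρ b (ρ a m)) + ρ b (ρ b (ρ a (ρ a m)))) := by abel
          _ = ρ b m + ρ b (ρ b m) := by rw [e1, e2]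
          _ = m := hβ m
      have hgen2 : ∀ T : Subgroup S, a' ∈ T → b' ∈ T → r₀ ∈ T → s * r₀ ∈ T → T = ⊤ := by
        intro T h1 h2 h3 h4
        have e : a' * b' = a * a := by
          rw [ha', hb']
          calc a * b⁻¹ * (a * b) = a * (b⁻¹ * a) * b := by group
            _ = a * (a * b⁻¹) * b := by rw [hAc b⁻¹ (A.inv_mem hbA) a ha]
            _ = a * a := by group
        have haa : a * a ∈ T := by rw [← e]; exact T.mul_mem h1 h2
        have haT : a ∈ T := by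
          have h5 := T.mul_mem haa haa
          have e2 : a * a * (a * a) = a := by
            calc a * a * (a * a) = (a * a * a) * a := by group
              _ = a := by rw [ha3, one_mul]
          rwa [e2] at h5
        have hbT : b ∈ T := by
          have h5 := T.mul_mem (T.inv_mem haT) h2
          rwa [hb', inv_mul_cancel_left] at h5
        have hsT : s ∈ T := by
          have h5 := T.mul_mem h4 (T.inv_mem h3)
          rwa [mul_inv_cancel_right] at h5
        exact hgen T haT hbT h3 hsT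
      have hcore := d8mod_core_grp ρ a' b' r₀ (s * r₀) ha'3 hb'3 hab2 hra2 hrb2 hsa2 hsb2
        hs2' hr4 hsr2 hE2 hgen2 hirr
      refine ⟨hcore.1, Or.inr ⟨?_, hcore.2.1⟩⟩
      refine (Nat.card_congr (Equiv.subtypeEquivRight (fun m => ?_))).trans hcore.2.2
      constructor
      · rintro ⟨h1, h2⟩
        refine ⟨h1, ?_⟩
        rw [mul_assoc, d8mod_rho_mul, h1, h2]
      · rintro ⟨h1, h2⟩
        refine ⟨h1, ?_⟩
        rw [mul_assoc, d8mod_rho_mul, h1] at h2
        exact h2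
    · have hE1 : ∀ m, ρ a m + ρ a (ρ a m) + ρ b m + ρ b (ρ b m) = m := by
        have hu : ∀ u, ρ a u = u → ρ a u + ρ a (ρ a u) + ρ b u + ρ b (ρ b u) = u := by
          intro u hu0
          have h1 := hEb0 u hu0
          rw [hu0, hu0, c2 u, zero_add]
          rw [add_assoc] at h1
          exact (c2' _ _ h1).symm
        have hv : ∀ v, ρ b v = v → ρ a v + ρ a (ρ a v) + ρ b v + ρ b (ρ b v) = v := by
          intro v hv0
          have h1 := hEa0 v hv0
          rw [hv0, hv0]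
          rw [add_assoc] at h1
          rw [add_assoc (ρ a v + ρ a (ρ a v)), c2 v, add_zero]
          exact (c2' _ _ h1).symm
        intro m
        have hm : m ∈ N := by rw [h]; trivial
        obtain ⟨u, v, hu', hv', rfl⟩ := (hNmem m).mp hm
        have e1 := hu u hu'
        have e2 := hv v hv'
        simp only [map_add]
        calc _ = (ρ a u + ρ a (ρ a u) + ρ b u + ρ b (ρ b u))
              + (ρ a v + ρ a (ρ a v) + ρ b v + ρ b (ρ b v)) := by abel
          _ = u + v := by rw [e1, e2]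
      have hcore := d8mod_core_grp ρ a b r₀ s ha3 hb3 hab hra hrb hsa hsb hs2 hr4 hsr hE1
        hgen hirr
      exact ⟨hcore.1, Or.inl hcore.2⟩
  refine ⟨hc.1, ?_⟩
  have hB1X : d8K1.map φ ≤ X := by
    rintro _ ⟨k, -, rfl⟩; exact (hφX _).mpr ⟨k, rfl⟩
  have hB2X : d8K2.map φ ≤ X := by
    rintro _ ⟨k, -, rfl⟩; exact (hφX _).mpr ⟨k, rfl⟩
  have hB1c : Nat.card ↥(d8K1.map φ) = 4 := by
    rw [Subgroup.card_map_of_injective hφi, d8K1_card]
  have hB2c : Nat.card ↥(d8K2.map φ) = 4 := by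
    rw [Subgroup.card_map_of_injective hφi, d8K2_card]
  have hB1e : ∀ x ∈ d8K1.map φ, x ^ 2 = 1 := by
    rintro _ ⟨k, hk, rfl⟩; rw [← map_pow, d8K1_exp k hk, map_one]
  have hB2e : ∀ x ∈ d8K2.map φ, x ^ 2 = 1 := by
    rintro _ ⟨k, hk, rfl⟩; rw [← map_pow, d8K2_exp k hk, map_one]
  have hφ1 : φ (DihedralGroup.r 0) = 1 := by rw [← map_one φ]; rfl
  have hφs2 : φ (DihedralGroup.sr 2) = s * (r₀ * r₀) := by
    rw [hs, ← hz, ← map_mul φ]; exact congrArg φ (by decide)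
  have hφs1 : φ (DihedralGroup.sr 1) = s * r₀ := by
    rw [hs, hr₀, ← map_mul φ]; exact congrArg φ (by decide)
  have hφs3 : φ (DihedralGroup.sr 3) = s * r₀ * (r₀ * r₀) := by
    rw [hs, ← hz, hr₀, ← map_mul φ, ← map_mul φ]; exact congrArg φ (by decide)
  have hfix1 : Nat.card {m : M // ∀ x ∈ d8K1.map φ, ρ x m = m}
      = Nat.card {m : M // ρ (r₀ * r₀) m = m ∧ ρ s m = m} := by
    apply Nat.card_congr
    refine Equiv.subtypeEquivRight (fun m => ?_)
    constructor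
    · intro h
      refine ⟨?_, ?_⟩
      · rw [← hz]; exact h _ ⟨DihedralGroup.r 2, (show DihedralGroup.r 2 ∈ d8K1 by decide), rfl⟩
      · rw [hs]; exact h _ ⟨DihedralGroup.sr 0, (show DihedralGroup.sr 0 ∈ d8K1 by decide), rfl⟩
    · rintro ⟨h1, h2⟩ x ⟨k, hk, rfl⟩
      rcases (d8K1_mem k).mp hk with rfl | rfl | rfl | rfl
      · rw [hφ1, d8mod_rho_one]
      · rw [hz]; exact h1
      · rw [← hs]; exact h2
      · rw [hφs2, d8mod_rho_mul, h1, h2]
  have hfix2 : Nat.card {m : M // ∀ x ∈ d8K2.map φ, ρ x m = m}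
      = Nat.card {m : M // ρ (r₀ * r₀) m = m ∧ ρ (s * r₀) m = m} := by
    apply Nat.card_congr
    refine Equiv.subtypeEquivRight (fun m => ?_)
    constructor
    · intro h
      refine ⟨?_, ?_⟩
      · rw [← hz]; exact h _ ⟨DihedralGroup.r 2, (show DihedralGroup.r 2 ∈ d8K2 by decide), rfl⟩
      · rw [← hφs1]; exact h _ ⟨DihedralGroup.sr 1, (show DihedralGroup.sr 1 ∈ d8K2 by decide), rfl⟩
    · rintro ⟨h1, h2⟩ x ⟨k, hk, rfl⟩
      rcases (d8K2_mem k).mp hk with rfl | rfl | rfl | rfl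
      · rw [hφ1, d8mod_rho_one]
      · rw [hz]; exact h1
      · rw [hφs1]; exact h2
      · rw [hφs3, d8mod_rho_mul, h1, h2]
  have hclass : ∀ B : Subgroup S, B ≤ X → Nat.card ↥B = 4 → (∀ x ∈ B, x ^ 2 = 1) →
      B = d8K1.map φ ∨ B = d8K2.map φ := by
    intro B hBX hB4 hBe
    have hBr : B ≤ φ.range := by
      intro x hx
      obtain ⟨k, hk⟩ := (hφX x).mp (hBX hx)
      exact ⟨k, hk⟩
    have hmc : (B.comap φ).map φ = B := Subgroup.map_comap_eq_self hBr
    have hK4 : Nat.card ↥(B.comap φ) = 4 := by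
      rw [← Subgroup.card_map_of_injective hφi, hmc, hB4]
    have hKe : ∀ k ∈ B.comap φ, k ^ 2 = 1 := by
      intro k hk
      apply hφi
      rw [map_pow, map_one]
      exact hBe _ hk
    rcases d8_klein_class _ hK4 hKe with h | h
    · left; rw [← hmc, h]
    · right; rw [← hmc, h]
  rcases hc.2 with ⟨h1, h2⟩ | ⟨h1, h2⟩
  · refine ⟨d8K2.map φ, ⟨hB2X, hB2c, hB2e, by rw [hfix2, h2]⟩, ?_⟩
    rintro B ⟨hBX, hB4, hBe, hBf⟩
    rcases hclass B hBX hB4 hBe with rfl | rfl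
    · rw [hfix1, h1] at hBf
      exact absurd hBf (by norm_num)
    · rfl
  · refine ⟨d8K1.map φ, ⟨hB1X, hB1c, hB1e, by rw [hfix1, h1]⟩, ?_⟩
    rintro B ⟨hBX, hB4, hBe, hBf⟩
    rcases hclass B hBX hB4 hBe with rfl | rfl
    · rfl
    · rw [hfix2, h2] at hBf
      exact absurd hBf (by norm_num)

theorem d8mod_final {S : Type*} [Group S] [Finite S]
    (A : Subgroup S) [hAn : A.Normal] (hAc : ∀ x ∈ A, ∀ y ∈ A, x * y = y * x)
    (hA3 : ∀ x ∈ A, x ^ 3 = 1) (hA9 : Nat.card ↥A = 9)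
    (hAC : Subgroup.centralizer (A : Set S) = A) (X : Subgroup S)
    (hX : Nonempty (↥X ≃* DihedralGroup 4)) (hAX : A ⊔ X = ⊤)
    {M : Type*} [AddCommGroup M] [Module (ZMod 2) M] [Finite M] (ρ : Representation (ZMod 2) S M)
    (hfaith : Function.Injective ρ)
    (hirr : ∀ N : Submodule (ZMod 2) M, (∀ s : S, ∀ m ∈ N, ρ s m ∈ N) → N = ⊥ ∨ N = ⊤)
    (hM : Nontrivial M) :
    Nat.card M = 16 ∧
      ∃! B : Subgroup S, B ≤ X ∧ Nat.card ↥B = 4 ∧ (∀ b ∈ B, b ^ 2 = 1) ∧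
        Nat.card {m : M // ∀ b ∈ B, ρ b m = m} = 2 := by
  obtain ⟨e⟩ := hX
  obtain ⟨φ, hφ⟩ : ∃ φ : DihedralGroup 4 →* S, ∀ k, φ k = (e.symm k : S) :=
    ⟨X.subtype.comp e.symm.toMonoidHom, fun k => rfl⟩
  have hφi : Function.Injective φ := by
    intro x y h
    rw [hφ, hφ] at h
    exact e.symm.injective (Subtype.ext h)
  have hφX : ∀ x, x ∈ X ↔ ∃ k, φ k = x := by
    intro x
    constructor
    · intro hx
      refine ⟨e ⟨x, hx⟩, ?_⟩
      rw [hφ, MulEquiv.symm_apply_apply]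
    · rintro ⟨k, rfl⟩
      rw [hφ]; exact (e.symm k).2
  obtain ⟨z, hz⟩ : ∃ z, z = φ (DihedralGroup.r 2) := ⟨_, rfl⟩
  obtain ⟨s₀, hs₀⟩ : ∃ s₀, s₀ = φ (DihedralGroup.sr 0) := ⟨_, rfl⟩
  have hz2 : z * z = 1 := by
    rw [hz, ← map_mul φ, ← map_one φ]; exact congrArg φ (by decide)
  have hs2 : s₀ * s₀ = 1 := by
    rw [hs₀, ← map_mul φ, ← map_one φ]; exact congrArg φ (by decide)
  have hzs : z * s₀ = s₀ * z := by
    rw [hz, hs₀, ← map_mul φ, ← map_mul φ]; exact congrArg φ (by decide)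
  have hz1 : z ≠ 1 := by
    intro h
    rw [hz, ← map_one φ] at h
    have h' := hφi h
    revert h'; decide
  have hzinv : z⁻¹ = z := inv_eq_of_mul_eq_one_right hz2
  obtain ⟨g, hgA, hg⟩ : ∃ g ∈ A, z * g ≠ g * z := by
    by_contra hcon
    push Not at hcon
    have hzC : z ∈ Subgroup.centralizer (A : Set S) := by
      rw [Subgroup.mem_centralizer_iff]
      intro g hg
      exact (hcon g hg).symm
    rw [hAC] at hzC
    have h3 := hA3 z hzC
    rw [pow_three', hz2, one_mul] at h3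
    exact hz1 h3
  obtain ⟨h, hh⟩ : ∃ h, h = g * (z * g⁻¹ * z⁻¹) := ⟨_, rfl⟩
  have hhA : h ∈ A := by
    rw [hh]; exact A.mul_mem hgA (hAn.conj_mem _ (A.inv_mem hgA) z)
  have hh1 : h ≠ 1 := by
    intro h1
    apply hg
    have e1 : g * z = (g * (z * g⁻¹ * z⁻¹)) * (z * g) := by group
    rw [e1, ← hh, h1, one_mul]
  have f1 : z * h * z⁻¹ = h⁻¹ := by
    have e1 : h⁻¹ = z * g * z⁻¹ * g⁻¹ := by rw [hh]; group
    have e2 : z * h * z⁻¹ = z * g * z * g⁻¹ * z⁻¹ * z⁻¹ := by rw [hh]; group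
    rw [e1, e2, hzinv]
    rw [mul_assoc (z * g * z * g⁻¹), hz2, mul_one]
  obtain ⟨h', hh'⟩ : ∃ h', h' = s₀ * h * s₀⁻¹ := ⟨_, rfl⟩
  have hh'A : h' ∈ A := by rw [hh']; exact hAn.conj_mem h hhA s₀
  have f2 : z * h' * z⁻¹ = h'⁻¹ := by
    calc z * h' * z⁻¹ = (z * s₀) * h * (z * s₀)⁻¹ := by rw [hh']; group
      _ = (s₀ * z) * h * (s₀ * z)⁻¹ := by rw [hzs]
      _ = s₀ * (z * h * z⁻¹) * s₀⁻¹ := by group
      _ = s₀ * h⁻¹ * s₀⁻¹ := by rw [f1]
      _ = h'⁻¹ := by rw [hh']; group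
  have f4 : s₀ * h' * s₀⁻¹ = h := by
    calc s₀ * h' * s₀⁻¹ = (s₀ * s₀) * h * (s₀ * s₀)⁻¹ := by rw [hh']; group
      _ = h := by rw [hs2]; group
  have hcomm : h * h' = h' * h := hAc h hhA h' hh'A
  have hcomm' : h * h'⁻¹ = h'⁻¹ * h := hAc h hhA h'⁻¹ (A.inv_mem hh'A)
  by_cases hplus : h * h' = 1
  · have hminus : h * h'⁻¹ ≠ 1 := by
      intro hm
      have e1 : h' = h := (mul_inv_eq_one.mp hm).symm
      rw [e1] at hplus
      have h3 := hA3 h hhA
      rw [pow_three', hplus, one_mul] at h3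
      exact hh1 h3
    obtain ⟨φ', hφ'⟩ : ∃ φ' : DihedralGroup 4 →* S,
        ∀ k, φ' k = φ (DihedralGroup.r 1 * k * (DihedralGroup.r 1)⁻¹) :=
      ⟨φ.comp (MulAut.conj (DihedralGroup.r 1)).toMonoidHom, fun k => rfl⟩
    have hφ'i : Function.Injective φ' := by
      intro x y hxy
      rw [hφ', hφ'] at hxy
      have h5 := hφi hxy
      exact mul_left_cancel (mul_right_cancel h5)
    have hφ'X : ∀ x, x ∈ X ↔ ∃ k, φ' k = x := by
      intro x
      rw [hφX]
      constructor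
      · rintro ⟨k, rfl⟩
        refine ⟨(DihedralGroup.r 1)⁻¹ * k * DihedralGroup.r 1, ?_⟩
        rw [hφ']; congr 1; group
      · rintro ⟨k, rfl⟩
        exact ⟨_, (hφ' k).symm⟩
    have e1 : φ' (DihedralGroup.sr 0) = s₀ * z := by
      rw [hφ', hs₀, hz, ← map_mul φ]; exact congrArg φ (by decide)
    have e2 : φ' (DihedralGroup.r 2) = z := by
      rw [hφ', hz]; exact congrArg φ (by decide)
    refine d8mod_main A hAc hA3 hA9 X hAX φ' hφ'i hφ'X ρ hfaith hirr hM (h * h'⁻¹)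
      (A.mul_mem hhA (A.inv_mem hh'A)) hminus ?_ ?_
    · rw [e1, ← mul_inv_eq_iff_eq_mul]
      calc s₀ * z * (h * h'⁻¹) * (s₀ * z)⁻¹
          = s₀ * ((z * h * z⁻¹) * (z * h' * z⁻¹)⁻¹) * s₀⁻¹ := by group
        _ = s₀ * (h⁻¹ * h'⁻¹⁻¹) * s₀⁻¹ := by rw [f1, f2]
        _ = (s₀ * h * s₀⁻¹)⁻¹ * (s₀ * h' * s₀⁻¹) := by group
        _ = h'⁻¹ * h := by rw [← hh', f4]
        _ = h * h'⁻¹ := hcomm'.symm
    · rw [e2, ← mul_inv_eq_iff_eq_mul]
      calc z * (h * h'⁻¹) * z⁻¹ = (z * h * z⁻¹) * (z * h' * z⁻¹)⁻¹ := by group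
        _ = h⁻¹ * h'⁻¹⁻¹ := by rw [f1, f2]
        _ = (h'⁻¹ * h)⁻¹ := by rw [mul_inv_rev]
        _ = (h * h'⁻¹)⁻¹ := by rw [hcomm']
  · refine d8mod_main A hAc hA3 hA9 X hAX φ hφi hφX ρ hfaith hirr hM (h * h')
      (A.mul_mem hhA hh'A) hplus ?_ ?_
    · rw [← hs₀, ← mul_inv_eq_iff_eq_mul]
      calc s₀ * (h * h') * s₀⁻¹ = (s₀ * h * s₀⁻¹) * (s₀ * h' * s₀⁻¹) := by group
        _ = h' * h := by rw [← hh', f4]
        _ = h * h' := hcomm.symm
    · rw [← hz, ← mul_inv_eq_iff_eq_mul]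
      calc z * (h * h') * z⁻¹ = (z * h * z⁻¹) * (z * h' * z⁻¹) := by group
        _ = h⁻¹ * h'⁻¹ := by rw [f1, f2]
        _ = (h' * h)⁻¹ := by rw [mul_inv_rev]
        _ = (h * h')⁻¹ := by rw [hcomm]

end Cfsg.Agent.Lib.Helper11
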