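import Mathlib
import Cfsg.Prelude
import Cfsg.Agent.Lib.Helper10.Signalizer
import Cfsg.Agent.Lib.Helper21.Dihedral
import Cfsg.Agent.Lib.Helper11.GenFit
import Cfsg.Agent.S0044

set_option autoImplicit false

namespace Cfsg.Agent.Lib.Helper11

open scoped commutatorElement

section dihprod

variable {G : Type*} [Group G]

/-- Core eigenvector lemma: an abelian group `X` acted on by a commuting family of involutions
contains, for each nontrivial `c₀`, a nontrivial common "eigenvector". -/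
theorem eigen_core (A X : Subgroup G)
    (hAc : ∀ a ∈ A, ∀ b ∈ A, a * b = b * a) (hA2 : ∀ a ∈ A, a * a = 1)
    (hXc : ∀ x ∈ X, ∀ y ∈ X, x * y = y * x)
    (hAX : ∀ a ∈ A, ∀ x ∈ X, a * x * a⁻¹ ∈ X)
    (c₀ : G) (hc₀ : c₀ ∈ X) (hc₀1 : c₀ ≠ 1) (S : Finset G) (hS : ∀ a ∈ S, a ∈ A) :
    ∃ c ∈ X, c ≠ 1 ∧ (∀ b ∈ A, b * c₀ * b⁻¹ = c₀⁻¹ → b * c * b⁻¹ = c⁻¹) ∧
      ∀ a ∈ S, a * c * a⁻¹ = c ∨ a * c * a⁻¹ = c⁻¹ := by
  classical
  induction S using Finset.induction_on with
  | empty => exact ⟨c₀, hc₀, hc₀1, fun b _ h => h, by simp⟩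
  | insert a S haS ih =>
    obtain ⟨c, hcX, hc1, hcb, hcS⟩ := ih (fun s hs => hS s (Finset.mem_insert_of_mem hs))
    have haA : a ∈ A := hS a (Finset.mem_insert_self a S)
    obtain ⟨e, he⟩ : ∃ e, e = a * c * a⁻¹ := ⟨_, rfl⟩
    have heX : e ∈ X := by rw [he]; exact hAX a haA c hcX
    have hce : c * e = e * c := hXc c hcX e heX
    by_cases h : c * e = 1
    · refine ⟨c, hcX, hc1, hcb, ?_⟩
      intro s hs
      rw [Finset.mem_insert] at hs
      rcases hs with hsa | hs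
      · subst hsa
        right
        rw [← he]
        exact eq_inv_of_mul_eq_one_right h
      · exact hcS s hs
    · refine ⟨c * e, X.mul_mem hcX heX, h, ?_, ?_⟩
      · intro b hbA hb
        have h1 := hcb b hbA hb
        have h2 : b * e * b⁻¹ = e⁻¹ := by
          have hab : b * a = a * b := hAc b hbA a haA
          calc b * e * b⁻¹ = (b * a) * c * (b * a)⁻¹ := by rw [he]; group
            _ = (a * b) * c * (a * b)⁻¹ := by rw [hab]
            _ = a * (b * c * b⁻¹) * a⁻¹ := by group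
            _ = a * c⁻¹ * a⁻¹ := by rw [h1]
            _ = e⁻¹ := by rw [he]; group
        calc b * (c * e) * b⁻¹ = (b * c * b⁻¹) * (b * e * b⁻¹) := by group
          _ = c⁻¹ * e⁻¹ := by rw [h1, h2]
          _ = (c * e)⁻¹ := by rw [hce, mul_inv_rev]
      · intro s hs
        rw [Finset.mem_insert] at hs
        rcases hs with hsa | hs
        · subst hsa
          left
          have h2 : s * e * s⁻¹ = c := by
            rw [he]
            calc s * (s * c * s⁻¹) * s⁻¹ = (s * s) * c * (s * s)⁻¹ := by group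
              _ = c := by rw [hA2 s haA]; group
          calc s * (c * e) * s⁻¹ = (s * c * s⁻¹) * (s * e * s⁻¹) := by group
            _ = e * c := by rw [h2, ← he]
            _ = c * e := hce.symm
        · have hsA : s ∈ A := hS s (Finset.mem_insert_of_mem hs)
          have hsa : s * a = a * s := hAc s hsA a haA
          have key : s * e * s⁻¹ = a * (s * c * s⁻¹) * a⁻¹ := by
            calc s * e * s⁻¹ = (s * a) * c * (s * a)⁻¹ := by rw [he]; group
              _ = (a * s) * c * (a * s)⁻¹ := by rw [hsa]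
              _ = a * (s * c * s⁻¹) * a⁻¹ := by group
          rcases hcS s hs with h1 | h1
          · left
            calc s * (c * e) * s⁻¹ = (s * c * s⁻¹) * (s * e * s⁻¹) := by group
              _ = c * e := by rw [key, h1, ← he]
          · right
            calc s * (c * e) * s⁻¹ = (s * c * s⁻¹) * (s * e * s⁻¹) := by group
              _ = c⁻¹ * e⁻¹ := by rw [key, h1, he]; group
              _ = (c * e)⁻¹ := by rw [hce, mul_inv_rev]

/-- Eigenvector lemma: if `b ∈ A` acts nontrivially on the abelian group `X`, there is a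
nontrivial `c ∈ X` inverted by `b` and centralized or inverted by every element of `A`. -/
theorem exists_eigen [Finite G] (A X : Subgroup G)
    (hAc : ∀ a ∈ A, ∀ b ∈ A, a * b = b * a) (hA2 : ∀ a ∈ A, a * a = 1)
    (hXc : ∀ x ∈ X, ∀ y ∈ X, x * y = y * x)
    (hAX : ∀ a ∈ A, ∀ x ∈ X, a * x * a⁻¹ ∈ X)
    (b : G) (hb : b ∈ A) (x : G) (hx : x ∈ X) (hbx : b * x * b⁻¹ ≠ x) :
    ∃ c ∈ X, c ≠ 1 ∧ b * c * b⁻¹ = c⁻¹ ∧ ∀ a ∈ A, a * c * a⁻¹ = c ∨ a * c * a⁻¹ = c⁻¹ := by
  classical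
  obtain ⟨c₀, hc₀def⟩ : ∃ c₀, c₀ = x⁻¹ * (b * x * b⁻¹) := ⟨_, rfl⟩
  have hc₀ : c₀ ∈ X := by rw [hc₀def]; exact X.mul_mem (X.inv_mem hx) (hAX b hb x hx)
  have hc₀1 : c₀ ≠ 1 := by
    intro h
    apply hbx
    rw [hc₀def] at h
    calc b * x * b⁻¹ = x * (x⁻¹ * (b * x * b⁻¹)) := by group
      _ = x := by rw [h, mul_one]
  have hbc₀ : b * c₀ * b⁻¹ = c₀⁻¹ := by
    rw [hc₀def]
    calc b * (x⁻¹ * (b * x * b⁻¹)) * b⁻¹ = (b * x * b⁻¹)⁻¹ * ((b * b) * x * (b * b)⁻¹) := by group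
      _ = (b * x * b⁻¹)⁻¹ * x := by rw [hA2 b hb]; group
      _ = (x⁻¹ * (b * x * b⁻¹))⁻¹ := by group
  have := Fintype.ofFinite G
  obtain ⟨c, hcX, hc1, hcb, hcS⟩ := eigen_core A X hAc hA2 hXc hAX c₀ hc₀ hc₀1
    (Finset.univ.filter (· ∈ A)) (by simp)
  exact ⟨c, hcX, hc1, hcb b hb hbc₀, fun a ha => hcS a (by simp [ha])⟩

theorem eq_one_of_sq_of_odd [Finite G] {H : Subgroup G} (hodd : Odd (Nat.card H)) {c : G}
    (hc : c ∈ H) (h : c * c = 1) : c = 1 := by
  have h1 : orderOf c ∣ 2 := orderOf_dvd_of_pow_eq_one (by rw [pow_two]; exact h)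
  have h2 : orderOf c ∣ Nat.card H := by
    have := orderOf_dvd_natCard (⟨c, hc⟩ : H)
    rwa [← Subgroup.orderOf_coe] at this
  have h3 : orderOf c ∣ 1 := by
    have := Nat.dvd_gcd h1 h2
    rwa [Nat.Coprime.gcd_eq_one (Nat.coprime_two_left.mpr hodd)] at this
  exact orderOf_eq_one_iff.mp (Nat.dvd_one.mp h3)

/-- An involution normalizing the odd-order group `M` that centralizes a normal subgroup `X` of
`M` and the centralizer of `X` in `M` centralizes `M`. -/
theorem involution_centralizes [Finite G] (M X : Subgroup G) (hMo : Odd (Nat.card M)) (a : G)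
    (ha2 : a * a = 1) (haM : ∀ m ∈ M, a * m * a⁻¹ ∈ M)
    (hXM : ∀ m ∈ M, ∀ x ∈ X, m * x * m⁻¹ ∈ X)
    (haX : ∀ x ∈ X, a * x = x * a)
    (haC : ∀ c ∈ M, (∀ x ∈ X, c * x = x * c) → a * c = c * a)
    (m : G) (hm : m ∈ M) : a * m = m * a := by
  have hainv : a⁻¹ = a := inv_eq_of_mul_eq_one_left ha2
  obtain ⟨c, hcdef⟩ : ∃ c, c = m⁻¹ * (a * m * a⁻¹) := ⟨_, rfl⟩
  have hcM : c ∈ M := by rw [hcdef]; exact M.mul_mem (M.inv_mem hm) (haM m hm)
  have hcX : ∀ x ∈ X, c * x = x * c := by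
    intro x hx
    have h1 := haX _ (hXM m hm x hx)
    have h2 := haX x hx
    have h3 : (m⁻¹ * a * m) * x = x * (m⁻¹ * a * m) := by
      calc (m⁻¹ * a * m) * x = m⁻¹ * (a * (m * x * m⁻¹)) * m := by group
        _ = m⁻¹ * ((m * x * m⁻¹) * a) * m := by rw [h1]
        _ = x * (m⁻¹ * a * m) := by group
    have h4 : a⁻¹ * x = x * a⁻¹ := by rw [hainv]; exact h2
    rw [hcdef]
    calc m⁻¹ * (a * m * a⁻¹) * x = (m⁻¹ * a * m) * (a⁻¹ * x) := by group
      _ = (m⁻¹ * a * m) * (x * a⁻¹) := by rw [h4]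
      _ = ((m⁻¹ * a * m) * x) * a⁻¹ := by group
      _ = (x * (m⁻¹ * a * m)) * a⁻¹ := by rw [h3]
      _ = x * (m⁻¹ * (a * m * a⁻¹)) := by group
  have hac := haC c hcM hcX
  have hcc : c * c = 1 := by
    have h1 : m⁻¹ * a * m = c * a := by
      rw [hcdef]
      calc m⁻¹ * a * m = m⁻¹ * (a * m * a⁻¹) * a⁻¹⁻¹ := by group
        _ = m⁻¹ * (a * m * a⁻¹) * a := by rw [inv_inv]
    have h2 : (m⁻¹ * a * m) * (m⁻¹ * a * m) = 1 := by
      calc (m⁻¹ * a * m) * (m⁻¹ * a * m) = m⁻¹ * (a * a) * m := by group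
        _ = 1 := by rw [ha2]; group
    rw [h1] at h2
    calc c * c = c * (c * (a * a)) := by rw [ha2, mul_one]
      _ = c * ((c * a) * a) := by group
      _ = c * ((a * c) * a) := by rw [hac]
      _ = (c * a) * (c * a) := by group
      _ = 1 := h2
  have hc1 := eq_one_of_sq_of_odd hMo hcM hcc
  rw [hcdef] at hc1
  calc a * m = m * (m⁻¹ * (a * m * a⁻¹)) * a := by group
    _ = m * a := by rw [hc1, mul_one]

/-- Quotient eigenvector step: an element of `C_F(X) ∖ X` central modulo `X` can be replaced by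
one which in addition is an eigenvector modulo `X` for all of `A`. -/
theorem exists_eigen_mod [Finite G] (N X F A : Subgroup G) [hn : (X.subgroupOf N).Normal]
    (hFN : F ≤ N) (hAN : A ≤ N)
    (hAc : ∀ a ∈ A, ∀ b ∈ A, a * b = b * a) (hA2 : ∀ a ∈ A, a * a = 1)
    (hAF : ∀ a ∈ A, ∀ f ∈ F, a * f * a⁻¹ ∈ F)
    (hAX : ∀ a ∈ A, ∀ x ∈ X, a * x * a⁻¹ ∈ X)
    (y : G) (hyF : y ∈ F) (hyX : ∀ x ∈ X, y * x = x * y) (hynX : y ∉ X)
    (hyc : ∀ f ∈ F, y * f * y⁻¹ * f⁻¹ ∈ X) :
    ∃ z ∈ F, (∀ x ∈ X, z * x = x * z) ∧ z ∉ X ∧ (∀ f ∈ F, z * f * z⁻¹ * f⁻¹ ∈ X) ∧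
      ∀ a ∈ A, a * z * a⁻¹ * z⁻¹ ∈ X ∨ a * z * a⁻¹ * z ∈ X := by
  classical
  obtain ⟨Fb, hFb⟩ : ∃ Fb : Subgroup (N ⧸ X.subgroupOf N),
      Fb = (F.subgroupOf N).map (QuotientGroup.mk' (X.subgroupOf N)) := ⟨_, rfl⟩
  obtain ⟨Cb, hCb⟩ : ∃ Cb : Subgroup (N ⧸ X.subgroupOf N),
      Cb = ((F ⊓ Subgroup.centralizer (X : Set G)).subgroupOf N).map
        (QuotientGroup.mk' (X.subgroupOf N)) := ⟨_, rfl⟩
  obtain ⟨Ab, hAb⟩ : ∃ Ab : Subgroup (N ⧸ X.subgroupOf N),
      Ab = (A.subgroupOf N).map (QuotientGroup.mk' (X.subgroupOf N)) := ⟨_, rfl⟩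
  obtain ⟨Wb, hWb⟩ : ∃ Wb : Subgroup (N ⧸ X.subgroupOf N),
      Wb = Subgroup.centralizer (Fb : Set (N ⧸ X.subgroupOf N)) ⊓ Cb := ⟨_, rfl⟩
  have hCF : Cb ≤ Fb := by
    rw [hCb, hFb]
    exact Subgroup.map_mono (Subgroup.subgroupOf_mono N inf_le_left)
  have hq1 : ∀ a ∈ Ab, ∀ b ∈ Ab, a * b = b * a := by
    intro a ha b hb
    rw [hAb] at ha hb
    obtain ⟨a', ha', rfl⟩ := ha
    obtain ⟨b', hb', rfl⟩ := hb
    rw [← map_mul, ← map_mul]
    congr 1
    exact Subtype.ext (hAc _ (Subgroup.mem_subgroupOf.mp ha') _ (Subgroup.mem_subgroupOf.mp hb'))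
  have hq2 : ∀ a ∈ Ab, a * a = 1 := by
    intro a ha
    rw [hAb] at ha
    obtain ⟨a', ha', rfl⟩ := ha
    rw [← map_mul]
    have : a' * a' = 1 := Subtype.ext (hA2 _ (Subgroup.mem_subgroupOf.mp ha'))
    rw [this, map_one]
  have hq3 : ∀ u ∈ Wb, ∀ v ∈ Wb, u * v = v * u := by
    intro u hu v hv
    rw [hWb] at hu hv
    exact (Subgroup.mem_centralizer_iff.mp hu.1 v (hCF hv.2)).symm
  have hq4 : ∀ a ∈ Ab, ∀ u ∈ Wb, a * u * a⁻¹ ∈ Wb := by
    intro a ha u hu
    rw [hWb, Subgroup.mem_inf] at hu ⊢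
    rw [hAb] at ha
    obtain ⟨a', ha', rfl⟩ := Subgroup.mem_map.mp ha
    have ha'A : (a' : G) ∈ A := Subgroup.mem_subgroupOf.mp ha'
    refine ⟨?_, ?_⟩
    · rw [Subgroup.mem_centralizer_iff]
      intro w hw
      have hw' : (QuotientGroup.mk' (X.subgroupOf N) a')⁻¹ * w *
          (QuotientGroup.mk' (X.subgroupOf N) a') ∈ Fb := by
        rw [hFb] at hw ⊢
        obtain ⟨f', hf', rfl⟩ := Subgroup.mem_map.mp hw
        refine Subgroup.mem_map.mpr ⟨a'⁻¹ * f' * a', ?_, by simp⟩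
        rw [Subgroup.mem_subgroupOf] at hf' ⊢
        have := hAF _ (A.inv_mem ha'A) _ hf'
        simpa using this
      have h1 := Subgroup.mem_centralizer_iff.mp hu.1 _ hw'
      calc w * (QuotientGroup.mk' (X.subgroupOf N) a' * u *
            (QuotientGroup.mk' (X.subgroupOf N) a')⁻¹)
          = QuotientGroup.mk' (X.subgroupOf N) a' *
            (((QuotientGroup.mk' (X.subgroupOf N) a')⁻¹ * w *
              (QuotientGroup.mk' (X.subgroupOf N) a')) * u) *
            (QuotientGroup.mk' (X.subgroupOf N) a')⁻¹ := by group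
        _ = QuotientGroup.mk' (X.subgroupOf N) a' *
            (u * ((QuotientGroup.mk' (X.subgroupOf N) a')⁻¹ * w *
              (QuotientGroup.mk' (X.subgroupOf N) a'))) *
            (QuotientGroup.mk' (X.subgroupOf N) a')⁻¹ := by rw [h1]
        _ = QuotientGroup.mk' (X.subgroupOf N) a' * u *
            (QuotientGroup.mk' (X.subgroupOf N) a')⁻¹ * w := by group
    · have hu2 := hu.2
      rw [hCb] at hu2 ⊢
      obtain ⟨c', hc', rfl⟩ := Subgroup.mem_map.mp hu2
      refine Subgroup.mem_map.mpr ⟨a' * c' * a'⁻¹, ?_, by simp⟩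
      rw [Subgroup.mem_subgroupOf, Subgroup.mem_inf] at hc' ⊢
      refine ⟨?_, ?_⟩
      · have := hAF _ ha'A _ hc'.1
        simpa using this
      · rw [Subgroup.mem_centralizer_iff]
        intro x hx
        have hx' : (a' : G)⁻¹ * x * (a' : G)⁻¹⁻¹ ∈ X := hAX _ (A.inv_mem ha'A) x hx
        have h1 := Subgroup.mem_centralizer_iff.mp hc'.2 _ hx'
        show x * ((a' : G) * (c' : G) * (a' : G)⁻¹) = (a' : G) * (c' : G) * (a' : G)⁻¹ * x
        calc x * ((a' : G) * (c' : G) * (a' : G)⁻¹)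
            = (a' : G) * (((a' : G)⁻¹ * x * (a' : G)⁻¹⁻¹) * (c' : G)) * (a' : G)⁻¹ := by group
          _ = (a' : G) * ((c' : G) * ((a' : G)⁻¹ * x * (a' : G)⁻¹⁻¹)) * (a' : G)⁻¹ := by rw [h1]
          _ = (a' : G) * (c' : G) * (a' : G)⁻¹ * x := by group
  have hyN : y ∈ N := hFN hyF
  have hq5 : QuotientGroup.mk' (X.subgroupOf N) ⟨y, hyN⟩ ∈ Wb := by
    rw [hWb, Subgroup.mem_inf]
    refine ⟨?_, ?_⟩
    · rw [Subgroup.mem_centralizer_iff]
      intro w hw
      rw [hFb] at hw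
      obtain ⟨f', hf', rfl⟩ := Subgroup.mem_map.mp hw
      rw [← map_mul, ← map_mul]
      have hf'F : (f' : G) ∈ F := Subgroup.mem_subgroupOf.mp hf'
      rw [QuotientGroup.mk'_apply, QuotientGroup.mk'_apply, QuotientGroup.eq,
        Subgroup.mem_subgroupOf]
      have h1 := hyc _ (F.inv_mem hf'F)
      have e : (((f' * ⟨y, hyN⟩)⁻¹ * (⟨y, hyN⟩ * f') : N) : G) =
          y⁻¹ * (y * (f' : G)⁻¹ * y⁻¹ * (f' : G)⁻¹⁻¹)⁻¹ * y := by
        simp only [Subgroup.coe_mul, InvMemClass.coe_inv]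
        group
      rw [e]
      have h2 : ∀ x ∈ X, y⁻¹ * x * y ∈ X := by
        intro x hx
        have : y⁻¹ * x * y = x := by
          calc y⁻¹ * x * y = y⁻¹ * (x * y) := by group
            _ = y⁻¹ * (y * x) := by rw [hyX x hx]
            _ = x := by group
        rw [this]; exact hx
      exact h2 _ (X.inv_mem h1)
    · rw [hCb]
      refine Subgroup.mem_map.mpr ⟨⟨y, hyN⟩, ?_, rfl⟩
      rw [Subgroup.mem_subgroupOf, Subgroup.mem_inf]
      refine ⟨hyF, ?_⟩
      rw [Subgroup.mem_centralizer_iff]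
      intro x hx
      exact (hyX x hx).symm
  have hq6 : QuotientGroup.mk' (X.subgroupOf N) ⟨y, hyN⟩ ≠ 1 := by
    intro h
    rw [QuotientGroup.mk'_apply, QuotientGroup.eq_one_iff, Subgroup.mem_subgroupOf] at h
    exact hynX h
  have := Fintype.ofFinite (N ⧸ X.subgroupOf N)
  obtain ⟨cb, hcW, hc1, -, hcS⟩ := eigen_core Ab Wb hq1 hq2 hq3 hq4 _ hq5 hq6
    (Finset.univ.filter (· ∈ Ab)) (by simp)
  have hcW' := hcW
  rw [hWb, Subgroup.mem_inf] at hcW'
  obtain ⟨hcen, hcC⟩ := hcW'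
  rw [hCb] at hcC
  obtain ⟨c', hc', rfl⟩ := Subgroup.mem_map.mp hcC
  rw [Subgroup.mem_subgroupOf, Subgroup.mem_inf] at hc'
  have hcx : ∀ x ∈ X, (c' : G) * x = x * (c' : G) := by
    intro x hx
    exact (Subgroup.mem_centralizer_iff.mp hc'.2 x hx).symm
  have h2 : ∀ x ∈ X, (c' : G) * x * (c' : G)⁻¹ ∈ X := by
    intro x hx
    have : (c' : G) * x * (c' : G)⁻¹ = x := by
      rw [hcx x hx]; group
    rw [this]; exact hx
  have h2' : ∀ x ∈ X, (c' : G)⁻¹ * x * (c' : G) ∈ X := by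
    intro x hx
    have : (c' : G)⁻¹ * x * (c' : G) = x := by
      calc (c' : G)⁻¹ * x * (c' : G) = (c' : G)⁻¹ * (x * (c' : G)) := by group
        _ = (c' : G)⁻¹ * ((c' : G) * x) := by rw [hcx x hx]
        _ = x := by group
    rw [this]; exact hx
  refine ⟨(c' : G), hc'.1, hcx, ?_, ?_, ?_⟩
  · intro h
    apply hc1
    rw [QuotientGroup.mk'_apply, QuotientGroup.eq_one_iff, Subgroup.mem_subgroupOf]
    exact h
  · intro f hf
    have hfi : f⁻¹ ∈ F := F.inv_mem hf
    have hfb : QuotientGroup.mk' (X.subgroupOf N) ⟨f⁻¹, hFN hfi⟩ ∈ Fb := by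
      rw [hFb]
      exact Subgroup.mem_map.mpr ⟨⟨f⁻¹, hFN hfi⟩, Subgroup.mem_subgroupOf.mpr hfi, rfl⟩
    have h1 := Subgroup.mem_centralizer_iff.mp hcen _ hfb
    rw [← map_mul, ← map_mul, QuotientGroup.mk'_apply, QuotientGroup.mk'_apply,
      QuotientGroup.eq, Subgroup.mem_subgroupOf] at h1
    have h3 := X.inv_mem (h2 _ h1)
    have e : ((c' : G) * (((⟨f⁻¹, hFN hfi⟩ * c')⁻¹ * (c' * ⟨f⁻¹, hFN hfi⟩) : N) : G) *
        (c' : G)⁻¹)⁻¹ = (c' : G) * f * (c' : G)⁻¹ * f⁻¹ := by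
      simp only [Subgroup.coe_mul, InvMemClass.coe_inv]
      group
    rw [e] at h3
    exact h3
  · intro a ha
    have hab : QuotientGroup.mk' (X.subgroupOf N) ⟨a, hAN ha⟩ ∈ Ab := by
      rw [hAb]
      exact Subgroup.mem_map.mpr ⟨⟨a, hAN ha⟩, Subgroup.mem_subgroupOf.mpr ha, rfl⟩
    rcases hcS (QuotientGroup.mk' (X.subgroupOf N) ⟨a, hAN ha⟩)
      (Finset.mem_filter.mpr ⟨Finset.mem_univ _, hab⟩) with h1 | h1
    · left
      rw [← map_inv, ← map_mul, ← map_mul, QuotientGroup.mk'_apply, QuotientGroup.mk'_apply,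
        QuotientGroup.eq, Subgroup.mem_subgroupOf] at h1
      have h3 := X.inv_mem (h2 _ h1)
      have e : ((c' : G) * (((⟨a, hAN ha⟩ * c' * ⟨a, hAN ha⟩⁻¹)⁻¹ * c' : N) : G) *
          (c' : G)⁻¹)⁻¹ = a * (c' : G) * a⁻¹ * (c' : G)⁻¹ := by
        simp only [Subgroup.coe_mul, InvMemClass.coe_inv]
        group
      rw [e] at h3
      exact h3
    · right
      rw [← map_inv, ← map_mul, ← map_mul, ← map_inv, QuotientGroup.mk'_apply,
        QuotientGroup.mk'_apply, QuotientGroup.eq, Subgroup.mem_subgroupOf] at h1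
      have h3 := h2' _ (X.inv_mem h1)
      have e : (c' : G)⁻¹ * ((((⟨a, hAN ha⟩ * c' * ⟨a, hAN ha⟩⁻¹)⁻¹ * c'⁻¹ : N) : G))⁻¹ *
          (c' : G) = a * (c' : G) * a⁻¹ * (c' : G) := by
        simp only [Subgroup.coe_mul, InvMemClass.coe_inv]
        group
      rw [e] at h3
      exact h3

/-- In a nilpotent group `F` normalized by an abelian group `A` of involutions, there is an
`A`-invariant abelian normal subgroup `X` of `F` with `C_F(X) ≤ X`. -/
theorem exists_abelian_self_centralizing [Finite G] (F A : Subgroup G)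
    (hFnil : Group.IsNilpotent F)
    (hAc : ∀ a ∈ A, ∀ b ∈ A, a * b = b * a) (hA2 : ∀ a ∈ A, a * a = 1)
    (hAF : ∀ a ∈ A, ∀ f ∈ F, a * f * a⁻¹ ∈ F) :
    ∃ X : Subgroup G, X ≤ F ∧ (∀ x ∈ X, ∀ y ∈ X, x * y = y * x) ∧
      (∀ f ∈ F, ∀ x ∈ X, f * x * f⁻¹ ∈ X) ∧ (∀ a ∈ A, ∀ x ∈ X, a * x * a⁻¹ ∈ X) ∧
      ∀ c ∈ F, (∀ x ∈ X, c * x = x * c) → c ∈ X := by
  classical
  obtain ⟨X, ⟨hXF, hXc, hXn, hXA⟩, hmax⟩ := (wellFounded_gt (α := Subgroup G)).has_min
    {X : Subgroup G | X ≤ F ∧ (∀ x ∈ X, ∀ y ∈ X, x * y = y * x) ∧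
      (∀ f ∈ F, ∀ x ∈ X, f * x * f⁻¹ ∈ X) ∧ (∀ a ∈ A, ∀ x ∈ X, a * x * a⁻¹ ∈ X)}
    ⟨⊥, bot_le, by
      intro x hx y hy
      rw [Subgroup.mem_bot] at hx hy
      rw [hx, hy], by
      intro f _ x hx
      rw [Subgroup.mem_bot] at hx ⊢
      rw [hx]; group, by
      intro a _ x hx
      rw [Subgroup.mem_bot] at hx ⊢
      rw [hx]; group⟩
  refine ⟨X, hXF, hXc, hXn, hXA, ?_⟩
  by_contra hcon
  push Not at hcon
  obtain ⟨c, hcF, hcX, hcnX⟩ := hcon
  -- nilpotency: an element of `C_F(X) ∖ X` central modulo `X`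
  have hN : ∃ y ∈ F, (∀ x ∈ X, y * x = x * y) ∧ y ∉ X ∧ ∀ f ∈ F, y * f * y⁻¹ * f⁻¹ ∈ X := by
    obtain ⟨N, hN⟩ := hFnil.nilpotent'
    have hex : ∃ n, ∃ y : F, y ∈ Subgroup.upperCentralSeries F n ∧
        (∀ x ∈ X, (y : G) * x = x * y) ∧ (y : G) ∉ X :=
      ⟨N, ⟨c, hcF⟩, by rw [hN]; exact Subgroup.mem_top _, hcX, hcnX⟩
    have hmin := @Nat.find_min _ _ hex
    obtain ⟨y, hyZ, hyX, hynX⟩ := Nat.find_spec hex
    cases hn : Nat.find hex with
    | zero =>
      rw [hn, Subgroup.upperCentralSeries_zero, Subgroup.mem_bot] at hyZ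
      exact absurd (by rw [hyZ]; exact X.one_mem) hynX
    | succ k =>
      rw [hn, Subgroup.mem_upperCentralSeries_succ_iff] at hyZ
      refine ⟨y, y.2, hyX, hynX, ?_⟩
      intro f hf
      by_contra hnot
      apply hmin (m := k) (by rw [hn]; exact Nat.lt_succ_self k)
      refine ⟨⁅y, ⟨f, hf⟩⁆, hyZ ⟨f, hf⟩, ?_, ?_⟩
      · intro x hx
        have hx' : f⁻¹ * x * f⁻¹⁻¹ ∈ X := hXn _ (F.inv_mem hf) x hx
        have h1 : (y : G)⁻¹ * (f⁻¹ * x * f⁻¹⁻¹) = (f⁻¹ * x * f⁻¹⁻¹) * (y : G)⁻¹ := by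
          have := hyX _ hx'
          calc (y : G)⁻¹ * (f⁻¹ * x * f⁻¹⁻¹)
              = (y : G)⁻¹ * ((f⁻¹ * x * f⁻¹⁻¹) * (y : G)) * (y : G)⁻¹ := by group
            _ = (y : G)⁻¹ * ((y : G) * (f⁻¹ * x * f⁻¹⁻¹)) * (y : G)⁻¹ := by rw [this]
            _ = (f⁻¹ * x * f⁻¹⁻¹) * (y : G)⁻¹ := by group
        have h2 := hyX x hx
        show ((⁅y, ⟨f, hf⟩⁆ : F) : G) * x = x * ((⁅y, ⟨f, hf⟩⁆ : F) : G)
        rw [commutatorElement_def]
        simp only [Subgroup.coe_mul, InvMemClass.coe_inv]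
        calc (y : G) * f * (y : G)⁻¹ * f⁻¹ * x
            = (y : G) * f * ((y : G)⁻¹ * (f⁻¹ * x * f⁻¹⁻¹)) * f⁻¹ := by group
          _ = (y : G) * f * ((f⁻¹ * x * f⁻¹⁻¹) * (y : G)⁻¹) * f⁻¹ := by rw [h1]
          _ = ((y : G) * x) * f * (y : G)⁻¹ * f⁻¹ := by group
          _ = (x * (y : G)) * f * (y : G)⁻¹ * f⁻¹ := by rw [h2]
          _ = x * ((y : G) * f * (y : G)⁻¹ * f⁻¹) := by group
      · intro hmem
        apply hnot
        have e : ((⁅y, ⟨f, hf⟩⁆ : F) : G) = (y : G) * f * (y : G)⁻¹ * f⁻¹ := by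
          rw [commutatorElement_def]
          simp only [Subgroup.coe_mul, InvMemClass.coe_inv]
        rw [← e]
        exact hmem
  obtain ⟨y, hyF, hyX, hynX, hyc⟩ := hN
  have hFN : F ≤ Subgroup.normalizer (X : Set G) :=
    Cfsg.Agent.Lib.Helper10.le_normalizer_of_conj_mem hXn
  have hAN : A ≤ Subgroup.normalizer (X : Set G) :=
    Cfsg.Agent.Lib.Helper10.le_normalizer_of_conj_mem hXA
  obtain ⟨z, hzF, hzX, hznX, hzc, hzA⟩ := exists_eigen_mod (Subgroup.normalizer (X : Set G)) X F A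
    hFN hAN hAc hA2 hAF hXA y hyF hyX hynX hyc
  -- the bigger subgroup
  have hzz : Subgroup.zpowers z ≤ F := by
    rw [Subgroup.zpowers_le]; exact hzF
  have hcen : X ⊔ Subgroup.zpowers z ≤ Subgroup.centralizer ((X : Set G) ∪ {z}) := by
    apply sup_le
    · intro x hx
      rw [Subgroup.mem_centralizer_iff]
      intro w hw
      rcases hw with hw | hw
      · exact hXc w hw x hx
      · rw [Set.mem_singleton_iff] at hw
        rw [hw]; exact hzX x hx
    · rw [Subgroup.zpowers_le, Subgroup.mem_centralizer_iff]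
      intro w hw
      rcases hw with hw | hw
      · exact (hzX w hw).symm
      · rw [Set.mem_singleton_iff] at hw
        rw [hw]
  have hcomm : ∀ u ∈ X ⊔ Subgroup.zpowers z, ∀ v ∈ X ⊔ Subgroup.zpowers z, u * v = v * u := by
    intro u hu v hv
    have hv' := hcen hv
    have h1 : X ⊔ Subgroup.zpowers z ≤ Subgroup.centralizer ({v} : Set G) := by
      apply sup_le
      · intro x hx
        rw [Subgroup.mem_centralizer_iff]
        intro w hw
        rw [Set.mem_singleton_iff] at hw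
        rw [hw]
        exact (Subgroup.mem_centralizer_iff.mp hv' x (Or.inl hx)).symm
      · rw [Subgroup.zpowers_le, Subgroup.mem_centralizer_iff]
        intro w hw
        rw [Set.mem_singleton_iff] at hw
        rw [hw]
        exact (Subgroup.mem_centralizer_iff.mp hv' z (Or.inr rfl)).symm
    exact (Subgroup.mem_centralizer_iff.mp (h1 hu) v rfl).symm
  have hconj : ∀ g : G, (∀ x ∈ X, g * x * g⁻¹ ∈ X) → g * z * g⁻¹ ∈ X ⊔ Subgroup.zpowers z →
      ∀ u ∈ X ⊔ Subgroup.zpowers z, g * u * g⁻¹ ∈ X ⊔ Subgroup.zpowers z := by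
    intro g hgX hgz u hu
    have h1 : X ⊔ Subgroup.zpowers z ≤
        (X ⊔ Subgroup.zpowers z).comap (MulAut.conj g).toMonoidHom := by
      apply sup_le
      · intro x hx
        rw [Subgroup.mem_comap]
        exact (le_sup_left : X ≤ X ⊔ Subgroup.zpowers z) (by simpa using hgX x hx)
      · rw [Subgroup.zpowers_le, Subgroup.mem_comap]
        simpa using hgz
    have := h1 hu
    rw [Subgroup.mem_comap] at this
    simpa using this
  have hzmem : z ∈ X ⊔ Subgroup.zpowers z :=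
    (le_sup_right : Subgroup.zpowers z ≤ X ⊔ Subgroup.zpowers z) (Subgroup.mem_zpowers z)
  have hmem : X ⊔ Subgroup.zpowers z ∈ {X : Subgroup G | X ≤ F ∧
      (∀ x ∈ X, ∀ y ∈ X, x * y = y * x) ∧
      (∀ f ∈ F, ∀ x ∈ X, f * x * f⁻¹ ∈ X) ∧ (∀ a ∈ A, ∀ x ∈ X, a * x * a⁻¹ ∈ X)} := by
    refine ⟨sup_le hXF hzz, hcomm, ?_, ?_⟩
    · intro f hf
      apply hconj f (hXn f hf)
      -- f z f⁻¹ = (z f⁻¹ z⁻¹ f)⁻¹ ... z
      have h1 := hzc f hf
      have e : f * z * f⁻¹ = (z * f * z⁻¹ * f⁻¹)⁻¹ * z := by group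
      rw [e]
      exact Subgroup.mul_mem _ ((le_sup_left : X ≤ X ⊔ Subgroup.zpowers z)
        (X.inv_mem h1)) hzmem
    · intro a ha
      apply hconj a (hXA a ha)
      rcases hzA a ha with h1 | h1
      · have e : a * z * a⁻¹ = (a * z * a⁻¹ * z⁻¹) * z := by group
        rw [e]
        exact Subgroup.mul_mem _ ((le_sup_left : X ≤ X ⊔ Subgroup.zpowers z) h1) hzmem
      · have e : a * z * a⁻¹ = (a * z * a⁻¹ * z) * z⁻¹ := by group
        rw [e]
        exact Subgroup.mul_mem _ ((le_sup_left : X ≤ X ⊔ Subgroup.zpowers z) h1)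
          (Subgroup.inv_mem _ hzmem)
  apply hmax _ hmem
  refine lt_of_le_of_ne le_sup_left ?_
  intro h
  apply hznX
  rw [h]
  exact hzmem

/-- An elementary abelian `2`-group acting faithfully on a solvable group of odd order acts
faithfully on an invariant abelian subgroup. -/
theorem exists_faithful_abelian [Finite G] (L A : Subgroup G) (hLs : Group.IsSolvable L)
    (hLodd : Odd (Nat.card L))
    (hAc : ∀ a ∈ A, ∀ b ∈ A, a * b = b * a) (hA2 : ∀ a ∈ A, a * a = 1)
    (hAL : ∀ a ∈ A, ∀ l ∈ L, a * l * a⁻¹ ∈ L)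
    (hfaith : ∀ a ∈ A, (∀ l ∈ L, a * l = l * a) → a = 1) :
    ∃ X : Subgroup G, X ≤ L ∧ (∀ x ∈ X, ∀ y ∈ X, x * y = y * x) ∧
      (∀ a ∈ A, ∀ x ∈ X, a * x * a⁻¹ ∈ X) ∧ ∀ a ∈ A, (∀ x ∈ X, a * x = x * a) → a = 1 := by
  obtain ⟨F, hFdef⟩ : ∃ F, F = fitOf L := ⟨_, rfl⟩
  have hFL : F ≤ L := by rw [hFdef]; exact fitOf_le L
  have hFnil : Group.IsNilpotent F := by rw [hFdef]; exact fitOf_nilpotent L
  have hLN : L ≤ Subgroup.normalizer (F : Set G) := by
    rw [hFdef]; exact (Subgroup.le_normalizer).trans (fitOf_normalizer L)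
  have hAN : A ≤ Subgroup.normalizer (F : Set G) := by
    rw [hFdef]
    exact (Cfsg.Agent.Lib.Helper10.le_normalizer_of_conj_mem hAL).trans (fitOf_normalizer L)
  have hLF : ∀ l ∈ L, ∀ f ∈ F, l * f * l⁻¹ ∈ F := fun l hl f hf =>
    Cfsg.Agent.Lib.Helper10.conj_mem_of_mem_normalizer (hLN hl) hf
  have hAF : ∀ a ∈ A, ∀ f ∈ F, a * f * a⁻¹ ∈ F := fun a ha f hf =>
    Cfsg.Agent.Lib.Helper10.conj_mem_of_mem_normalizer (hAN ha) hf
  have hCF : ∀ c ∈ L, (∀ f ∈ F, c * f = f * c) → c ∈ F := by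
    intro c hc hcf
    have h1 : (⟨c, hc⟩ : L) ∈ Subgroup.centralizer (Cfsg.fittingSubgroup ↥L : Set ↥L) := by
      rw [Subgroup.mem_centralizer_iff]
      intro w hw
      apply Subtype.ext
      have hwF : (w : G) ∈ F := by rw [hFdef]; exact ⟨w, hw, rfl⟩
      exact (hcf _ hwF).symm
    have h2 := Cfsg.Agent.S0044.result h1
    rw [hFdef]
    exact ⟨⟨c, hc⟩, h2, rfl⟩
  obtain ⟨X, hXF, hXc, hXn, hXA, hXself⟩ :=
    exists_abelian_self_centralizing F A hFnil hAc hA2 hAF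
  refine ⟨X, hXF.trans hFL, hXc, hXA, ?_⟩
  intro a ha haX
  apply hfaith a ha
  have hFodd : Odd (Nat.card F) := Odd.of_dvd_nat hLodd (Subgroup.card_dvd_of_le hFL)
  have haF : ∀ f ∈ F, a * f = f * a := by
    intro f hf
    exact involution_centralizes F X hFodd a (hA2 a ha) (hAF a ha) hXn haX
      (fun c hc hcx => haX c (hXself c hc hcx)) f hf
  intro l hl
  exact involution_centralizes L F hLodd a (hA2 a ha) (hAL a ha) hLF haF
    (fun c hc hcf => haF c (hCF c hc hcf)) l hl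

/-- The dual system: `a i` inverts `x i` and centralizes `x j` for `j ≠ i`. -/
theorem exists_dual_system [Finite G] (A X : Subgroup G)
    (hAc : ∀ a ∈ A, ∀ b ∈ A, a * b = b * a) (hA2 : ∀ a ∈ A, a * a = 1)
    (hXc : ∀ x ∈ X, ∀ y ∈ X, x * y = y * x)
    (hAX : ∀ a ∈ A, ∀ x ∈ X, a * x * a⁻¹ ∈ X)
    (hfaith : ∀ a ∈ A, (∀ x ∈ X, a * x = x * a) → a = 1)
    (d : ℕ) (hAd : Nat.card A = 2 ^ d) (k : ℕ) (hk : k ≤ d) :
    ∃ a x : ℕ → G, ∀ i < k, a i ∈ A ∧ x i ∈ X ∧ x i ≠ 1 ∧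
      (∀ b ∈ A, b * x i * b⁻¹ = x i ∨ b * x i * b⁻¹ = (x i)⁻¹) ∧
      a i * x i * (a i)⁻¹ = (x i)⁻¹ ∧ ∀ j < k, j ≠ i → a i * x j * (a i)⁻¹ = x j := by
  classical
  induction k with
  | zero => exact ⟨fun _ => 1, fun _ => 1, fun i hi => absurd hi (Nat.not_lt_zero i)⟩
  | succ k ih =>
    obtain ⟨a, x, h⟩ := ih (by omega)
    have := Fintype.ofFinite A
    have hcard : Fintype.card (Fin k → Bool) < Fintype.card A := by
      rw [Fintype.card_fun, Fintype.card_bool, Fintype.card_fin, ← Nat.card_eq_fintype_card, hAd]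
      exact Nat.pow_lt_pow_right (by norm_num) (by omega)
    obtain ⟨u, v, huv, hΦ⟩ := Fintype.exists_ne_map_eq_of_card_lt
      (fun u : A => fun i : Fin k => decide ((u : G) * x i * (u : G)⁻¹ = x i)) hcard
    obtain ⟨b, hbdef⟩ : ∃ b, b = (u : G)⁻¹ * v := ⟨_, rfl⟩
    have hb : b ∈ A := by rw [hbdef]; exact A.mul_mem (A.inv_mem u.2) v.2
    have hb1 : b ≠ 1 := by
      intro h1
      apply huv
      apply Subtype.ext
      rw [hbdef] at h1
      exact inv_mul_eq_one.mp h1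
    have hbx : ∀ i < k, b * x i * b⁻¹ = x i := by
      intro i hi
      have h1 := congrFun hΦ ⟨i, hi⟩
      have h2 : ((u : G) * x i * (u : G)⁻¹ = x i) ↔ ((v : G) * x i * (v : G)⁻¹ = x i) := by
        simpa using h1
      obtain ⟨-, -, -, heig, -, -⟩ := h i hi
      rw [hbdef]
      by_cases hu : (u : G) * x i * (u : G)⁻¹ = x i
      · have hv := h2.mp hu
        calc ((u : G)⁻¹ * v) * x i * ((u : G)⁻¹ * v)⁻¹
            = (u : G)⁻¹ * ((v : G) * x i * (v : G)⁻¹) * u := by group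
          _ = (u : G)⁻¹ * x i * u := by rw [hv]
          _ = (u : G)⁻¹ * ((u : G) * x i * (u : G)⁻¹) * u := by rw [hu]
          _ = x i := by group
      · have hv : ¬ ((v : G) * x i * (v : G)⁻¹ = x i) := fun hv => hu (h2.mpr hv)
        have hu' := (heig u u.2).resolve_left hu
        have hv' := (heig v v.2).resolve_left hv
        calc ((u : G)⁻¹ * v) * x i * ((u : G)⁻¹ * v)⁻¹
            = (u : G)⁻¹ * ((v : G) * x i * (v : G)⁻¹) * u := by group
          _ = (u : G)⁻¹ * (x i)⁻¹ * u := by rw [hv']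
          _ = (u : G)⁻¹ * ((u : G) * x i * (u : G)⁻¹) * u := by rw [hu']
          _ = x i := by group
    have hex : ∃ y ∈ X, b * y * b⁻¹ ≠ y := by
      by_contra hno
      push Not at hno
      apply hb1
      apply hfaith b hb
      intro y hy
      have h1 := hno y hy
      calc b * y = (b * y * b⁻¹) * b := by group
        _ = y * b := by rw [h1]
    obtain ⟨y, hy, hby⟩ := hex
    obtain ⟨c, hcX, hc1, hbc, hceig⟩ := exists_eigen A X hAc hA2 hXc hAX b hb y hy hby
    refine ⟨fun i => if i = k then b else (if a i * c * (a i)⁻¹ = c then a i else a i * b),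
      Function.update x k c, ?_⟩
    intro i hi
    by_cases hik : i = k
    · rw [hik]
      simp only [if_true, Function.update_self]
      refine ⟨hb, hcX, hc1, hceig, hbc, ?_⟩
      intro j hj hji
      rw [Function.update_of_ne hji]
      exact hbx j (by omega)
    · have hi' : i < k := by omega
      obtain ⟨haA, hxX, hx1, heig, hinv, hcen⟩ := h i hi'
      simp only [if_neg hik, Function.update_of_ne hik]
      by_cases hac : a i * c * (a i)⁻¹ = c
      · simp only [if_pos hac]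
        refine ⟨haA, hxX, hx1, heig, hinv, ?_⟩
        intro j hj hji
        by_cases hjk : j = k
        · rw [hjk, Function.update_self]; exact hac
        · rw [Function.update_of_ne hjk]; exact hcen j (by omega) hji
      · simp only [if_neg hac]
        have hac' := (hceig (a i) haA).resolve_left hac
        refine ⟨A.mul_mem haA hb, hxX, hx1, heig, ?_, ?_⟩
        · calc a i * b * x i * (a i * b)⁻¹ = a i * (b * x i * b⁻¹) * (a i)⁻¹ := by group
            _ = a i * x i * (a i)⁻¹ := by rw [hbx i hi']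
            _ = (x i)⁻¹ := hinv
        · intro j hj hji
          by_cases hjk : j = k
          · rw [hjk, Function.update_self]
            calc a i * b * c * (a i * b)⁻¹ = a i * (b * c * b⁻¹) * (a i)⁻¹ := by group
              _ = a i * c⁻¹ * (a i)⁻¹ := by rw [hbc]
              _ = (a i * c * (a i)⁻¹)⁻¹ := by group
              _ = c := by rw [hac', inv_inv]
          · rw [Function.update_of_ne hjk]
            have hj' : j < k := by omega
            calc a i * b * x j * (a i * b)⁻¹ = a i * (b * x j * b⁻¹) * (a i)⁻¹ := by group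
              _ = a i * x j * (a i)⁻¹ := by rw [hbx j hj']
              _ = x j := hcen j hj' hji

theorem comm_of_generators (a x b y : G) (h1 : a * b = b * a) (h2 : a * y = y * a)
    (h3 : x * b = b * x) (h4 : x * y = y * x) :
    ∀ u ∈ Subgroup.zpowers a ⊔ Subgroup.zpowers x, ∀ v ∈ Subgroup.zpowers b ⊔ Subgroup.zpowers y,
      u * v = v * u := by
  have hcen : Subgroup.zpowers b ⊔ Subgroup.zpowers y ≤
      Subgroup.centralizer ({a, x} : Set G) := by
    apply sup_le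
    · rw [Subgroup.zpowers_le, Subgroup.mem_centralizer_iff]
      intro w hw
      rcases hw with hw | hw
      · rw [hw]; exact h1
      · rw [Set.mem_singleton_iff] at hw
        rw [hw]; exact h3
    · rw [Subgroup.zpowers_le, Subgroup.mem_centralizer_iff]
      intro w hw
      rcases hw with hw | hw
      · rw [hw]; exact h2
      · rw [Set.mem_singleton_iff] at hw
        rw [hw]; exact h4
  intro u hu v hv
  have hv' := Subgroup.mem_centralizer_iff.mp (hcen hv)
  have h5 : Subgroup.zpowers a ⊔ Subgroup.zpowers x ≤ Subgroup.centralizer ({v} : Set G) := by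
    apply sup_le
    · rw [Subgroup.zpowers_le, Subgroup.mem_centralizer_iff]
      intro w hw
      rw [Set.mem_singleton_iff] at hw
      rw [hw]
      exact (hv' a (Or.inl rfl)).symm
    · rw [Subgroup.zpowers_le, Subgroup.mem_centralizer_iff]
      intro w hw
      rw [Set.mem_singleton_iff] at hw
      rw [hw]
      exact (hv' x (Or.inr rfl)).symm
  exact (Subgroup.mem_centralizer_iff.mp (h5 hu) v rfl).symm

theorem dihedral_sup_zpowers (a x : G) (n : ℕ) (ha : a * a = 1) (hx : orderOf x = n)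
    (hn : n ≠ 0) (hax : a * x * a⁻¹ = x⁻¹) (hna : a ∉ Subgroup.zpowers x) :
    Nonempty (↥(Subgroup.zpowers a ⊔ Subgroup.zpowers x) ≃* DihedralGroup n) := by
  have haH : a ∈ Subgroup.zpowers a ⊔ Subgroup.zpowers x :=
    (le_sup_left : Subgroup.zpowers a ≤ _) (Subgroup.mem_zpowers a)
  have hxH : x ∈ Subgroup.zpowers a ⊔ Subgroup.zpowers x :=
    (le_sup_right : Subgroup.zpowers x ≤ _) (Subgroup.mem_zpowers x)
  have hgen : Subgroup.closure ({⟨a, haH⟩, ⟨x, hxH⟩} :
      Set ↥(Subgroup.zpowers a ⊔ Subgroup.zpowers x)) = ⊤ := by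
    apply Subgroup.map_injective (Subgroup.subtype_injective _)
    rw [MonoidHom.map_closure, ← MonoidHom.range_eq_map, Subgroup.range_subtype, Set.image_pair]
    simp only [Subgroup.coe_subtype]
    rw [show ({a, x} : Set G) = {a} ∪ {x} from Set.insert_eq a {x}, Subgroup.closure_union,
      ← Subgroup.zpowers_eq_closure, ← Subgroup.zpowers_eq_closure]
  obtain ⟨e⟩ := Cfsg.Agent.Lib.Helper21.nonempty_dihedral_mulEquiv
    (⟨a, haH⟩ : ↥(Subgroup.zpowers a ⊔ Subgroup.zpowers x)) ⟨x, hxH⟩ n (Subtype.ext ha)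
    (by rw [← hx]; exact Subgroup.orderOf_mk x hxH) hn (Subtype.ext hax) hgen (by
      intro h
      apply hna
      obtain ⟨k, hk⟩ := Subgroup.mem_zpowers_iff.mp h
      rw [Subgroup.mem_zpowers_iff]
      refine ⟨k, ?_⟩
      have := congrArg Subtype.val hk
      simpa using this)
  exact ⟨e.symm⟩

/-- An elementary abelian `2`-group of order `2 ^ d` acting faithfully on a solvable group of odd
order: the product contains a central product of `d` dihedral groups. -/
theorem dihedral_product [Finite G] (L A : Subgroup G) (hLs : Group.IsSolvable ↥L)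
    (hLodd : Odd (Nat.card ↥L)) (hA : Cfsg.IsElementaryAbelian 2 A) (d : ℕ)
    (hAd : Nat.card ↥A = 2 ^ d) (hAL : A ≤ Subgroup.normalizer (L : Set G))
    (hfaith : A ⊓ Subgroup.centralizer (L : Set G) = ⊥) :
    ∃ (Ai : Fin d → Subgroup G) (Li : Fin d → Subgroup G) (n : Fin d → ℕ),
      (∀ i, Ai i ≤ A ∧ Nat.card ↥(Ai i) = 2 ∧ Li i ≤ L ∧ Odd (n i) ∧ 3 ≤ n i ∧
        Nonempty (↥(Ai i ⊔ Li i) ≃* DihedralGroup (n i))) ∧ (⨆ i, Ai i) = A ∧
      ∀ i j, i ≠ j → ∀ x ∈ Ai i ⊔ Li i, ∀ y ∈ Ai j ⊔ Li j, x * y = y * x := by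
  classical
  have hAc : ∀ a ∈ A, ∀ b ∈ A, a * b = b * a := by
    intro a ha b hb
    have := hA.1.is_comm.comm (⟨a, ha⟩ : A) ⟨b, hb⟩
    exact congrArg Subtype.val this
  have hA2 : ∀ a ∈ A, a * a = 1 := by
    intro a ha
    rw [← pow_two]
    exact hA.2 a ha
  have hALc : ∀ a ∈ A, ∀ l ∈ L, a * l * a⁻¹ ∈ L := fun a ha l hl =>
    Cfsg.Agent.Lib.Helper10.conj_mem_of_mem_normalizer (hAL ha) hl
  have hf : ∀ a ∈ A, (∀ l ∈ L, a * l = l * a) → a = 1 := by
    intro a ha hal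
    have h1 : a ∈ A ⊓ Subgroup.centralizer (L : Set G) := by
      rw [Subgroup.mem_inf]
      refine ⟨ha, ?_⟩
      rw [Subgroup.mem_centralizer_iff]
      intro l hl
      exact (hal l hl).symm
    rw [hfaith] at h1
    exact Subgroup.mem_bot.mp h1
  obtain ⟨X, hXL, hXc, hXA, hXf⟩ := exists_faithful_abelian L A hLs hLodd hAc hA2 hALc hf
  obtain ⟨a, x, h⟩ := exists_dual_system A X hAc hA2 hXc hXA hXf d hAd d le_rfl
  have hx2 : ∀ i < d, x i * x i ≠ 1 := by
    intro i hi hsq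
    exact (h i hi).2.2.1 (eq_one_of_sq_of_odd hLodd (hXL (h i hi).2.1) hsq)
  have hane : ∀ i < d, a i * x i ≠ x i * a i := by
    intro i hi hcomm
    obtain ⟨-, -, -, -, hinv, -⟩ := h i hi
    apply hx2 i hi
    have h1 : (x i)⁻¹ = x i := by
      calc (x i)⁻¹ = a i * x i * (a i)⁻¹ := hinv.symm
        _ = (x i * a i) * (a i)⁻¹ := by rw [hcomm]
        _ = x i := by group
    calc x i * x i = x i * (x i)⁻¹ := by rw [h1]
      _ = 1 := by group
  refine ⟨fun i => Subgroup.zpowers (a i), fun i => Subgroup.zpowers (x i),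
    fun i => orderOf (x i), ?_, ?_, ?_⟩
  · intro i
    obtain ⟨haA, hxX, hx1, heig, hinv, hcen⟩ := h i i.2
    have ha1 : a i ≠ 1 := by
      intro h1
      apply hane i i.2
      rw [h1]; group
    have hoa : orderOf (a (i : ℕ)) = 2 :=
      orderOf_eq_prime (by rw [pow_two]; exact hA2 _ haA) ha1
    have hodd : Odd (orderOf (x (i : ℕ))) := by
      apply Odd.of_dvd_nat hLodd
      have := orderOf_dvd_natCard (⟨x i, hXL hxX⟩ : L)
      rwa [Subgroup.orderOf_mk] at this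
    refine ⟨by rw [Subgroup.zpowers_le]; exact haA, by rw [Nat.card_zpowers]; exact hoa,
      by rw [Subgroup.zpowers_le]; exact hXL hxX, hodd, ?_, ?_⟩
    · have h1 : orderOf (x (i : ℕ)) ≠ 1 := by
        rw [Ne, orderOf_eq_one_iff]; exact hx1
      show 3 ≤ orderOf (x (i : ℕ))
      obtain ⟨m, hm⟩ := hodd
      omega
    · apply dihedral_sup_zpowers (a i) (x i) _ (hA2 _ haA) rfl
        (by obtain ⟨m, hm⟩ := hodd; omega) hinv
      intro hmem
      apply hane i i.2
      obtain ⟨k, hk⟩ := Subgroup.mem_zpowers_iff.mp hmem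
      rw [← hk]
      exact (Commute.zpow_self (x i) k).eq
  · have hB : ∀ k ≤ d, 2 ^ k ≤ Nat.card (Subgroup.closure (a '' {i | i < k})) := by
      intro k
      induction k with
      | zero =>
        intro _
        simp
      | succ k ih =>
        intro hk
        have ih' := ih (by omega)
        have hle : Subgroup.closure (a '' {i | i < k}) ≤
            Subgroup.closure (a '' {i | i < k + 1}) :=
          Subgroup.closure_mono (Set.image_mono (fun i hi => Nat.lt_succ_of_lt hi))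
        have hak : a k ∈ Subgroup.closure (a '' {i | i < k + 1}) :=
          Subgroup.subset_closure ⟨k, Nat.lt_succ_self k, rfl⟩
        have hnot : a k ∉ Subgroup.closure (a '' {i | i < k}) := by
          intro hmem
          have hcen : Subgroup.closure (a '' {i | i < k}) ≤
              Subgroup.centralizer ({x k} : Set G) := by
            rw [Subgroup.closure_le]
            rintro _ ⟨i, hi, rfl⟩
            have hi' : i < k := hi
            rw [SetLike.mem_coe, Subgroup.mem_centralizer_iff]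
            intro w hw
            rw [Set.mem_singleton_iff] at hw
            rw [hw]
            have h3 := (h i (by omega : i < d)).2.2.2.2.2 k (by omega) (by omega : k ≠ i)
            calc x k * a i = (a i * x k * (a i)⁻¹) * a i := by rw [h3]
              _ = a i * x k := by group
          have h4 := Subgroup.mem_centralizer_iff.mp (hcen hmem) (x k) rfl
          exact hane k (by omega) h4.symm
        obtain ⟨m, hm⟩ := Subgroup.card_dvd_of_le hle
        have hpos : 0 < Nat.card (Subgroup.closure (a '' {i | i < k + 1})) := Nat.card_pos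
        have hm1 : m ≠ 1 := by
          intro h1
          rw [h1, mul_one] at hm
          have h5 := Subgroup.eq_of_le_of_card_ge hle (le_of_eq hm)
          rw [h5] at hnot
          exact hnot hak
        have hm0 : m ≠ 0 := by
          rintro rfl
          rw [mul_zero] at hm
          omega
        rw [hm, pow_succ]
        exact Nat.mul_le_mul ih' (by omega)
    have h1 : Subgroup.closure (a '' {i | i < d}) ≤ ⨆ i : Fin d, Subgroup.zpowers (a i) := by
      rw [Subgroup.closure_le]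
      rintro _ ⟨i, hi, rfl⟩
      exact (le_iSup (fun i : Fin d => Subgroup.zpowers (a i)) ⟨i, hi⟩)
        (Subgroup.mem_zpowers _)
    have h2 : (⨆ i : Fin d, Subgroup.zpowers (a i)) ≤ A := by
      apply iSup_le
      intro i
      rw [Subgroup.zpowers_le]
      exact (h i i.2).1
    apply Subgroup.eq_of_le_of_card_ge h2
    rw [hAd]
    exact (hB d le_rfl).trans (Subgroup.card_le_of_le h1)
  · intro i j hij u hu v hv
    obtain ⟨haA, hxX, hx1, heig, hinv, hcen⟩ := h i i.2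
    obtain ⟨haA', hxX', hx1', heig', hinv', hcen'⟩ := h j j.2
    have hij' : (i : ℕ) ≠ j := fun h => hij (Fin.ext h)
    have c1 : a i * x j = x j * a i := by
      have h3 := hcen j j.2 (Ne.symm hij')
      calc a i * x j = (a i * x j * (a i)⁻¹) * a i := by group
        _ = x j * a i := by rw [h3]
    have c2 : a j * x i = x i * a j := by
      have h3 := hcen' i i.2 hij'
      calc a j * x i = (a j * x i * (a j)⁻¹) * a j := by group
        _ = x i * a j := by rw [h3]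
    exact comm_of_generators (a i) (x i) (a j) (x j) (hAc _ haA _ haA') c1 c2.symm
      (hXc _ hxX _ hxX') u hu v hv

end dihprod

end Cfsg.Agent.Lib.Helper11
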