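import Mathlib
import Cfsg.Prelude.Def_Local
import Cfsg.Prelude.Def_CaseTheorems
import Cfsg.Agent.Lib.Helper11.CycNormal
import Cfsg.Agent.Lib.Helper21.SylowRel
import Cfsg.Agent.Lib.Helper23.PLen

/-!
The `p`-length of a `p`-soluble group whose Sylow `q`-subgroups (`q ≠ p`) are abelian is bounded
by the exponent of its Sylow `p`-subgroups.  The heart is an elementary averaging argument
replacing the Hall--Higman minimal polynomial computation in the abelian case.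
-/

set_option autoImplicit false
open Cfsg

namespace Cfsg.Agent.Lib.Helper11

open scoped commutatorElement

universe u

section Generic

variable {H : Type*} [Group H]

theorem conj_pow_inv (a b : H) (i : ℕ) : (a⁻¹ * b * a) ^ i = a⁻¹ * b ^ i * a := by
  have h := conj_pow (i := i) (a := a⁻¹) (b := b)
  rwa [inv_inv] at h

/-- On an abelian subgroup normalised by `h` the map `c ↦ h⁻¹ c⁻¹ h c` is multiplicative. -/
theorem dmap_mul {Q : Subgroup H} (hQab : ∀ a ∈ Q, ∀ b ∈ Q, a * b = b * a) {h : H}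
    (hh : ∀ c ∈ Q, h⁻¹ * c * h ∈ Q) {c c' : H} (hc : c ∈ Q) (hc' : c' ∈ Q) :
    h⁻¹ * (c * c')⁻¹ * h * (c * c') = (h⁻¹ * c⁻¹ * h * c) * (h⁻¹ * c'⁻¹ * h * c') := by
  have e1 : h⁻¹ * c'⁻¹ * h ∈ Q := hh _ (Q.inv_mem hc')
  have e2 : h⁻¹ * c⁻¹ * h ∈ Q := hh _ (Q.inv_mem hc)
  have e3 : (h⁻¹ * c'⁻¹ * h) * ((h⁻¹ * c⁻¹ * h) * c) = ((h⁻¹ * c⁻¹ * h) * c) * (h⁻¹ * c'⁻¹ * h) :=
    hQab _ e1 _ (Q.mul_mem e2 hc)
  calc h⁻¹ * (c * c')⁻¹ * h * (c * c')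
      = ((h⁻¹ * c'⁻¹ * h) * ((h⁻¹ * c⁻¹ * h) * c)) * c' := by group
    _ = (((h⁻¹ * c⁻¹ * h) * c) * (h⁻¹ * c'⁻¹ * h)) * c' := by rw [e3]
    _ = (h⁻¹ * c⁻¹ * h * c) * (h⁻¹ * c'⁻¹ * h * c') := by group

theorem dmap_succ_aux (g h c : H) :
    (g * h)⁻¹ * c⁻¹ * (g * h) * c = h⁻¹ * (g⁻¹ * c⁻¹ * g * c) * h * (h⁻¹ * c⁻¹ * h * c) := by
  group

theorem dmap_conj_aux (h c : H) :
    h⁻¹ * (h⁻¹ * c⁻¹ * h * c) * h = h⁻¹ * (h⁻¹ * c * h)⁻¹ * h * (h⁻¹ * c * h) := by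
  group

theorem dmap_pow {Q : Subgroup H} (hQab : ∀ a ∈ Q, ∀ b ∈ Q, a * b = b * a) {h : H}
    (hh : ∀ c ∈ Q, h⁻¹ * c * h ∈ Q) (t : ℕ) {c : H} (hc : c ∈ Q) :
    ∃ c₁ ∈ Q, (h ^ t)⁻¹ * c⁻¹ * h ^ t * c = h⁻¹ * c₁⁻¹ * h * c₁ := by
  induction t with
  | zero => exact ⟨1, Q.one_mem, by simp⟩
  | succ t ih =>
    obtain ⟨c₂, hc₂, e⟩ := ih
    refine ⟨(h⁻¹ * c₂ * h) * c, Q.mul_mem (hh _ hc₂) hc, ?_⟩
    rw [dmap_mul hQab hh (hh _ hc₂) hc, pow_succ, dmap_succ_aux, e, dmap_conj_aux]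

theorem conj_mul_right {Q : Subgroup H} (hQab : ∀ a ∈ Q, ∀ b ∈ Q, a * b = b * a) {h : H}
    (hh : ∀ c ∈ Q, h⁻¹ * c * h ∈ Q) {c c₁ : H} (hc : c ∈ Q) (hc₁ : c₁ ∈ Q) :
    (c * c₁)⁻¹ * h * (c * c₁) = (c⁻¹ * h * c) * (h⁻¹ * c₁⁻¹ * h * c₁) := by
  have e := dmap_mul hQab hh hc hc₁
  calc (c * c₁)⁻¹ * h * (c * c₁) = h * (h⁻¹ * (c * c₁)⁻¹ * h * (c * c₁)) := by group
    _ = h * ((h⁻¹ * c⁻¹ * h * c) * (h⁻¹ * c₁⁻¹ * h * c₁)) := by rw [e]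
    _ = (c⁻¹ * h * c) * (h⁻¹ * c₁⁻¹ * h * c₁) := by group

/-- The averaging argument: if the "norm" of every `Q`-conjugate of `x` vanishes on the abelian
group `A`, then the commutators `[y, c₀]`, `c₀ ∈ Q`, act trivially on `A`, for `y` lying in every
`⟨x ^ i⟩`, `0 < i < m`. -/
theorem norm_sum_core [Finite H] {A : Type*} [CommGroup A] (ρ : H →* MulAut A)
    (x : H) (Q : Subgroup H)
    (hQab : ∀ a ∈ Q, ∀ b ∈ Q, a * b = b * a)
    (hxQ : ∀ c ∈ Q, x⁻¹ * c * x ∈ Q)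
    (m : ℕ) (hm : 0 < m)
    (hN : ∀ c ∈ Q, ∀ v : A, ∏ i ∈ Finset.range m, ρ (c⁻¹ * x ^ i * c) v = 1)
    (hcop : ∀ v : A, v ^ Nat.card Q = 1 → v = 1)
    (y : H) (hy : ∀ i, 0 < i → i < m → y ∈ Subgroup.zpowers (x ^ i))
    (c₀ : H) (hc₀ : c₀ ∈ Q) (v : A) : ρ (y⁻¹ * c₀⁻¹ * y * c₀) v = v := by
  classical
  haveI : Fintype Q := Fintype.ofFinite Q
  have hpowQ : ∀ i : ℕ, ∀ c ∈ Q, (x ^ i)⁻¹ * c * x ^ i ∈ Q := by
    intro i
    induction i with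
    | zero => intro c hc; simpa using hc
    | succ i ih =>
      intro c hc
      have h1 := hxQ _ (ih c hc)
      have e : (x ^ (i + 1))⁻¹ * c * x ^ (i + 1) = x⁻¹ * ((x ^ i)⁻¹ * c * x ^ i) * x := by
        rw [pow_succ]
        obtain ⟨k, hk⟩ : ∃ k : H, k = x ^ i := ⟨_, rfl⟩
        rw [← hk]
        group
      rw [e]; exact h1
  obtain ⟨a, ha⟩ : ∃ a : H, a = y⁻¹ * c₀⁻¹ * y * c₀ := ⟨_, rfl⟩
  rw [← ha]
  obtain ⟨w, hw⟩ : ∃ w : A, w = v / ρ a v := ⟨_, rfl⟩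
  have hw1 : w = 1 := by
    apply hcop
    have hS : ∏ c : Q, ∏ i ∈ Finset.range m, ρ ((c : H)⁻¹ * x ^ i * (c : H)) w = 1 := by
      apply Finset.prod_eq_one
      intro c _
      exact hN c c.2 w
    rw [Finset.prod_comm] at hS
    have hside : ∀ i ∈ Finset.range m, i ≠ 0 →
        ∏ c : Q, ρ ((c : H)⁻¹ * x ^ i * (c : H)) w = 1 := by
      intro i hi hi0
      have hi1 : 0 < i := Nat.pos_of_ne_zero hi0
      have hi2 : i < m := Finset.mem_range.mp hi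
      have hmem := hy i hi1 hi2
      obtain ⟨t, ht⟩ := (Submonoid.mem_powers_iff _ _).mp
        ((IsOfFinOrder.mem_powers_iff_mem_zpowers (isOfFinOrder_of_finite (x ^ i))).mpr hmem)
      obtain ⟨c₁, hc₁, e1⟩ := dmap_pow hQab (hpowQ i) t hc₀
      have ea : a = (x ^ i)⁻¹ * c₁⁻¹ * x ^ i * c₁ := by rw [ha, ← ht]; exact e1
      have key : ∀ c : Q, ρ ((c : H)⁻¹ * x ^ i * (c : H)) w =
          ρ ((c : H)⁻¹ * x ^ i * (c : H)) v /
            ρ (((c * ⟨c₁, hc₁⟩ : Q) : H)⁻¹ * x ^ i * ((c * ⟨c₁, hc₁⟩ : Q) : H)) v := by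
        intro c
        have e2 : ((c * ⟨c₁, hc₁⟩ : Q) : H)⁻¹ * x ^ i * ((c * ⟨c₁, hc₁⟩ : Q) : H) =
            ((c : H)⁻¹ * x ^ i * (c : H)) * a := by
          rw [ea]
          exact conj_mul_right hQab (hpowQ i) c.2 hc₁
        rw [e2, map_mul ρ ((c : H)⁻¹ * x ^ i * (c : H)) a, MulAut.mul_apply, hw, map_div]
      rw [Finset.prod_congr rfl (fun c _ => key c), Finset.prod_div_distrib]
      have hre : ∏ c : Q, ρ (((c * ⟨c₁, hc₁⟩ : Q) : H)⁻¹ * x ^ i * ((c * ⟨c₁, hc₁⟩ : Q) : H)) v =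
          ∏ c : Q, ρ ((c : H)⁻¹ * x ^ i * (c : H)) v :=
        Equiv.prod_comp (Equiv.mulRight (⟨c₁, hc₁⟩ : Q))
          (fun c : Q => ρ ((c : H)⁻¹ * x ^ i * (c : H)) v)
      rw [hre, div_self']
    rw [Finset.prod_eq_single_of_mem 0 (Finset.mem_range.mpr hm) hside] at hS
    have e0 : ∀ c : Q, ρ ((c : H)⁻¹ * x ^ 0 * (c : H)) w = w := by
      intro c
      rw [pow_zero, mul_one, inv_mul_cancel, map_one]
      rfl
    rw [Finset.prod_congr rfl (fun c _ => e0 c), Finset.prod_const, Finset.card_univ,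
      ← Nat.card_eq_fintype_card] at hS
    exact hS
  rw [hw1] at hw
  exact (div_eq_one.mp hw.symm).symm

/-- `(v g)^m = (∏_{i<m} g^i v g^{-i}) g^m` for `v` in an abelian normal subgroup. -/
theorem prod_conj_pow {G₁ : Type*} [Group G₁] {A : Type*} [CommGroup A] (ι : A →* G₁)
    (ρ : G₁ →* MulAut A) (hρ : ∀ (g : G₁) (v : A), ι (ρ g v) = g * ι v * g⁻¹) (g : G₁) (v : A)
    (m : ℕ) : ι (∏ i ∈ Finset.range m, ρ (g ^ i) v) * g ^ m = (ι v * g) ^ m := by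
  induction m with
  | zero => simp
  | succ m ih =>
    rw [Finset.prod_range_succ, map_mul ι, hρ, pow_succ (ι v * g), ← ih, pow_succ g]
    obtain ⟨k, hk⟩ : ∃ k : G₁, k = g ^ m := ⟨_, rfl⟩
    rw [← hk]
    group

/-- In a cyclic group of order dividing `p ^ (n + 1)`, the element `x ^ p ^ n` lies in every
`⟨x ^ i⟩` with `0 < i < p ^ (n + 1)`. -/
theorem pow_mem_zpowers_pow {p : ℕ} (hp : p.Prime) (x : H) (n : ℕ)
    (hx : x ^ p ^ (n + 1) = 1) (i : ℕ) (hi0 : 0 < i) (hi : i < p ^ (n + 1)) :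
    x ^ p ^ n ∈ Subgroup.zpowers (x ^ i) := by
  obtain ⟨d, hd⟩ : ∃ d, d = Nat.gcd i (p ^ (n + 1)) := ⟨_, rfl⟩
  have hd1 : d ∣ p ^ (n + 1) := hd ▸ Nat.gcd_dvd_right _ _
  have hd2 : d ∣ i := hd ▸ Nat.gcd_dvd_left _ _
  obtain ⟨j, hj, hdj⟩ := (Nat.dvd_prime_pow hp).mp hd1
  have hjn : j ≤ n := by
    by_contra hcon
    have hj' : j = n + 1 := by omega
    rw [hj'] at hdj
    have h1 := Nat.le_of_dvd hi0 hd2
    rw [hdj] at h1
    exact absurd h1 (not_le.mpr hi)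
  have hxd : x ^ d ∈ Subgroup.zpowers (x ^ i) := by
    have hb := Nat.gcd_eq_gcd_ab i (p ^ (n + 1))
    rw [← hd] at hb
    have h2 : x ^ d = (x ^ i) ^ (Nat.gcdA i (p ^ (n + 1))) := by
      rw [← zpow_natCast x d, hb, zpow_add, zpow_mul, zpow_mul, zpow_natCast, zpow_natCast, hx,
        one_zpow, mul_one]
    rw [h2]
    exact Subgroup.zpow_mem_zpowers _ _
  have h3 : x ^ p ^ n = (x ^ d) ^ p ^ (n - j) := by
    rw [← pow_mul, hdj, ← pow_add]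
    congr 2
    omega
  rw [h3]
  exact Subgroup.pow_mem _ hxd _

theorem isPGroup_zpowers_of_pow {p : ℕ} {g : H} (hg : ∃ k : ℕ, g ^ p ^ k = 1) :
    IsPGroup p (Subgroup.zpowers g) := by
  obtain ⟨k, hk⟩ := hg
  intro ⟨z, hz⟩
  obtain ⟨j, rfl⟩ := Subgroup.mem_zpowers_iff.mp hz
  refine ⟨k, Subtype.ext ?_⟩
  change (g ^ j) ^ p ^ k = 1
  rw [← zpow_natCast, ← zpow_mul, mul_comm, zpow_mul, zpow_natCast, hk, one_zpow]

/-- The commutative group structure on an abelian subgroup. -/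
@[reducible] def commGroupOfComm (V : Subgroup H) (h : ∀ a ∈ V, ∀ b ∈ V, a * b = b * a) :
    CommGroup ↥V :=
  { (inferInstance : Group ↥V) with
    mul_comm := fun a b => Subtype.ext (h a a.2 b b.2) }

end Generic

/-- All `q`-subgroups, `q ≠ p`, are abelian. -/
def AbSyl (p : ℕ) (G : Type*) [Group G] : Prop :=
  ∀ q : ℕ, q.Prime → q ≠ p → ∀ Q : Subgroup G, IsPGroup q Q → ∀ a ∈ Q, ∀ b ∈ Q, a * b = b * a

/-- All `p`-elements have order dividing `p ^ n`. -/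
def ExpP (p n : ℕ) (G : Type*) [Group G] : Prop :=
  ∀ g : G, (∃ k : ℕ, g ^ p ^ k = 1) → g ^ p ^ n = 1

theorem AbSyl.of_surjective {G : Type*} [Group G] [Finite G] {G' : Type*} [Group G'] {p : ℕ}
    (h : AbSyl p G) (f : G →* G') (hf : Function.Surjective f) : AbSyl p G' := by
  intro q hq hqp Q' hQ' a ha b hb
  haveI : Fact q.Prime := ⟨hq⟩
  obtain ⟨S', hS'⟩ := hQ'.exists_le_sylow
  obtain ⟨S, rfl⟩ := Sylow.mapSurjective_surjective hf q S'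
  have ha' := hS' ha
  have hb' := hS' hb
  rw [Sylow.coe_mapSurjective] at ha' hb'
  obtain ⟨a₀, ha₀, rfl⟩ := ha'
  obtain ⟨b₀, hb₀, rfl⟩ := hb'
  rw [← map_mul, ← map_mul, h q hq hqp (S : Subgroup G) S.isPGroup' a₀ ha₀ b₀ hb₀]

/-- A `p`-element of a quotient lifts to a `p`-element. -/
theorem exists_pelt_lift {G : Type*} [Group G] [Finite G] {G' : Type*} [Group G'] {p : ℕ}
    [Fact p.Prime] (f : G →* G') (hf : Function.Surjective f) (g : G')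
    (hg : ∃ k : ℕ, g ^ p ^ k = 1) : ∃ x : G, (∃ k : ℕ, x ^ p ^ k = 1) ∧ f x = g := by
  have hz : IsPGroup p (Subgroup.zpowers g) := isPGroup_zpowers_of_pow hg
  obtain ⟨S', hS'⟩ := hz.exists_le_sylow
  obtain ⟨S, rfl⟩ := Sylow.mapSurjective_surjective hf p S'
  have h1 := hS' (Subgroup.mem_zpowers g)
  rw [Sylow.coe_mapSurjective] at h1
  obtain ⟨x, hx, hxg⟩ := h1
  obtain ⟨k, hk⟩ := S.isPGroup' ⟨x, hx⟩
  have hk2 : x ^ p ^ k = 1 := congrArg Subtype.val hk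
  exact ⟨x, ⟨k, hk2⟩, hxg⟩

/-- A product of an element of a normal `p`-subgroup and a `p`-element is a `p`-element. -/
theorem pelt_mul_of_normal {G : Type*} [Group G] {p : ℕ} (P : Subgroup G) [P.Normal]
    (hP : IsPGroup p P) {u g : G} (hu : u ∈ P) (hg : ∃ k : ℕ, g ^ p ^ k = 1) :
    ∃ k : ℕ, (u * g) ^ p ^ k = 1 := by
  have hgz : IsPGroup p (Subgroup.zpowers g) := isPGroup_zpowers_of_pow hg
  have hsup : IsPGroup p ↥(Subgroup.zpowers g ⊔ P) := IsPGroup.to_sup_of_normal_right hgz hP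
  have hmem : u * g ∈ Subgroup.zpowers g ⊔ P :=
    Subgroup.mul_mem _ (Subgroup.mem_sup_right hu) (Subgroup.mem_sup_left (Subgroup.mem_zpowers g))
  obtain ⟨k, hk⟩ := hsup ⟨u * g, hmem⟩
  have hk2 : (u * g) ^ p ^ k = 1 := congrArg Subtype.val hk
  exact ⟨k, hk2⟩

end Cfsg.Agent.Lib.Helper11
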