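import Mathlib
import Cfsg.Prelude.Def_Local
import Cfsg.Prelude.Def_CaseTheorems
import Cfsg.Agent.Lib.Helper11.ExpLen

/-!
`p`-length at most `n` for `p`-soluble groups with abelian Sylow `q`-subgroups (`q ≠ p`) and Sylow
`p`-subgroups of exponent dividing `p ^ n`.
-/

set_option autoImplicit false
set_option linter.style.haveILetI false
open Cfsg

namespace Cfsg.Agent.Lib.Helper11

open scoped commutatorElement

universe u

section Key

variable {G : Type u} [Group G] [Finite G] {p : ℕ} [hp : Fact p.Prime]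

theorem exp_key_aux (P : Subgroup G) [hPn : P.Normal] (hPp : IsPGroup p P)
    (hCP : Subgroup.centralizer (P : Set G) ≤ P)
    (hPmax : ∀ N : Subgroup G, N.Normal → IsPGroup p N → N ≤ P)
    (K : Subgroup (G ⧸ P)) [hKn : K.Normal] (hKcop : (Nat.card K).Coprime p)
    (hCK : Subgroup.centralizer (K : Set (G ⧸ P)) ≤ K)
    (habH : AbSyl p (G ⧸ P)) (n : ℕ) (hexp : ExpP p (n + 1) G)
    (x : G) (hx : ∃ k : ℕ, x ^ p ^ k = 1) : x ^ p ^ n ∈ P := by
  classical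
  by_contra hyP
  -- the Frattini quotient
  obtain ⟨Φ, hΦ⟩ : ∃ Φ : Subgroup G, Φ = (frattini ↥P).map P.subtype := ⟨_, rfl⟩
  haveI hΦn : Φ.Normal := by rw [hΦ]; infer_instance
  have hcomm : ⁅P, P⁆ ≤ Φ := by
    rw [hΦ]; exact Cfsg.Agent.Lib.Helper18.commutator_le_map_frattini hPp
  obtain ⟨π₁, hπ₁⟩ : ∃ π₁ : G →* G ⧸ Φ, π₁ = QuotientGroup.mk' Φ := ⟨_, rfl⟩
  have hπ₁s : Function.Surjective π₁ := hπ₁ ▸ QuotientGroup.mk'_surjective _
  have hπ₁k : ∀ g : G, π₁ g = 1 ↔ g ∈ Φ := by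
    intro g; rw [hπ₁]; exact QuotientGroup.eq_one_iff g
  obtain ⟨V, hV⟩ : ∃ V : Subgroup (G ⧸ Φ), V = P.map π₁ := ⟨_, rfl⟩
  haveI hVn : V.Normal := by rw [hV]; exact hPn.map π₁ hπ₁s
  have hVab : ∀ a ∈ V, ∀ b ∈ V, a * b = b * a := by
    intro a ha b hb
    rw [hV] at ha hb
    obtain ⟨u, hu, rfl⟩ := ha
    obtain ⟨w, hw, rfl⟩ := hb
    have h1 : ⁅u, w⁆ ∈ Φ := hcomm (Subgroup.commutator_mem_commutator hu hw)
    have h2 : π₁ ⁅u, w⁆ = 1 := (hπ₁k _).mpr h1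
    rw [commutatorElement_def, map_mul, map_mul, map_mul, map_inv, map_inv] at h2
    exact comm_of_comm_eq_one h2
  have hVmem : ∀ v : ↥V, ∃ u ∈ P, π₁ u = (v : G ⧸ Φ) := by
    intro v
    have hle : V ≤ P.map π₁ := le_of_eq hV
    exact hle v.2
  letI instV : CommGroup ↥V := commGroupOfComm V hVab
  obtain ⟨ρ₁, hρ₁⟩ : ∃ ρ₁ : G ⧸ Φ →* MulAut ↥V, ρ₁ = MulAut.conjNormal := ⟨_, rfl⟩
  have hρ₁a : ∀ (g : G ⧸ Φ) (v : ↥V), ((ρ₁ g v : ↥V) : G ⧸ Φ) = g * (v : G ⧸ Φ) * g⁻¹ := by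
    intro g v; rw [hρ₁]; exact MulAut.conjNormal_apply g v
  obtain ⟨ρG, hρG⟩ : ∃ ρG : G →* MulAut ↥V, ρG = ρ₁.comp π₁ := ⟨_, rfl⟩
  have hρGa : ∀ (g : G) (v : ↥V),
      ((ρG g v : ↥V) : G ⧸ Φ) = π₁ g * (v : G ⧸ Φ) * (π₁ g)⁻¹ := by
    intro g v; rw [hρG]; exact hρ₁a (π₁ g) v
  -- `P` acts trivially
  have hPker : ∀ u ∈ P, ρG u = 1 := by
    intro u hu
    refine MulEquiv.ext (fun v => Subtype.ext ?_)
    rw [hρGa]
    have h1 : π₁ u ∈ V := by rw [hV]; exact Subgroup.mem_map_of_mem π₁ hu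
    rw [hVab _ h1 _ v.2, mul_inv_cancel_right]
    rfl
  -- the kernel of the action is `P`
  have hpp : ∀ g : G, ρG g = 1 → (orderOf g).Coprime p → g = 1 := by
    intro g hg hgo
    have hgN : g ∈ Subgroup.normalizer (P : Set G) := by
      rw [Subgroup.normalizer_eq_top]; exact Subgroup.mem_top g
    have hcomm2 : ⁅P, Subgroup.zpowers g⁆ ≤ (frattini ↥P).map P.subtype := by
      rw [← hΦ, Subgroup.commutator_le]
      intro u hu g₂ hg₂
      have hg₂k : ρG g₂ = 1 := by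
        obtain ⟨j, rfl⟩ := Subgroup.mem_zpowers_iff.mp hg₂
        rw [map_zpow, hg, one_zpow]
      have huV : π₁ u⁻¹ ∈ V := by rw [hV]; exact Subgroup.mem_map_of_mem π₁ (P.inv_mem hu)
      have h1 := hρGa g₂ ⟨π₁ u⁻¹, huV⟩
      rw [hg₂k] at h1
      have h2 : π₁ u⁻¹ = π₁ g₂ * π₁ u⁻¹ * (π₁ g₂)⁻¹ := h1
      apply (hπ₁k _).mp
      rw [commutatorElement_def]
      have h3 : π₁ (u * g₂ * u⁻¹ * g₂⁻¹) = π₁ u * (π₁ g₂ * π₁ u⁻¹ * (π₁ g₂)⁻¹) := by
        simp only [map_mul, map_inv, mul_assoc]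
      rw [h3, ← h2, ← map_mul, mul_inv_cancel, map_one]
    have hcent := burnside_frat hPp hgN hgo hcomm2
    have hgP : g ∈ P := hCP hcent
    obtain ⟨k, hk⟩ := hPp ⟨g, hgP⟩
    have hk' : g ^ p ^ k = 1 := congrArg Subtype.val hk
    have h4 : orderOf g ∣ p ^ k := orderOf_dvd_of_pow_eq_one hk'
    have h5 : orderOf g = 1 := Nat.Coprime.eq_one_of_dvd (Nat.Coprime.pow_right k hgo) h4
    exact orderOf_eq_one_iff.mp h5
  have hker : ∀ g : G, ρG g = 1 → g ∈ P := by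
    have hKerN : (ρG.ker).Normal := inferInstance
    have hKerp : IsPGroup p ρG.ker := by
      intro ⟨g, hg⟩
      have hg1 : ρG g = 1 := MonoidHom.mem_ker.mp hg
      have ho : orderOf g ≠ 0 := (orderOf_pos g).ne'
      obtain ⟨e, s, hs, hes⟩ := Nat.exists_eq_pow_mul_and_not_dvd ho p hp.out.ne_one
      refine ⟨e, Subtype.ext ?_⟩
      have h6 : (g ^ p ^ e) ^ s = 1 := by rw [← pow_mul, ← hes, pow_orderOf_eq_one]
      have h7 : (orderOf (g ^ p ^ e)).Coprime p := by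
        have h8 : orderOf (g ^ p ^ e) ∣ s := orderOf_dvd_of_pow_eq_one h6
        exact Nat.Coprime.coprime_dvd_left h8
          ((Nat.Prime.coprime_iff_not_dvd hp.out).mpr hs).symm
      have h9 : g ^ p ^ e = 1 := hpp (g ^ p ^ e) (by rw [map_pow, hg1, one_pow]) h7
      exact h9
    intro g hg
    exact hPmax _ hKerN hKerp (MonoidHom.mem_ker.mpr hg)
  -- the quotient by `P`
  obtain ⟨π, hπ⟩ : ∃ π : G →* G ⧸ P, π = QuotientGroup.mk' P := ⟨_, rfl⟩
  have hπs : Function.Surjective π := hπ ▸ QuotientGroup.mk'_surjective _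
  have hπk : ∀ g : G, π g = 1 ↔ g ∈ P := by
    intro g; rw [hπ]; exact QuotientGroup.eq_one_iff g
  obtain ⟨ρ, hρ⟩ : ∃ ρ : G ⧸ P →* MulAut ↥V,
      ρ = QuotientGroup.lift P ρG (fun u hu => MonoidHom.mem_ker.mpr (hPker u hu)) := ⟨_, rfl⟩
  have hρπ : ∀ g : G, ρ (π g) = ρG g := by
    intro g; rw [hρ, hπ]; exact QuotientGroup.lift_mk P _ g
  have hρinj : ∀ a : G ⧸ P, ρ a = 1 → a = 1 := by
    intro a ha
    obtain ⟨g, rfl⟩ := hπs a
    rw [hρπ] at ha
    exact (hπk g).mpr (hker g ha)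
  obtain ⟨xb, hxb⟩ : ∃ xb : G ⧸ P, xb = π x := ⟨_, rfl⟩
  have hxm : x ^ p ^ (n + 1) = 1 := hexp x hx
  have hxbm : xb ^ p ^ (n + 1) = 1 := by rw [hxb, ← map_pow, hxm, map_one]
  obtain ⟨yb, hyb⟩ : ∃ yb : G ⧸ P, yb = xb ^ p ^ n := ⟨_, rfl⟩
  have hyb1 : yb ≠ 1 := by
    intro h
    rw [hyb, hxb, ← map_pow] at h
    exact hyP ((hπk _).mp h)
  have hybp : yb ^ p ^ 1 = 1 := by
    rw [hyb, pow_one, ← pow_mul, ← pow_succ]; exact hxbm
  have hybK : yb ∉ K := by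
    intro h
    have h1 : orderOf yb ∣ Nat.card K := by
      have h0 := orderOf_dvd_natCard (⟨yb, h⟩ : K)
      rwa [Subgroup.orderOf_mk] at h0
    have h2 : orderOf yb ∣ p ^ 1 := orderOf_dvd_of_pow_eq_one hybp
    have h3 : orderOf yb = 1 := Nat.Coprime.eq_one_of_dvd
      (Nat.Coprime.coprime_dvd_left h1 (Nat.Coprime.pow_right 1 hKcop)) h2
    exact hyb1 (orderOf_eq_one_iff.mp h3)
  have hybC : yb ∉ Subgroup.centralizer (K : Set (G ⧸ P)) := fun h => hybK (hCK h)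
  obtain ⟨C, hC⟩ : ∃ C : Subgroup ↥K,
      C = (Subgroup.centralizer ({yb} : Set (G ⧸ P))).subgroupOf K := ⟨_, rfl⟩
  have hCtop : C ≠ ⊤ := by
    intro h
    apply hybC
    rw [Subgroup.mem_centralizer_iff]
    intro k hk
    have h1 : (⟨k, hk⟩ : K) ∈ C := by rw [h]; exact Subgroup.mem_top _
    rw [hC, Subgroup.mem_subgroupOf, Subgroup.mem_centralizer_iff] at h1
    exact (h1 yb rfl).symm
  have hidx : C.index ≠ 1 := fun h => hCtop (Subgroup.index_eq_one.mp h)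
  obtain ⟨q, hq, hqdvd⟩ := Nat.exists_prime_and_dvd hidx
  haveI : Fact q.Prime := ⟨hq⟩
  have hpK : ¬ p ∣ Nat.card K := (Nat.Prime.coprime_iff_not_dvd hp.out).mp hKcop.symm
  have hqp : q ≠ p := by
    intro h
    rw [h] at hqdvd
    exact hpK (hqdvd.trans (Subgroup.index_dvd_card C))
  have hxbp : IsPGroup p (Subgroup.zpowers xb) := isPGroup_zpowers_of_pow ⟨n + 1, hxbm⟩
  obtain ⟨Q, hQ⟩ := Cfsg.Agent.Lib.Helper21.exists_sylow_normalized (q := q) (N := K) hpK hxbp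
  obtain ⟨Qb, hQb⟩ : ∃ Qb : Subgroup (G ⧸ P), Qb = (Q : Subgroup K).map K.subtype := ⟨_, rfl⟩
  rw [← hQb] at hQ
  have hQbK : Qb ≤ K := by rw [hQb]; exact Subgroup.map_subtype_le _
  have hQbq : IsPGroup q Qb := by rw [hQb]; exact Q.isPGroup'.map _
  have hQbab : ∀ a ∈ Qb, ∀ b ∈ Qb, a * b = b * a := habH q hq hqp Qb hQbq
  have hQbcop : (Nat.card Qb).Coprime p :=
    Nat.Coprime.coprime_dvd_left (Subgroup.card_dvd_of_le hQbK) hKcop
  have hxbQ : ∀ c ∈ Qb, xb⁻¹ * c * xb ∈ Qb := by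
    intro c hc
    have h1 : xb⁻¹ ∈ Subgroup.normalizer (Qb : Set (G ⧸ P)) :=
      hQ (Subgroup.inv_mem _ (Subgroup.mem_zpowers xb))
    have h2 := (Subgroup.mem_normalizer_iff.mp h1 c).mp hc
    rwa [inv_inv] at h2
  -- the averaging argument
  have hcent : ∀ c₀ ∈ Qb, yb * c₀ = c₀ * yb := by
    intro c₀ hc₀
    have hcore : ∀ v : ↥V, ρ (yb⁻¹ * c₀⁻¹ * yb * c₀) v = v := by
      intro v
      refine norm_sum_core ρ xb Qb hQbab hxbQ (p ^ (n + 1)) (pow_pos hp.out.pos _) ?_ ?_ yb ?_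
        c₀ hc₀ v
      · intro c _ v
        obtain ⟨cg, rfl⟩ := hπs c
        obtain ⟨g, hg⟩ : ∃ g : G, g = cg⁻¹ * x * cg := ⟨_, rfl⟩
        have hgp : ∃ k : ℕ, g ^ p ^ k = 1 := by
          obtain ⟨k, hk⟩ := hx
          refine ⟨k, ?_⟩
          rw [hg, conj_pow_inv, hk, mul_one, inv_mul_cancel]
        have e1 : ∀ i : ℕ, ρ ((π cg)⁻¹ * xb ^ i * π cg) = ρ₁ (π₁ g ^ i) := by
          intro i
          have h0 : (π cg)⁻¹ * xb ^ i * π cg = π (g ^ i) := by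
            rw [hxb, hg, conj_pow_inv, map_mul, map_mul, map_inv, map_pow]
          rw [h0, hρπ, hρG, MonoidHom.comp_apply, map_pow]
        simp only [e1]
        obtain ⟨u, hu, huv⟩ := hVmem v
        have hpow := prod_conj_pow V.subtype ρ₁ (fun g v => hρ₁a g v) (π₁ g) v (p ^ (n + 1))
        have h1 : (π₁ g) ^ p ^ (n + 1) = 1 := by rw [← map_pow, hexp g hgp, map_one]
        have h2 : ((v : G ⧸ Φ) * π₁ g) ^ p ^ (n + 1) = 1 := by
          rw [← huv, ← map_mul, ← map_pow, hexp (u * g) (pelt_mul_of_normal P hPp hu hgp),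
            map_one]
        rw [h1, mul_one] at hpow
        have h3 : V.subtype (∏ i ∈ Finset.range (p ^ (n + 1)), ρ₁ (π₁ g ^ i) v) = 1 :=
          hpow.trans h2
        exact (map_eq_one_iff V.subtype V.subtype_injective).mp h3
      · intro v hv
        obtain ⟨u, hu, huv⟩ := hVmem v
        obtain ⟨k, hk⟩ := hPp ⟨u, hu⟩
        have hk' : u ^ p ^ k = 1 := congrArg Subtype.val hk
        have hval : (v : G ⧸ Φ) ^ p ^ k = 1 := by rw [← huv, ← map_pow, hk', map_one]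
        have hvk : v ^ p ^ k = 1 := Subtype.ext hval
        have h1 : orderOf v ∣ p ^ k := orderOf_dvd_of_pow_eq_one hvk
        have h2 : orderOf v ∣ Nat.card Qb := orderOf_dvd_of_pow_eq_one hv
        have h3 : orderOf v = 1 := Nat.Coprime.eq_one_of_dvd
          (Nat.Coprime.coprime_dvd_left h2 (Nat.Coprime.pow_right k hQbcop)) h1
        exact orderOf_eq_one_iff.mp h3
      · intro i hi0 him
        rw [hyb]
        exact pow_mem_zpowers_pow hp.out xb n hxbm i hi0 him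
    have h1 : ρ (yb⁻¹ * c₀⁻¹ * yb * c₀) = 1 := MulEquiv.ext hcore
    have h2 := hρinj _ h1
    calc yb * c₀ = c₀ * yb * (yb⁻¹ * c₀⁻¹ * yb * c₀) := by group
      _ = c₀ * yb := by rw [h2, mul_one]
  -- contradiction with the choice of `q`
  have hQC : (Q : Subgroup K) ≤ C := by
    intro c hc
    rw [hC, Subgroup.mem_subgroupOf, Subgroup.mem_centralizer_iff]
    intro h hh
    rw [Set.mem_singleton_iff] at hh
    rw [hh]
    have hcQb : (c : G ⧸ P) ∈ Qb := by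
      rw [hQb]; exact Subgroup.mem_map_of_mem K.subtype hc
    exact hcent _ hcQb
  have h1 : C.index ∣ (Q : Subgroup K).index := Subgroup.index_dvd_of_le hQC
  exact Q.not_dvd_index (hqdvd.trans h1)

/-- In a `p`-soluble group with `O_{p'}(G) = 1` whose `q`-subgroups (`q ≠ p`) are abelian and
whose `p`-elements have order dividing `p ^ (n + 1)`, the `p ^ n`-th power of every `p`-element
lies in `O_p(G)`. -/
theorem exp_key (hsol : IsPSolvable p G) (hO : pPrimeCore p G = ⊥) (hab : AbSyl p G) (n : ℕ)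
    (hexp : ExpP p (n + 1) G) (x : G) (hx : ∃ k : ℕ, x ^ p ^ k = 1) :
    x ^ p ^ n ∈ pCore p G := by
  have hsolH : IsPSolvable p (G ⧸ pCore p G) :=
    Cfsg.Agent.Lib.Helper6.isPSolvable_quotient hp.out (pCore p G) hsol
  exact exp_key_aux (pCore p G) (Cfsg.Agent.Lib.Helper14.pCore_isPGroup p)
    (Cfsg.Agent.Lib.Helper6.centralizer_pCore_le_of_isPSolvable hsol hO)
    (fun N hN hNp => Cfsg.Agent.Lib.Helper14.le_pCore p hN hNp)
    (pPrimeCore p (G ⧸ pCore p G)) (Cfsg.Agent.Lib.Helper14.pPrimeCore_coprime p)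
    (Cfsg.Agent.Lib.Helper6.centralizer_pPrimeCore_le_of_isPSolvable hsolH
      Cfsg.Agent.Lib.Helper6.pCore_quotient_pCore_eq_bot)
    (hab.of_surjective (QuotientGroup.mk' _) (QuotientGroup.mk'_surjective _)) n hexp x hx

end Key

theorem plen_step (p : ℕ) [hp : Fact p.Prime] (n : ℕ)
    (ih : ∀ (G : Type u) [Group G] [Finite G], IsPSolvable p G → AbSyl p G → ExpP p n G →
      PLengthLE p n G)
    (H : Type u) [Group H] [Finite H] (hsol : IsPSolvable p H) (hO : pPrimeCore p H = ⊥)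
    (hab : AbSyl p H) (hexp : ExpP p (n + 1) H) : PLengthLE p (n + 1) H := by
  have hP1 : PLengthLE p 1 ↥(pCore p H) :=
    Cfsg.Agent.Lib.Helper23.plen_one_of_isPGroup (Cfsg.Agent.Lib.Helper14.pCore_isPGroup p)
  have hsol2 : IsPSolvable p (H ⧸ pCore p H) :=
    Cfsg.Agent.Lib.Helper6.isPSolvable_quotient hp.out _ hsol
  have hab2 : AbSyl p (H ⧸ pCore p H) :=
    hab.of_surjective (QuotientGroup.mk' _) (QuotientGroup.mk'_surjective _)
  have hexp2 : ExpP p n (H ⧸ pCore p H) := by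
    intro g hg
    obtain ⟨x, hx, rfl⟩ := exists_pelt_lift (QuotientGroup.mk' (pCore p H))
      (QuotientGroup.mk'_surjective _) g hg
    rw [← map_pow]
    exact (QuotientGroup.eq_one_iff _).mpr (exp_key hsol hO hab n hexp x hx)
  have h := Cfsg.Agent.Lib.Helper23.plen_ext (pCore p H) hP1 (ih _ hsol2 hab2 hexp2)
  rwa [add_comm] at h

theorem plen_le_exp (p : ℕ) [hp : Fact p.Prime] : ∀ (n : ℕ) (G : Type u) [Group G] [Finite G],
    IsPSolvable p G → AbSyl p G → ExpP p n G → PLengthLE p n G := by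
  intro n
  induction n with
  | zero =>
    intro G _ _ _ _ hexp
    apply Cfsg.Agent.Lib.Helper23.plen_zero_of_coprime
    rw [Nat.coprime_comm, Nat.Prime.coprime_iff_not_dvd hp.out]
    intro hdvd
    obtain ⟨g, hg⟩ := exists_prime_orderOf_dvd_card' p hdvd
    have h0 : g ^ p ^ 1 = 1 := by rw [pow_one, ← hg, pow_orderOf_eq_one]
    have h1 : g ^ p ^ 0 = 1 := hexp g ⟨1, h0⟩
    rw [pow_zero, pow_one] at h1
    rw [h1, orderOf_one] at hg
    exact hp.out.one_lt.ne hg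
  | succ n ih =>
    intro G _ _ hsol hab hexp
    have hN0 : PLengthLE p 0 ↥(pPrimeCore p G) :=
      Cfsg.Agent.Lib.Helper23.plen_zero_of_coprime (Cfsg.Agent.Lib.Helper14.pPrimeCore_coprime p)
    have hsol1 : IsPSolvable p (G ⧸ pPrimeCore p G) :=
      Cfsg.Agent.Lib.Helper6.isPSolvable_quotient hp.out _ hsol
    have hO1 : pPrimeCore p (G ⧸ pPrimeCore p G) = ⊥ :=
      Cfsg.Agent.Lib.Helper6.pPrimeCore_quotient_pPrimeCore_eq_bot
    have hab1 : AbSyl p (G ⧸ pPrimeCore p G) :=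
      hab.of_surjective (QuotientGroup.mk' _) (QuotientGroup.mk'_surjective _)
    have hexp1 : ExpP p (n + 1) (G ⧸ pPrimeCore p G) := by
      intro g hg
      obtain ⟨x, hx, rfl⟩ := exists_pelt_lift (QuotientGroup.mk' (pPrimeCore p G))
        (QuotientGroup.mk'_surjective _) g hg
      rw [← map_pow, hexp x hx, map_one]
    have key : PLengthLE p (n + 1) (G ⧸ pPrimeCore p G) :=
      plen_step p n ih _ hsol1 hO1 hab1 hexp1
    have h := Cfsg.Agent.Lib.Helper23.plen_ext (pPrimeCore p G) hN0 key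
    rwa [zero_add] at h

end Cfsg.Agent.Lib.Helper11
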