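import Mathlib
import Cfsg.Prelude.Def_Local
import Cfsg.Prelude.Def_CaseTheorems
import Cfsg.Agent.Lib.Helper11.ExpLen
import Cfsg.Agent.Lib.Helper11.PCores
import Cfsg.Agent.Lib.Helper14.SecMain
import Cfsg.Agent.Lib.Helper6.PSolv4
import Cfsg.Agent.S4302

/-!
A fixed-point-free automorphism of order dividing four of a finite soluble group: the derived
subgroup is nilpotent.  The heart is the averaging lemma `norm_sum_core`, which shows that the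
square of the automorphism centralises every invariant soluble `r'`-group of automorphisms of an
irreducible module in characteristic `r`.
-/

set_option autoImplicit false
open Cfsg

namespace Cfsg.Agent.Lib.Helper11

open scoped commutatorElement

universe u

section FpfGeneric

variable {H : Type*} [Group H]

theorem fpf_fix_aux (s u v : H) (h : u⁻¹ * (s * u * s⁻¹) = v⁻¹ * (s * v * s⁻¹)) :
    s * (v * u⁻¹) * s⁻¹ = v * u⁻¹ := by
  have h1 : s * v * s⁻¹ = v * (u⁻¹ * (s * u * s⁻¹)) := by rw [h]; group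
  calc s * (v * u⁻¹) * s⁻¹ = (s * v * s⁻¹) * (s * u * s⁻¹)⁻¹ := by group
    _ = v * (u⁻¹ * (s * u * s⁻¹)) * (s * u * s⁻¹)⁻¹ := by rw [h1]
    _ = v * u⁻¹ := by group

theorem fpf_comm_aux (τ u z : H) (hz1 : τ * z * τ⁻¹ = z)
    (hz2 : τ * (u * z * u⁻¹) * τ⁻¹ = u * z * u⁻¹) :
    z * (u⁻¹ * (τ * u * τ⁻¹)) = (u⁻¹ * (τ * u * τ⁻¹)) * z := by
  have hz1' : τ⁻¹ * z = z * τ⁻¹ := by
    calc τ⁻¹ * z = τ⁻¹ * (τ * z * τ⁻¹) := by rw [hz1]
      _ = z * τ⁻¹ := by group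
  have hz2' : τ * (u * z * u⁻¹) = (u * z * u⁻¹) * τ := by
    calc τ * (u * z * u⁻¹) = (τ * (u * z * u⁻¹) * τ⁻¹) * τ := by group
      _ = (u * z * u⁻¹) * τ := by rw [hz2]
  symm
  calc (u⁻¹ * (τ * u * τ⁻¹)) * z = u⁻¹ * τ * u * (τ⁻¹ * z) := by group
    _ = u⁻¹ * τ * u * (z * τ⁻¹) := by rw [hz1']
    _ = u⁻¹ * (τ * (u * z * u⁻¹)) * u * τ⁻¹ := by group
    _ = u⁻¹ * ((u * z * u⁻¹) * τ) * u * τ⁻¹ := by rw [hz2']
    _ = z * (u⁻¹ * (τ * u * τ⁻¹)) := by group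

theorem fpf_inv_aux (τ u : H) (hττ : τ * τ = 1) :
    τ * (u⁻¹ * (τ * u * τ⁻¹)) * τ⁻¹ = (u⁻¹ * (τ * u * τ⁻¹))⁻¹ := by
  have hτinv : τ⁻¹ = τ := inv_eq_of_mul_eq_one_left hττ
  calc τ * (u⁻¹ * (τ * u * τ⁻¹)) * τ⁻¹ = τ * u⁻¹ * τ * u * (τ * τ)⁻¹ := by group
    _ = τ * u⁻¹ * τ * u := by rw [hττ, inv_one, mul_one]
    _ = τ * u⁻¹ * τ⁻¹ * u := by rw [hτinv]
    _ = (u⁻¹ * (τ * u * τ⁻¹))⁻¹ := by group

theorem inv_conj_mem4 (T : H) (hT4 : T ^ 4 = 1) (L : Subgroup H)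
    (hTL : ∀ l ∈ L, T * l * T⁻¹ ∈ L) : ∀ l ∈ L, T⁻¹ * l * T ∈ L := by
  intro l hl
  have h4 : T * T * T * T = 1 := by
    have h : T ^ 4 = T * T * T * T := by
      rw [pow_succ, pow_succ, pow_succ, pow_one]
    rw [← h, hT4]
  have e1 : T⁻¹ = T * T * T := inv_eq_of_mul_eq_one_left h4
  have e2 : T⁻¹ * l * T = T * (T * (T * l * T⁻¹) * T⁻¹) * T⁻¹ := by
    calc T⁻¹ * l * T = (T * T * T) * l * (T * T * T)⁻¹ := by rw [← e1, inv_inv]
      _ = T * (T * (T * l * T⁻¹) * T⁻¹) * T⁻¹ := by group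
  rw [e2]
  exact hTL _ (hTL _ (hTL _ hl))

/-- Conjugation by `T` as an automorphism of a `T`-invariant subgroup. -/
def fpfConjAut (T : H) (L : Subgroup H) (hTL : ∀ l ∈ L, T * l * T⁻¹ ∈ L)
    (hTL' : ∀ l ∈ L, T⁻¹ * l * T ∈ L) : ↥L ≃* ↥L where
  toFun l := ⟨T * l * T⁻¹, hTL l l.2⟩
  invFun l := ⟨T⁻¹ * l * T, hTL' l l.2⟩
  left_inv l := by
    apply Subtype.ext
    show T⁻¹ * (T * (l : H) * T⁻¹) * T = (l : H)
    group
  right_inv l := by
    apply Subtype.ext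
    show T * (T⁻¹ * (l : H) * T) * T⁻¹ = (l : H)
    group
  map_mul' a b := by
    apply Subtype.ext
    show T * ((a : H) * (b : H)) * T⁻¹ = (T * (a : H) * T⁻¹) * (T * (b : H) * T⁻¹)
    group

theorem comm_ne_self (Q : Subgroup H) (hsol : Group.IsSolvable Q) (hne : Q ≠ ⊥) :
    ⁅Q, Q⁆ ≠ Q := by
  intro h
  haveI : Nontrivial ↥Q := (Subgroup.nontrivial_iff_ne_bot Q).mpr hne
  haveI := hsol
  have h1 := IsSolvable.commutator_lt_top_of_nontrivial ↥Q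
  have h2 := Subgroup.map_subtype_commutator Q
  rw [h] at h2
  have h3 : Subgroup.map Q.subtype (commutator ↥Q) = Subgroup.map Q.subtype ⊤ := by
    rw [h2, ← MonoidHom.range_eq_map, Subgroup.range_subtype]
  exact (ne_of_lt h1) (Subgroup.map_injective Q.subtype_injective h3)

/-- A group admitting a fixed-point-free automorphism of order dividing four has odd order. -/
theorem fpf4_odd [Finite H] (T : H) (hT4 : T ^ 4 = 1) (L : Subgroup H)
    (hTL : ∀ l ∈ L, T * l * T⁻¹ ∈ L) (hLfpf : ∀ l ∈ L, T * l * T⁻¹ = l → l = 1) :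
    ∀ l ∈ L, l * l = 1 → l = 1 := by
  have hTL' := inv_conj_mem4 T hT4 L hTL
  obtain ⟨α, hα⟩ : ∃ α : MulAut ↥L, α = fpfConjAut T L hTL hTL' := ⟨_, rfl⟩
  have hαapp : ∀ l : ↥L, ((α l : ↥L) : H) = T * (l : H) * T⁻¹ := by
    intro l; rw [hα]; rfl
  have hαpow : ∀ (k : ℕ) (l : ↥L), (((α ^ k) l : ↥L) : H) = T ^ k * (l : H) * (T ^ k)⁻¹ := by
    intro k
    induction k with
    | zero => intro l; simp
    | succ k ih =>
      intro l
      rw [pow_succ', MulAut.mul_apply, hαapp, ih l, pow_succ']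
      obtain ⟨z, hz⟩ : ∃ z : H, z = T ^ k := ⟨_, rfl⟩
      rw [← hz]
      group
  have hα4 : α ^ 2 ^ 2 = 1 := by
    apply MulEquiv.ext
    intro l
    apply Subtype.ext
    have h22 : (2 : ℕ) ^ 2 = 4 := by norm_num
    rw [h22, hαpow 4 l, hT4]
    simp
  have hP : IsPGroup 2 ↥(Subgroup.zpowers α) := isPGroup_zpowers_of_pow ⟨2, hα4⟩
  have hmod := hP.card_modEq_card_fixedPoints ↥L
  have hfix : Nat.card (MulAction.fixedPoints ↥(Subgroup.zpowers α) ↥L) = 1 := by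
    rw [Nat.card_eq_one_iff_unique]
    have h1 : ∀ a : MulAction.fixedPoints ↥(Subgroup.zpowers α) ↥L, (a : ↥L) = 1 := by
      intro a
      have h2 := MulAction.mem_fixedPoints.mp a.2 ⟨α, Subgroup.mem_zpowers α⟩
      have h3 : α (a : ↥L) = (a : ↥L) := h2
      have h4 : T * ((a : ↥L) : H) * T⁻¹ = ((a : ↥L) : H) := by
        rw [← hαapp]; exact congrArg Subtype.val h3
      exact Subtype.ext (hLfpf _ (a : ↥L).2 h4)
    refine ⟨⟨fun a b => Subtype.ext ((h1 a).trans (h1 b).symm)⟩, ⟨⟨1, ?_⟩⟩⟩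
    rw [MulAction.mem_fixedPoints]
    intro g
    show (g : MulAut ↥L) (1 : ↥L) = 1
    exact map_one _
  intro l hl hll
  by_contra hne
  have h2 : orderOf (⟨l, hl⟩ : ↥L) = 2 := by
    apply orderOf_eq_prime
    · apply Subtype.ext
      show l ^ 2 = 1
      rw [pow_two]; exact hll
    · intro h
      exact hne (congrArg Subtype.val h)
  have h3 : 2 ∣ Nat.card ↥L := by
    have := orderOf_dvd_natCard (⟨l, hl⟩ : ↥L)
    rwa [h2] at this
  rw [hfix] at hmod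
  unfold Nat.ModEq at hmod
  omega

theorem fpf_quot {Γ : Type*} [Group Γ] [Finite Γ] (s : Γ) (G N : Subgroup Γ) [hN : N.Normal]
    (hNG : N ≤ G) (hfpf : ∀ g ∈ G, s * g * s⁻¹ = g → g = 1) (g : Γ) (hgG : g ∈ G)
    (hg : g⁻¹ * (s * g * s⁻¹) ∈ N) : g ∈ N := by
  have hinj : Function.Injective (fun n : ↥N =>
      (⟨(n : Γ)⁻¹ * (s * (n : Γ) * s⁻¹),
        N.mul_mem (N.inv_mem n.2) (hN.conj_mem n n.2 s)⟩ : ↥N)) := by
    intro u v huv
    have h1 : (u : Γ)⁻¹ * (s * (u : Γ) * s⁻¹) = (v : Γ)⁻¹ * (s * (v : Γ) * s⁻¹) :=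
      congrArg Subtype.val huv
    have h2 := fpf_fix_aux s (u : Γ) (v : Γ) h1
    have h3 := hfpf _ (G.mul_mem (hNG v.2) (G.inv_mem (hNG u.2))) h2
    exact (Subtype.ext (mul_inv_eq_one.mp h3)).symm
  obtain ⟨n, hn⟩ := Finite.injective_iff_surjective.mp hinj ⟨_, hg⟩
  have h1 : (n : Γ)⁻¹ * (s * (n : Γ) * s⁻¹) = g⁻¹ * (s * g * s⁻¹) := congrArg Subtype.val hn
  have h2 := fpf_fix_aux s (n : Γ) g h1
  have h3 := hfpf _ (G.mul_mem hgG (G.inv_mem (hNG n.2))) h2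
  rw [mul_inv_eq_one.mp h3]
  exact n.2

/-- The elements of order dividing `r` of an abelian subgroup. -/
def omegaSub (V : Subgroup H) (hVab : ∀ a ∈ V, ∀ b ∈ V, a * b = b * a) (r : ℕ) : Subgroup H where
  carrier := {v | v ∈ V ∧ v ^ r = 1}
  one_mem' := ⟨V.one_mem, one_pow r⟩
  mul_mem' := fun {a b} ha hb => ⟨V.mul_mem ha.1 hb.1, by
    have hc : Commute a b := hVab a ha.1 b hb.1
    rw [hc.mul_pow, ha.2, hb.2, one_mul]⟩
  inv_mem' := fun {a} ha => ⟨V.inv_mem ha.1, by rw [inv_pow, ha.2, inv_one]⟩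

theorem mem_omegaSub (V : Subgroup H) (hVab : ∀ a ∈ V, ∀ b ∈ V, a * b = b * a) (r : ℕ) (v : H) :
    v ∈ omegaSub V hVab r ↔ v ∈ V ∧ v ^ r = 1 := Iff.rfl

end FpfGeneric

section Core

variable {A : Type u} [CommGroup A] [Finite A] {r : ℕ}

/-- The fixed points of a group of automorphisms. -/
def fixSub (R : Subgroup (MulAut A)) : Subgroup A where
  carrier := {v | ∀ ρ ∈ R, ρ v = v}
  one_mem' := fun ρ _ => map_one ρ
  mul_mem' := fun {a b} ha hb ρ hρ => by rw [map_mul, ha ρ hρ, hb ρ hρ]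
  inv_mem' := fun {a} ha ρ hρ => by rw [map_inv, ha ρ hρ]

theorem mem_fixSub (R : Subgroup (MulAut A)) (v : A) :
    v ∈ fixSub R ↔ ∀ ρ ∈ R, ρ v = v := Iff.rfl

/-- The square of a fixed-point-free automorphism of order four centralises invariant abelian
`r'`-groups. -/
theorem fpf4_B1 (hexp : ∀ v : A, v ^ r = 1)
    (T : MulAut A) (hT4 : T ^ 4 = 1) (hTfpf : ∀ v : A, T v = v → v = 1)
    (Q : Subgroup (MulAut A)) (hQab : ∀ a ∈ Q, ∀ b ∈ Q, a * b = b * a)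
    (hTQ : ∀ c ∈ Q, T * c * T⁻¹ ∈ Q) (hcop : (Nat.card Q).Coprime r) :
    ∀ c ∈ Q, T ^ 2 * c = c * T ^ 2 := by
  intro c₀ hc₀
  have hTQ' := inv_conj_mem4 T hT4 Q hTQ
  have hT4' : T * T ^ 3 = 1 := by rw [← pow_succ']; exact hT4
  have key : ∀ v : A, (MonoidHom.id (MulAut A)) ((T ^ 2)⁻¹ * c₀⁻¹ * T ^ 2 * c₀) v = v := by
    intro v
    refine norm_sum_core (MonoidHom.id (MulAut A)) T Q hQab hTQ' 4 (by norm_num) ?_ ?_ (T ^ 2) ?_
      c₀ hc₀ v
    · intro c hc v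
      show ∏ i ∈ Finset.range 4, (c⁻¹ * T ^ i * c) v = 1
      obtain ⟨u, hu⟩ : ∃ u : A, u = c v := ⟨_, rfl⟩
      have e1 : ∀ i : ℕ, c ((c⁻¹ * T ^ i * c) v) = (T ^ i) u := by
        intro i
        rw [hu, MulAut.mul_apply, MulAut.mul_apply, MulAut.apply_inv_self]
      obtain ⟨w, hw⟩ : ∃ w : A, w = ∏ i ∈ Finset.range 4, (c⁻¹ * T ^ i * c) v := ⟨_, rfl⟩
      rw [← hw]
      have e2 : c w = u * T u * (T ^ 2) u * (T ^ 3) u := by
        rw [hw, map_prod, Finset.prod_congr rfl (fun i _ => e1 i)]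
        simp [Finset.prod_range_succ]
      have h4 : T ((T ^ 3) u) = u := by
        have e := congrArg (fun f : MulAut A => f u) hT4'
        exact e
      have h2 : T (T u) = (T ^ 2) u := by
        rw [pow_two, MulAut.mul_apply]
      have h3 : T ((T ^ 2) u) = (T ^ 3) u := by
        have e : T ^ 3 = T * T ^ 2 := pow_succ' T 2
        rw [e, MulAut.mul_apply]
      have e3 : T (c w) = c w := by
        rw [e2, map_mul, map_mul, map_mul, h4, h2, h3,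
          mul_comm (T u * (T ^ 2) u * (T ^ 3) u) u]
        simp only [mul_assoc]
      have e4 : c w = 1 := hTfpf _ e3
      have e5 : c w = c 1 := by rw [e4, map_one]
      exact c.injective e5
    · intro v hv
      have h1 : orderOf v ∣ Nat.card Q := orderOf_dvd_of_pow_eq_one hv
      have h2 : orderOf v ∣ r := orderOf_dvd_of_pow_eq_one (hexp v)
      exact orderOf_eq_one_iff.mp (Nat.eq_one_of_dvd_coprimes hcop h1 h2)
    · intro i hi0 hi4
      interval_cases i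
      · rw [pow_one]; exact Subgroup.pow_mem _ (Subgroup.mem_zpowers T) 2
      · exact Subgroup.mem_zpowers _
      · have e : T ^ 2 = (T ^ 3) ^ 2 := by
          rw [← pow_mul, show 3 * 2 = 4 + 2 from rfl, pow_add, hT4, one_mul]
        rw [e]; exact Subgroup.pow_mem _ (Subgroup.mem_zpowers _) 2
  have h1 : (T ^ 2)⁻¹ * c₀⁻¹ * T ^ 2 * c₀ = 1 := MulEquiv.ext (fun v => key v)
  calc T ^ 2 * c₀ = c₀ * T ^ 2 * ((T ^ 2)⁻¹ * c₀⁻¹ * T ^ 2 * c₀) := by group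
    _ = c₀ * T ^ 2 := by rw [h1, mul_one]

/-- An element inverted by the square of the automorphism in an invariant `r'`-group of class
two is trivial. -/
theorem fpf4_B2 (hexp : ∀ v : A, v ^ r = 1)
    (T : MulAut A) (hT4 : T ^ 4 = 1) (hTfpf : ∀ v : A, T v = v → v = 1)
    (L : Subgroup (MulAut A)) (hTL : ∀ l ∈ L, T * l * T⁻¹ ∈ L)
    (hLfpf : ∀ l ∈ L, T * l * T⁻¹ = l → l = 1)
    (Q : Subgroup (MulAut A)) (hQL : Q ≤ L) (hTQ : ∀ c ∈ Q, T * c * T⁻¹ ∈ Q)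
    (hcop : (Nat.card Q).Coprime r)
    (hcl : ∀ a ∈ Q, ∀ b ∈ Q, ∀ c ∈ Q, ⁅a, b⁆ * c = c * ⁅a, b⁆)
    (e : MulAut A) (he : e ∈ Q) (hinv : T ^ 2 * e * (T ^ 2)⁻¹ = e⁻¹) : e = 1 := by
  obtain ⟨e₁, he₁⟩ : ∃ e₁ : MulAut A, e₁ = T * e * T⁻¹ := ⟨_, rfl⟩
  have he₁Q : e₁ ∈ Q := by rw [he₁]; exact hTQ e he
  have hTe₁ : T * e₁ * T⁻¹ = e⁻¹ := by
    rw [he₁, ← hinv, pow_two]; group
  have hcQ : ⁅e, e₁⁆ ∈ Q := by
    rw [commutatorElement_def]
    exact Q.mul_mem (Q.mul_mem (Q.mul_mem he he₁Q) (Q.inv_mem he)) (Q.inv_mem he₁Q)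
  have hc1 : ⁅e, e₁⁆ * e = e * ⁅e, e₁⁆ := hcl e he e₁ he₁Q e he
  have hTc : T * ⁅e, e₁⁆ * T⁻¹ = ⁅e, e₁⁆ := by
    have h1 : T * ⁅e, e₁⁆ * T⁻¹ = ⁅T * e * T⁻¹, T * e₁ * T⁻¹⁆ := by
      simp only [commutatorElement_def]; group
    have h2 : ⁅e₁, e⁻¹⁆ = e⁻¹ * (⁅e, e₁⁆ * e) := by
      simp only [commutatorElement_def]; group
    rw [h1, ← he₁, hTe₁, h2, hc1, inv_mul_cancel_left]
  have hc : ⁅e, e₁⁆ = 1 := hLfpf _ (hQL hcQ) hTc
  have hcomm : e * e₁ = e₁ * e := (commutatorElement_eq_one_iff_commute.mp hc).eq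
  obtain ⟨B, hB⟩ : ∃ B : Subgroup (MulAut A), B = Subgroup.closure {e, e₁} := ⟨_, rfl⟩
  have heB : e ∈ B := by rw [hB]; exact Subgroup.subset_closure (Or.inl rfl)
  have hS : ∀ x ∈ ({e, e₁} : Set (MulAut A)), ∀ y ∈ ({e, e₁} : Set (MulAut A)),
      x * y = y * x := by
    intro x hx y hy
    have hx' : x = e ∨ x = e₁ := hx
    have hy' : y = e ∨ y = e₁ := hy
    rcases hx' with hx1 | hx1 <;> rcases hy' with hy1 | hy1 <;> rw [hx1, hy1]
    · exact hcomm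
    · exact hcomm.symm
  have hB1 : B ≤ Subgroup.centralizer ({e, e₁} : Set (MulAut A)) := by
    rw [hB, Subgroup.closure_le]
    intro x hx
    rw [SetLike.mem_coe, Subgroup.mem_centralizer_iff]
    intro y hy
    exact hS y hy x hx
  have hB2 : B ≤ Subgroup.centralizer (B : Set (MulAut A)) := by
    have h0 : ({e, e₁} : Set (MulAut A)) ⊆ Subgroup.centralizer (B : Set (MulAut A)) := by
      intro x hx
      rw [SetLike.mem_coe, Subgroup.mem_centralizer_iff]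
      intro b hb
      exact (Subgroup.mem_centralizer_iff.mp (hB1 hb) x hx).symm
    have h1 := (Subgroup.closure_le (Subgroup.centralizer (B : Set (MulAut A)))).mpr h0
    rw [← hB] at h1
    exact h1
  have hBab : ∀ a ∈ B, ∀ b ∈ B, a * b = b * a := fun a ha b hb =>
    Subgroup.mem_centralizer_iff.mp (hB2 hb) a ha
  have hBQ : B ≤ Q := by
    rw [hB, Subgroup.closure_le]
    intro x hx
    have hx' : x = e ∨ x = e₁ := hx
    rcases hx' with h | h <;> rw [SetLike.mem_coe, h]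
    · exact he
    · exact he₁Q
  have hTB : ∀ c ∈ B, T * c * T⁻¹ ∈ B := by
    have h3 : B ≤ B.comap (MulAut.conj T).toMonoidHom := by
      have h0 : ({e, e₁} : Set (MulAut A)) ⊆
          (B.comap (MulAut.conj T).toMonoidHom : Set (MulAut A)) := by
        intro x hx
        have hx' : x = e ∨ x = e₁ := hx
        rw [SetLike.mem_coe, Subgroup.mem_comap]
        show T * x * T⁻¹ ∈ B
        rcases hx' with h | h <;> rw [h]
        · rw [← he₁, hB]; exact Subgroup.subset_closure (Or.inr rfl)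
        · rw [hTe₁]; exact B.inv_mem heB
      have h1 := (Subgroup.closure_le (B.comap (MulAut.conj T).toMonoidHom)).mpr h0
      rw [← hB] at h1
      exact h1
    intro c hc
    exact h3 hc
  have hBcop : (Nat.card B).Coprime r :=
    Nat.Coprime.coprime_dvd_left (Subgroup.card_dvd_of_le hBQ) hcop
  have h5 : T ^ 2 * e = e * T ^ 2 := fpf4_B1 hexp T hT4 hTfpf B hBab hTB hBcop e heB
  have h6 : e⁻¹ = e := by
    rw [← hinv, h5, mul_inv_cancel_right]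
  have h7 : e * e = 1 := by
    calc e * e = e⁻¹ * e := by rw [h6]
      _ = 1 := inv_mul_cancel e
  exact fpf4_odd T hT4 L hTL hLfpf e (hQL he) h7

/-- The square of the automorphism centralises invariant soluble `r'`-groups. -/
theorem fpf4_B3 (hexp : ∀ v : A, v ^ r = 1)
    (T : MulAut A) (hT4 : T ^ 4 = 1) (hTfpf : ∀ v : A, T v = v → v = 1)
    (L : Subgroup (MulAut A)) (hTL : ∀ l ∈ L, T * l * T⁻¹ ∈ L)
    (hLfpf : ∀ l ∈ L, T * l * T⁻¹ = l → l = 1) :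
    ∀ (n : ℕ) (Q : Subgroup (MulAut A)), Nat.card Q ≤ n → Q ≤ L → Group.IsSolvable Q →
      (∀ c ∈ Q, T * c * T⁻¹ ∈ Q) → (Nat.card Q).Coprime r →
      ∀ u ∈ Q, T ^ 2 * u * (T ^ 2)⁻¹ = u := by
  intro n
  induction n with
  | zero =>
    intro Q hn
    exact absurd hn (by have := Nat.card_pos (α := Q); omega)
  | succ n ih =>
    intro Q hn hQL hQsol hTQ hcop u hu
    by_cases htriv : Q = ⊥
    · rw [htriv, Subgroup.mem_bot] at hu
      rw [hu]; group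
    obtain ⟨Q', hQ'⟩ : ∃ Q' : Subgroup (MulAut A), Q' = ⁅Q, Q⁆ := ⟨_, rfl⟩
    have hQ'Q : Q' ≤ Q := by
      rw [hQ', Subgroup.commutator_le]
      intro a ha b hb
      rw [commutatorElement_def]
      exact Q.mul_mem (Q.mul_mem (Q.mul_mem ha hb) (Q.inv_mem ha)) (Q.inv_mem hb)
    have hQ'ne : Q' ≠ Q := by rw [hQ']; exact comm_ne_self Q hQsol htriv
    have hQ'card : Nat.card Q' ≤ n := by
      by_contra hcon
      have h1 : Nat.card Q ≤ Nat.card Q' := by omega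
      exact hQ'ne (Subgroup.eq_of_le_of_card_ge hQ'Q h1)
    have hQ'sol : Group.IsSolvable Q' := by
      haveI := hQsol
      exact solvable_of_solvable_injective (Subgroup.inclusion_injective hQ'Q)
    have hTQ' : ∀ c ∈ Q', T * c * T⁻¹ ∈ Q' := by
      have h3 : Q' ≤ Q'.comap (MulAut.conj T).toMonoidHom := by
        have h0 : ∀ g₁ ∈ Q, ∀ g₂ ∈ Q, ⁅g₁, g₂⁆ ∈ Q'.comap (MulAut.conj T).toMonoidHom := by
          intro g₁ h₁ g₂ h₂
          rw [Subgroup.mem_comap]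
          show T * ⁅g₁, g₂⁆ * T⁻¹ ∈ Q'
          have h1 : T * ⁅g₁, g₂⁆ * T⁻¹ = ⁅T * g₁ * T⁻¹, T * g₂ * T⁻¹⁆ := by
            simp only [commutatorElement_def]; group
          rw [h1, hQ']
          exact Subgroup.commutator_mem_commutator (hTQ g₁ h₁) (hTQ g₂ h₂)
        have h1 := Subgroup.commutator_le.mpr h0
        rw [← hQ'] at h1
        exact h1
      intro c hc
      exact h3 hc
    have hQ'cop : (Nat.card Q').Coprime r :=
      Nat.Coprime.coprime_dvd_left (Subgroup.card_dvd_of_le hQ'Q) hcop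
    have ihQ' : ∀ z ∈ Q', T ^ 2 * z * (T ^ 2)⁻¹ = z :=
      ih Q' hQ'card (hQ'Q.trans hQL) hQ'sol hTQ' hQ'cop
    obtain ⟨Q₂, hQ₂⟩ : ∃ Q₂ : Subgroup (MulAut A),
        Q₂ = Q ⊓ Subgroup.centralizer (Q' : Set (MulAut A)) := ⟨_, rfl⟩
    have hQ₂Q : Q₂ ≤ Q := by rw [hQ₂]; exact inf_le_left
    have hQ₂c : ∀ c ∈ Q₂, ∀ z ∈ Q', z * c = c * z := by
      intro c hc z hz
      rw [hQ₂] at hc
      exact Subgroup.mem_centralizer_iff.mp (Subgroup.mem_inf.mp hc).2 z hz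
    have hTQ'inv := inv_conj_mem4 T hT4 Q' hTQ'
    have hTQ₂ : ∀ c ∈ Q₂, T * c * T⁻¹ ∈ Q₂ := by
      intro c hc
      have hc' := hc
      rw [hQ₂] at hc' ⊢
      refine Subgroup.mem_inf.mpr ⟨hTQ c (Subgroup.mem_inf.mp hc').1, ?_⟩
      rw [Subgroup.mem_centralizer_iff]
      intro z hz
      have hz' := hQ₂c c hc (T⁻¹ * z * T) (hTQ'inv z hz)
      calc z * (T * c * T⁻¹) = T * ((T⁻¹ * z * T) * c) * T⁻¹ := by group
        _ = T * (c * (T⁻¹ * z * T)) * T⁻¹ := by rw [hz']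
        _ = (T * c * T⁻¹) * z := by group
    have hQ₂cop : (Nat.card Q₂).Coprime r :=
      Nat.Coprime.coprime_dvd_left (Subgroup.card_dvd_of_le hQ₂Q) hcop
    have hcl : ∀ a ∈ Q₂, ∀ b ∈ Q₂, ∀ c ∈ Q₂, ⁅a, b⁆ * c = c * ⁅a, b⁆ := by
      intro a ha b hb c hc
      apply hQ₂c c hc
      rw [hQ']
      exact Subgroup.commutator_mem_commutator (hQ₂Q ha) (hQ₂Q hb)
    obtain ⟨τ, hτ⟩ : ∃ τ : MulAut A, τ = T ^ 2 := ⟨_, rfl⟩
    have hττ : τ * τ = 1 := by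
      rw [hτ, ← pow_add]; exact hT4
    have hτQ : ∀ c ∈ Q, τ * c * τ⁻¹ ∈ Q := by
      intro c hc
      have h1 : τ * c * τ⁻¹ = T * (T * c * T⁻¹) * T⁻¹ := by rw [hτ, pow_two]; group
      rw [h1]; exact hTQ _ (hTQ _ hc)
    rw [← hτ] at ihQ' ⊢
    obtain ⟨e, he⟩ : ∃ e : MulAut A, e = u⁻¹ * (τ * u * τ⁻¹) := ⟨_, rfl⟩
    have heQ : e ∈ Q := by rw [he]; exact Q.mul_mem (Q.inv_mem hu) (hτQ u hu)
    have heQ₂ : e ∈ Q₂ := by
      rw [hQ₂]
      refine Subgroup.mem_inf.mpr ⟨heQ, ?_⟩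
      rw [Subgroup.mem_centralizer_iff]
      intro z hz
      have hz1 : τ * z * τ⁻¹ = z := ihQ' z hz
      have hz3 : u * z * u⁻¹ ∈ Q' := by
        have h1 : u * z * u⁻¹ = ⁅u, z⁆ * z := by rw [commutatorElement_def]; group
        rw [h1]
        refine Q'.mul_mem ?_ hz
        rw [hQ']
        exact Subgroup.commutator_mem_commutator hu (hQ'Q hz)
      have hz2 : τ * (u * z * u⁻¹) * τ⁻¹ = u * z * u⁻¹ := ihQ' _ hz3
      rw [he]
      exact fpf_comm_aux τ u z hz1 hz2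
    have hinv : τ * e * τ⁻¹ = e⁻¹ := by rw [he]; exact fpf_inv_aux τ u hττ
    have he1 : e = 1 := by
      refine fpf4_B2 hexp T hT4 hTfpf L hTL hLfpf Q₂ (hQ₂Q.trans hQL) hTQ₂ hQ₂cop hcl e heQ₂ ?_
      rw [← hτ]; exact hinv
    rw [he] at he1
    exact (inv_mul_eq_one.mp he1).symm

/-- Irreducibility forces `O_r` of the acting group to be trivial. -/
theorem fpf4_pCore_bot [Fact r.Prime] (hexp : ∀ v : A, v ^ r = 1) (hAnt : Nontrivial A)
    (T : MulAut A) (hT4 : T ^ 4 = 1)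
    (L : Subgroup (MulAut A)) (hTL : ∀ l ∈ L, T * l * T⁻¹ ∈ L)
    (hirr : ∀ W : Subgroup A, (∀ l ∈ L, ∀ w ∈ W, l w ∈ W) → (∀ w ∈ W, T w ∈ W) →
      W = ⊥ ∨ W = ⊤) : pCore r ↥L = ⊥ := by
  have hTL' := inv_conj_mem4 T hT4 L hTL
  obtain ⟨α, hα⟩ : ∃ α : ↥L ≃* ↥L, α = fpfConjAut T L hTL hTL' := ⟨_, rfl⟩
  have hαapp : ∀ l : ↥L, ((α l : ↥L) : MulAut A) = T * (l : MulAut A) * T⁻¹ := by
    intro l; rw [hα]; rfl
  obtain ⟨R, hR⟩ : ∃ R : Subgroup (MulAut A), R = (pCore r ↥L).map L.subtype := ⟨_, rfl⟩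
  have hRp : IsPGroup r ↥R := by
    rw [hR]; exact (Cfsg.Agent.Lib.Helper14.pCore_isPGroup r).map L.subtype
  have hTR : ∀ ρ ∈ R, T * ρ * T⁻¹ ∈ R := by
    intro ρ hρ
    rw [hR] at hρ ⊢
    obtain ⟨x, hx, rfl⟩ := hρ
    have h1 : α.toMonoidHom x ∈ (pCore r ↥L).map α.toMonoidHom := Subgroup.mem_map_of_mem _ hx
    rw [Cfsg.Agent.Lib.Helper14.pCore_map_mulEquiv (p := r) α] at h1
    exact Subgroup.mem_map.mpr ⟨α x, h1, hαapp x⟩
  have hTR' := inv_conj_mem4 T hT4 R hTR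
  have hRnorm : ∀ l ∈ L, ∀ ρ ∈ R, l⁻¹ * ρ * l ∈ R := by
    intro l hl ρ hρ
    rw [hR] at hρ ⊢
    obtain ⟨x, hx, rfl⟩ := hρ
    have h1 := (pCore_normal r ↥L).conj_mem x hx (⟨l, hl⟩ : ↥L)⁻¹
    rw [inv_inv] at h1
    exact Subgroup.mem_map.mpr ⟨_, h1, rfl⟩
  obtain ⟨W, hW⟩ : ∃ W : Subgroup A, W = fixSub R := ⟨_, rfl⟩
  have hWL : ∀ l ∈ L, ∀ w ∈ W, l w ∈ W := by
    intro l hl w hw
    rw [hW, mem_fixSub] at hw ⊢
    intro ρ hρ
    have h1 := hw (l⁻¹ * ρ * l) (hRnorm l hl ρ hρ)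
    rw [MulAut.mul_apply, MulAut.mul_apply] at h1
    have h2 := congrArg l h1
    rw [MulAut.apply_inv_self] at h2
    exact h2
  have hWT : ∀ w ∈ W, T w ∈ W := by
    intro w hw
    rw [hW, mem_fixSub] at hw ⊢
    intro ρ hρ
    have h1 := hw (T⁻¹ * ρ * T) (hTR' ρ hρ)
    rw [MulAut.mul_apply, MulAut.mul_apply] at h1
    have h2 := congrArg T h1
    rw [MulAut.apply_inv_self] at h2
    exact h2
  have hWne : W ≠ ⊥ := by
    haveI := hAnt
    have hr : r ∣ Nat.card A := by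
      obtain ⟨v, hv⟩ := exists_ne (1 : A)
      have h1 : orderOf v = r := orderOf_eq_prime (hexp v) hv
      rw [← h1]; exact orderOf_dvd_natCard v
    have hfix1 : (1 : A) ∈ MulAction.fixedPoints ↥R A := by
      rw [MulAction.mem_fixedPoints]
      intro g
      show (g : MulAut A) (1 : A) = 1
      exact map_one _
    obtain ⟨b, hb, hb1⟩ := hRp.exists_fixed_point_of_prime_dvd_card_of_fixed_point A hr hfix1
    intro hbot
    have hbW : b ∈ W := by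
      rw [hW, mem_fixSub]
      intro ρ hρ
      exact MulAction.mem_fixedPoints.mp hb ⟨ρ, hρ⟩
    rw [hbot, Subgroup.mem_bot] at hbW
    exact hb1 hbW.symm
  have hWtop : W = ⊤ := by
    rcases hirr W hWL hWT with h | h
    · exact absurd h hWne
    · exact h
  have hRbot : R = ⊥ := by
    rw [Subgroup.eq_bot_iff_forall]
    intro ρ hρ
    apply MulEquiv.ext
    intro v
    have hv : v ∈ W := by rw [hWtop]; exact Subgroup.mem_top v
    rw [hW, mem_fixSub] at hv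
    exact hv ρ hρ
  rw [hR] at hRbot
  exact (Subgroup.map_eq_bot_iff_of_injective _ L.subtype_injective).mp hRbot

/-- A soluble group of automorphisms of an irreducible module of exponent `r`, normalised by a
fixed-point-free automorphism of order four acting fixed-point-freely on it, is abelian. -/
theorem fpf4_core [Fact r.Prime] (hexp : ∀ v : A, v ^ r = 1)
    (T : MulAut A) (hT4 : T ^ 4 = 1) (hTfpf : ∀ v : A, T v = v → v = 1)
    (L : Subgroup (MulAut A)) (hLsol : Group.IsSolvable L)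
    (hTL : ∀ l ∈ L, T * l * T⁻¹ ∈ L)
    (hLfpf : ∀ l ∈ L, T * l * T⁻¹ = l → l = 1)
    (hirr : ∀ W : Subgroup A, (∀ l ∈ L, ∀ w ∈ W, l w ∈ W) → (∀ w ∈ W, T w ∈ W) →
      W = ⊥ ∨ W = ⊤) : ∀ a ∈ L, ∀ b ∈ L, a * b = b * a := by
  by_cases hA : Subsingleton A
  · intro a _ b _
    haveI := hA
    have hab : a = b := MulEquiv.ext (fun v => Subsingleton.elim _ _)
    rw [hab]
  rw [not_subsingleton_iff_nontrivial] at hA
  have hr : r.Prime := Fact.out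
  have hO : pCore r ↥L = ⊥ := fpf4_pCore_bot hexp hA T hT4 L hTL hirr
  have hTL' := inv_conj_mem4 T hT4 L hTL
  obtain ⟨α, hα⟩ : ∃ α : ↥L ≃* ↥L, α = fpfConjAut T L hTL hTL' := ⟨_, rfl⟩
  have hαapp : ∀ l : ↥L, ((α l : ↥L) : MulAut A) = T * (l : MulAut A) * T⁻¹ := by
    intro l; rw [hα]; rfl
  obtain ⟨F, hF⟩ : ∃ F : Subgroup (MulAut A), F = (pPrimeCore r ↥L).map L.subtype := ⟨_, rfl⟩
  have hFL : F ≤ L := by rw [hF]; exact Subgroup.map_subtype_le _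
  have hFsol : Group.IsSolvable F := by
    haveI := hLsol
    haveI h1 : Group.IsSolvable ↥(pPrimeCore r ↥L) :=
      solvable_of_solvable_injective (Subgroup.subtype_injective _)
    rw [hF]
    exact solvable_of_surjective (MonoidHom.subgroupMap_surjective L.subtype (pPrimeCore r ↥L))
  have hFcop : (Nat.card F).Coprime r := by
    rw [hF, Subgroup.card_map_of_injective L.subtype_injective]
    exact pPrimeCore_card_coprime r
  have hTF : ∀ c ∈ F, T * c * T⁻¹ ∈ F := by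
    intro ρ hρ
    rw [hF] at hρ ⊢
    obtain ⟨x, hx, rfl⟩ := hρ
    have h1 : α.toMonoidHom x ∈ (pPrimeCore r ↥L).map α.toMonoidHom :=
      Subgroup.mem_map_of_mem _ hx
    rw [pPrimeCore_map_mulEquiv r α] at h1
    exact Subgroup.mem_map.mpr ⟨α x, h1, hαapp x⟩
  have hτF : ∀ f ∈ F, T ^ 2 * f * (T ^ 2)⁻¹ = f :=
    fpf4_B3 hexp T hT4 hTfpf L hTL hLfpf (Nat.card F) F le_rfl hFL hFsol hTF hFcop
  have hpsol : IsPSolvable r ↥L :=
    Cfsg.Agent.S4302.psolv_of_solv r hr (Nat.card ↥L) ↥L hLsol rfl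
  have hcent := Cfsg.Agent.Lib.Helper6.centralizer_pPrimeCore_le_of_isPSolvable hpsol hO
  obtain ⟨τ, hτ⟩ : ∃ τ : MulAut A, τ = T ^ 2 := ⟨_, rfl⟩
  have hττ : τ * τ = 1 := by rw [hτ, ← pow_add]; exact hT4
  rw [← hτ] at hτF
  have hτL0 : ∀ c ∈ L, τ * c * τ⁻¹ ∈ L := by
    intro c hc
    have h1 : τ * c * τ⁻¹ = T * (T * c * T⁻¹) * T⁻¹ := by rw [hτ, pow_two]; group
    rw [h1]; exact hTL _ (hTL _ hc)
  have hFnorm : ∀ u ∈ L, ∀ f ∈ F, u * f * u⁻¹ ∈ F := by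
    intro u hu f hf
    rw [hF] at hf ⊢
    obtain ⟨x, hx, rfl⟩ := hf
    exact Subgroup.mem_map.mpr ⟨_, (pPrimeCore_normal r ↥L).conj_mem x hx ⟨u, hu⟩, rfl⟩
  have hτL : ∀ u ∈ L, τ * u * τ⁻¹ = u := by
    intro u hu
    obtain ⟨e, he⟩ : ∃ e : MulAut A, e = u⁻¹ * (τ * u * τ⁻¹) := ⟨_, rfl⟩
    have heL : e ∈ L := by rw [he]; exact L.mul_mem (L.inv_mem hu) (hτL0 u hu)
    have hecent : (⟨e, heL⟩ : ↥L) ∈ Subgroup.centralizer (pPrimeCore r ↥L : Set ↥L) := by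
      rw [Subgroup.mem_centralizer_iff]
      intro x hx
      apply Subtype.ext
      have hxF : (x : MulAut A) ∈ F := by rw [hF]; exact Subgroup.mem_map.mpr ⟨x, hx, rfl⟩
      show (x : MulAut A) * e = e * (x : MulAut A)
      rw [he]
      exact fpf_comm_aux τ u (x : MulAut A) (hτF _ hxF) (hτF _ (hFnorm u hu _ hxF))
    have heF : e ∈ F := by
      rw [hF]; exact Subgroup.mem_map.mpr ⟨⟨e, heL⟩, hcent hecent, rfl⟩
    have h1 : τ * e * τ⁻¹ = e := hτF e heF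
    have h2 : τ * e * τ⁻¹ = e⁻¹ := by rw [he]; exact fpf_inv_aux τ u hττ
    have h3 : e * e = 1 := by
      calc e * e = e⁻¹ * e := by rw [← h2, h1]
        _ = 1 := inv_mul_cancel e
    have h4 : e = 1 := fpf4_odd T hT4 L hTL hLfpf e heL h3
    rw [he] at h4
    exact (inv_mul_eq_one.mp h4).symm
  have hinj : Function.Injective (fun u : ↥L => u⁻¹ * α u) := by
    intro u v huv
    have h1 : (u : MulAut A)⁻¹ * (T * (u : MulAut A) * T⁻¹) =
        (v : MulAut A)⁻¹ * (T * (v : MulAut A) * T⁻¹) := by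
      have h0 := congrArg Subtype.val huv
      rw [← hαapp u, ← hαapp v]
      exact h0
    have h2 := fpf_fix_aux T (u : MulAut A) (v : MulAut A) h1
    have h3 := hLfpf _ (L.mul_mem v.2 (L.inv_mem u.2)) h2
    exact (Subtype.ext (mul_inv_eq_one.mp h3)).symm
  have hsurj := Finite.injective_iff_surjective.mp hinj
  have hinvT : ∀ a ∈ L, T * a * T⁻¹ = a⁻¹ := by
    intro a ha
    obtain ⟨u, hu⟩ := hsurj ⟨a, ha⟩
    have h1 : a = (u : MulAut A)⁻¹ * (T * (u : MulAut A) * T⁻¹) := by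
      have h0 := congrArg Subtype.val hu
      rw [← hαapp u]
      exact h0.symm
    have h2 : τ * (u : MulAut A) * τ⁻¹ = (u : MulAut A) := hτL _ u.2
    rw [h1]
    calc T * ((u : MulAut A)⁻¹ * (T * (u : MulAut A) * T⁻¹)) * T⁻¹
        = (T * (u : MulAut A) * T⁻¹)⁻¹ * (T ^ 2 * (u : MulAut A) * (T ^ 2)⁻¹) := by group
      _ = (T * (u : MulAut A) * T⁻¹)⁻¹ * (u : MulAut A) := by rw [← hτ, h2]
      _ = ((u : MulAut A)⁻¹ * (T * (u : MulAut A) * T⁻¹))⁻¹ := by group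
  intro a ha b hb
  have h1 : (a * b)⁻¹ = a⁻¹ * b⁻¹ := by
    rw [← hinvT (a * b) (L.mul_mem ha hb), ← hinvT a ha, ← hinvT b hb]; group
  have h2 : (a * b)⁻¹ = (b * a)⁻¹ := by rw [h1, mul_inv_rev]
  exact inv_injective h2

end Core

end Cfsg.Agent.Lib.Helper11
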