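import Mathlib
import Cfsg.Prelude.Def_Local
import Cfsg.Prelude.Def_CaseTheorems
import Cfsg.Agent.Lib.Helper11.Fpf4

/-!
A fixed-point-free automorphism of order dividing four of a finite soluble group: the derived
subgroup is nilpotent (induction on a chief series, inside a group containing the automorphism).
-/

set_option autoImplicit false
open Cfsg

namespace Cfsg.Agent.Lib.Helper11

open scoped commutatorElement

universe u

theorem fpf4_main : ∀ (n : ℕ) (Γ : Type u) [Group Γ] [Finite Γ] (G : Subgroup Γ) [G.Normal]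
    (s : Γ), Nat.card G ≤ n → Group.IsSolvable G → s ^ 4 = 1 → G ⊔ Subgroup.zpowers s = ⊤ →
    (∀ g ∈ G, s * g * s⁻¹ = g → g = 1) → Group.IsNilpotent ↥⁅G, G⁆ := by
  intro n
  induction n with
  | zero =>
    intro Γ _ _ G _ s hn
    exact absurd hn (by have := Nat.card_pos (α := G); omega)
  | succ n ih =>
    intro Γ _ _ G hGn s hn hsol hs4 hsup hfpf
    by_cases hG : G = ⊥
    · have hD : ⁅G, G⁆ = ⊥ := by rw [hG]; exact Subgroup.commutator_bot_left ⊥
      haveI : Subsingleton ↥⁅G, G⁆ := ⟨fun a b => Subtype.ext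
        ((Subgroup.mem_bot.mp (le_of_eq hD a.2)).trans
          (Subgroup.mem_bot.mp (le_of_eq hD b.2)).symm)⟩
      exact Group.isNilpotent_of_subsingleton
    classical
    have hex : ∃ k : ℕ, ∃ N : Subgroup Γ, N.Normal ∧ N ≤ G ∧ N ≠ ⊥ ∧ Nat.card N = k :=
      ⟨_, G, hGn, le_refl _, hG, rfl⟩
    obtain ⟨V, hVn, hVG, hVne, hVk⟩ := Nat.find_spec hex
    have hVmin : ∀ N : Subgroup Γ, N.Normal → N ≤ V → N ≠ ⊥ → N = V := by
      intro N hN hNV hNne
      apply Subgroup.eq_of_le_of_card_ge hNV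
      rw [hVk]
      exact Nat.find_min' hex ⟨N, hN, hNV.trans hVG, hNne, rfl⟩
    haveI := hVn
    -- `V` is abelian
    have hVsol : Group.IsSolvable ↥V := by
      haveI := hsol
      exact solvable_of_solvable_injective (Subgroup.inclusion_injective hVG)
    have hVcomm : ⁅V, V⁆ = ⊥ := by
      by_contra hcon
      have h1 : ⁅V, V⁆ = V := hVmin _ inferInstance (Subgroup.commutator_le_right V V) hcon
      exact comm_ne_self V hVsol hVne h1
    have hVab : ∀ a ∈ V, ∀ b ∈ V, a * b = b * a := by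
      intro a ha b hb
      have h1 := Subgroup.commutator_eq_bot_iff_le_centralizer.mp hVcomm
      exact Subgroup.mem_centralizer_iff.mp (h1 hb) a ha
    -- `V` has prime exponent
    have hVcard : Nat.card ↥V ≠ 1 := by
      intro h
      exact hVne (Subgroup.eq_bot_of_card_eq V h)
    obtain ⟨r, hr, hrV⟩ := Nat.exists_prime_and_dvd hVcard
    haveI : Fact r.Prime := ⟨hr⟩
    have hΩn : (omegaSub V hVab r).Normal := by
      refine ⟨fun v hv g => ?_⟩
      rw [mem_omegaSub] at hv ⊢
      refine ⟨hVn.conj_mem v hv.1 g, ?_⟩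
      rw [conj_pow, hv.2, mul_one, mul_inv_cancel]
    have hΩV : omegaSub V hVab r ≤ V := fun v hv => ((mem_omegaSub V hVab r v).mp hv).1
    have hΩne : omegaSub V hVab r ≠ ⊥ := by
      obtain ⟨x, hx⟩ := exists_prime_orderOf_dvd_card' (G := ↥V) r hrV
      intro hbot
      have hxm : (x : Γ) ∈ omegaSub V hVab r := by
        rw [mem_omegaSub]
        refine ⟨x.2, ?_⟩
        have h1 : x ^ r = 1 := by rw [← hx]; exact pow_orderOf_eq_one x
        exact congrArg Subtype.val h1
      rw [hbot, Subgroup.mem_bot] at hxm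
      have hx1 : x = 1 := Subtype.ext hxm
      rw [hx1, orderOf_one] at hx
      exact hr.one_lt.ne hx
    have hΩ : omegaSub V hVab r = V := hVmin _ hΩn hΩV hΩne
    have hexpV : ∀ v ∈ V, v ^ r = 1 := by
      intro v hv
      have h1 : v ∈ omegaSub V hVab r := by rw [hΩ]; exact hv
      exact ((mem_omegaSub V hVab r v).mp h1).2
    -- the action on `V`
    letI instV : CommGroup ↥V := commGroupOfComm V hVab
    obtain ⟨ρ, hρ⟩ : ∃ ρ : Γ →* MulAut ↥V, ρ = MulAut.conjNormal := ⟨_, rfl⟩
    have hρa : ∀ (g : Γ) (v : ↥V), ((ρ g v : ↥V) : Γ) = g * (v : Γ) * g⁻¹ := by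
      intro g v; rw [hρ]; exact MulAut.conjNormal_apply g v
    have hexp' : ∀ v : ↥V, v ^ r = 1 := by
      intro v
      exact Subtype.ext (hexpV v v.2)
    obtain ⟨T, hT⟩ : ∃ T : MulAut ↥V, T = ρ s := ⟨_, rfl⟩
    obtain ⟨L, hL⟩ : ∃ L : Subgroup (MulAut ↥V), L = G.map ρ := ⟨_, rfl⟩
    have hT4 : T ^ 4 = 1 := by rw [hT, ← map_pow, hs4, map_one]
    have hTfpf : ∀ v : ↥V, T v = v → v = 1 := by
      intro v hv
      have h1 : s * (v : Γ) * s⁻¹ = (v : Γ) := by
        rw [← hρa s v, ← hT, hv]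
      exact Subtype.ext (hfpf _ (hVG v.2) h1)
    have hLsol : Group.IsSolvable ↥L := by
      haveI := hsol
      rw [hL]
      exact solvable_of_surjective (MonoidHom.subgroupMap_surjective ρ G)
    have hTL : ∀ l ∈ L, T * l * T⁻¹ ∈ L := by
      intro l hl
      rw [hL] at hl ⊢
      obtain ⟨g, hg, rfl⟩ := hl
      refine Subgroup.mem_map.mpr ⟨s * g * s⁻¹, hGn.conj_mem g hg s, ?_⟩
      rw [map_mul, map_mul, map_inv, hT]
    have hLfpf : ∀ l ∈ L, T * l * T⁻¹ = l → l = 1 := by
      intro l hl hfix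
      rw [hL] at hl
      obtain ⟨g, hg, rfl⟩ := hl
      have hmem : g⁻¹ * (s * g * s⁻¹) ∈ ρ.ker ⊓ G := by
        refine Subgroup.mem_inf.mpr ⟨?_, G.mul_mem (G.inv_mem hg) (hGn.conj_mem g hg s)⟩
        rw [MonoidHom.mem_ker, map_mul, map_mul, map_mul, map_inv, map_inv, ← hT, hfix,
          inv_mul_cancel]
      have h1 := fpf_quot s G (ρ.ker ⊓ G) inf_le_right hfpf g hg hmem
      exact MonoidHom.mem_ker.mp (Subgroup.mem_inf.mp h1).1
    have hirr : ∀ W : Subgroup ↥V, (∀ l ∈ L, ∀ w ∈ W, l w ∈ W) → (∀ w ∈ W, T w ∈ W) →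
        W = ⊥ ∨ W = ⊤ := by
      intro W hWL hWT
      have hTpow : ∀ (k : ℕ), ∀ w ∈ W, (T ^ k) w ∈ W := by
        intro k
        induction k with
        | zero => intro w hw; simpa using hw
        | succ k ihk =>
          intro w hw
          rw [pow_succ', MulAut.mul_apply]
          exact hWT _ (ihk w hw)
      have hall : ∀ (x : Γ), ∀ w ∈ W, ρ x w ∈ W := by
        intro x w hw
        have hx : x ∈ G ⊔ Subgroup.zpowers s := by rw [hsup]; exact Subgroup.mem_top x
        obtain ⟨g, hg, z, hz, rfl⟩ := Subgroup.mem_sup_of_normal_left.mp hx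
        obtain ⟨k, rfl⟩ := (Submonoid.mem_powers_iff _ _).mp
          ((IsOfFinOrder.mem_powers_iff_mem_zpowers (isOfFinOrder_of_finite s)).mpr hz)
        rw [map_mul, MulAut.mul_apply, map_pow, ← hT]
        refine hWL _ ?_ _ (hTpow k w hw)
        rw [hL]; exact Subgroup.mem_map_of_mem ρ hg
      have hNn : (W.map V.subtype).Normal := by
        refine ⟨fun n hn x => ?_⟩
        obtain ⟨w, hw, rfl⟩ := hn
        exact Subgroup.mem_map.mpr ⟨ρ x w, hall x w hw, hρa x w⟩
      by_cases hWbot : W.map V.subtype = ⊥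
      · left
        exact (Subgroup.map_eq_bot_iff_of_injective W V.subtype_injective).mp hWbot
      · right
        have h1 := hVmin _ hNn (Subgroup.map_subtype_le W) hWbot
        rw [eq_top_iff]
        intro v _
        have h2 : (v : Γ) ∈ W.map V.subtype := by rw [h1]; exact v.2
        obtain ⟨w, hw, hwv⟩ := h2
        have hwv' : w = v := Subtype.ext hwv
        rw [← hwv']; exact hw
    have hLab : ∀ a ∈ L, ∀ b ∈ L, a * b = b * a :=
      fpf4_core hexp' T hT4 hTfpf L hLsol hTL hLfpf hirr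
    -- the derived group centralises `V`
    obtain ⟨D, hD⟩ : ∃ D : Subgroup Γ, D = ⁅G, G⁆ := ⟨_, rfl⟩
    have hDker : ∀ d ∈ D, ρ d = 1 := by
      have h1 : D ≤ ρ.ker := by
        rw [hD, Subgroup.commutator_le]
        intro a ha b hb
        rw [MonoidHom.mem_ker, map_commutatorElement, commutatorElement_eq_one_iff_commute]
        exact hLab _ (by rw [hL]; exact Subgroup.mem_map_of_mem ρ ha) _
          (by rw [hL]; exact Subgroup.mem_map_of_mem ρ hb)
      intro d hd
      exact MonoidHom.mem_ker.mp (h1 hd)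
    have hDV : ∀ d ∈ D, ∀ v ∈ V, d * v = v * d := by
      intro d hd v hv
      have h1 := hρa d ⟨v, hv⟩
      rw [hDker d hd] at h1
      have h2 : v = d * v * d⁻¹ := h1
      calc d * v = (d * v * d⁻¹) * d := by group
        _ = v * d := by rw [← h2]
    -- the quotient
    obtain ⟨π, hπ⟩ : ∃ π : Γ →* Γ ⧸ V, π = QuotientGroup.mk' V := ⟨_, rfl⟩
    have hπsurj : Function.Surjective π := by rw [hπ]; exact QuotientGroup.mk'_surjective V
    have hπker : ∀ x : Γ, π x = 1 ↔ x ∈ V := by
      intro x; rw [hπ]; exact QuotientGroup.eq_one_iff x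
    haveI hGqn : (G.map π).Normal := Subgroup.Normal.map hGn π hπsurj
    have hVnontriv : ∃ v ∈ V, v ≠ 1 := by
      by_contra hcon
      push_neg at hcon
      exact hVne ((Subgroup.eq_bot_iff_forall V).mpr hcon)
    have hcardlt : Nat.card ↥(G.map π) < Nat.card ↥G := by
      haveI : Fintype ↥G := Fintype.ofFinite _
      haveI : Fintype ↥(G.map π) := Fintype.ofFinite _
      rw [Nat.card_eq_fintype_card, Nat.card_eq_fintype_card]
      apply Fintype.card_lt_of_surjective_not_injective (π.subgroupMap G)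
        (MonoidHom.subgroupMap_surjective π G)
      intro hinj
      obtain ⟨v, hv, hv1⟩ := hVnontriv
      have h1 : (π.subgroupMap G) ⟨v, hVG hv⟩ = (π.subgroupMap G) 1 := by
        apply Subtype.ext
        show π v = π 1
        rw [map_one]; exact (hπker v).mpr hv
      exact hv1 (congrArg Subtype.val (hinj h1))
    have hsolq : Group.IsSolvable ↥(G.map π) := by
      haveI := hsol
      exact solvable_of_surjective (MonoidHom.subgroupMap_surjective π G)
    have hs4q : (π s) ^ 4 = 1 := by rw [← map_pow, hs4, map_one]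
    have hsupq : G.map π ⊔ Subgroup.zpowers (π s) = ⊤ := by
      have h1 := congrArg (Subgroup.map π) hsup
      rw [Subgroup.map_sup, MonoidHom.map_zpowers, Subgroup.map_top_of_surjective π hπsurj] at h1
      exact h1
    have hfpfq : ∀ g ∈ G.map π, π s * g * (π s)⁻¹ = g → g = 1 := by
      intro g' hg' hfix
      obtain ⟨g, hg, rfl⟩ := hg'
      have hmem : g⁻¹ * (s * g * s⁻¹) ∈ V := by
        rw [← hπker, map_mul, map_mul, map_mul, map_inv, map_inv, hfix, inv_mul_cancel]
      exact (hπker g).mpr (fpf_quot s G V hVG hfpf g hg hmem)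
    have hnilq : Group.IsNilpotent ↥⁅G.map π, G.map π⁆ :=
      ih (Γ ⧸ V) (G.map π) (π s) (by omega) hsolq hs4q hsupq hfpfq
    have hmapD : Subgroup.map π D = ⁅G.map π, G.map π⁆ := by
      rw [hD, Subgroup.map_commutator]
    haveI hnil' : Group.IsNilpotent ↥(Subgroup.map π D) := by
      rw [hmapD]; exact hnilq
    have hker : (π.subgroupMap D).ker ≤ Subgroup.center ↥D := by
      intro x hx
      rw [MonoidHom.mem_ker] at hx
      have hxV : (x : Γ) ∈ V := by
        rw [← hπker]
        exact congrArg Subtype.val hx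
      rw [Subgroup.mem_center_iff]
      intro y
      apply Subtype.ext
      exact hDV (y : Γ) y.2 (x : Γ) hxV
    have hfin : Group.IsNilpotent ↥D := isNilpotent_of_ker_le_center (π.subgroupMap D) hker
    rw [hD] at hfin
    exact hfin

end Cfsg.Agent.Lib.Helper11
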