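import Mathlib
import Cfsg.Prelude.Def_PLocal
import Cfsg.Agent.Lib.Helper11.OmegaOne

set_option autoImplicit false

namespace Cfsg.Agent.Lib.Helper11

open scoped commutatorElement

section GlaubRepl

variable {G : Type*} [Group G]

/-- The elements of order dividing `p` of an abelian subgroup, as a subgroup. -/
def omSub (p : ℕ) (A : Subgroup G) (hA : ∀ x ∈ A, ∀ y ∈ A, x * y = y * x) : Subgroup G where
  carrier := {a | a ∈ A ∧ a ^ p = 1}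
  one_mem' := ⟨A.one_mem, one_pow _⟩
  mul_mem' := by
    rintro x y ⟨hx, hx'⟩ ⟨hy, hy'⟩
    refine ⟨A.mul_mem hx hy, ?_⟩
    have hc : Commute x y := hA x hx y hy
    rw [hc.mul_pow, hx', hy', one_mul]
  inv_mem' := by
    rintro x ⟨hx, hx'⟩
    exact ⟨A.inv_mem hx, by rw [inv_pow, hx', inv_one]⟩

theorem omegaOne_eq_omSub (p : ℕ) (A : Subgroup G) (hA : ∀ x ∈ A, ∀ y ∈ A, x * y = y * x) :
    Cfsg.omegaOne p A = omSub p A hA := by
  unfold Cfsg.omegaOne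
  exact Subgroup.closure_eq (omSub p A hA)

theorem mem_omSub {p : ℕ} {A : Subgroup G} {hA : ∀ x ∈ A, ∀ y ∈ A, x * y = y * x} {a : G} :
    a ∈ omSub p A hA ↔ a ∈ A ∧ a ^ p = 1 := Iff.rfl

/-- The rank inequality of the replacement theorem. -/
theorem omega_card_le_of_repl [Finite G] {p : ℕ} [Fact p.Prime] (hp2 : p ≠ 2)
    (A Astar : Subgroup G) (hA : ∀ x ∈ A, ∀ y ∈ A, x * y = y * x)
    (hAst : ∀ x ∈ Astar, ∀ y ∈ Astar, x * y = y * x) (b : G)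
    (h1 : ∀ a ∈ A, b * a * b⁻¹ ∈ Subgroup.normalizer (A : Set G))
    (h2 : ∀ a ∈ A, b⁻¹ * a * b ∈ Subgroup.normalizer (A : Set G))
    (hD : ∀ d ∈ A, b * d * b⁻¹ ∈ A → d ∈ Astar)
    (hθ : ∀ a ∈ A, a * b⁻¹ * a⁻¹ * b ∈ Astar) :
    Nat.card (Cfsg.omegaOne p A) ≤ Nat.card (Cfsg.omegaOne p Astar) := by
  classical
  have hp : p.Prime := Fact.out
  rw [omegaOne_eq_omSub p A hA, omegaOne_eq_omSub p Astar hAst]
  -- `θ(a)` has order dividing `p` for `a ∈ Ω₁(A)`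
  have hθp : ∀ a ∈ omSub p A hA, a * b⁻¹ * a⁻¹ * b ∈ omSub p Astar hAst := by
    rintro a ⟨ha, hap⟩
    refine ⟨hθ a ha, ?_⟩
    have hy : (b⁻¹ * a⁻¹ * b) ^ p = 1 := by
      have : b⁻¹ * a⁻¹ * b = b⁻¹ * a⁻¹ * b⁻¹⁻¹ := by rw [inv_inv]
      rw [this, conj_pow, inv_pow, hap, inv_one, mul_one, mul_inv_cancel]
    have hyN : b⁻¹ * a⁻¹ * b ∈ Subgroup.normalizer (A : Set G) := h2 _ (A.inv_mem ha)
    -- the commutator c = [y, x]
    have hcA : ⁅b⁻¹ * a⁻¹ * b, a⁆ ∈ A := by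
      rw [commutatorElement_def]
      exact A.mul_mem ((Subgroup.mem_normalizer_iff.mp hyN a).mp ha) (A.inv_mem ha)
    have hcA' : b * ⁅b⁻¹ * a⁻¹ * b, a⁆ * b⁻¹ ∈ A := by
      have hxN := h1 a ha
      have e : b * ⁅b⁻¹ * a⁻¹ * b, a⁆ * b⁻¹ =
          a⁻¹ * ((b * a * b⁻¹) * a * (b * a * b⁻¹)⁻¹) := by
        rw [commutatorElement_def]; group
      rw [e]
      exact A.mul_mem (A.inv_mem ha) ((Subgroup.mem_normalizer_iff.mp hxN a).mp ha)
    have hcx : ⁅b⁻¹ * a⁻¹ * b, a⁆ * a = a * ⁅b⁻¹ * a⁻¹ * b, a⁆ := hA _ hcA a ha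
    have hcy : ⁅b⁻¹ * a⁻¹ * b, a⁆ * (b⁻¹ * a⁻¹ * b) = (b⁻¹ * a⁻¹ * b) * ⁅b⁻¹ * a⁻¹ * b, a⁆ := by
      have h3 := hA _ hcA' a⁻¹ (A.inv_mem ha)
      generalize ⁅b⁻¹ * a⁻¹ * b, a⁆ = c at h3 ⊢
      calc c * (b⁻¹ * a⁻¹ * b) = b⁻¹ * ((b * c * b⁻¹) * a⁻¹) * b := by group
        _ = b⁻¹ * (a⁻¹ * (b * c * b⁻¹)) * b := by rw [h3]
        _ = (b⁻¹ * a⁻¹ * b) * c := by group
    have hcp : ⁅b⁻¹ * a⁻¹ * b, a⁆ ^ p = 1 := by
      rw [← commElem_pow_left _ _ hcy p, hy, commutatorElement_def]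
      group
    have hodd : p ∣ p * (p - 1) / 2 := by
      have h2' : 2 ∣ p - 1 := by
        rcases hp.eq_two_or_odd with h | h
        · exact absurd h hp2
        · omega
      rw [Nat.mul_div_assoc p h2']
      exact dvd_mul_right _ _
    obtain ⟨e', he'⟩ := hodd
    have e : a * b⁻¹ * a⁻¹ * b = a * (b⁻¹ * a⁻¹ * b) := by group
    rw [e, mul_pow_class_two a (b⁻¹ * a⁻¹ * b) hcx hcy p, hap, hy, he', pow_mul, hcp, one_pow,
      mul_one, mul_one]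
  -- injectivity modulo D
  have hinj : ∀ a ∈ A, ∀ a' ∈ A,
      (a' * b⁻¹ * a'⁻¹ * b)⁻¹ * (a * b⁻¹ * a⁻¹ * b) ∈ A →
      b * ((a' * b⁻¹ * a'⁻¹ * b)⁻¹ * (a * b⁻¹ * a⁻¹ * b)) * b⁻¹ ∈ A →
      b * (a'⁻¹ * a) * b⁻¹ ∈ A := by
    intro a ha a' ha' _ hz2
    have e : b * (a'⁻¹ * a) * b⁻¹ =
        a'⁻¹ * (b * ((a' * b⁻¹ * a'⁻¹ * b)⁻¹ * (a * b⁻¹ * a⁻¹ * b)) * b⁻¹) * a := by group
    rw [e]
    exact A.mul_mem (A.mul_mem (A.inv_mem ha') hz2) ha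
  -- the subgroup D
  let D : Subgroup G := A ⊓ A.comap (MulAut.conj b).toMonoidHom
  have hDmem : ∀ x : G, x ∈ D ↔ x ∈ A ∧ b * x * b⁻¹ ∈ A := by
    intro x
    simp [D, Subgroup.mem_inf, Subgroup.mem_comap]
  -- the map
  let f : omSub p A hA → (omSub p Astar hAst) ⧸ (D.subgroupOf (omSub p Astar hAst)) :=
    fun a => QuotientGroup.mk ⟨(a : G) * b⁻¹ * (a : G)⁻¹ * b, hθp a a.2⟩
  have hf : ∀ a a' : omSub p A hA, f a' = f a → (a' : G)⁻¹ * (a : G) ∈ D := by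
    intro a a' h
    have h3 := QuotientGroup.eq.mp h
    rw [Subgroup.mem_subgroupOf] at h3
    have h4 : ((a' : G) * b⁻¹ * (a' : G)⁻¹ * b)⁻¹ * ((a : G) * b⁻¹ * (a : G)⁻¹ * b) ∈ D := h3
    rw [hDmem] at h4 ⊢
    exact ⟨A.mul_mem (A.inv_mem a'.2.1) a.2.1, hinj a a.2.1 a' a'.2.1 h4.1 h4.2⟩
  let r : (omSub p Astar hAst) ⧸ (D.subgroupOf (omSub p Astar hAst)) → omSub p A hA :=
    fun q => if h : ∃ a, f a = q then Classical.choose h else 1
  have hr : ∀ a, f (r (f a)) = f a := by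
    intro a
    have h : ∃ a', f a' = f a := ⟨a, rfl⟩
    simp only [r, dif_pos h]
    exact Classical.choose_spec h
  let ι : omSub p A hA → (omSub p A hA ⊓ D : Subgroup G) ×
      ((omSub p Astar hAst) ⧸ (D.subgroupOf (omSub p Astar hAst))) :=
    fun a => (⟨((r (f a) : omSub p A hA) : G)⁻¹ * (a : G),
      ⟨(omSub p A hA).mul_mem ((omSub p A hA).inv_mem (r (f a)).2) a.2, hf a _ (hr a)⟩⟩, f a)
  have hι : Function.Injective ι := by
    intro a a' h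
    have h1' : f a = f a' := congrArg Prod.snd h
    have h2' := congrArg (fun z => ((z.1 : (omSub p A hA ⊓ D : Subgroup G)) : G)) h
    simp only [ι] at h2'
    rw [h1'] at h2'
    exact Subtype.ext (mul_left_cancel h2')
  have hcard := Nat.card_le_card_of_injective ι hι
  rw [Nat.card_prod] at hcard
  have hle : Nat.card (omSub p A hA ⊓ D : Subgroup G) ≤
      Nat.card (D.subgroupOf (omSub p Astar hAst)) := by
    have h3 : (omSub p A hA ⊓ D : Subgroup G) ≤ D ⊓ omSub p Astar hAst := by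
      rintro x ⟨⟨hxA, hxp⟩, hxD⟩
      exact ⟨hxD, hD x hxA ((hDmem x).mp hxD).2, hxp⟩
    have h4 := Subgroup.card_le_of_le h3
    have h5 : Nat.card (D.subgroupOf (omSub p Astar hAst)) =
        Nat.card (D ⊓ omSub p Astar hAst : Subgroup G) := by
      rw [← Subgroup.inf_subgroupOf_right]
      exact Nat.card_congr (Subgroup.subgroupOfEquivOfLe inf_le_right).toEquiv
    rw [h5]; exact h4
  have hmul := Subgroup.card_eq_card_quotient_mul_card_subgroup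
    (D.subgroupOf (omSub p Astar hAst))
  calc Nat.card (omSub p A hA)
      ≤ Nat.card (omSub p A hA ⊓ D : Subgroup G) *
        Nat.card ((omSub p Astar hAst) ⧸ (D.subgroupOf (omSub p Astar hAst))) := hcard
    _ ≤ Nat.card (D.subgroupOf (omSub p Astar hAst)) *
        Nat.card ((omSub p Astar hAst) ⧸ (D.subgroupOf (omSub p Astar hAst))) :=
        Nat.mul_le_mul_right _ hle
    _ = Nat.card (omSub p Astar hAst) := by rw [hmul, mul_comm]

end GlaubRepl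

end Cfsg.Agent.Lib.Helper11
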