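import Mathlib
import Cfsg.Agent.Lib.Helper11.PConstrained
import Cfsg.Agent.Lib.Helper11.PLayerLocal
import Cfsg.Agent.Lib.Helper10.QS

set_option autoImplicit false

namespace Cfsg.Agent.Lib.Helper11

universe u v

section PConLocal

/-- Trivial `p`-layer passes to the image under a surjective homomorphism whose kernel has no
element of order `p`. -/
theorem pLayer_eq_bot_of_surjective {A : Type u} {B : Type v} [Group A] [Group B] [Finite A]
    (p : ℕ) [Fact p.Prime] (φ : A →* B) (hφ : Function.Surjective φ)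
    (hker : ∀ a : A, φ a = 1 → orderOf a ≠ p) (hA : Cfsg.pLayer p A = ⊥) :
    Cfsg.pLayer p B = ⊥ := by
  have : Finite B := Finite.of_surjective φ hφ
  have hp : p.Prime := Fact.out
  rw [pLayer_eq_bot_iff] at hA ⊢
  have hOA := pPrimeCore_card_coprime (G := A) p
  have hOB := pPrimeCore_card_coprime (G := B) p
  have hnA : (Cfsg.pPrimeCore p A).Normal := pPrimeCore_normal' p
  have hnB : (Cfsg.pPrimeCore p B).Normal := pPrimeCore_normal' p
  have hcomap : (Cfsg.pPrimeCore p B).comap φ = Cfsg.pPrimeCore p A := by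
    apply le_antisymm
    · apply le_pPrimeCore_of_normal p (hnB.comap φ)
      refine Nat.Coprime.symm ((Nat.Prime.coprime_iff_not_dvd hp).mpr ?_)
      intro hdvd
      obtain ⟨a, ha⟩ := exists_prime_orderOf_dvd_card' p hdvd
      have ha' : orderOf (a : A) = p := by rw [Subgroup.orderOf_coe]; exact ha
      have hmem : φ (a : A) ∈ Cfsg.pPrimeCore p B := a.2
      by_cases h1 : φ (a : A) = 1
      · exact hker _ h1 ha'
      · have hpow : (a : A) ^ p = 1 := by
          have h := pow_orderOf_eq_one (a : A)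
          rw [ha'] at h
          exact h
        have h2 : orderOf (φ (a : A)) = p := by
          apply orderOf_eq_prime _ h1
          rw [← map_pow, hpow, map_one]
        have h3 : orderOf (⟨φ (a : A), hmem⟩ : Cfsg.pPrimeCore p B) = p := by
          rw [Subgroup.orderOf_mk]; exact h2
        have h4 : p ∣ Nat.card (Cfsg.pPrimeCore p B) := by
          have h := orderOf_dvd_natCard (⟨φ (a : A), hmem⟩ : Cfsg.pPrimeCore p B)
          rw [h3] at h
          exact h
        exact absurd (Nat.Coprime.eq_one_of_dvd hOB.symm h4) hp.one_lt.ne'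
    · rw [← Subgroup.map_le_iff_le_comap]
      apply le_pPrimeCore_of_normal p (hnA.map φ hφ)
      exact Nat.Coprime.coprime_dvd_left (Subgroup.card_map_dvd _ _) hOA
  have hπ : Function.Surjective ((QuotientGroup.mk' (Cfsg.pPrimeCore p B)).comp φ) :=
    (QuotientGroup.mk'_surjective _).comp hφ
  have hkerπ : ((QuotientGroup.mk' (Cfsg.pPrimeCore p B)).comp φ).ker = Cfsg.pPrimeCore p A := by
    rw [← hcomap]
    ext a
    rw [MonoidHom.mem_ker, Subgroup.mem_comap]
    exact QuotientGroup.eq_one_iff _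
  have e : A ⧸ Cfsg.pPrimeCore p A ≃* B ⧸ Cfsg.pPrimeCore p B :=
    (QuotientGroup.quotientMulEquivOfEq hkerπ.symm).trans
      (QuotientGroup.quotientKerEquivOfSurjective _ hπ)
  rw [eq_bot_iff]
  apply sSup_le
  intro Kb hKb
  have h1 := component_map_mulEquiv hKb e.symm
  have h2 : Kb.map e.symm.toMonoidHom ≤ ⊥ := hA ▸ component_le_layer h1
  intro k hk
  have h3 := h2 (Subgroup.mem_map_of_mem _ hk)
  rw [Subgroup.mem_bot] at h3 ⊢
  exact e.symm.injective (h3.trans (map_one e.symm).symm)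

/-- If `L_{p'}(D) = 1`, every component of `D` lies in `O_{p'}(D)`. -/
theorem component_le_pPrimeCore_of_pLayer_eq_bot {D : Type u} [Group D] [Finite D] (p : ℕ)
    (hD : Cfsg.pLayer p D = ⊥) {L : Subgroup D} (hL : Cfsg.IsComponent L) :
    L ≤ Cfsg.pPrimeCore p D := by
  rw [pLayer_eq_bot_iff] at hD
  by_contra hnot
  have hqs : Cfsg.IsQuasisimple ↥(L.map (QuotientGroup.mk' (Cfsg.pPrimeCore p D))) := by
    apply Cfsg.Agent.Lib.Helper10.qs_of_surjective
      ((QuotientGroup.mk' (Cfsg.pPrimeCore p D)).subgroupMap L)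
      (MonoidHom.subgroupMap_surjective _ _) hL.2
    intro hker
    apply hnot
    intro l hl
    have h1 : (⟨l, hl⟩ : ↥L) ∈ ((QuotientGroup.mk' (Cfsg.pPrimeCore p D)).subgroupMap L).ker := by
      rw [hker]; exact Subgroup.mem_top _
    rw [MonoidHom.mem_ker] at h1
    have h2 : QuotientGroup.mk' (Cfsg.pPrimeCore p D) l = 1 := congrArg Subtype.val h1
    rwa [← MonoidHom.mem_ker, QuotientGroup.ker_mk'] at h2
  have hcomp : Cfsg.IsComponent (L.map (QuotientGroup.mk' (Cfsg.pPrimeCore p D))) :=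
    ⟨hL.1.map (QuotientGroup.mk'_surjective _), hqs⟩
  have hle := component_le_layer hcomp
  rw [hD] at hle
  have h0 := le_bot_iff.mp hle
  rw [Subgroup.map_eq_bot_iff, QuotientGroup.ker_mk'] at h0
  exact hnot h0

/-- If `O_{p'}(Y) = 1`, `xb ∈ O_p(Y)` and `C_Y(xb)` has trivial `p`-layer, then `E(Y) = 1`. -/
theorem layer_eq_bot_of_centralizer {Y : Type u} [Group Y] [Finite Y] (p : ℕ) [Fact p.Prime]
    (hY : Cfsg.pPrimeCore p Y = ⊥) (xb : Y) (hxb : xb ∈ Cfsg.pCore p Y)
    (hD : Cfsg.pLayer p ↥(Subgroup.centralizer ({xb} : Set Y)) = ⊥) : Cfsg.layer Y = ⊥ := by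
  rw [eq_bot_iff]
  apply sSup_le
  intro L hL
  have h1 : L ≤ Subgroup.centralizer ({xb} : Set Y) :=
    (component_le_centralizer_pCore p hL).trans
      (Subgroup.centralizer_le (Set.singleton_subset_iff.mpr hxb))
  have h2 := component_subgroupOf hL h1
  have h3 := component_le_pPrimeCore_of_pLayer_eq_bot p hD h2
  have hcop : (Nat.card L).Coprime p := by
    rw [← Nat.card_congr (Subgroup.subgroupOfEquivOfLe h1).toEquiv]
    exact Nat.Coprime.coprime_dvd_left (Subgroup.card_dvd_of_le h3) (pPrimeCore_card_coprime p)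
  have h4 := Cfsg.Agent.Lib.Helper10.subnormal_coprime_le_pPrimeCore p hL.1 hcop
  rw [hY] at h4
  exact h4

/-- If `x` of order `p` lies in a normal `p`-subgroup of `N` and `C_N(x)` has trivial `p`-layer
(is `p`-constrained), then `N` has trivial `p`-layer. -/
theorem pLayer_eq_bot_of_centralizer {N : Type u} [Group N] [Finite N] (p : ℕ) [Fact p.Prime]
    (x : N) (hx : orderOf x = p) (R : Subgroup N) (hRn : R.Normal) (hRp : IsPGroup p R)
    (hxR : x ∈ R) (hC : Cfsg.pLayer p ↥(Subgroup.centralizer ({x} : Set N)) = ⊥) :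
    Cfsg.pLayer p N = ⊥ := by
  have hp : p.Prime := Fact.out
  have hOp := pPrimeCore_card_coprime (G := N) p
  rw [pLayer_eq_bot_iff]
  have hxb : QuotientGroup.mk' (Cfsg.pPrimeCore p N) x ∈ Cfsg.pCore p (N ⧸ Cfsg.pPrimeCore p N) :=
    le_pCore_of_normal p (hRn.map _ (QuotientGroup.mk'_surjective _)) (hRp.map _)
      (Subgroup.mem_map_of_mem _ hxR)
  apply layer_eq_bot_of_centralizer p (pPrimeCore_quotient_eq_bot p)
    (QuotientGroup.mk' (Cfsg.pPrimeCore p N) x) hxb
  have hmemψ : ∀ c : ↥(Subgroup.centralizer ({x} : Set N)),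
      ((QuotientGroup.mk' (Cfsg.pPrimeCore p N)).comp (Subgroup.centralizer ({x} : Set N)).subtype) c ∈
        Subgroup.centralizer ({QuotientGroup.mk' (Cfsg.pPrimeCore p N) x} : Set (N ⧸ Cfsg.pPrimeCore p N)) := by
    intro c
    rw [Subgroup.mem_centralizer_iff]
    intro t ht
    rw [Set.mem_singleton_iff.mp ht]
    have h1 := Subgroup.mem_centralizer_iff.mp c.2 x (Set.mem_singleton x)
    show QuotientGroup.mk' (Cfsg.pPrimeCore p N) x * QuotientGroup.mk' (Cfsg.pPrimeCore p N) (c : N) =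
      QuotientGroup.mk' (Cfsg.pPrimeCore p N) (c : N) * QuotientGroup.mk' (Cfsg.pPrimeCore p N) x
    rw [← map_mul, ← map_mul, h1]
  apply pLayer_eq_bot_of_surjective p (MonoidHom.codRestrict _ _ hmemψ) _ _ hC
  · -- surjectivity: coprime lifting of centralizers
    rintro ⟨yb, hyb⟩
    have hZp : IsPGroup p (Subgroup.zpowers x) :=
      IsPGroup.of_card (n := 1) (by rw [Nat.card_zpowers, hx, pow_one])
    have hmap := map_normalizer_eq_of_coprime p (Cfsg.pPrimeCore p N) hOp (Subgroup.zpowers x) hZp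
    have hyn : yb ∈ Subgroup.normalizer
        (((Subgroup.zpowers x).map (QuotientGroup.mk' (Cfsg.pPrimeCore p N)) :
          Subgroup (N ⧸ Cfsg.pPrimeCore p N)) : Set (N ⧸ Cfsg.pPrimeCore p N)) := by
      apply Subgroup.centralizer_le_normalizer
      rw [Subgroup.mem_centralizer_iff]
      rintro _ ⟨w, hw, rfl⟩
      obtain ⟨k, rfl⟩ := Subgroup.mem_zpowers_iff.mp hw
      have hc : Commute (QuotientGroup.mk' (Cfsg.pPrimeCore p N) x) yb :=
        Subgroup.mem_centralizer_iff.mp hyb _ (Set.mem_singleton _)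
      rw [map_zpow]
      exact (hc.zpow_left k).eq
    rw [← hmap] at hyn
    obtain ⟨y, hy, rfl⟩ := hyn
    have hcZ : y * x * y⁻¹ * x⁻¹ ∈ Subgroup.zpowers x :=
      Subgroup.mul_mem _ ((Subgroup.mem_normalizer_iff.mp hy x).mp (Subgroup.mem_zpowers x))
        (Subgroup.inv_mem _ (Subgroup.mem_zpowers x))
    have hcO : y * x * y⁻¹ * x⁻¹ ∈ Cfsg.pPrimeCore p N := by
      rw [← QuotientGroup.ker_mk' (Cfsg.pPrimeCore p N), MonoidHom.mem_ker]
      have hc : QuotientGroup.mk' (Cfsg.pPrimeCore p N) x * QuotientGroup.mk' (Cfsg.pPrimeCore p N) y =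
          QuotientGroup.mk' (Cfsg.pPrimeCore p N) y * QuotientGroup.mk' (Cfsg.pPrimeCore p N) x :=
        Subgroup.mem_centralizer_iff.mp hyb _ (Set.mem_singleton _)
      rw [map_mul, map_mul, map_mul, map_inv, map_inv, ← hc, mul_inv_cancel_right, mul_inv_cancel]
    have hcop2 : (Nat.card (Subgroup.zpowers x)).Coprime (Nat.card (Cfsg.pPrimeCore p N)) := by
      rw [Nat.card_zpowers, hx]; exact hOp.symm
    have h4 := (Subgroup.disjoint_of_coprime_natCard hcop2).le_bot (Subgroup.mem_inf.mpr ⟨hcZ, hcO⟩)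
    rw [Subgroup.mem_bot] at h4
    have h5 : y * x = (y * x * y⁻¹ * x⁻¹) * (x * y) := by group
    rw [h4, one_mul] at h5
    have hyC : y ∈ Subgroup.centralizer ({x} : Set N) := by
      rw [Subgroup.mem_centralizer_iff]
      intro t ht
      rw [Set.mem_singleton_iff.mp ht]
      exact h5.symm
    exact ⟨⟨y, hyC⟩, Subtype.ext rfl⟩
  · -- the kernel has no element of order `p`
    intro c hc ho
    have h1 : QuotientGroup.mk' (Cfsg.pPrimeCore p N) (c : N) = 1 := congrArg Subtype.val hc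
    have h2 : (c : N) ∈ Cfsg.pPrimeCore p N := by
      rwa [← MonoidHom.mem_ker, QuotientGroup.ker_mk'] at h1
    have h3 : orderOf (⟨(c : N), h2⟩ : Cfsg.pPrimeCore p N) = p := by
      rw [Subgroup.orderOf_mk, Subgroup.orderOf_coe]; exact ho
    have h4 : p ∣ Nat.card (Cfsg.pPrimeCore p N) := by
      have h := orderOf_dvd_natCard (⟨(c : N), h2⟩ : Cfsg.pPrimeCore p N)
      rw [h3] at h
      exact h
    exact absurd (Nat.Coprime.eq_one_of_dvd hOp.symm h4) hp.one_lt.ne'

/-- The normalizer of `T ∩ M` inside `M` maps isomorphically onto `N_G(T) ∩ M` (for `T ≤ M`). -/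
theorem exists_normalizer_subgroupOf_hom {G : Type u} [Group G] (T M : Subgroup G) (hTM : T ≤ M) :
    ∃ φ₀ : ↥(Subgroup.normalizer ((T.subgroupOf M : Subgroup ↥M) : Set ↥M)) →*
        ↥(Subgroup.normalizer (T : Set G)),
      (∀ g, ((φ₀ g : ↥(Subgroup.normalizer (T : Set G))) : G) = ((g : ↥M) : G)) ∧
      Function.Injective φ₀ ∧
      (∀ y : ↥(Subgroup.normalizer (T : Set G)), (y : G) ∈ M → ∃ g, φ₀ g = y) := by
  have hmem : ∀ g : ↥(Subgroup.normalizer ((T.subgroupOf M : Subgroup ↥M) : Set ↥M)),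
      (M.subtype.comp (Subgroup.subtype _)) g ∈ Subgroup.normalizer (T : Set G) := by
    intro g
    show ((g : ↥M) : G) ∈ Subgroup.normalizer (T : Set G)
    rw [Subgroup.mem_normalizer_iff]
    intro t
    have hg := Subgroup.mem_normalizer_iff.mp g.2
    constructor
    · intro ht
      have h1 := (hg ⟨t, hTM ht⟩).mp (Subgroup.mem_subgroupOf.mpr ht)
      exact Subgroup.mem_subgroupOf.mp h1
    · intro ht
      have htM : t ∈ M := by
        have h2 : t = ((g : ↥M) : G)⁻¹ * (((g : ↥M) : G) * t * ((g : ↥M) : G)⁻¹) * ((g : ↥M) : G) := by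
          group
        rw [h2]
        exact M.mul_mem (M.mul_mem (M.inv_mem (g : ↥M).2) (hTM ht)) (g : ↥M).2
      have h1 := (hg ⟨t, htM⟩).mpr (Subgroup.mem_subgroupOf.mpr ht)
      exact Subgroup.mem_subgroupOf.mp h1
  refine ⟨MonoidHom.codRestrict (M.subtype.comp (Subgroup.subtype _)) _ hmem, fun g => rfl, ?_, ?_⟩
  · intro a b hab
    have h1 : ((a : ↥M) : G) = ((b : ↥M) : G) := by
      have h := congrArg Subtype.val hab
      exact h
    exact Subtype.ext (Subtype.ext h1)
  · intro y hyM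
    have hy := Subgroup.mem_normalizer_iff.mp y.2
    have hyn : (⟨(y : G), hyM⟩ : ↥M) ∈
        Subgroup.normalizer ((T.subgroupOf M : Subgroup ↥M) : Set ↥M) := by
      rw [Subgroup.mem_normalizer_iff]
      intro h
      rw [Subgroup.mem_subgroupOf, Subgroup.mem_subgroupOf]
      exact hy (h : G)
    exact ⟨⟨⟨(y : G), hyM⟩, hyn⟩, Subtype.ext rfl⟩

end PConLocal

end Cfsg.Agent.Lib.Helper11
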