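import Mathlib
import Cfsg.Prelude.Def_Amalgam
import Cfsg.Agent.Lib.Helper11.Basic
import Cfsg.Agent.Lib.Helper11.Stab
import Cfsg.Agent.Lib.Helper18.Subnormal
import Cfsg.Agent.Lib.Helper1.Basic

set_option autoImplicit false

namespace Cfsg.Agent.Lib.Helper11

open scoped Pointwise

section Subnormalizer

variable {G : Type*} [Group G]

/-- A `p`-subgroup `H` is subnormal in `⟨H, g⟩` iff `g` normalizes a `p`-subgroup containing `H`. -/
theorem subn_iff [Finite G] (p : ℕ) [Fact p.Prime] (H : Subgroup G) (hH : IsPGroup p H) (g : G) :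
    (H.subgroupOf (H ⊔ Subgroup.zpowers g)).IsSubnormal ↔
      ∃ R : Subgroup G, H ≤ R ∧ IsPGroup p R ∧ g ∈ Subgroup.normalizer (R : Set G) := by
  constructor
  · intro hsub
    have hp : IsPGroup p (H.subgroupOf (H ⊔ Subgroup.zpowers g)) := hH.comap_subtype
    have hle := subnormal_pGroup_le_pCore p hsub hp
    refine ⟨Cfsg.pCoreOf p (H ⊔ Subgroup.zpowers g), ?_, Helper18.pCoreOf_isPGroup p _,
      Helper18.le_normalizer_pCoreOf p _ (le_sup_right (a := H) (Subgroup.mem_zpowers g))⟩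
    intro x hx
    have hxU : x ∈ H ⊔ Subgroup.zpowers g := le_sup_left (b := Subgroup.zpowers g) hx
    exact ⟨⟨x, hxU⟩, hle (Subgroup.mem_subgroupOf.mpr hx), rfl⟩
  · rintro ⟨R, hHR, hR, hg⟩
    have hU : H ⊔ Subgroup.zpowers g ≤ Subgroup.normalizer (R : Set G) :=
      sup_le (hHR.trans Subgroup.le_normalizer) (Subgroup.zpowers_le.mpr hg)
    have hKn : (R.subgroupOf (H ⊔ Subgroup.zpowers g)).Normal :=
      Subgroup.normal_subgroupOf_of_le_normalizer hU
    have hle : H.subgroupOf (H ⊔ Subgroup.zpowers g) ≤ R.subgroupOf (H ⊔ Subgroup.zpowers g) :=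
      Subgroup.comap_mono hHR
    have hKp : IsPGroup p (R.subgroupOf (H ⊔ Subgroup.zpowers g)) := hR.comap_subtype
    have hsn := Helper18.isSubnormal_of_isPGroup hKp
      ((H.subgroupOf (H ⊔ Subgroup.zpowers g)).subgroupOf (R.subgroupOf (H ⊔ Subgroup.zpowers g)))
    exact Subgroup.IsSubnormal.trans hle hsn hKn.isSubnormal

/-- Every `p`-subgroup normalized by `g` lies in a radical `p`-subgroup normalized by `g`. -/
theorem exists_radical [Finite G] (p : ℕ) [Fact p.Prime] (R₀ : Subgroup G) (hR₀ : IsPGroup p R₀)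
    (g : G) (hg : g ∈ Subgroup.normalizer (R₀ : Set G)) :
    ∃ R : Subgroup G, R₀ ≤ R ∧ Cfsg.pCoreOf p (Subgroup.normalizer (R : Set G)) = R ∧
      g ∈ Subgroup.normalizer (R : Set G) := by
  obtain ⟨R, hR⟩ := Set.Finite.exists_maximal
    (s := {R : Subgroup G | R₀ ≤ R ∧ IsPGroup p R ∧ g ∈ Subgroup.normalizer (R : Set G)})
    (Set.toFinite _) ⟨R₀, le_rfl, hR₀, hg⟩
  obtain ⟨⟨hR1, hR2, hR3⟩, hmax⟩ := hR
  have hle : R ≤ Cfsg.pCoreOf p (Subgroup.normalizer (R : Set G)) :=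
    Helper18.le_pCoreOf Subgroup.le_normalizer le_rfl hR2
  have hmem : Cfsg.pCoreOf p (Subgroup.normalizer (R : Set G)) ∈
      {R : Subgroup G | R₀ ≤ R ∧ IsPGroup p R ∧ g ∈ Subgroup.normalizer (R : Set G)} :=
    ⟨hR1.trans hle, Helper18.pCoreOf_isPGroup p _, Helper18.le_normalizer_pCoreOf p _ hR3⟩
  exact ⟨R, hR1, le_antisymm (hmax hmem hle) hle, hR3⟩

/-- A radical `p`-subgroup is the intersection of the Sylow `p`-subgroups containing it. -/
theorem sInf_sylow_le_of_radical [Finite G] (p : ℕ) [Fact p.Prime] (R : Subgroup G)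
    (hrad : Cfsg.pCoreOf p (Subgroup.normalizer (R : Set G)) = R) :
    sInf {K : Subgroup G | ∃ Q : Sylow p G, R ≤ (Q : Subgroup G) ∧ K = (Q : Subgroup G)} ≤ R := by
  have hRp : IsPGroup p R := hrad ▸ Helper18.pCoreOf_isPGroup p _
  set D := sInf {K : Subgroup G | ∃ Q : Sylow p G, R ≤ (Q : Subgroup G) ∧ K = (Q : Subgroup G)}
    with hD
  have hRD : R ≤ D := le_sInf (by rintro K ⟨Q, hQ, rfl⟩; exact hQ)
  obtain ⟨Q₀, hQ₀⟩ := hRp.exists_le_sylow
  have hDQ : D ≤ Q₀ := sInf_le ⟨Q₀, hQ₀, rfl⟩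
  have hDp : IsPGroup p D := Q₀.2.to_le hDQ
  by_contra hcon
  have hne : R ≠ D := fun h => hcon (h ▸ le_rfl)
  have hnil : Group.IsNilpotent D := hDp.isNilpotent
  obtain ⟨x, hxD, hxN, hxR⟩ := exists_mem_normalizer_not_mem hnil hRD hne
  -- the normalizer of `R` normalizes `D`
  have hMD : Subgroup.normalizer (R : Set G) ≤ Subgroup.normalizer (D : Set G) := by
    apply le_normalizer_of_map_conj_le
    intro m hm
    rintro _ ⟨d, hd, rfl⟩
    rw [hD, Subgroup.mem_sInf]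
    rintro K ⟨Q, hQ, rfl⟩
    have hQ' : R ≤ ((m⁻¹ • Q : Sylow p G) : Subgroup G) := by
      intro r hr
      rw [Sylow.smul_def, Sylow.pointwise_smul_def, Helper1.mem_conj_smul_iff, inv_inv]
      exact hQ ((Subgroup.mem_normalizer_iff.mp hm r).mp hr)
    have h1 : d ∈ ((m⁻¹ • Q : Sylow p G) : Subgroup G) := by
      have : D ≤ ((m⁻¹ • Q : Sylow p G) : Subgroup G) := sInf_le ⟨_, hQ', rfl⟩
      exact this hd
    rw [Sylow.smul_def, Sylow.pointwise_smul_def, Helper1.mem_conj_smul_iff, inv_inv] at h1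
    exact h1
  have hE : D ⊓ Subgroup.normalizer (R : Set G) ≤
      Cfsg.pCoreOf p (Subgroup.normalizer (R : Set G)) := by
    apply Helper18.le_pCoreOf inf_le_right
    · intro m hm
      rw [Subgroup.mem_normalizer_iff]
      intro y
      have h1 := Subgroup.mem_normalizer_iff.mp (hMD hm) y
      have h2 := Subgroup.mem_normalizer_iff.mp (Subgroup.le_normalizer hm) y
      rw [Subgroup.mem_inf, Subgroup.mem_inf, h1, h2]
    · exact hDp.to_le inf_le_left
  rw [hrad] at hE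
  exact hxR (hE ⟨hxD, hxN⟩)

end Subnormalizer

end Cfsg.Agent.Lib.Helper11
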