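import Mathlib
import Cfsg.Agent.Lib.Lead.UniqueSubgroup
import Cfsg.Agent.Lib.Helper11.Basic

/-!
A nontrivial subgroup `H` of a finite group `F` contained in every nontrivial subgroup it
normalizes: `F` has a unique minimal normal subgroup, which is simple, and its centralizer is
trivial, cyclic or generalized quaternion.
-/

set_option autoImplicit false
set_option linter.style.haveILetI false

namespace Cfsg.Agent.Lib.Helper11

universe u

section UniqMin

variable {F : Type u} [Group F]

theorem uniqMin_main [Finite F] (H : Subgroup F) (hH : H ≠ ⊥)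
    (hmin : ∀ R : Subgroup F, R ≠ ⊥ → H ≤ Subgroup.normalizer (R : Set F) → H ≤ R) :
    ∃ N : Subgroup F, N.Normal ∧ N ≠ ⊥ ∧ (∀ M : Subgroup F, M.Normal → M ≠ ⊥ → N ≤ M) ∧
      IsSimpleGroup ↥N ∧
      (Subgroup.centralizer (N : Set F) = ⊥ ∨
       (H = N ∧ (Nat.card N).Prime ∧ IsCyclic ↥(Subgroup.centralizer (N : Set F)) ∧
          (∃ k : ℕ, 1 ≤ k ∧ Nat.card ↥(Subgroup.centralizer (N : Set F)) = Nat.card N ^ k) ∧
          (∃ g : F, Subgroup.centralizer (N : Set F) ⊔ Subgroup.zpowers g = ⊤) ∧
          (Subgroup.centralizer (N : Set F)).index ∣ Nat.card N - 1) ∨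
       (H = N ∧ Nat.card N = 2 ∧ Subgroup.centralizer (N : Set F) = ⊤ ∧
          ∃ k : ℕ, 1 ≤ k ∧ Nonempty (F ≃* QuaternionGroup (2 ^ k)))) := by
  classical
  obtain ⟨N, hNdef⟩ : ∃ N : Subgroup F, N = sInf {M : Subgroup F | M.Normal ∧ M ≠ ⊥} := ⟨_, rfl⟩
  have hHN : H ≤ N := by
    rw [hNdef]
    apply le_sInf
    rintro M ⟨hMn, hM1⟩
    apply hmin M hM1
    rw [Subgroup.normalizer_eq_top_iff.mpr hMn]; exact le_top
  have hNn : N.Normal := by
    constructor
    intro n hn g
    rw [hNdef, Subgroup.mem_sInf] at hn ⊢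
    intro M hM
    exact hM.1.conj_mem n (hn M hM) g
  have hN1 : N ≠ ⊥ := by
    intro h; apply hH; rw [eq_bot_iff, ← h]; exact hHN
  have hNmin : ∀ M : Subgroup F, M.Normal → M ≠ ⊥ → N ≤ M := by
    intro M hMn hM1
    rw [hNdef]; exact sInf_le ⟨hMn, hM1⟩
  -- `N` is simple
  have hNs : IsSimpleGroup ↥N := by
    haveI : Nontrivial ↥N := (Subgroup.nontrivial_iff_ne_bot N).mpr hN1
    refine ⟨fun K hK => ?_⟩
    by_cases hK1 : K = ⊥
    · left; exact hK1
    · right
      obtain ⟨K₁, hK₁⟩ : ∃ K₁ : Subgroup F, K₁ = K.map N.subtype := ⟨_, rfl⟩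
      have hK₁N : K₁ ≤ N := by rw [hK₁]; exact Subgroup.map_subtype_le K
      have hK₁1 : K₁ ≠ ⊥ := by
        rw [hK₁]
        intro h
        exact hK1 ((Subgroup.map_eq_bot_iff_of_injective _ N.subtype_injective).mp h)
      have hK₁n : ∀ n ∈ N, ∀ k ∈ K₁, n * k * n⁻¹ ∈ K₁ := by
        intro n hn k hk
        rw [hK₁] at hk ⊢
        obtain ⟨k', hk', rfl⟩ := hk
        exact ⟨⟨n, hn⟩ * k' * ⟨n, hn⟩⁻¹, hK.conj_mem k' hk' _, rfl⟩
      have hHcore : H ≤ K₁.normalCore := by
        intro h hh b
        have hR1 : K₁.map (MulAut.conj b⁻¹).toMonoidHom ≠ ⊥ := by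
          intro h0
          exact hK₁1 ((Subgroup.map_eq_bot_iff_of_injective _ (MulAut.conj b⁻¹).injective).mp h0)
        have hRn : H ≤ Subgroup.normalizer
            ((K₁.map (MulAut.conj b⁻¹).toMonoidHom : Subgroup F) : Set F) := by
          apply le_normalizer_of_map_conj_le
          rintro g hg _ ⟨_, ⟨k, hk, rfl⟩, rfl⟩
          refine ⟨(b * g * b⁻¹) * k * (b * g * b⁻¹)⁻¹, ?_, ?_⟩
          · exact hK₁n _ (hNn.conj_mem g (hHN hg) b) k hk
          · show b⁻¹ * ((b * g * b⁻¹) * k * (b * g * b⁻¹)⁻¹) * b⁻¹⁻¹ = g * (b⁻¹ * k * b⁻¹⁻¹) * g⁻¹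
            group
        obtain ⟨k, hk, hkh⟩ := hmin _ hR1 hRn hh
        have hkh' : b⁻¹ * k * b⁻¹⁻¹ = h := hkh
        have : b * h * b⁻¹ = k := by rw [← hkh']; group
        rw [this]; exact hk
      have hcore1 : K₁.normalCore ≠ ⊥ := by
        intro h; apply hH; rw [eq_bot_iff, ← h]; exact hHcore
      have hNK : N ≤ K₁ := (hNmin _ (Subgroup.normalCore_normal K₁) hcore1).trans
        (Subgroup.normalCore_le K₁)
      rw [eq_top_iff]
      intro n _
      have := hNK n.2
      rw [hK₁] at this
      obtain ⟨k, hk, hkn⟩ := this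
      have : k = n := Subtype.ext hkn
      rw [← this]; exact hk
  refine ⟨N, hNn, hN1, hNmin, hNs, ?_⟩
  by_cases hC : Subgroup.centralizer (N : Set F) = ⊥
  · left; exact hC
  · right
    haveI := hNn
    have hCn : (Subgroup.centralizer (N : Set F)).Normal := Subgroup.normal_centralizer
    have hNC : N ≤ Subgroup.centralizer (N : Set F) := hNmin _ hCn hC
    have hNcomm : ∀ a ∈ N, ∀ b ∈ N, a * b = b * a := by
      intro a ha b hb
      exact Subgroup.mem_centralizer_iff.mp (hNC hb) a ha
    -- `H = N`
    have hHeq : H = N := by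
      apply le_antisymm hHN
      have hn : (H.subgroupOf N).Normal := by
        constructor
        intro n hn g
        rw [Subgroup.mem_subgroupOf] at hn ⊢
        have : ((g * n * g⁻¹ : ↥N) : F) = (n : F) := by
          show (g : F) * n * (g : F)⁻¹ = n
          rw [hNcomm g g.2 n n.2, mul_inv_cancel_right]
        rw [this]; exact hn
      rcases hNs.eq_bot_or_eq_top_of_normal _ hn with h | h
      · exfalso
        apply hH
        rw [eq_bot_iff]
        intro x hx
        have : (⟨x, hHN hx⟩ : ↥N) ∈ H.subgroupOf N := Subgroup.mem_subgroupOf.mpr hx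
        rw [h, Subgroup.mem_bot] at this
        exact Subgroup.mem_bot.mpr (congrArg Subtype.val this)
      · intro n hn
        have : (⟨n, hn⟩ : ↥N) ∈ H.subgroupOf N := by rw [h]; trivial
        exact Subgroup.mem_subgroupOf.mp this
    -- `N` has prime order
    have hNprime : (Nat.card N).Prime := by
      haveI : Nontrivial ↥N := (Subgroup.nontrivial_iff_ne_bot N).mpr hN1
      have hcard1 : Nat.card N ≠ 1 := by
        intro h
        exact hN1 (Subgroup.card_eq_one.mp h)
      have hq := Nat.minFac_prime hcard1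
      haveI : Fact (Nat.card N).minFac.Prime := ⟨hq⟩
      obtain ⟨x, hx⟩ := exists_prime_orderOf_dvd_card' (G := ↥N) (Nat.card N).minFac
        (Nat.minFac_dvd _)
      have hzn : (Subgroup.zpowers x).Normal := by
        constructor
        intro n hn g
        have : g * n * g⁻¹ = n := by
          apply Subtype.ext
          show (g : F) * n * (g : F)⁻¹ = n
          rw [hNcomm g g.2 n n.2, mul_inv_cancel_right]
        rw [this]; exact hn
      rcases hNs.eq_bot_or_eq_top_of_normal _ hzn with h | h
      · exfalso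
        have hx1 : x = 1 := by
          have : x ∈ Subgroup.zpowers x := Subgroup.mem_zpowers x
          rw [h, Subgroup.mem_bot] at this; exact this
        rw [hx1, orderOf_one] at hx
        exact hq.one_lt.ne hx
      · have h1 : Nat.card (Subgroup.zpowers x) = Nat.card N := by
          rw [h, Subgroup.card_top]
        rw [Nat.card_zpowers, hx] at h1
        rw [← h1]; exact hq
    haveI hpF : Fact (Nat.card N).Prime := ⟨hNprime⟩
    -- every nontrivial subgroup of `C` contains `N`
    have hsub : ∀ R : Subgroup F, R ≤ Subgroup.centralizer (N : Set F) → R ≠ ⊥ → N ≤ R := by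
      intro R hR hR1
      rw [← hHeq]
      apply hmin R hR1
      rw [hHeq]
      refine le_trans ?_ (Subgroup.centralizer_le_normalizer _)
      intro n hn
      rw [Subgroup.mem_centralizer_iff]
      intro r hr
      exact (Subgroup.mem_centralizer_iff.mp (hR hr) n hn).symm
    have hCp : IsPGroup (Nat.card N) ↥(Subgroup.centralizer (N : Set F)) := by
      have hpos : Nat.card ↥(Subgroup.centralizer (N : Set F)) ≠ 0 := Nat.card_pos.ne'
      have := Nat.eq_prime_pow_of_unique_prime_dvd (p := Nat.card N) hpos (by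
        intro d hd hdvd
        haveI : Fact d.Prime := ⟨hd⟩
        obtain ⟨x, hx⟩ := exists_prime_orderOf_dvd_card'
          (G := ↥(Subgroup.centralizer (N : Set F))) d hdvd
        have hR : Subgroup.zpowers (x : F) ≤ Subgroup.centralizer (N : Set F) := by
          rw [Subgroup.zpowers_le]; exact x.2
        have hR1 : Subgroup.zpowers (x : F) ≠ ⊥ := by
          intro h
          have hx1 : (x : F) = 1 := by
            have : (x : F) ∈ Subgroup.zpowers (x : F) := Subgroup.mem_zpowers _
            rw [h, Subgroup.mem_bot] at this; exact this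
          have hx1' : x = 1 := Subtype.ext hx1
          rw [hx1', orderOf_one] at hx
          exact hd.one_lt.ne hx
        have h1 := Subgroup.card_dvd_of_le (hsub _ hR hR1)
        rw [Nat.card_zpowers, Subgroup.orderOf_coe, hx] at h1
        exact ((Nat.prime_dvd_prime_iff_eq hNprime hd).mp h1).symm)
      exact IsPGroup.of_card this
    have hCU : Cfsg.Agent.Lib.Lead.UniqP (Nat.card N) ↥(Subgroup.centralizer (N : Set F)) := by
      have key : ∀ x : ↥(Subgroup.centralizer (N : Set F)), x ^ Nat.card N = 1 → x ≠ 1 →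
          Subgroup.zpowers (x : F) = N := by
        intro x hx hx1
        have hR : Subgroup.zpowers (x : F) ≤ Subgroup.centralizer (N : Set F) := by
          rw [Subgroup.zpowers_le]; exact x.2
        have hR1 : Subgroup.zpowers (x : F) ≠ ⊥ := by
          intro h
          have hx1' : (x : F) = 1 := by
            have : (x : F) ∈ Subgroup.zpowers (x : F) := Subgroup.mem_zpowers _
            rw [h, Subgroup.mem_bot] at this; exact this
          exact hx1 (Subtype.ext hx1')
        have ho : orderOf x = Nat.card N := orderOf_eq_prime hx hx1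
        symm
        apply Subgroup.eq_of_le_of_card_ge (hsub _ hR hR1)
        rw [Nat.card_zpowers, Subgroup.orderOf_coe, ho]
      intro x y hx hy hx1
      by_cases hy1 : y = 1
      · rw [hy1]; exact Subgroup.one_mem _
      · have h1 := key x hx hx1
        have h2 := key y hy hy1
        have hyN : (y : F) ∈ N := h2.le (Subgroup.mem_zpowers _)
        have : (y : F) ∈ Subgroup.zpowers (x : F) := h1.ge hyN
        obtain ⟨k, hk⟩ := Subgroup.mem_zpowers_iff.mp this
        rw [Subgroup.mem_zpowers_iff]
        refine ⟨k, Subtype.ext ?_⟩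
        rw [Subgroup.coe_zpow]; exact hk
    -- the action on `N`
    haveI hNcyc : IsCyclic ↥N := isCyclic_of_prime_card (p := Nat.card N) rfl
    have hker : (MulAut.conjNormal : F →* MulAut ↥N).ker = Subgroup.centralizer (N : Set F) := by
      ext g
      rw [MonoidHom.mem_ker, Subgroup.mem_centralizer_iff]
      constructor
      · intro h n hn
        have h1 := congrArg (fun φ : MulAut ↥N => ((φ ⟨n, hn⟩ : ↥N) : F)) h
        simp only [MulAut.conjNormal_apply, MulAut.one_apply] at h1
        calc n * g = (g * n * g⁻¹) * g := by rw [h1]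
          _ = g * n := by group
      · intro h
        ext n
        rw [MulAut.conjNormal_apply, MulAut.one_apply]
        have := h n n.2
        calc g * (n : F) * g⁻¹ = ((n : F) * g) * g⁻¹ := by rw [this]
          _ = n := by group
    have hidx : (Subgroup.centralizer (N : Set F)).index ∣ Nat.card N - 1 := by
      rw [← hker, Subgroup.index_ker]
      have h1 := Subgroup.card_subgroup_dvd_card (MulAut.conjNormal : F →* MulAut ↥N).range
      rw [IsCyclic.card_mulAut, Nat.totient_prime hNprime] at h1
      exact h1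
    have hgen : ∃ g : F, Subgroup.centralizer (N : Set F) ⊔ Subgroup.zpowers g = ⊤ := by
      haveI : IsCyclic (MulAut ↥N) :=
        isCyclic_of_surjective (IsCyclic.mulAutMulEquiv ↥N).symm.toMonoidHom
          (IsCyclic.mulAutMulEquiv ↥N).symm.surjective
      obtain ⟨⟨γ, hγr⟩, hγ⟩ := IsCyclic.exists_generator
        (α := ↥(MulAut.conjNormal : F →* MulAut ↥N).range)
      obtain ⟨g₀, hg₀⟩ := hγr
      refine ⟨g₀, ?_⟩
      rw [eq_top_iff]
      intro f _
      obtain ⟨k, hk⟩ := Subgroup.mem_zpowers_iff.mp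
        (hγ ⟨MulAut.conjNormal f, ⟨f, rfl⟩⟩)
      have hk' : (MulAut.conjNormal g₀ : MulAut ↥N) ^ k = MulAut.conjNormal f := by
        have := congrArg Subtype.val hk
        rw [Subgroup.coe_zpow] at this
        rw [hg₀]; exact this
      have hmem : f * (g₀ ^ k)⁻¹ ∈ Subgroup.centralizer (N : Set F) := by
        rw [← hker, MonoidHom.mem_ker, map_mul, map_inv, map_zpow, hk', mul_inv_cancel]
      have : f = f * (g₀ ^ k)⁻¹ * g₀ ^ k := by group
      rw [this]
      exact Subgroup.mul_mem _ (Subgroup.mem_sup_left hmem)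
        (Subgroup.mem_sup_right (Subgroup.zpow_mem _ (Subgroup.mem_zpowers g₀) k))
    have hcardC : ∃ k : ℕ, 1 ≤ k ∧
        Nat.card ↥(Subgroup.centralizer (N : Set F)) = Nat.card N ^ k := by
      obtain ⟨k, hk⟩ := IsPGroup.iff_card.mp hCp
      refine ⟨k, ?_, hk⟩
      by_contra h0
      have hk0 : k = 0 := by omega
      rw [hk0, pow_zero] at hk
      exact hC (Subgroup.card_eq_one.mp hk)
    rcases Cfsg.Agent.Lib.Lead.uniqP_cyclic_or_quaternion (Nat.card N) hCp hCU with
      hcyc | ⟨hp2, n, ⟨e⟩⟩
    · left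
      exact ⟨hHeq, hNprime, hcyc, hcardC, hgen, hidx⟩
    · by_cases hn0 : n = 0
      · left
        subst hn0
        have hcyc : IsCyclic ↥(Subgroup.centralizer (N : Set F)) := by
          haveI : IsCyclic (QuaternionGroup (2 ^ 0)) := by
            rw [pow_zero]; exact QuaternionGroup.quaternionGroup_one_isCyclic
          exact isCyclic_of_surjective e.symm.toMonoidHom e.symm.surjective
        exact ⟨hHeq, hNprime, hcyc, hcardC, hgen, hidx⟩
      · right
        have hCtop : Subgroup.centralizer (N : Set F) = ⊤ := by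
          rw [hp2] at hidx
          exact Subgroup.index_eq_one.mp (Nat.dvd_one.mp hidx)
        refine ⟨hHeq, hp2, hCtop, n, Nat.one_le_iff_ne_zero.mpr hn0, ⟨?_⟩⟩
        exact Subgroup.topEquiv.symm.trans ((MulEquiv.subgroupCongr hCtop.symm).trans e)

end UniqMin

end Cfsg.Agent.Lib.Helper11
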