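import Mathlib
import Cfsg.Prelude.Def_Solvable
import Cfsg.Agent.Lib.Lead.Frobenius
import Cfsg.Agent.Lib.Helper1.Basic
import Cfsg.Agent.Lib.Helper10.Basic
import Cfsg.Agent.Lib.Helper11.Components

/-!
An element `x` of a Sylow `p`-subgroup `S` which is its only conjugate in `S` and centralizes
every `p'`-subgroup it normalizes is central.
-/

set_option autoImplicit false
set_option linter.style.haveILetI false

namespace Cfsg.Agent.Lib.Helper11

open scoped Pointwise

universe u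

section WeakClosed

variable {G : Type u} [Group G]

/-- A conjugate of `x` commuting with `x` equals `x`. -/
theorem wc_comm_conj_eq [Finite G] {p : ℕ} [Fact p.Prime] (S : Sylow p G) (x : G) (hx : x ∈ S)
    (hU : ∀ g : G, g⁻¹ * x * g ∈ S → g⁻¹ * x * g = x) (g : G)
    (hc : x * (g⁻¹ * x * g) = (g⁻¹ * x * g) * x) : g⁻¹ * x * g = x := by
  have hxp : IsPGroup p (Subgroup.zpowers x) :=
    S.isPGroup'.to_le (by rw [Subgroup.zpowers_le]; exact hx)
  have hyp : IsPGroup p (Subgroup.zpowers (g⁻¹ * x * g)) := by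
    have : Subgroup.zpowers (g⁻¹ * x * g) =
        (Subgroup.zpowers x).map (MulAut.conj g⁻¹).toMonoidHom := by
      rw [MonoidHom.map_zpowers]
      congr 1
      show g⁻¹ * x * g = g⁻¹ * x * g⁻¹⁻¹
      rw [inv_inv]
    rw [this]; exact hxp.map _
  have hR : IsPGroup p (Subgroup.zpowers x ⊔ Subgroup.zpowers (g⁻¹ * x * g) : Subgroup G) := by
    apply hxp.to_sup_of_normal_left' hyp
    rw [Subgroup.zpowers_le]
    apply Subgroup.centralizer_le_normalizer
    have hcomm : Commute x (g⁻¹ * x * g) := hc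
    rw [Subgroup.mem_centralizer_iff]
    intro h hh
    obtain ⟨k, rfl⟩ := Subgroup.mem_zpowers_iff.mp hh
    exact (hcomm.zpow_left k).eq
  obtain ⟨m, hm⟩ := Cfsg.Agent.Lib.Helper10.exists_conj_mem_sylow S _ hR
  have h1 := hU m (hm x (Subgroup.mem_sup_left (Subgroup.mem_zpowers x)))
  have h2 := hm (g⁻¹ * x * g) (Subgroup.mem_sup_right (Subgroup.mem_zpowers _))
  have h3 : (g * m)⁻¹ * x * (g * m) = x := by
    apply hU
    have : (g * m)⁻¹ * x * (g * m) = m⁻¹ * (g⁻¹ * x * g) * m := by group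
    rw [this]; exact h2
  have h4 : g⁻¹ * x * g = m * ((g * m)⁻¹ * x * (g * m)) * m⁻¹ := by group
  rw [h4, h3]
  have : m * x * m⁻¹ = m * (m⁻¹ * x * m) * m⁻¹ := by rw [h1]
  rw [this]; group

/-- The hypotheses pass to subgroups containing `x`. -/
theorem wc_restrict [Finite G] {p : ℕ} [Fact p.Prime] (S : Sylow p G) (x : G) (hx : x ∈ S)
    (hU : ∀ g : G, g⁻¹ * x * g ∈ S → g⁻¹ * x * g = x)
    (hb : ∀ H : Subgroup G, (Nat.card H).Coprime p → (∀ h ∈ H, x * h * x⁻¹ ∈ H) →
      ∀ h ∈ H, x * h = h * x)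
    (H : Subgroup G) (hxH : x ∈ H) :
    ∃ R : Sylow p ↥H, (⟨x, hxH⟩ : ↥H) ∈ R ∧
      (∀ g : ↥H, g⁻¹ * ⟨x, hxH⟩ * g ∈ R → g⁻¹ * ⟨x, hxH⟩ * g = ⟨x, hxH⟩) ∧
      (∀ Y : Subgroup ↥H, (Nat.card Y).Coprime p →
        (∀ h ∈ Y, (⟨x, hxH⟩ : ↥H) * h * (⟨x, hxH⟩ : ↥H)⁻¹ ∈ Y) →
        ∀ h ∈ Y, (⟨x, hxH⟩ : ↥H) * h = h * ⟨x, hxH⟩) := by
  have hxp : IsPGroup p (Subgroup.zpowers (⟨x, hxH⟩ : ↥H)) := by
    obtain ⟨k, hk⟩ := S.isPGroup' ⟨x, hx⟩
    have hk' : x ^ p ^ k = 1 := by simpa using congrArg Subtype.val hk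
    have hk'' : (⟨x, hxH⟩ : ↥H) ^ p ^ k = 1 := Subtype.ext (by rw [Subgroup.coe_pow]; exact hk')
    intro y
    obtain ⟨i, hi⟩ := Subgroup.mem_zpowers_iff.mp y.2
    refine ⟨k, Subtype.ext ?_⟩
    rw [Subgroup.coe_pow, ← hi, ← zpow_natCast, ← zpow_mul, mul_comm, zpow_mul, zpow_natCast,
      hk'', one_zpow]
    rfl
  obtain ⟨R, hR⟩ := hxp.exists_le_sylow
  have hxR : (⟨x, hxH⟩ : ↥H) ∈ R := hR (Subgroup.mem_zpowers _)
  refine ⟨R, hxR, ?_, ?_⟩
  · intro g hg
    have hR₀ : IsPGroup p ((R : Subgroup ↥H).map H.subtype) := R.isPGroup'.map _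
    obtain ⟨m, hm⟩ := Cfsg.Agent.Lib.Helper10.exists_conj_mem_sylow S _ hR₀
    have h1 := hU m (hm x ⟨⟨x, hxH⟩, hxR, rfl⟩)
    have h2 : m⁻¹ * ((g : G)⁻¹ * x * g) * m ∈ S := hm _ ⟨_, hg, rfl⟩
    have h3 : ((g : G) * m)⁻¹ * x * ((g : G) * m) = x := by
      apply hU
      have : ((g : G) * m)⁻¹ * x * ((g : G) * m) = m⁻¹ * ((g : G)⁻¹ * x * g) * m := by group
      rw [this]; exact h2
    apply Subtype.ext
    show (g : G)⁻¹ * x * g = x
    have h4 : (g : G)⁻¹ * x * g = m * (((g : G) * m)⁻¹ * x * ((g : G) * m)) * m⁻¹ := by group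
    rw [h4, h3]
    have : m * x * m⁻¹ = m * (m⁻¹ * x * m) * m⁻¹ := by rw [h1]
    rw [this]; group
  · intro Y hY hYn h hh
    have := hb (Y.map H.subtype)
      (by rw [Subgroup.card_map_of_injective H.subtype_injective]; exact hY)
      (by
        rintro _ ⟨y, hy, rfl⟩
        exact ⟨_, hYn y hy, rfl⟩) (h : G) ⟨h, hh, rfl⟩
    exact Subtype.ext this

theorem wc_central_aux (p : ℕ) [Fact p.Prime] (n : ℕ) : ∀ (G : Type u) [Group G] [Finite G],
    Nat.card G = n → ∀ (S : Sylow p G) (x : G), x ∈ S →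
    (∀ g : G, g⁻¹ * x * g ∈ S → g⁻¹ * x * g = x) →
    (∀ H : Subgroup G, (Nat.card H).Coprime p → (∀ h ∈ H, x * h * x⁻¹ ∈ H) →
      ∀ h ∈ H, x * h = h * x) →
    x ∈ Subgroup.center G := by
  induction n using Nat.strong_induction_on with
  | _ n ih =>
    intro G _ _ hn S x hx hU hb
    by_contra hxc
    obtain ⟨M, hM⟩ : ∃ M : Subgroup G, M = Subgroup.centralizer ({x} : Set G) := ⟨_, rfl⟩
    have hmemM : ∀ y : G, y ∈ M ↔ x * y = y * x := by
      intro y; rw [hM, Subgroup.mem_centralizer_iff]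
      constructor
      · intro h; exact h x (Set.mem_singleton x)
      · intro h z hz; rw [Set.mem_singleton_iff.mp hz]; exact h
    have hMtop : M ≠ ⊤ := by
      intro h
      apply hxc
      rw [Subgroup.mem_center_iff]
      intro g
      have : g ∈ M := by rw [h]; trivial
      exact ((hmemM g).mp this).symm
    have h1 : ∀ H : Subgroup G, H ≠ ⊤ → x ∈ H → H ≤ M := by
      intro H hH hxH
      have hcard : Nat.card H < n := by
        rw [← hn]; exact card_lt_of_lt_top (lt_top_iff_ne_top.mpr hH)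
      obtain ⟨R, hxR, hU', hb'⟩ := wc_restrict S x hx hU hb H hxH
      have := ih (Nat.card H) hcard ↥H rfl R ⟨x, hxH⟩ hxR hU' hb'
      intro h hh
      rw [hmemM]
      have h2 := Subgroup.mem_center_iff.mp this ⟨h, hh⟩
      exact (congrArg Subtype.val h2).symm
    have h2 : ∀ C : Subgroup G, (∀ g : G, g⁻¹ * x * g ∈ C) → C = ⊤ := by
      intro C hC
      by_contra hCt
      have hCM := h1 C hCt (by simpa using hC 1)
      apply hxc
      rw [Subgroup.mem_center_iff]
      intro g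
      have hcomm : x * (g⁻¹ * x * g) = (g⁻¹ * x * g) * x := (hmemM _).mp (hCM (hC g))
      have := wc_comm_conj_eq S x hx hU g hcomm
      calc g * x = g * (g⁻¹ * x * g) := by rw [this]
        _ = x * g := by group
    have h4 : ∀ g : G, g ∉ M → ∀ u ∈ M, g⁻¹ * u * g ∈ M → u ∈ Subgroup.center G := by
      intro g hg u hu hug
      by_contra huZ
      have hCu : Subgroup.centralizer ({u} : Set G) ≠ ⊤ := by
        intro h
        apply huZ
        rw [Subgroup.mem_center_iff]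
        intro y
        have hy : y ∈ Subgroup.centralizer ({u} : Set G) := by rw [h]; trivial
        exact (Subgroup.mem_centralizer_iff.mp hy u (Set.mem_singleton u)).symm
      have hxC : x ∈ Subgroup.centralizer ({u} : Set G) := by
        rw [Subgroup.mem_centralizer_iff]
        intro z hz
        rw [Set.mem_singleton_iff.mp hz]
        exact ((hmemM u).mp hu).symm
      have hCM := h1 _ hCu hxC
      have hgx : g * x * g⁻¹ ∈ Subgroup.centralizer ({u} : Set G) := by
        rw [Subgroup.mem_centralizer_iff]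
        intro z hz
        rw [Set.mem_singleton_iff.mp hz]
        have := (hmemM _).mp hug
        calc u * (g * x * g⁻¹) = g * ((g⁻¹ * u * g) * x) * g⁻¹ := by group
          _ = g * (x * (g⁻¹ * u * g)) * g⁻¹ := by rw [this]
          _ = g * x * g⁻¹ * u := by group
      have hcomm := (hmemM _).mp (hCM hgx)
      have := wc_comm_conj_eq S x hx hU g⁻¹ (by rw [inv_inv]; exact hcomm)
      rw [inv_inv] at this
      apply hg
      rw [hmemM]
      calc x * g = (g * x * g⁻¹) * g := by rw [this]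
        _ = g * x := by group
    have hSM : ∀ s ∈ S, s ∈ M := by
      intro s hs
      have := hU s (S.mul_mem (S.mul_mem (S.inv_mem hs) hx) hs)
      rw [hmemM]
      calc x * s = s * (s⁻¹ * x * s) := by group
        _ = s * x := by rw [this]
    have hZM : Subgroup.center G ≤ M := by
      intro z hz; rw [hmemM]; exact Subgroup.mem_center_iff.mp hz x
    -- the quotient by the centre
    obtain ⟨π, hπs, hπk⟩ : ∃ π : G →* G ⧸ Subgroup.center G, Function.Surjective π ∧
        ∀ g, π g = 1 ↔ g ∈ Subgroup.center G :=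
      ⟨QuotientGroup.mk' _, QuotientGroup.mk'_surjective _, fun g => QuotientGroup.eq_one_iff g⟩
    obtain ⟨Mb, hMb⟩ : ∃ Mb : Subgroup (G ⧸ Subgroup.center G), Mb = M.map π := ⟨_, rfl⟩
    have hmemMb : ∀ g : G, π g ∈ Mb ↔ g ∈ M := by
      intro g
      rw [hMb]
      constructor
      · rintro ⟨m, hm, hmg⟩
        have h5 : π (m⁻¹ * g) = 1 := by rw [map_mul, map_inv, hmg, inv_mul_cancel]
        have h6 : g = m * (m⁻¹ * g) := by group
        rw [h6]; exact M.mul_mem hm (hZM ((hπk _).mp h5))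
      · intro hg; exact ⟨g, hg, rfl⟩
    have hFC : Cfsg.IsFrobeniusComplement Mb := by
      refine ⟨?_, ?_, ?_⟩
      · intro h
        have hxM : x ∈ M := (hmemM x).mpr rfl
        have : π x ∈ Mb := (hmemMb x).mpr hxM
        rw [h, Subgroup.mem_bot] at this
        exact hxc ((hπk x).mp this)
      · intro h
        apply hMtop
        rw [eq_top_iff]
        intro g _
        apply (hmemMb g).mp
        rw [h]; trivial
      · intro gb hgb
        obtain ⟨g, rfl⟩ := hπs gb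
        have hg : g ∉ M := fun h => hgb ((hmemMb g).mpr h)
        rw [eq_bot_iff]
        rintro y ⟨hy1, hy2⟩
        obtain ⟨m₁, hm₁, rfl⟩ : ∃ m₁ ∈ M, π m₁ = y := by
          have hy1' : y ∈ Mb := hy1
          rw [hMb] at hy1'; exact hy1'
        have hy2' : g⁻¹ * m₁ * g ∈ M := by
          apply (hmemMb _).mp
          have := (Cfsg.Agent.Lib.Helper1.mem_conj_smul_iff (π g) (π m₁) Mb).mp hy2
          rw [map_mul, map_mul, map_inv]; exact this
        rw [Subgroup.mem_bot]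
        exact (hπk m₁).mpr (h4 g hg m₁ hm₁ hy2')
    obtain ⟨Nb, -, hNn, hNc⟩ := Cfsg.Agent.Lib.Lead.frobenius_theorem Mb hFC
    -- `F`, the preimage of the kernel
    obtain ⟨F, hF⟩ : ∃ F : Subgroup G, F = Nb.comap π := ⟨_, rfl⟩
    have hmemF : ∀ f : G, f ∈ F ↔ π f ∈ Nb := by intro f; rw [hF, Subgroup.mem_comap]
    have hFconj : ∀ f ∈ F, ∀ g : G, g * f * g⁻¹ ∈ F := by
      intro f hf g
      rw [hmemF, map_mul, map_mul, map_inv]
      exact hNn.conj_mem _ ((hmemF f).mp hf) _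
    have hc1 : ∀ f ∈ F, f ∈ M → f ∈ Subgroup.center G := by
      intro f hf hfM
      apply (hπk f).mp
      have : π f ∈ Nb ⊓ Mb := Subgroup.mem_inf.mpr ⟨(hmemF f).mp hf, (hmemMb f).mpr hfM⟩
      rw [hNc.disjoint.eq_bot, Subgroup.mem_bot] at this
      exact this
    have hc2 : ∀ g : G, ∃ f ∈ F, ∃ m ∈ M, g = f * m := by
      intro g
      obtain ⟨⟨a, b⟩, hab⟩ := hNc.2 (π g)
      have hab' : (a : G ⧸ Subgroup.center G) * (b : G ⧸ Subgroup.center G) = π g := hab
      have hmapM : ∀ w ∈ Mb, ∃ m ∈ M, π m = w := by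
        intro w hw; rw [hMb] at hw; exact hw
      obtain ⟨m, hm, hmb⟩ := hmapM _ b.2
      refine ⟨g * m⁻¹, ?_, m, hm, by group⟩
      rw [hmemF, map_mul, map_inv, hmb, ← hab', mul_inv_cancel_right]
      exact a.2
    have hc3 : ∀ f ∈ F, (∃ k : ℕ, f ^ p ^ k = 1) → f ∈ Subgroup.center G := by
      rintro f hf ⟨k, hk⟩
      have hfp : IsPGroup p (Subgroup.zpowers f) := by
        intro y
        obtain ⟨i, hi⟩ := Subgroup.mem_zpowers_iff.mp y.2
        refine ⟨k, Subtype.ext ?_⟩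
        rw [Subgroup.coe_pow, ← hi, ← zpow_natCast, ← zpow_mul, mul_comm, zpow_mul, zpow_natCast,
          hk, one_zpow]
        rfl
      obtain ⟨m, hm⟩ := Cfsg.Agent.Lib.Helper10.exists_conj_mem_sylow S _ hfp
      have h5 : m⁻¹ * f * m ∈ M := hSM _ (hm f (Subgroup.mem_zpowers f))
      have h6 : m⁻¹ * f * m ∈ F := by
        have := hFconj f hf m⁻¹
        rwa [inv_inv] at this
      have h7 := hc1 _ h6 h5
      have h8 : f = m * (m⁻¹ * f * m) * m⁻¹ := by group
      have h9 : m * (m⁻¹ * f * m) = (m⁻¹ * f * m) * m := Subgroup.mem_center_iff.mp h7 m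
      rw [h8, h9, mul_inv_cancel_right]; exact h7
    -- Schur–Zassenhaus in `F`
    obtain ⟨T⟩ : Nonempty (Sylow p ↥F) := inferInstance
    have hTc : ∀ t ∈ T, ((t : ↥F) : G) ∈ Subgroup.center G := by
      intro t ht
      apply hc3 _ t.2
      obtain ⟨k, hk⟩ := T.isPGroup' ⟨t, ht⟩
      refine ⟨k, ?_⟩
      have := congrArg Subtype.val (congrArg Subtype.val hk)
      simpa using this
    have hTcomm : ∀ t ∈ T, ∀ f : ↥F, f * t = t * f := by
      intro t ht f
      exact Subtype.ext (Subgroup.mem_center_iff.mp (hTc t ht) (f : G))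
    haveI hTn : (T : Subgroup ↥F).Normal := by
      constructor
      intro t ht f
      rw [hTcomm t ht f, mul_inv_cancel_right]; exact ht
    obtain ⟨Y₀, hY₀⟩ := Subgroup.exists_left_complement'_of_coprime (N := (T : Subgroup ↥F))
      T.card_coprime_index
    have hY₀card : (Nat.card Y₀).Coprime p := by
      rw [← hY₀.index_eq_card]
      exact ((Nat.Prime.coprime_iff_not_dvd Fact.out).mpr T.not_dvd_index).symm
    have hxY : ∀ h ∈ Y₀.map F.subtype, x * h * x⁻¹ ∈ Y₀.map F.subtype := by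
      rintro _ ⟨y, hy, rfl⟩
      have hxyF : x * (y : G) * x⁻¹ ∈ F := hFconj _ y.2 x
      obtain ⟨⟨a, b⟩, hab⟩ := hY₀.2 ⟨x * (y : G) * x⁻¹, hxyF⟩
      have hab' : (a : ↥F) * (b : ↥F) = ⟨x * (y : G) * x⁻¹, hxyF⟩ := hab
      have hyk : y ^ Nat.card Y₀ = 1 := by
        have := pow_card_eq_one' (G := ↥Y₀) (x := ⟨y, hy⟩)
        exact congrArg Subtype.val this
      have hak : (a : ↥F) ^ Nat.card Y₀ = 1 := by
        have := pow_card_eq_one' (G := ↥Y₀) (x := a)
        exact congrArg Subtype.val this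
      have hbk : (b : ↥F) ^ Nat.card Y₀ = 1 := by
        have hcomm : Commute (a : ↥F) (b : ↥F) := hTcomm b b.2 a
        have h5 : ((a : ↥F) * (b : ↥F)) ^ Nat.card Y₀ = 1 := by
          rw [hab']
          apply Subtype.ext
          rw [Subgroup.coe_pow]
          show (x * (y : G) * x⁻¹) ^ Nat.card Y₀ = 1
          rw [conj_pow, ← Subgroup.coe_pow, hyk]
          simp
        rw [hcomm.mul_pow, hak, one_mul] at h5
        exact h5
      have hb1 : (b : ↥F) = 1 := by
        obtain ⟨k, hk⟩ := T.isPGroup' b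
        have hk' : (b : ↥F) ^ p ^ k = 1 := by
          have := congrArg Subtype.val hk
          simpa using this
        have h5 : orderOf (b : ↥F) ∣ Nat.card Y₀ := orderOf_dvd_of_pow_eq_one hbk
        have h6 : orderOf (b : ↥F) ∣ p ^ k := orderOf_dvd_of_pow_eq_one hk'
        have h7 : (Nat.card Y₀).Coprime (p ^ k) := Nat.Coprime.pow_right k hY₀card
        have h8 : orderOf (b : ↥F) = 1 := Nat.eq_one_of_dvd_coprimes h7 h5 h6
        exact orderOf_eq_one_iff.mp h8
      rw [hb1, mul_one] at hab'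
      refine ⟨a, a.2, ?_⟩
      have := congrArg Subtype.val hab'
      exact this
    have hxYc := hb (Y₀.map F.subtype)
      (by rw [Subgroup.card_map_of_injective F.subtype_injective]; exact hY₀card) hxY
    have hFM : F ≤ M := by
      intro f hf
      obtain ⟨⟨a, b⟩, hab⟩ := hY₀.2 ⟨f, hf⟩
      have hab' : ((a : ↥F) : G) * ((b : ↥F) : G) = f := congrArg Subtype.val hab
      rw [← hab']
      apply M.mul_mem
      · rw [hmemM]; exact hxYc _ ⟨a, a.2, rfl⟩
      · exact hZM (hTc b b.2)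
    apply hMtop
    rw [eq_top_iff]
    intro g _
    obtain ⟨f, hf, m, hm, rfl⟩ := hc2 g
    exact M.mul_mem (hFM hf) hm

theorem wc_central [Finite G] {p : ℕ} [Fact p.Prime] (S : Sylow p G) (x : G) (hx : x ∈ S)
    (hU : ∀ g : G, g⁻¹ * x * g ∈ S → g⁻¹ * x * g = x)
    (hb : ∀ H : Subgroup G, (Nat.card H).Coprime p → (∀ h ∈ H, x * h * x⁻¹ ∈ H) →
      ∀ h ∈ H, x * h = h * x) : x ∈ Subgroup.center G :=
  wc_central_aux p (Nat.card G) G rfl S x hx hU hb

end WeakClosed

end Cfsg.Agent.Lib.Helper11
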